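import Cfsg.Agent.H5.SL2

/-! A counting lemma for finite subgroups of `SL₂` (after helper4's `sl2_count`). -/

set_option autoImplicit false

namespace Cfsg.Agent.H5

open scoped MatrixGroups

variable {F : Type*} [Field F]

theorem sdet2 (A : SL(2, F)) : A 0 0 * A 1 1 - A 0 1 * A 1 0 = 1 := by
  have := A.2
  rwa [Matrix.det_fin_two] at this

theorem smul2 (A B : SL(2, F)) (i j : Fin 2) : (A * B) i j = A i 0 * B 0 j + A i 1 * B 1 j := by
  simp [Matrix.mul_apply, Fin.sum_univ_two]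

theorem sinv2 (A : SL(2, F)) : (A⁻¹ 0 0 = A 1 1 ∧ A⁻¹ 0 1 = - A 0 1) ∧ A⁻¹ 1 0 = - A 1 0 ∧ A⁻¹ 1 1 = A 0 0 := by
  rw [Matrix.SpecialLinearGroup.SL2_inv_expl]
  simp

theorem eq_slU {A : SL(2, F)} (h1 : A 1 0 = 0) (h2 : A 0 0 = 1) : A = slU (A 0 1) := by
  have := sdet2 A
  rw [h1, h2] at this
  ext i j
  fin_cases i <;> fin_cases j <;> simp [slU, h1, h2]
  simpa using this

theorem sl2_cnt (G : Subgroup SL(2, F)) [Finite G] (hB : ∀ A ∈ G, A 1 0 = 0 → A 0 0 = 1)
    (hx : ∃ A ∈ G, A 1 0 ≠ 0) {b₁ b₂ : F} (h1 : b₁ ≠ 0) (h2 : b₂ ≠ 0) (h12 : b₁ ≠ b₂)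
    (m1 : slU b₁ ∈ G) (m2 : slU b₂ ∈ G) : False := by
  classical
  have hG : (G : Set SL(2, F)).Finite := Set.toFinite _
  set U : Finset F := (hG.preimage (f := slU) fun a _ b _ e => congrArg (fun A : SL(2, F) => A 0 1) e).toFinset with hU
  set C : Finset SL(2, F) := hG.toFinset.filter fun A => A 1 0 ≠ 0 with hC
  set S : Finset SL(2, F) := C.filter fun A => A 0 0 + A 1 1 = 2 with hS
  have u00 : ∀ b : F, slU b 0 0 = 1 := fun _ => rfl
  have u01 : ∀ b : F, slU b 0 1 = b := fun _ => rfl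
  have u10 : ∀ b : F, slU b 1 0 = 0 := fun _ => rfl
  have u11 : ∀ b : F, slU b 1 1 = 1 := fun _ => rfl
  have k1 : (S ×ˢ U).card ≤ C.card := by
    refine Finset.card_le_card_of_injOn (fun p => p.1 * slU p.2) ?_ ?_
    · rintro ⟨s, b⟩ h
      simp only [Finset.coe_product, Set.mem_prod, Finset.mem_coe, hS, hC, hU, Finset.mem_filter,
        Set.Finite.mem_toFinset, SetLike.mem_coe, Set.mem_preimage] at h ⊢
      exact ⟨G.mul_mem h.1.1.1 h.2, by rw [smul2, u00, u10]; simpa using h.1.1.2⟩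
    · rintro ⟨s, b⟩ h ⟨s', b'⟩ h' e
      simp only [Finset.coe_product, Set.mem_prod, Finset.mem_coe, hS, hC, hU, Finset.mem_filter,
        Set.Finite.mem_toFinset, SetLike.mem_coe, Set.mem_preimage] at h h' e
      have e00 := congrArg (fun A : SL(2, F) => A 0 0) e
      have e10 := congrArg (fun A : SL(2, F) => A 1 0) e
      have e11 := congrArg (fun A : SL(2, F) => A 1 1) e
      simp only [smul2, u00, u01, u10, u11, mul_one, mul_zero, add_zero] at e00 e10 e11
      have : b = b' := mul_left_cancel₀ h.1.1.2 (by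
        linear_combination e11 + e00 - h.1.2 + h'.1.2 - b' * e10)
      subst this
      rw [mul_right_cancel e]
  have k2 : (C ×ˢ ({b₁, b₂} : Finset F)).card ≤ U.card * S.card := by
    refine Finset.card_le_mul_card_image_of_maps_to (f := fun p => p.1 * slU p.2 * p.1⁻¹) ?_ _ ?_
    · rintro ⟨g, b⟩ h
      simp only [Finset.mem_product, hS, hC, Finset.mem_filter, Set.Finite.mem_toFinset, SetLike.mem_coe, Set.mem_preimage,
        Finset.mem_insert, Finset.mem_singleton] at h ⊢
      have hb : b ≠ 0 ∧ slU b ∈ G := by rcases h.2 with rfl | rfl <;> exact ⟨‹_›, ‹_›⟩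
      obtain ⟨⟨i1, i2⟩, i3, i4⟩ := sinv2 g
      have d := sdet2 g
      refine ⟨⟨G.mul_mem (G.mul_mem h.1.1 hb.2) (G.inv_mem h.1.1), ?_⟩, ?_⟩
      · simp only [smul2, u00, u01, u10, u11, i1, i3]
        intro e
        exact mul_ne_zero hb.1 (pow_ne_zero 2 h.1.2) (by linear_combination -e)
      · simp only [smul2, u00, u01, u10, u11, i1, i2, i3, i4]
        linear_combination 2 * d
    · intro s _
      by_cases hne : ((C ×ˢ ({b₁, b₂} : Finset F)).filter fun p => p.1 * slU p.2 * p.1⁻¹ = s).Nonempty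
      swap
      · rw [Finset.not_nonempty_iff_eq_empty.1 hne]; simp
      obtain ⟨⟨g₀, c₀⟩, h0⟩ := hne
      simp only [Finset.mem_filter, Finset.mem_product, hC, Set.Finite.mem_toFinset, SetLike.mem_coe, Set.mem_preimage,
        Finset.mem_insert, Finset.mem_singleton] at h0
      have key : ∀ g c, (g ∈ G ∧ g 1 0 ≠ 0) ∧ (c = b₁ ∨ c = b₂) → g * slU c * g⁻¹ = s →
          g₀⁻¹ * g = slU ((g₀⁻¹ * g) 0 1) ∧ c = c₀ := by
        intro g c h e
        have hc : c₀ ≠ 0 := by rcases h0.1.2 with rfl | rfl <;> assumption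
        have e1 : (g₀⁻¹ * g) * slU c = slU c₀ * (g₀⁻¹ * g) := by
          have : g * slU c * g⁻¹ = g₀ * slU c₀ * g₀⁻¹ := e.trans h0.2.symm
          calc (g₀⁻¹ * g) * slU c = g₀⁻¹ * (g * slU c * g⁻¹) * g := by group
            _ = _ := by rw [this]; group
        set h' := g₀⁻¹ * g
        have e00 := congrArg (fun A : SL(2, F) => A 0 0) e1
        have e01 := congrArg (fun A : SL(2, F) => A 0 1) e1
        simp only [smul2 h', smul2 (slU c₀), u00, u01, u10, u11] at e00 e01
        have z : h' 1 0 = 0 := by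
          have : c₀ * h' 1 0 = 0 := by linear_combination -e00
          exact (mul_eq_zero.1 this).resolve_left hc
        have o := hB h' (G.mul_mem (G.inv_mem h0.1.1.1) h.1.1) z
        have d := sdet2 h'
        rw [z, o] at d
        refine ⟨eq_slU z o, ?_⟩
        rw [o] at e01
        linear_combination e01 + c₀ * d
      refine Finset.card_le_card_of_injOn (fun p => (g₀⁻¹ * p.1) 0 1) ?_ ?_
      · rintro ⟨g, c⟩ h
        simp only [Finset.coe_filter, Finset.mem_product, hC, Finset.mem_filter, Set.Finite.mem_toFinset, SetLike.mem_coe, Set.mem_preimage, Finset.mem_insert, Finset.mem_singleton, Set.mem_setOf_eq, hU] at h ⊢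
        rw [← (key g c h.1 h.2).1]
        exact G.mul_mem (G.inv_mem h0.1.1.1) h.1.1.1
      · rintro ⟨g, c⟩ h ⟨g', c'⟩ h' e
        simp only [Finset.coe_filter, Finset.mem_product, hC, Finset.mem_filter, Set.Finite.mem_toFinset, SetLike.mem_coe, Set.mem_preimage, Finset.mem_insert, Finset.mem_singleton, Set.mem_setOf_eq] at h h' e
        obtain ⟨a1, a2⟩ := key g c h.1 h.2
        obtain ⟨a3, a4⟩ := key g' c' h'.1 h'.2
        rw [e, ← a3] at a1
        rw [mul_left_cancel a1, a2, a4]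
  rw [Finset.card_product] at k1 k2
  rw [Finset.card_pair h12] at k2
  obtain ⟨A, hA⟩ := hx
  have : 0 < C.card := Finset.card_pos.2 ⟨A, by simp [hC, hA.1, hA.2]⟩
  rw [mul_comm] at k1
  omega

end Cfsg.Agent.H5
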