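import Cfsg.Agent.H5.Cent
import Cfsg.Agent.H3.Misc
import Cfsg.Agent.H3.Brauer2
import Cfsg.Agent.H7.Count
import Cfsg.Prelude.Def_ParabolicCharacters

set_option autoImplicit false

namespace Cfsg.Agent.H5
open Cfsg.Lie

theorem ExSys.dc_unique {B W : Type*} [Group W] (E : ExSys B W) {J K : Set B} {d d' u v : W} (hu : u ∈ E.par J)
    (hv : v ∈ E.par K) (h : d' = u * d * v) (h1 : ∀ j ∈ J, E.P j d) (h2 : ∀ k ∈ K, E.len d < E.len (d * E.s k))
    (h1' : ∀ j ∈ J, E.P j d') (h2' : ∀ k ∈ K, E.len d' < E.len (d' * E.s k)) : d = d' := by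
  classical
  have hex : ∃ n, ∃ u ∈ E.par J, ∃ v ∈ E.par K, E.len (u * d * v) = n := ⟨_, u, hu, v, hv, rfl⟩
  obtain ⟨u₀, hu₀, v₀, hv₀, h0⟩ := Nat.find_spec hex
  have key : ∀ u ∈ E.par J, ∀ v ∈ E.par K, (∀ j ∈ J, E.P j (u * d * v)) →
      (∀ k ∈ K, E.len (u * d * v) < E.len (u * d * v * E.s k)) → u * d * v = u₀ * d * v₀ := by
    intro u hu v hv g1 g2
    obtain ⟨lu, hlu, eu⟩ := E.mem_par_iff.1 (mul_mem hu (inv_mem hu₀))
    obtain ⟨lv, hlv, ev⟩ := E.mem_par_iff.1 (mul_mem (inv_mem hv₀) hv)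
    obtain ⟨ld, hld, ed⟩ := E.exists_red (u₀ * d * v₀)
    obtain ⟨m, hm, hr, em⟩ := E.exists_red_sublist (lu ++ ld ++ lv)
    rw [E.wp_append, E.wp_append, eu, ev, ed, show u * u₀⁻¹ * (u₀ * d * v₀) * (v₀⁻¹ * v) = u * d * v by group] at em
    obtain ⟨m', mv, rfl, hm', hmv⟩ := List.sublist_append_iff.1 hm
    obtain ⟨mu, md, rfl, hmu, hmd⟩ := List.sublist_append_iff.1 hm'
    have a1 := E.wp_mem_par fun i hi => hlu i (hmu.subset hi)
    have a2 := E.wp_mem_par fun i hi => hlv i (hmv.subset hi)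
    have a3 : E.wp md = (E.wp mu)⁻¹ * u * d * (v * (E.wp mv)⁻¹) := by
      rw [E.wp_append, E.wp_append] at em
      rw [show (E.wp mu)⁻¹ * u * d * (v * (E.wp mv)⁻¹) = (E.wp mu)⁻¹ * (u * d * v) * (E.wp mv)⁻¹ by group, ← em]; group
    have a4 : Nat.find hex ≤ E.len (E.wp md) :=
      Nat.find_min' hex ⟨_, mul_mem (inv_mem a1) hu, _, mul_mem hv (inv_mem a2), by rw [a3]⟩
    have a5 := E.len_wp_le md
    have a6 : E.len (E.wp ld) = ld.length := hld
    obtain rfl : md = ld := hmd.eq_of_length (le_antisymm hmd.length_le (by rw [← a6, ed, h0]; omega))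
    rcases mu with _ | ⟨i, t⟩
    · rcases List.eq_nil_or_concat mv with rfl | ⟨t, k, rfl⟩
      · simpa [ed] using em.symm
      · have := g2 k (hlv k (hmv.subset (by simp)))
        have b1 : E.len (E.wp ([] ++ md ++ t.concat k)) = _ := hr
        have b2 := E.len_wp_le (md ++ t)
        rw [← em, b1, List.concat_eq_append, ← List.append_assoc, E.wp_append, E.wp_singleton, E.mul_s_mul_s] at this
        simp at this b2; omega
    · exact absurd (em ▸ g1 i (hlu i (hmu.subset (by simp)))) (E.not_P_of_red_cons hr)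
  have := key 1 (Subgroup.one_mem _) 1 (Subgroup.one_mem _) (by simpa using h1) (by simpa using h2)
  rw [h, key u hu v hv (h ▸ h1') (h ▸ h2'), ← this]; simp

section count
variable {G : Type*} [Group G]

theorem card_mul_eq {α β : Type*} [Finite α] [Finite β] {p : α → Prop} {q : β → Prop} (r : α → β → Prop) {m n : ℕ}
    (hm : ∀ a, p a → Nat.card {b // q b ∧ r a b} = m) (hn : ∀ b, q b → Nat.card {a // p a ∧ r a b} = n) :
    Nat.card {a // p a} * m = Nat.card {b // q b} * n := by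
  classical
  cases nonempty_fintype α; cases nonempty_fintype β
  simp only [Nat.card_eq_fintype_card, Fintype.card_subtype] at *
  refine Finset.card_mul_eq_card_mul r (fun a ha => ?_) fun b hb => ?_
  · rw [← hm a (by simpa using ha), Finset.bipartiteAbove, Finset.filter_filter]
  · rw [← hn b (by simpa using hb), Finset.bipartiteBelow, Finset.filter_filter]

theorem ncard_coset (H : Subgroup G) (a : G) {p : G → Prop} (h : ∀ y, p y ↔ a⁻¹ * y ∈ H) : Nat.card {y // p y} = Nat.card H :=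
  Nat.card_congr (Equiv.subtypeEquiv (Equiv.mulLeft a⁻¹) h)

/-- number of `x ∈ Q` conjugating `g` into `P` -/
noncomputable def cn (Q P : Subgroup G) (g : G) : ℕ := Nat.card {x // x ∈ Q ∧ x⁻¹ * g * x ∈ P}

theorem fix_mul (P : Subgroup G) (g : G) : Nat.card (MulAction.fixedBy (G ⧸ P) g) * Nat.card P = cn ⊤ P g := by
  have := H7.card_smul_mem_of_transitive (G := G) ((1 : G) : G ⧸ P) (· ∈ MulAction.fixedBy (G ⧸ P) g)
  rw [MulAction.stabilizer_quotient] at this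
  rw [← this, cn]
  exact Nat.card_congr (Equiv.subtypeEquivRight fun x => by
    rw [MulAction.Quotient.smul_mk, smul_eq_mul, mul_one, H7.mem_fixedBy_quotient_iff]; simp)

theorem fpc_eq [Finite G] (P : Subgroup G) (g : G) : fixedPointCharacter P g = cn ⊤ P g / Nat.card P := by
  rw [← fix_mul, fixedPointCharacter, Nat.cast_mul, mul_div_cancel_right₀ _ (Nat.cast_ne_zero.2 Nat.card_pos.ne')]

theorem cn_sub {Q P : Subgroup G} (g : Q) : cn ⊤ (P.subgroupOf Q) g = cn Q P g :=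
  Nat.card_congr ⟨fun x => ⟨x.1, x.1.2, x.2.2⟩, fun x => ⟨⟨x.1, x.2.1⟩, trivial, x.2.2⟩, fun _ => rfl, fun _ => rfl⟩

theorem cn_conj {Q P : Subgroup G} {a : G} (ha : a ∈ Q) (g : G) : cn Q P (a * g * a⁻¹) = cn Q P g :=
  Nat.card_congr (Equiv.subtypeEquiv (Equiv.mulLeft a⁻¹) fun x => by
    simp [mul_assoc, mul_mem_cancel_left (inv_mem ha)])

theorem alt_sum {α ι : Type*} [Finite α] (K : Finset ι) (A : α → Prop) (Q : α → ι → Prop) :
    ∑ J ∈ K.powerset, (-1 : ℂ) ^ J.card * Nat.card {y // A y ∧ ∀ j ∈ J, Q y j} =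
      Nat.card {y // A y ∧ ∀ j ∈ K, ¬ Q y j} := by
  classical
  cases nonempty_fintype α
  simp only [Nat.card_eq_fintype_card, Fintype.card_subtype, Finset.card_filter, Nat.cast_sum, Finset.mul_sum]
  rw [Finset.sum_comm]
  refine Finset.sum_congr rfl fun y _ => ?_
  by_cases h : A y
  · have := congrArg (Int.cast : ℤ → ℂ) (Finset.sum_powerset_neg_one_pow_card (x := K.filter (Q y)))
    simp only [h, true_and, Nat.cast_ite, Nat.cast_one, Nat.cast_zero, mul_ite, mul_one, mul_zero]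
    rw [← Finset.sum_filter, show K.powerset.filter (fun J => ∀ j ∈ J, Q y j) = (K.filter (Q y)).powerset by
      ext J; simp only [Finset.mem_filter, Finset.mem_powerset, Finset.subset_iff]
      exact ⟨fun h x hx => ⟨h.1 hx, h.2 x hx⟩, fun h => ⟨fun x hx => (h hx).1, fun x hx => (h hx).2⟩⟩]
    simpa [Finset.filter_eq_empty_iff] using this
  · simp [h]

theorem exists_conj_sylow [Finite G] {p : ℕ} [Fact p.Prime] (P : Sylow p G) {Q : Subgroup G} (h : (P : Subgroup G) ≤ Q) {u : G}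
    (hu : u ∈ Q) (hp : ∃ k, u ^ p ^ k = 1) : ∃ a ∈ Q, a * u * a⁻¹ ∈ (P : Subgroup G) := by
  have : IsPGroup p (Subgroup.zpowers (⟨u, hu⟩ : Q)) := by
    obtain ⟨k, hk⟩ := hp
    obtain ⟨j, -, hj⟩ := (Nat.dvd_prime_pow Fact.out).1 (orderOf_dvd_of_pow_eq_one (x := (⟨u, hu⟩ : Q)) (Subtype.ext hk))
    exact IsPGroup.of_card (by rw [Nat.card_zpowers, hj])
  obtain ⟨T, hT⟩ := this.exists_le_sylow
  obtain ⟨g, hg⟩ := MulAction.exists_smul_eq Q T (P.subtype h)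
  have : g * ⟨u, hu⟩ * g⁻¹ ∈ P.subtype h := hg ▸ Subgroup.smul_mem_pointwise_smul _ (MulAut.conj g) _ (hT (Subgroup.mem_zpowers _))
  exact ⟨g, g.2, this⟩

open Classical in
theorem sum_cn [Fintype G] {Q P : Subgroup G} (h : P ≤ Q) {e : G → Prop} (he : ∀ a u, e (a⁻¹ * u * a) ↔ e u) :
    ∑ u ∈ Finset.univ.filter (fun u => u ∈ Q ∧ e u), cn Q P u = Nat.card Q * Nat.card {u // u ∈ P ∧ e u} := by
  simp only [cn, Nat.card_eq_fintype_card, Fintype.card_subtype, Finset.card_filter (fun x => x ∈ Q ∧ _)]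
  rw [Finset.sum_comm, ← smul_eq_mul, ← Finset.sum_const, Finset.sum_filter (· ∈ Q)]
  refine Finset.sum_congr rfl fun x _ => ?_
  split_ifs with hx
  · rw [← Finset.card_filter, Finset.filter_filter, ← Fintype.card_subtype, ← Fintype.card_subtype]
    refine Fintype.card_congr (Equiv.subtypeEquiv (MulAut.conj x⁻¹).toEquiv fun u => ?_)
    simp only [MulEquiv.toEquiv_eq_coe, EquivLike.coe_coe, MulAut.conj_apply, inv_inv, he, hx, true_and]
    exact ⟨fun h => ⟨h.2, h.1.2⟩, fun h' => ⟨⟨by simpa [mul_assoc] using mul_mem (mul_mem hx (h h'.1)) (inv_mem hx), h'.2⟩, h'.1⟩⟩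
  · simp [hx]

theorem moebius {ι : Type*} [Fintype ι] [DecidableEq ι] (a : Finset ι → ℂ) :
    ∑ K : Finset ι, (-1 : ℂ) ^ K.card * ∑ J ∈ K.powerset, (-1 : ℂ) ^ J.card * a J = a Finset.univ := by
  have h : ∀ J : Finset ι, ∑ K : Finset ι, (if J ⊆ K then (-1 : ℂ) ^ K.card else 0) =
      if J = Finset.univ then (-1) ^ Fintype.card ι else 0 := fun J => by
    have := congrArg (fun z : ℤ => (-1 : ℂ) ^ Fintype.card ι * z) (Finset.sum_powerset_neg_one_pow_card (x := Jᶜ))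
    simp only [Finset.compl_eq_empty_iff, Int.cast_ite, Int.cast_one, Int.cast_zero, mul_ite, mul_one, mul_zero, Int.cast_sum,
      Finset.mul_sum] at this
    rw [← this, ← Finset.sum_filter]
    refine Finset.sum_bij' (fun K _ => Kᶜ) (fun K _ => Kᶜ) (by simp) (by simp [Finset.subset_compl_comm]) (by simp) (by simp)
      fun K _ => ?_
    rw [← K.card_add_card_compl, pow_add, mul_assoc, Int.cast_pow, Int.cast_neg, Int.cast_one, ← mul_pow]; simp
  calc _ = ∑ K : Finset ι, ∑ J : Finset ι, (if J ⊆ K then (-1 : ℂ) ^ K.card else 0) * ((-1 : ℂ) ^ J.card * a J) := by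
        refine Finset.sum_congr rfl fun K _ => ?_
        simp only [ite_mul, zero_mul]
        rw [← Finset.sum_filter, Finset.mul_sum]
        exact Finset.sum_congr (by ext; simp) fun _ _ => rfl
    _ = _ := by
        rw [Finset.sum_comm]
        simp only [← Finset.sum_mul, h]
        simp only [ite_mul, zero_mul, Finset.sum_ite_eq', Finset.mem_univ, if_true, Finset.card_univ]
        rw [← mul_assoc, ← mul_pow]; simp

end count

variable {D : ChevalleyDatum}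

namespace StN
open StG RS
variable {R : RS D} {F : Type*} [Field F] {G : Type*} [Group G] {S : StN R F G}

variable (S) in
/-- the Bruhat cell of `w` -/
def Cell (w : R.W) (g : G) : Prop := ∃ b ∈ S.B, ∃ m ∈ S.N, S.Lift m w ∧ ∃ b' ∈ S.B, g = b * m * b'

theorem Cell.unique {w w' : R.W} {g : G} (h : S.Cell w g) (h' : S.Cell w' g) : w = w' := by
  obtain ⟨b, hb, m, hm, hl, c, hc, rfl⟩ := h
  obtain ⟨b', hb', m', hm', hl', c', hc', e⟩ := h'
  exact cell_unique' hb hc hb' hc' hm hm' e hl hl'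

theorem exists_cell (hgen : S.U Set.univ = ⊤) (g : G) : ∃ w, S.Cell w g := by
  obtain ⟨b, hb, m, hm, c, hc, e⟩ := bruhat (hgen ▸ Subgroup.mem_top g : g ∈ S.U Set.univ)
  obtain ⟨w, hw⟩ := exists_lift hm
  exact ⟨w, b, hb, m, hm, hw, c, hc, e⟩

theorem Lift.cell {m : G} {w : R.W} (h : S.Lift m w) (hm : m ∈ S.N) : S.Cell w m :=
  ⟨1, one_mem _, m, hm, h, 1, one_mem _, by simp⟩

theorem Cell.mul_left {w : R.W} {g b : G} (h : S.Cell w g) (hb : b ∈ S.B) : S.Cell w (b * g) := by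
  obtain ⟨b', hb', m, hm, hl, c, hc, rfl⟩ := h
  exact ⟨_, mul_mem hb hb', m, hm, hl, c, hc, by simp [mul_assoc]⟩

theorem Cell.mul_right {w : R.W} {g b : G} (h : S.Cell w g) (hb : b ∈ S.B) : S.Cell w (g * b) := by
  obtain ⟨b', hb', m, hm, hl, c, hc, rfl⟩ := h
  exact ⟨_, hb', m, hm, hl, _, mul_mem hc hb, by simp [mul_assoc]⟩

theorem Cell.inv {w : R.W} {g : G} (h : S.Cell w g) : S.Cell w⁻¹ g⁻¹ := by
  obtain ⟨b, hb, m, hm, hl, c, hc, rfl⟩ := h
  exact ⟨_, inv_mem hc, _, inv_mem hm, hl.inv hm, _, inv_mem hb, by simp [mul_assoc]⟩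

theorem Cell.eq {w : R.W} {g m : G} (h : S.Cell w g) (hm : m ∈ S.N) (hl : S.Lift m w) :
    ∃ b ∈ S.B, ∃ b' ∈ S.B, g = b * m * b' := by
  obtain ⟨b, hb, m', hm', hl', c, hc, rfl⟩ := h
  exact ⟨b, hb, _, mul_mem (S.H_le_B (hl.inv_mul_mem hm hm' hl')) hc, by group⟩

theorem cell_one_iff {g : G} : S.Cell 1 g ↔ g ∈ S.B :=
  ⟨fun h => by obtain ⟨b, hb, c, hc, rfl⟩ := h.eq (one_mem _) lift_one; simpa using mul_mem hb hc,
    fun h => by simpa using (lift_one.cell (one_mem _)).mul_left h⟩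

theorem Cell.mem_Par {w : R.W} {g : G} (h : S.Cell w g) {J : Set (I D)} : g ∈ S.Par J ↔ w ∈ R.ex.par J := by
  rw [mem_Par_iff]
  exact ⟨fun ⟨b, hb, m, hm, v, hv, hl, c⟩ => h.unique ⟨b, hb, m, hm, hl, c⟩ ▸ hv,
    fun hw => by obtain ⟨b, hb, m, hm, hl, c⟩ := h; exact ⟨b, hb, m, hm, w, hw, hl, c⟩⟩

theorem Cell.s_mul {i : I D} {w : R.W} {a g : G} (ha : S.Cell (R.sw i) a) (h : S.Cell w g) :
    S.Cell (R.sw i * w) (a * g) ∨ (¬ R.ex.P i w ∧ S.Cell w (a * g)) := by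
  obtain ⟨b, hb, c, hc, rfl⟩ := ha.eq (S.n_mem i 1) (lift_n i 1)
  obtain ⟨b', hb', m, hm, hl, c', hc', rfl⟩ := h
  have e : b * S.n i 1 * c * (b' * m * c') = b * (S.n i 1 * (c * b') * m) * c' := by group
  rw [e]
  rcases n_mul_mem i 1 hm (mul_mem hc hb') hl with ⟨b₁, h1, b₂, h2, h⟩ | ⟨h0, b₁, h1, b₂, h2, h⟩
  · exact Or.inl (Cell.mul_right (Cell.mul_left ⟨b₁, h1, _, mul_mem (S.n_mem i 1) hm, (lift_n i 1).mul hl, _, h2, h⟩ hb) hc')
  · exact Or.inr ⟨h0, Cell.mul_right (Cell.mul_left ⟨b₁, h1, _, hm, hl, _, h2, h⟩ hb) hc'⟩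

theorem Cell.split {v w : R.W} {g : G} (h : S.Cell (v * w) g) : ∃ a b, S.Cell v a ∧ S.Cell w b ∧ g = a * b := by
  obtain ⟨m, hm, hl⟩ := exists_N_lift (S := S) v
  obtain ⟨m', hm', hl'⟩ := exists_N_lift (S := S) w
  obtain ⟨b, hb, c, hc, rfl⟩ := h.eq (mul_mem hm hm') (hl.mul hl')
  exact ⟨_, _, (hl.cell hm).mul_left hb, (hl'.cell hm').mul_right hc, by group⟩

theorem Cell.mul_of_len {v w : R.W} {a g : G} (ha : S.Cell v a) (h : S.Cell w g)
    (hl : R.ex.len (v * w) = R.ex.len v + R.ex.len w) : S.Cell (v * w) (a * g) := by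
  induction v using R.ex.induction_left generalizing a with
  | one => simpa using h.mul_left (cell_one_iff.1 ha)
  | step i v hP ih =>
    obtain ⟨a, b, ha', hb, rfl⟩ := ha.split
    have h1 := R.ex.len_s_mul_of_P hP
    have h2 := R.ex.len_s_mul i (v * w)
    have h3 := R.ex.len_mul_le v w
    rw [mul_assoc] at hl
    rw [mul_assoc, mul_assoc]
    exact (Cell.s_mul ha' (ih hb (by omega))).resolve_right fun h => h.1 (R.ex.P_iff.2 (by omega))

theorem Cell.par_mul {J : Set (I D)} {w : R.W} {a g : G} (ha : a ∈ S.Par J) (h : S.Cell w g) :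
    ∃ u ∈ R.ex.par J, S.Cell (u * w) (a * g) := by
  obtain ⟨b, hb, m, hm, v, hv, hl, c⟩ := mem_Par_iff.1 ha
  have ha' : S.Cell v a := ⟨b, hb, m, hm, hl, c⟩
  refine R.ex.par_induction_left (p := fun v => ∀ a, S.Cell v a → ∃ u ∈ R.ex.par J, S.Cell (u * w) (a * g))
    (fun a ha' => ⟨1, one_mem _, by simpa using h.mul_left (cell_one_iff.1 ha')⟩) (fun i hi v _ _ ih a ha' => ?_) v hv a ha'
  · obtain ⟨a, b, ha, hb, rfl⟩ := ha'.split
    obtain ⟨u, hu, h1⟩ := ih _ hb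
    rw [mul_assoc]
    rcases Cell.s_mul ha h1 with h | h
    · exact ⟨_, mul_mem (R.ex.s_mem_par hi) hu, by rw [mul_assoc]; exact h⟩
    · exact ⟨u, hu, h.2⟩

theorem Cell.mul_par {J : Set (I D)} {w : R.W} {a g : G} (h : S.Cell w g) (ha : a ∈ S.Par J) :
    ∃ u ∈ R.ex.par J, S.Cell (w * u) (g * a) := by
  obtain ⟨u, hu, h1⟩ := h.inv.par_mul (inv_mem ha)
  exact ⟨u⁻¹, inv_mem hu, by simpa using h1.inv⟩

theorem Cell.min_unique {J : Set (I D)} {w w' : R.W} {y y' : G} (h : S.Cell w y) (h' : S.Cell w' y')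
    (h1 : ∀ j ∈ J, R.Pos (w • R.sim j)) (h1' : ∀ j ∈ J, R.Pos (w' • R.sim j)) (hy : y⁻¹ * y' ∈ S.Par J) : y⁻¹ * y' ∈ S.B := by
  obtain ⟨b, hb, m, hm, v, hv, hl, c⟩ := mem_Par_iff.1 hy
  have ha : S.Cell v (y⁻¹ * y') := ⟨b, hb, m, hm, hl, c⟩
  have h2 := R.ex.len_mul_of_min (R.ex.min_of_no_descent fun j hj => len_mul_sw_iff.2 (h1 j hj)) v hv
  have h3 := h.mul_of_len ha h2
  rw [mul_inv_cancel_left] at h3
  have h4 := R.ex.min_of_no_descent (fun j hj => len_mul_sw_iff.2 (h1' j hj)) v⁻¹ (inv_mem hv)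
  rw [h'.unique h3, mul_inv_cancel_right, h2] at h4
  rw [R.ex.len_eq_zero.1 (show R.ex.len v = 0 by omega)] at ha
  exact cell_one_iff.1 ha

theorem Cell.exists_min (J : Set (I D)) {w : R.W} {x : G} (h : S.Cell w x) :
    ∃ y d, x⁻¹ * y ∈ S.Par J ∧ S.Cell d y ∧ ∀ j ∈ J, R.Pos (d • R.sim j) := by
  obtain ⟨d, u, hu, rfl, hd⟩ := R.ex.exists_min J w
  obtain ⟨a, b, ha, hb, rfl⟩ := h.split
  refine ⟨a, d, by simpa using hb.mem_Par.2 hu, ha, fun j hj => len_mul_sw_iff.1 ?_⟩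
  have := R.ex.len_mul_of_min hd _ (R.ex.s_mem_par hj)
  rw [R.ex.len_s, ex_s] at this; omega

theorem conj_mem_B_iff {m c : G} {w : R.W} (hm : m ∈ S.N) (hl : S.Lift m w) (hc : c ∈ S.B) :
    m * c * m⁻¹ ∈ S.B ↔ c ∈ S.U {r | R.Pos r ∧ R.Pos (w • r)} ⊔ S.H := by
  obtain ⟨u, hu, k, hk, rfl⟩ := mem_B.1 hc
  have h1 : m * k * m⁻¹ ∈ S.B := S.H_le_B (N_conj_H hm hk)
  obtain ⟨a, ha, b, hb, rfl⟩ := exists_U_factor w hu
  have h2 : m * a * m⁻¹ ∈ S.B := S.U_le_B (hl.conj_mem (fun _ h => h.2) ha)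
  rw [show m * (a * b * k) * m⁻¹ = m * a * m⁻¹ * (m * b * m⁻¹) * (m * k * m⁻¹) by group, mul_mem_cancel_right h1,
    mul_mem_cancel_left h2, mul_mem_cancel_right (Subgroup.mem_sup_right hk), mul_mem_cancel_left (Subgroup.mem_sup_left ha)]
  constructor
  · intro h
    have := eq_one_of_B_V h (hl.conj_mem (T' := {r | ¬ R.Pos r}) (fun _ h => h.2) hb) rfl
    rw [show b = 1 by simpa using this]; exact one_mem _
  · intro h
    obtain ⟨u, hu', k, hk', rfl⟩ := mem_sup_H.1 h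
    rw [show m * (u * k) * m⁻¹ = m * u * m⁻¹ * (m * k * m⁻¹) by group]
    exact mul_mem (S.U_le_B (hl.conj_mem (fun _ h => h.2) hu')) (S.H_le_B (N_conj_H hm hk'))

variable (S) in
/-- unipotent radical of `P_K` -/
abbrev UJ (K : Set (I D)) : Subgroup G := S.U {r | R.Pos r ∧ r ∉ R.Sub K}

theorem conj_wJ_iff {K : Set (I D)} {m c : G} (hm : m ∈ S.N) (hl : S.Lift m (R.wJ K)) (hc : c ∈ S.B) :
    m⁻¹ * c * m ∈ S.B ↔ c ∈ S.UJ K ⊔ S.H := by
  have := conj_mem_B_iff (inv_mem hm) (hl.inv_wJ hm) hc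
  rw [inv_inv] at this
  rw [this, show {r | R.Pos r ∧ R.Pos (R.wJ K • r)} = {r | R.Pos r ∧ r ∉ R.Sub K} from Set.ext fun r =>
    and_congr_right fun h => ⟨fun h' h'' => (pos_wJ h'').1 h' h, fun h' => (pos_wJ' h').2 h⟩]

variable (S) in
/-- relative Steinberg character of `P_K` -/
noncomputable def stR (K : Finset (I D)) (g : G) : ℂ :=
  ∑ J ∈ K.powerset, (-1 : ℂ) ^ J.card * (cn (S.Par K) (S.Par J) g / Nat.card (S.Par J))

theorem stR_conj {K : Finset (I D)} {a : G} (ha : a ∈ S.Par K) (g : G) : S.stR K (a * g * a⁻¹) = S.stR K g := by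
  simp only [stR, cn_conj ha]

theorem Par_mono {J K : Set (I D)} (h : J ⊆ K) : S.Par J ≤ S.Par K :=
  sup_le_sup_left (Subgroup.closure_mono (Set.image_mono h)) _

theorem Par_univ (hgen : S.U Set.univ = ⊤) : S.Par Set.univ = ⊤ := by
  refine top_unique fun g _ => ?_
  obtain ⟨w, hw⟩ := exists_cell hgen g
  exact hw.mem_Par.2 (R.ex.par_univ ▸ Subgroup.mem_top w)

theorem stR_B [Finite G] (hgen : S.U Set.univ = ⊤) (K : Finset (I D)) {b : G} (hb : b ∈ S.B) :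
    S.stR K b = cn S.B (S.UJ K ⊔ S.H) b / Nat.card ↥(S.UJ K ⊔ S.H) := by
  choose c hc using exists_cell hgen
  have h1 : ∀ J ∈ K.powerset, (cn (S.Par K) (S.Par J) b : ℂ) / Nat.card (S.Par J) =
      (Nat.card {y // (y ∈ S.Par K ∧ y⁻¹ * b * y ∈ S.B) ∧ ∀ j ∈ J, R.Pos (c y • R.sim j)} : ℂ) / Nat.card S.B := by
    intro J hJ
    have hJ' : S.Par J ≤ S.Par K := Par_mono (Finset.coe_subset.2 (Finset.mem_powerset.1 hJ))
    rw [div_eq_div_iff (Nat.cast_ne_zero.2 Nat.card_pos.ne') (Nat.cast_ne_zero.2 Nat.card_pos.ne'), ← Nat.cast_mul,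
      ← Nat.cast_mul, cn, card_mul_eq (fun x y => x⁻¹ * y ∈ S.Par J)]
    · rintro x ⟨hx, hx'⟩
      obtain ⟨y, d, h1, h2, h3⟩ := (hc x).exists_min J
      refine ncard_coset _ y fun z => ⟨fun ⟨⟨_, h4⟩, h5⟩ => h2.min_unique (hc z) h3 h4 ?_, fun h => ?_⟩
      · simpa [mul_assoc] using mul_mem (inv_mem h1) h5
      · have h4 : S.Cell d z := by simpa using h2.mul_right h
        have h5 : x⁻¹ * z ∈ S.Par J := by simpa [mul_assoc] using mul_mem h1 (B_le_Par _ h)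
        refine ⟨⟨⟨by simpa using mul_mem hx (hJ' h5), ?_⟩, (hc z).unique h4 ▸ h3⟩, h5⟩
        rw [mul_assoc]
        refine h4.min_unique (h4.mul_left hb) h3 h3 ?_
        simpa [mul_assoc] using mul_mem (mul_mem (inv_mem h5) hx') h5
    · rintro y ⟨⟨h1, h2⟩, -⟩
      refine ncard_coset _ y fun x => ⟨fun h => by simpa using inv_mem h.2, fun h => ⟨⟨by simpa using mul_mem h1 (hJ' h), ?_⟩,
        by simpa using inv_mem h⟩⟩
      simpa [mul_assoc] using mul_mem (mul_mem (inv_mem h) (B_le_Par _ h2)) h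
  rw [stR, Finset.sum_congr rfl fun J hJ => by rw [h1 J hJ, ← mul_div_assoc], ← Finset.sum_div, alt_sum]
  obtain ⟨m, hm, hl⟩ := exists_N_lift (S := S) (R.wJ K)
  have hle : S.UJ K ⊔ S.H ≤ S.B := sup_le_sup_right (U_mono fun _ h => h.1) _
  have h2 : ∀ y, (y ∈ S.Par K ∧ ∀ j ∈ K, ¬ R.Pos (c y • R.sim j)) ↔ S.Cell (R.wJ K) y := fun y =>
    ⟨fun h => eq_wJ ((hc y).mem_Par.1 h.1) h.2 ▸ hc y, fun h => ⟨h.mem_Par.2 (wJ_mem _), fun j hj => by
      rw [(hc y).unique h, pos_wJ (sim_mem_sub.2 hj)]; exact not_not.2 (R.pos_sim j)⟩⟩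
  rw [div_eq_div_iff (Nat.cast_ne_zero.2 Nat.card_pos.ne') (Nat.cast_ne_zero.2 Nat.card_pos.ne'), ← Nat.cast_mul,
    ← Nat.cast_mul, cn, card_mul_eq (fun y x => (x * m)⁻¹ * y ∈ S.B)]
  · rintro y ⟨⟨h3, h4⟩, h5⟩
    obtain ⟨x, hx, e, he, rfl⟩ := ((h2 y).1 ⟨h3, h5⟩).eq hm hl
    have h6 : x⁻¹ * b * x ∈ S.UJ K ⊔ S.H := (conj_wJ_iff hm hl (mul_mem (mul_mem (inv_mem hx) hb) hx)).1 (by
      simpa [mul_assoc] using mul_mem (mul_mem he h4) (inv_mem he))
    refine ncard_coset _ x fun z => ⟨fun ⟨⟨h7, _⟩, h8⟩ => (conj_wJ_iff hm hl (mul_mem (inv_mem hx) h7)).1 ?_, fun h => ?_⟩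
    · simpa [mul_assoc] using mul_mem he (inv_mem h8)
    · refine ⟨⟨by simpa using mul_mem hx (hle h), by simpa [mul_assoc] using mul_mem (mul_mem (inv_mem h) h6) h⟩, ?_⟩
      simpa [mul_assoc] using mul_mem (inv_mem ((conj_wJ_iff hm hl (hle h)).2 h)) he
  · rintro x ⟨hx, h3⟩
    refine ncard_coset _ (x * m) fun y => ⟨fun h => h.2, fun h => ⟨?_, h⟩⟩
    have h4 := (h2 y).2 (by simpa [mul_assoc] using ((hl.cell hm).mul_left hx).mul_right h)
    refine ⟨⟨h4.1, ?_⟩, h4.2⟩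
    simpa [mul_assoc] using mul_mem (mul_mem (inv_mem h) ((conj_wJ_iff hm hl (hle h3)).2 h3)) h

theorem card_sup_H {T : Set (Φ D)} (hT : ∀ r ∈ T, R.Pos r) : Nat.card ↥(S.U T ⊔ S.H) = Nat.card (S.U T) * Nat.card S.H := by
  rw [← Nat.card_prod]
  refine (Nat.card_congr (Equiv.ofBijective (fun p : S.U T × S.H => (⟨p.1 * p.2, Subgroup.mul_mem_sup p.1.2 p.2.2⟩ :
    ↥(S.U T ⊔ S.H))) ⟨?_, fun g => ?_⟩)).symm
  · rintro ⟨⟨u, hu⟩, k, hk⟩ ⟨⟨u', hu'⟩, k', hk'⟩ h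
    have h : u * k = u' * k' := congrArg Subtype.val h
    have := eq_one_of_U_H (U_mono hT (mul_mem (inv_mem hu') hu)) (mul_mem hk' (inv_mem hk)) (by
      rw [inv_mul_eq_iff_eq_mul.2 (show u = u' * (k' * k⁻¹) by rw [← mul_assoc, ← h]; simp)])
    obtain rfl : u' = u := inv_mul_eq_one.1 this
    obtain rfl : k = k' := mul_left_cancel h
    rfl
  · obtain ⟨u, hu, k, hk, e⟩ := mem_sup_H.1 g.2
    exact ⟨(⟨u, hu⟩, ⟨k, hk⟩), Subtype.ext e.symm⟩

theorem stR_U [Finite G] (hgen : S.U Set.univ = ⊤) (K : Finset (I D)) {u : G} (hu : u ∈ S.U {r | R.Pos r}) [Decidable (u ∈ S.UJ K)] :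
    S.stR K u = if u ∈ S.UJ K then (Nat.card (S.U {r | R.Pos r}) : ℂ) / Nat.card (S.UJ K) else 0 := by
  have h : ∀ x ∈ S.B, x⁻¹ * u * x ∈ S.UJ K ⊔ S.H ↔ u ∈ S.UJ K := fun x hx => by
    refine ⟨fun h => ?_, fun h => Subgroup.mem_sup_left (by simpa using Par_conj (B_le_Par _ (inv_mem hx)) h)⟩
    obtain ⟨v, hv, k, hk, e⟩ := mem_sup_H.1 h
    have := eq_one_of_U_H (mul_mem (inv_mem (U_mono (fun _ h => h.1) hv)) (Tw.Re.B_conj_U (inv_mem hx) hu)) hk (by simp [e])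
    rw [inv_inv, inv_mul_eq_one] at this
    simpa [this, mul_assoc] using Par_conj (B_le_Par _ hx) hv
  rw [stR_B hgen K (S.U_le_B hu), cn]
  split_ifs with h1
  · rw [Nat.card_congr (Equiv.subtypeEquivRight (q := (· ∈ S.B)) fun x => ⟨fun h => h.1, fun hx => ⟨hx, (h x hx).2 h1⟩⟩),
      card_sup_H fun _ h => h.1]
    change (Nat.card ↥(S.U _ ⊔ S.H) : ℂ) / _ = _
    rw [card_sup_H (T := {r | R.Pos r}) fun _ h => h, Nat.cast_mul, Nat.cast_mul, mul_div_mul_right _ _ (Nat.cast_ne_zero.2 Nat.card_pos.ne')]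
  · rw [Nat.card_eq_zero.2 (Or.inl ⟨fun x : {x // x ∈ S.B ∧ _} => h1 ((h x x.2.1).1 x.2.2)⟩)]; simp

variable (S) in
/-- the Steinberg character -/
noncomputable def stC (g : G) : ℂ := ∑ J : Finset (I D), (-1 : ℂ) ^ J.card * fixedPointCharacter (S.Par J) g

section
variable [Finite G] (hgen : S.U Set.univ = ⊤)
include hgen

theorem stC_eq (g : G) : S.stC g = S.stR Finset.univ g := by
  simp [stC, stR, fpc_eq, Par_univ hgen]

omit hgen [Finite G] in
theorem UJ_univ : S.UJ ((Finset.univ : Finset (I D)) : Set (I D)) = ⊥ := by simp [UJ, sub_univ, U_empty]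

theorem stC_B (b : S.B) : S.stC b = fixedPointCharacter (S.H.subgroupOf S.B) b := by
  rw [stC_eq hgen, stR_B hgen _ b.2, UJ_univ, bot_sup_eq, fpc_eq, cn_sub,
    Nat.card_congr (Subgroup.subgroupOfEquivOfLe S.H_le_B).toEquiv]

theorem stC_one : S.stC 1 = Nat.card (S.U {r | R.Pos r}) := by
  classical
  rw [stC_eq hgen, stR_U hgen _ (one_mem _), if_pos (one_mem _), UJ_univ]; simp

theorem orb_card (J K : Set (I D)) : Nat.card (MulAction.orbitRel.Quotient G ((G ⧸ S.Par J) × (G ⧸ S.Par K))) =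
    Nat.card {w : R.W // (∀ j ∈ J, R.Pos (w⁻¹ • R.sim j)) ∧ ∀ k ∈ K, R.Pos (w • R.sim k)} := by
  choose m hm hl using exists_N_lift (S := S)
  refine (Nat.card_congr (Equiv.ofBijective (fun w => Quotient.mk _ ((((1 : G) : G ⧸ S.Par J)), (m w.1 : G ⧸ S.Par K)))
    ⟨?_, ?_⟩)).symm
  · rintro ⟨w, h1, h2⟩ ⟨w', h1', h2'⟩ h
    obtain ⟨g, hg⟩ := Quotient.exact h
    simp only [Prod.smul_mk, MulAction.Quotient.smul_mk, smul_eq_mul, mul_one, Prod.mk.injEq, QuotientGroup.eq, inv_mem_iff] at hg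
    obtain ⟨u, hu, h3⟩ := ((hl w').cell (hm _)).par_mul hg.1
    obtain ⟨v, hv, h4⟩ := h3.mul_par hg.2
    rw [mul_inv_cancel_left] at h4
    exact Subtype.ext (R.ex.dc_unique hu hv (((hl w).cell (hm _)).unique h4) h1' (fun k hk => len_mul_sw_iff.2 (h2' k hk)) h1
      fun k hk => len_mul_sw_iff.2 (h2 k hk)).symm
  · rintro ⟨⟨x⟩, ⟨y⟩⟩
    have hex : ∃ n, ∃ a ∈ S.Par J, ∃ b ∈ S.Par K, ∃ w, S.Cell w (a * (x⁻¹ * y) * b) ∧ R.ex.len w = n :=
      ⟨_, 1, one_mem _, 1, one_mem _, _, (exists_cell hgen _).choose_spec, rfl⟩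
    classical
    obtain ⟨a, ha, b, hb, w, hw, h0⟩ := Nat.find_spec hex
    obtain ⟨c, hc, d, hd, e⟩ := hw.eq (hm w) (hl w)
    have key : ∀ a' ∈ S.Par J, ∀ b' ∈ S.Par K, ∀ w', S.Cell w' (a' * m w * b') → R.ex.len w ≤ R.ex.len w' :=
      fun a' ha' b' hb' w' h => h0 ▸ Nat.find_min' hex ⟨a' * c⁻¹ * a, mul_mem (mul_mem ha' (B_le_Par _ (inv_mem hc))) ha,
        b * d⁻¹ * b', mul_mem (mul_mem hb (B_le_Par _ (inv_mem hd))) hb', w', by
          rwa [show a' * c⁻¹ * a * (x⁻¹ * y) * (b * d⁻¹ * b') = a' * c⁻¹ * (a * (x⁻¹ * y) * b) * d⁻¹ * b' by group, e,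
            show a' * c⁻¹ * (c * m w * d) * d⁻¹ * b' = a' * m w * b' by group], rfl⟩
    refine ⟨⟨w, fun j hj => (R.ex_P j w).1 (R.ex.P_iff.2 ?_), fun k hk => len_mul_sw_iff.1 ?_⟩, Quotient.sound ⟨c⁻¹ * a * x⁻¹, ?_⟩⟩
    · have := key _ (n_mem_Par hj 1) 1 (one_mem _) _ (by
        simpa using ((lift_n j 1).mul (hl w)).cell (mul_mem (S.n_mem j 1) (hm w)))
      have := R.ex.len_s_mul j w
      rw [ex_s] at *; omega
    · have := key 1 (one_mem _) _ (n_mem_Par hk 1) _ (by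
        simpa using ((hl w).mul (lift_n k 1)).cell (mul_mem (hm w) (S.n_mem k 1)))
      have := R.ex.len_mul_s k w
      rw [ex_s] at *; omega
    · refine Prod.ext (QuotientGroup.eq.2 ?_) (QuotientGroup.eq.2 ?_)
      · simpa using mul_mem (inv_mem ha) (B_le_Par _ hc)
      · rw [show m w = c⁻¹ * (a * (x⁻¹ * y) * b) * d⁻¹ by rw [e]; group]
        simpa [mul_assoc] using mul_mem hb (B_le_Par _ (inv_mem hd))

theorem stC_irr : IsIrrCharacter G S.stC := by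
  cases nonempty_fintype G
  have e : S.stC = ∑ J : Finset (I D), ((-1 : ℂ) ^ J.card) • fixedPointCharacter (S.Par J) := by
    ext g; simp [stC]
  refine IsGeneralizedCharacter.irr_of_re_pos ?_ ?_ (by simp [stC_one hgen])
  · rw [e]
    exact H3.isGen_sum _ _ fun J _ => by
      simpa using (show IsCharacter G (fixedPointCharacter (S.Par J)) from
        H3.isCharacter_fixedBy (G := G) (G ⧸ S.Par J)).isGen.intCast_smul ((-1) ^ J.card)
  · rw [e]
    simp only [H3.classInner_sum_left, H3.classInner_sum_right, H3.classInner_smul_left, H3.classInner_smul_right]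
    have h1 : ∀ J K : Finset (I D), classInner (fixedPointCharacter (S.Par J)) (fixedPointCharacter (S.Par K)) = _ :=
      fun J K => (H3.classInner_fixedBy_fixedBy _ _).trans (congrArg _ (orb_card hgen J K))
    simp only [h1, map_pow, map_neg, map_one, Finset.mem_coe]
    have h2 := fun K : Finset (I D) => alt_sum Finset.univ (fun w : R.W => ∀ k ∈ K, R.Pos (w • R.sim k))
      fun w j => R.Pos (w⁻¹ • R.sim j)
    have h3 := alt_sum Finset.univ (fun w : R.W => ∀ j ∈ Finset.univ, ¬ R.Pos (w⁻¹ • R.sim j)) fun w j => R.Pos (w • R.sim j)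
    simp only [Finset.powerset_univ] at h2 h3
    simp only [and_comm (a := ∀ k ∈ _, R.Pos (_⁻¹ • R.sim k)), h2]
    simp only [and_comm (b := ∀ k ∈ _, ¬ R.Pos (_⁻¹ • R.sim k)), h3, Nat.cast_eq_one]
    exact Nat.card_eq_one_iff_exists.2 ⟨⟨R.wJ Set.univ, by simp [wJ_inv, pos_w0, R.pos_sim]⟩,
      fun w => Subtype.ext (eq_w0 fun i => w.2.2 i (Finset.mem_univ _))⟩

variable [Finite F] (hπ : Function.Injective S.π) (p : ℕ) [Fact p.Prime] [CharP F p]
include hπ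

theorem exists_sylow : ∃ P : Sylow p G, (P : Subgroup G) = S.U {r | R.Pos r} := ⟨(reId hgen hπ).sylow p, rfl⟩

theorem card_U_eq : Nat.card (S.U {r | R.Pos r}) = p ^ (Nat.card G).factorization p := by
  obtain ⟨P, hP⟩ := exists_sylow hgen hπ p
  rw [← hP, P.card_eq_multiplicity]

theorem stC_eq_zero {g : G} (hg : p ∣ orderOf g) : S.stC g = 0 :=
  (stC_irr hgen).eq_zero_of_defect_zero (Fact.out : p.Prime) (Nat.pow_succ_factorization_not_dvd Nat.card_pos.ne' Fact.out)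
    (by rw [H3.charDegree_eq (stC_one hgen), card_U_eq hgen hπ p]) hg

theorem card_unip : Nat.card {g : G // ∃ k, g ^ p ^ k = 1} = Nat.card (S.U {r | R.Pos r}) ^ 2 := by
  classical
  cases nonempty_fintype G
  obtain ⟨P, hP⟩ := exists_sylow hgen hπ p
  have he : ∀ a u : G, (∃ k, (a⁻¹ * u * a) ^ p ^ k = 1) ↔ ∃ k, u ^ p ^ k = 1 := fun a u => by
    simp only [← MulAut.conj_inv_apply, ← map_pow, EmbeddingLike.map_eq_one_iff]
  have h1 : ∀ K : Finset (I D), ∑ J ∈ K.powerset, (-1 : ℂ) ^ J.card *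
      (Nat.card {u // u ∈ S.Par J ∧ ∃ k, u ^ p ^ k = 1} / Nat.card (S.Par J)) =
      Nat.card (S.U {r | R.Pos r}) / Nat.card (S.Par K) := fun K => by
    have hUP : (P : Subgroup G) ≤ S.Par K := by rw [hP]; exact S.U_le_B.trans (B_le_Par _)
    have hU : S.UJ K ≤ P := by rw [hP]; exact U_mono fun _ h => h.1
    have h3 : ∀ u ∈ Finset.univ.filter (fun u => u ∈ S.Par K ∧ ∃ k, u ^ p ^ k = 1), S.stR K u =
        if u ∈ S.UJ K then (Nat.card (S.U {r | R.Pos r}) : ℂ) / Nat.card (S.UJ K) else 0 := fun u hu => by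
      rw [Finset.mem_filter] at hu
      obtain ⟨a, ha, h⟩ := exists_conj_sylow P hUP hu.2.1 hu.2.2
      rw [hP] at h
      rw [← stR_conj ha, stR_U hgen K h]
      exact if_congr ⟨fun h => by simpa [mul_assoc] using Par_conj (inv_mem ha) h, Par_conj ha⟩ rfl rfl
    have h4 : ∀ u, (u ∈ S.Par K ∧ ∃ k, u ^ p ^ k = 1) ∧ u ∈ S.UJ K ↔ u ∈ S.UJ K := fun u => ⟨fun h => h.2, fun h => by
      obtain ⟨k, hk⟩ := P.isPGroup' ⟨u, hU h⟩
      exact ⟨⟨hUP (hU h), k, congrArg Subtype.val hk⟩, h⟩⟩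
    have h2 : ∑ u ∈ Finset.univ.filter (fun u => u ∈ S.Par K ∧ ∃ k, u ^ p ^ k = 1), S.stR K u = Nat.card (S.U {r | R.Pos r}) := by
      rw [Finset.sum_congr rfl h3, ← Finset.sum_filter, Finset.sum_const, Finset.filter_filter, ← Fintype.card_subtype,
        ← Nat.card_eq_fintype_card, Nat.card_congr (Equiv.subtypeEquivRight h4), nsmul_eq_mul,
        mul_div_cancel₀ _ (Nat.cast_ne_zero.2 Nat.card_pos.ne')]
    rw [← h2, eq_div_iff (Nat.cast_ne_zero.2 Nat.card_pos.ne'), Finset.sum_mul]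
    simp only [stR]
    rw [Finset.sum_comm]
    refine Finset.sum_congr rfl fun J hJ => ?_
    rw [← Finset.mul_sum, ← Finset.sum_div, ← Nat.cast_sum, sum_cn (Par_mono (Finset.coe_subset.2 (Finset.mem_powerset.1 hJ))) he]
    push_cast; ring
  have h2 := moebius fun J : Finset (I D) => (Nat.card {u // u ∈ S.Par J ∧ ∃ k, u ^ p ^ k = 1} : ℂ) / Nat.card (S.Par J)
  have h3 := stC_one hgen
  simp only [h1, Finset.coe_univ, Par_univ hgen, Subgroup.mem_top, true_and, Subgroup.card_top] at h2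
  simp only [stC, fpc_eq, cn, Subgroup.mem_top, mul_one, inv_mul_cancel, one_mem, and_self, Nat.card_subtype_true] at h3
  rw [show Nat.card {x : G // True} = Nat.card G from Nat.card_subtype_true,
    eq_div_iff (Nat.cast_ne_zero.2 Nat.card_pos.ne')] at h2
  rw [← Nat.cast_inj (R := ℂ), ← h2, Nat.cast_pow, sq]
  conv_rhs => enter [1]; rw [← h3]
  simp only [Finset.sum_mul]
  exact Finset.sum_congr rfl fun _ _ => by ring

end

end StN

theorem RS.adj_Par (R : RS D) (F : Type*) [Field F] (J : Set (I D)) :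
    (R.adj F).Par J = ((R.gl F).Par J).subgroupOf _ := by
  rw [StN.Par_eq, StN.Par_eq, R.adj_H, R.adj_U, R.diag_eq,
    Subgroup.subgroupOf_sup (R.group_eq F ▸ (R.gl F).H_le_N.trans (R.gl F).N_le) (R.group_eq F ▸ StG.U_mono (Set.subset_univ _))]

theorem RS.stC_eq (R : RS D) (F : Type*) [Field F] : D.steinbergCharacter F = (R.adj F).stC := by
  ext g
  refine (Finset.sum_bij' (fun J _ => J.map Fin.valEmbedding) (fun J _ => J.preimage Fin.val Fin.val_injective.injOn)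
    (fun J _ => by simp [Finset.subset_iff]) (by simp) (fun J _ => by ext; simp [Fin.val_inj]) (fun J hJ => ?_) fun J _ => ?_).symm
  · ext x
    simp only [Finset.mem_map, Finset.mem_preimage, Fin.valEmbedding_apply]
    exact ⟨fun ⟨a, h, e⟩ => e ▸ h, fun h => ⟨⟨x, Finset.mem_range.1 (Finset.mem_powerset.1 hJ h)⟩, h, rfl⟩⟩
  · rw [Finset.card_map, ChevalleyDatum.parabolicIn, R.par_eq, R.adj_Par]
    congr 4; ext; simp [Fin.val_inj]

end Cfsg.Agent.H5
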