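import Cfsg.Agent.H5.Ag8
import Cfsg.Agent.H5.St1
import Cfsg.Agent.H5.SL2
import Cfsg.Agent.H5.Cent
import Cfsg.Agent.H5.Bg0

/-! Overgroups of subfield subgroups: the parabolic normalising a long root subgroup. -/

set_option autoImplicit false

namespace Cfsg.Agent.H5

open Cfsg.Lie StG StN RS StN.Tw

variable {D : ChevalleyDatum}

/-- highest root data -/
structure RS.Hi (R : RS D) (θ : Φ D) (β : I D) : Prop where
  dom : ∀ i, R.pr θ (R.sim i) = if i = β then 1 else 0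
  two : ∀ r, 2 ≤ R.pr θ r → r = θ
  full : R.Full

/-- nodes orthogonal to `θ` -/
abbrev RS.JJ (R : RS D) (θ : Φ D) : Set (I D) := {i | R.pr θ (R.sim i) = 0}

/-- height -/
def RS.hs (R : RS D) (r : Φ D) : ℤ := ∑ i, R.vec r i

namespace RS
variable {R : RS D}

theorem lin_pr' (θ : Φ D) : R.Lin fun r => R.pr θ r := by simpa using lin_pr (R := R) (A := ℤ) θ

theorem Lin.two' {f : Φ D → ℤ} (h : R.Lin f) {a b : ℤ} {r s u : Φ D} (hu : R.vec u = a • R.vec r + b • R.vec s) :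
    f u = a * f r + b * f s := h.two hu

theorem hs_sim (i : I D) : R.hs (R.sim i) = 1 := by simp [hs, vec_sim]
theorem dom_hs : R.Dom R.hs := ⟨fun r => by simp [hs_sim, hs.eq_1 R r], fun i => by simp [hs_sim]⟩
theorem hs_pos {r : Φ D} (h : R.Pos r) : 0 < R.hs r := (dom_hs.nonneg h).lt_of_ne fun e => R.vec_ne_zero r (funext fun i =>
  (Finset.sum_eq_zero_iff_of_nonneg fun i _ => (R.pos_iff r).1 h i).1 e.symm i (Finset.mem_univ _))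

theorem hs_comb {s r u : Φ D} (h : R.Comb s r u) (hs : R.Pos s) (hr : R.Pos r) : R.hs r < R.hs u := by
  obtain ⟨i, j, hi, hj, e⟩ := h
  rw [dom_hs.1.two' e]
  have := hs_pos hs
  have := hs_pos hr
  zify at hi hj
  nlinarith

theorem ideal_hs {r : Φ D} (hr : R.Pos r) : R.Ideal {s | R.hs r ≤ R.hs s} ∧ R.Ideal {s | R.hs r ≤ R.hs s ∧ s ≠ r} ∧
    ∀ (F : Type*) [Field F], R.Sh F {s | R.hs r ≤ R.hs s} {s | R.hs r ≤ R.hs s ∧ s ≠ r} := by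
  have h1 := (dom_hs (R := R)).ideal (hs_pos hr)
  have h2 : ∀ s, R.Pos s → ∀ r', R.hs r ≤ R.hs r' → ∀ u, R.Comb s r' u → R.hs r ≤ R.hs u ∧ u ≠ r := fun s hs r' h u hu => by
    have := hs_comb hu hs (h1.1 _ h)
    exact ⟨by omega, by rintro rfl; omega⟩
  exact ⟨h1, ⟨fun s h => h1.1 s h.1, fun s hs r' h => h2 s hs r' h.1⟩, fun F _ s hs r' h c hc => .inl (h2 s hs r' h _ (R.comb_of_tm hc))⟩

namespace Hi
variable {θ : Φ D} {β : I D} (h : R.Hi θ β)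
include h

theorem dom' : R.Dom fun r => R.pr θ r := ⟨lin_pr' θ, fun i => by simp only [h.dom]; split_ifs <;> norm_num⟩
theorem sub_iff {r : Φ D} : r ∈ R.Sub (R.JJ θ) ↔ R.pr θ r = 0 := ⟨(lin_pr' θ).eq_zero, h.dom'.mem_sub⟩
theorem uj_iff {r : Φ D} : (R.Pos r ∧ r ∉ R.Sub (R.JJ θ)) ↔ 0 < R.pr θ r := by
  rw [h.sub_iff]
  exact ⟨fun e => (h.dom'.nonneg e.1).lt_of_ne' e.2, fun e => ⟨h.dom'.pos e, e.ne'⟩⟩
theorem par_iff {r : Φ D} : (R.Pos r ∨ r ∈ R.Sub (R.JJ θ)) ↔ 0 ≤ R.pr θ r := by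
  rw [h.sub_iff]
  exact ⟨fun e => e.elim h.dom'.nonneg Eq.ge, fun e => e.eq_or_lt.elim (fun e => .inr e.symm) fun e => .inl (h.dom'.pos e)⟩
theorem mem_J {i : I D} : i ∈ R.JJ θ ↔ i ≠ β := by simp [JJ, h.dom]
theorem pos : R.Pos θ := h.dom'.pos (by simp [pr_self])
theorem le (r : Φ D) : R.pr θ r ≤ 2 := by
  by_contra e
  rw [h.two r (by omega), pr_self] at e
  exact e le_rfl
theorem ge {r : Φ D} (hr : r ≠ R.neg θ) : -1 ≤ R.pr θ r := by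
  by_contra e
  exact hr (R.neg_eq_iff.1 (h.two (R.neg r) (by rw [pr_neg_right]; omega)))
theorem ideal : R.Ideal {θ} := by
  convert h.dom'.ideal two_pos
  exact Set.ext fun r => ⟨fun e => by rw [e]; exact (pr_self _ _).ge, h.two r⟩
theorem β_one : R.pr θ (R.sim β) = 1 := by simp [h.dom]

theorem no_comb {r u : Φ D} (hr : 0 ≤ R.pr θ r) : ¬ R.Comb r θ u := by
  rintro ⟨i, j, hi, hj, e⟩
  have h1 := (lin_pr' θ).two' e
  have h2 := h.le u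
  rw [pr_self] at h1
  zify at hi hj
  obtain rfl := h.two u (by nlinarith)
  rw [show (j : ℤ) = 1 by nlinarith, one_smul, right_eq_add, smul_eq_zero] at e
  exact e.elim (by omega) (R.vec_ne_zero r)

theorem opp {r : Φ D} (hr : R.pr θ r = 1) : ∃ s, R.pr θ s = 1 ∧ R.vec θ = (1 : ℤ) • R.vec r + (1 : ℤ) • R.vec s :=
  ⟨R.neg (R.rr θ • r), by rw [pr_neg_right, pr_rr, hr]; rfl, by rw [vec_neg, vec_rr, hr]; simp⟩

theorem span {i : I D} (hi : i ≠ β) : ∃ r s, R.pr θ r = 1 ∧ R.pr θ s = 1 ∧ R.vec s = (1 : ℤ) • R.vec r + (1 : ℤ) • R.vec (R.sim i) := by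
  obtain ⟨r, hr, hs, hc⟩ := h.full.exists_car (J := R.JJ θ) ⟨β, fun e => h.mem_J.1 e rfl⟩ (h.mem_J.2 hi)
  obtain ⟨s, e⟩ := exists_add hc (fun e => hs (e ▸ neg_mem_sub.2 (sim_mem_sub.2 (h.mem_J.2 hi))))
  replace e : R.vec s = (1 : ℤ) • R.vec r + (1 : ℤ) • R.vec (R.sim i) := by simpa
  have h1 := (lin_pr' θ).two' e
  have h2 := h.uj_iff.1 ⟨hr, hs⟩
  rw [show R.pr θ (R.sim i) = 0 from h.mem_J.2 hi] at h1
  have h3 : R.pr θ r = 1 := by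
    by_contra e'
    obtain rfl := h.two r (by omega)
    obtain rfl := h.two s (by rw [h1, pr_self]; norm_num)
    exact R.vec_ne_zero (R.sim i) (by simpa using e)
  exact ⟨r, s, h3, by omega, e⟩

end Hi
end RS

namespace StN
variable {R : RS D} {K G : Type*} [Field K] [Group G] {S : StN R K G} {θ : Φ D} {β : I D}

theorem x_mem1 (r : Φ D) (t : K) : S.x r t ∈ S.U {r} := x_mem (T := {r}) rfl t

theorem conj_tm {T : Set (Φ D)} {r s : Φ D} (h1 : s ≠ r) (h2 : s ≠ R.neg r) (hs : s ∈ T) (h : ∀ c ∈ R.tm r s, c.1 ∈ T) (t u : K) :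
    S.x r t * S.x s u * (S.x r t)⁻¹ ∈ S.U T := by
  rw [x_inv, mul_assoc, S.r2 r s h1 h2, ← mul_assoc, ← mul_assoc, S.r1, add_neg_cancel, StG.x_zero, one_mul]
  refine mul_mem (x_mem hs _) (list_prod_mem fun g hg => ?_)
  obtain ⟨c, hc, rfl⟩ := List.mem_map.1 hg
  exact x_mem (h c hc) _

theorem comm_tm {r s : Φ D} (h2 : s ≠ R.neg r) (h : R.tm r s = []) (t u : K) : Commute (S.x r t) (S.x s u) := by
  rcases eq_or_ne s r with rfl | h1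
  · rw [Commute, SemiconjBy, S.r1, S.r1, add_comm]
  · simpa [cw, h, Commute, SemiconjBy] using (S.r2 r s h1 h2 t u).symm

theorem conj_tm1 {r s v : Φ D} (h1 : s ≠ r) (h2 : s ≠ R.neg r) {e : ℤ} (h : R.tm r s = [(v, e, 1, 1)]) (t u : K) :
    S.x r t * S.x s u * (S.x r t)⁻¹ = S.x s u * S.x v (e * t * u) := by
  rw [x_inv, mul_assoc, S.r2 r s h1 h2, ← mul_assoc, ← mul_assoc, S.r1, add_neg_cancel, StG.x_zero, one_mul]
  simp [cw, h]

theorem coord {s s' : K} {n n' k k' : G} (hn : n ∈ S.U {r | R.Pos r ∧ r ≠ R.sim β}) (hn' : n' ∈ S.U {r | R.Pos r ∧ r ≠ R.sim β})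
    (hk : k ∈ S.H) (hk' : k' ∈ S.H) (e : S.x (R.sim β) s * n * k = S.x (R.sim β) s' * n' * k') : s = s' ∧ S.π k = S.π k' := by
  have h1 : S.x (R.sim β) (-s' + s) * n * n'⁻¹ = n' * (k' * k⁻¹) * n'⁻¹ := by
    rw [← S.r1, ← x_inv, mul_assoc _ _ n, eq_mul_inv_of_mul_eq e]; group
  have hU : S.U {r | R.Pos r ∧ r ≠ R.sim β} ≤ S.U {r | R.Pos r} := U_mono fun _ h => h.1
  have h2 := eq_one_of_U_H (u := n'⁻¹ * (S.x (R.sim β) (-s' + s) * n * n'⁻¹) * n') (mul_mem (mul_mem (inv_mem (hU hn'))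
    (mul_mem (mul_mem (x_mem (R.pos_sim β) _) (hU hn)) (inv_mem (hU hn')))) (hU hn')) (mul_mem hk' (inv_mem hk)) (by rw [h1]; group)
  have h3 : S.x (R.sim β) (-s' + s) = n' * n⁻¹ := by
    rw [← mul_one n', ← h2]; group
  refine ⟨by linear_combination x_sim_not_mem (h3 ▸ mul_mem hn' (inv_mem hn)), ?_⟩
  rw [h1] at h2
  rw [← mul_inv_eq_one.1 (show k' * k⁻¹ = 1 by rw [← h2]; group)]

theorem split_sim (β : I D) {u : G} (hu : u ∈ S.U {r | R.Pos r}) :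
    ∃ t, ∃ c ∈ S.U {r | R.Pos r ∧ r ≠ R.sim β}, u = S.x (R.sim β) t * c := by
  obtain ⟨x, hx, w, hw, rfl⟩ := exists_mul (L := R.lamf) (T₁ := {R.sim β}) (T₂ := {r | R.Pos r ∧ r ≠ R.sim β})
    closed_pos' (fun _ h => h) (by ext r; by_cases h : r = R.sim β <;> simp [h, R.pos_sim]) hu
  obtain ⟨s, rfl⟩ := mem_U_singleton.1 hx
  exact ⟨s, w, hw, rfl⟩

variable (h : R.Hi θ β)
include h

theorem x_mem_P {r : Φ D} (hr : 0 ≤ R.pr θ r) (t : K) : S.x r t ∈ S.Par (R.JJ θ) :=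
  Par_eq (S := S) _ ▸ Subgroup.mem_sup_right (x_mem (h.par_iff.2 hr) t)

theorem U_le_P {T : Set (Φ D)} (hT : ∀ r ∈ T, 0 ≤ R.pr θ r) : S.U T ≤ S.Par (R.JJ θ) := U_le.2 fun r hr t => x_mem_P h (hT r hr) t

theorem comm_θ {T : Set (Φ D)} (hT : ∀ r ∈ T, 0 ≤ R.pr θ r) {u : G} (hu : u ∈ S.U T) (t : K) : u * S.x θ t * u⁻¹ = S.x θ t := by
  refine mul_inv_eq_of_eq_mul ((U_le (K := Subgroup.centralizer {S.x θ t})).2 (fun r hr a => ?_) hu _ rfl).symm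
  rw [Subgroup.mem_centralizer_singleton_iff]
  refine (comm_tm (fun e => ?_) (List.eq_nil_iff_forall_not_mem.2 fun c hc => h.no_comb (hT r hr) (R.comb_of_tm hc)) a t).eq
  have := hT r hr
  rw [R.neg_eq_iff.1 e.symm, pr_neg_right, pr_self] at this
  omega

theorem P_conj {p : G} (hp : p ∈ S.Par (R.JJ θ)) {v : G} (hv : v ∈ S.U {θ}) : p * v * p⁻¹ ∈ S.U {θ} := by
  rw [Par_eq, sup_comm] at hp
  obtain ⟨u, hu, k, hk, rfl⟩ := mem_sup_H.1 hp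
  obtain ⟨t, ht⟩ := mem_U_singleton.1 (H_conj_U hk hv)
  rw [show u * k * v * (u * k)⁻¹ = u * (k * v * k⁻¹) * u⁻¹ by group, ht, comm_θ h (fun _ => h.par_iff.1) hu]
  exact x_mem1 _ _

theorem P_conj' {p : G} (hp : p ∈ S.Par (R.JJ θ)) {c : K} (hc : c ≠ 0) : ∃ s ≠ 0, p * S.x θ c * p⁻¹ = S.x θ s := by
  obtain ⟨s, hs⟩ := mem_U_singleton.1 (P_conj h hp (x_mem1 θ c))
  refine ⟨s, fun e => hc (x_eq_one (S := S) (r := θ) ?_), hs⟩
  rw [e, StG.x_zero, mul_inv_eq_one, mul_eq_left] at hs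
  rw [hs, map_one]

variable (hgen : S.U Set.univ = ⊤)
include hgen

theorem mem_P_of {g : G} {c : K} (hc : c ≠ 0) (hg : g * S.x θ c * g⁻¹ ∈ S.U {θ}) : g ∈ S.Par (R.JJ θ) := by
  obtain ⟨b, hb, m, hm, b', hb', rfl⟩ := StN.bruhat (hgen ▸ Subgroup.mem_top g)
  obtain ⟨w, hw⟩ := StN.exists_lift hm
  have h0 : R.Ideal ∅ := ⟨by simp, by simp⟩
  have h1 : w • θ = θ := mem_of_conj h.ideal.gi h0.gi h.ideal.gi (fun _ a b => b a) (x_mem1 θ c)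
    (fun e => hc (x_eq_one (S := S) (r := θ) (by rw [U_empty, Subgroup.mem_bot] at e; rw [e, map_one]))) hb hb' hm hw hg
  exact mem_Par_iff.2 ⟨b, hb, m, hm, w, (h.dom'.eq h.dom' fun r => by rw [← pr_smul w θ r, h1]).1, hw, b', hb', rfl⟩

theorem cent_Q (hπ : Function.Injective S.π) {M : Subgroup G} (h1 : S.x θ 1 ∈ M)
    (hx : ∀ r, R.pr θ r = 1 → ∃ x ∈ M ⊓ S.UJ (R.JJ θ), x ∈ S.U {s | R.hs r ≤ R.hs s} ∧ x ∉ S.U {s | R.hs r ≤ R.hs s ∧ s ≠ r})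
    {n : G} (hn : n ∈ M ⊓ S.N) (hl : S.Lift n (R.wJ (R.JJ θ))) {g : G} (hg : ∀ x ∈ M ⊓ S.UJ (R.JJ θ), g * x * g⁻¹ = x) :
    g ∈ S.UJ (R.JJ θ) := by
  have hθ : S.x θ 1 ∈ M ⊓ S.UJ (R.JJ θ) := ⟨h1, x_mem (h.uj_iff.2 (by simp [pr_self])) _⟩
  have hB : ∀ g, (∀ x ∈ M ⊓ S.UJ (R.JJ θ), g * x * g⁻¹ = x) → g ∈ S.U {r | R.Pos r} := fun g hg => by
    have hb : g ∈ S.B := by
      obtain ⟨b, hb, m, hm, b', hb', w, hw, hw', rfl⟩ : ∃ b ∈ S.B, ∃ m ∈ S.N, ∃ b' ∈ S.B, ∃ w ∈ R.ex.par (R.JJ θ), S.Lift m w ∧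
          g = b * m * b' := by
        obtain ⟨b, hb, m, hm, w, h2, h3, b', hb', e⟩ := mem_Par_iff.1 (mem_P_of h hgen one_ne_zero (g := g) (by rw [hg _ hθ]; exact x_mem1 _ _))
        exact ⟨b, hb, m, hm, b', hb', w, h2, h3, e⟩
      have h2 : ∀ r, R.pr θ r = 1 → R.hs r ≤ R.hs (w • r) := fun r hr => by
        obtain ⟨x, h3, h4, h5⟩ := hx r hr
        obtain ⟨i1, i2, -⟩ := ideal_hs.{0} (h.dom'.pos (r := r) (by omega))
        exact mem_of_conj i1.gi i2.gi i1.gi (fun _ a b => And.intro a b) h4 h5 hb hb' hm hw' ((hg x h3).symm ▸ h4)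
      have h3 : w • θ = θ := h.two _ (by rw [(lin_pr' θ).par hw, pr_self])
      have h4 : ∀ r, R.pr θ r = 1 → R.hs (w • r) = R.hs r := fun r hr => by
        obtain ⟨s, hs, e⟩ := h.opp hr
        have := ((dom_hs (R := R)).1.smul w).two' e
        have := (dom_hs (R := R)).1.two' e
        have := h2 r hr
        have := h2 s hs
        simp only [h3] at *
        omega
      obtain rfl : w = 1 := eq_one_of_pos fun i => dom_hs.pos (by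
        rcases eq_or_ne i β with rfl | hi
        · rw [h4 _ h.β_one, hs_sim]; norm_num
        obtain ⟨r, s, hr, hs, e⟩ := h.span hi
        have := ((dom_hs (R := R)).1.smul w).two' e
        have := (dom_hs (R := R)).1.two' e
        have := h4 r hr
        have := h4 s hs
        simp only [hs_sim] at *
        omega)
      exact mul_mem (mul_mem hb (S.H_le_B (hw'.mem_H hm))) hb'
    obtain ⟨u, hu, k, hk, rfl⟩ := mem_B.1 hb
    obtain ⟨χ, hχ⟩ := exists_diag hk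
    have h4 : ∀ r, R.pr θ r = 1 → R.cv' χ r = 1 := fun r hr => by
      obtain ⟨x, h3, h4, h5⟩ := hx r hr
      obtain ⟨i1, i2, i3⟩ := ideal_hs (h.dom'.pos (r := r) (by omega))
      exact hχ.eq_of_lead i1.gi i2.gi (i3 K) (fun _ => Iff.rfl) h4 h5 hu (hg x h3)
    obtain rfl : χ = 1 := R.ch_ext' fun i => by
      rcases eq_or_ne i β with rfl | hi
      · exact h4 _ h.β_one
      obtain ⟨r, s, hr, hs, e⟩ := h.span hi
      simpa [h4 r hr, h4 s hs] using (RS.cv'_comb χ (i := 1) (j := 1) e).symm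
    rwa [hπ ((Units.ext (hχ.1.trans R.dg_one)).trans (map_one _).symm), mul_one]
  have hP : n ∈ S.Par (R.JJ θ) := mem_Par_iff.2 ⟨1, one_mem _, n, hn.2, _, wJ_mem _, hl, 1, one_mem _, by simp⟩
  have h2 := hB (n⁻¹ * g * n) fun x hx => by
    have := hg _ ⟨M.mul_mem (M.mul_mem hn.1 hx.1) (M.inv_mem hn.1), Par_conj hP hx.2⟩
    rw [show n⁻¹ * g * n * x * (n⁻¹ * g * n)⁻¹ = n⁻¹ * (g * (n * x * n⁻¹) * g⁻¹) * n by group, this]; group
  obtain ⟨u, hu, k, hk, rfl⟩ := mem_sup_H.1 ((conj_wJ_iff hn.2 hl (S.U_le_B (hB g hg))).1 (S.U_le_B h2))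
  have h3 := eq_one_of_U_H ((mul_mem_cancel_left (U_mono (fun _ h => h.1) hu)).1 (hB _ hg)) hk rfl
  rwa [h3, mul_one]

omit h in
theorem coset_canon (J : Set (I D)) (m : G) : ∃ d : R.W, ∃ u ∈ S.U {r | R.Pos r},
    (∀ n ∈ S.N, S.Lift n d → (u * n)⁻¹ * m ∈ S.Par J) ∧ ∀ (Y : R.Sym) (T : S.Tw Y), (∀ i, Y.ρ₀ i ∈ J ↔ i ∈ J) →
      m⁻¹ * T.σ m ∈ S.Par J → T.σ u = u ∧ d ∈ Y.W1 := by
  obtain ⟨w, hw⟩ := exists_cell hgen m
  obtain ⟨y, d, h1, h2, h3⟩ := hw.exists_min J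
  obtain ⟨b, hb, n, hn, hl, b', hb', e⟩ := h2.inv
  obtain ⟨c, hc, v, hv, e⟩ := exists_canonical hn hl hb hb' e
  refine ⟨d, v⁻¹, inv_mem (U_mono (fun _ h => h.1) hv), fun n' hn' hl' => ?_, fun Y T hY hm => ?_⟩
  · have : n * n' ∈ S.H := (by simpa using hl.mul hl' : S.Lift (n * n') 1).mem_H (mul_mem hn hn')
    rw [show (v⁻¹ * n')⁻¹ * m = (c * (n * n'))⁻¹ * (m⁻¹ * y)⁻¹ by rw [← inv_inv y, e]; group]
    exact mul_mem (inv_mem (B_le_Par J (mul_mem hc (S.H_le_B this)))) (inv_mem h1)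
  have hP : ∀ p ∈ S.Par J, T.σ p ∈ S.Par J := fun p hp => by
    obtain ⟨b, hb, m, hm, w, hw, hl, b', hb', rfl⟩ := mem_Par_iff.1 hp
    exact mem_Par_iff.2 ⟨_, T.σ_mem_B hb, _, (T.σ_lift hm).1, _, Y.cw_mem_par (fun i => (hY i).2) hw, (T.σ_lift hm).2 w hl, _,
      T.σ_mem_B hb', by simp⟩
  have h4 : S.Cell (Y.cw d) (T.σ y) := by
    obtain ⟨b, hb, m, hm, hl, b', hb', rfl⟩ := h2
    exact ⟨_, T.σ_mem_B hb, _, (T.σ_lift hm).1, (T.σ_lift hm).2 _ hl, _, T.σ_mem_B hb', by simp⟩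
  have h5 := h2.min_unique h4 h3 (fun j hj => by
    obtain ⟨j, rfl⟩ := Y.ρ₀.surjective j
    rw [← Y.sim, Y.cw_smul, Y.pos]; exact h3 j ((hY j).1 hj)) (by
    rw [show y⁻¹ * T.σ y = (m⁻¹ * y)⁻¹ * (m⁻¹ * T.σ m) * T.σ (m⁻¹ * y) by simp [mul_assoc]]
    exact mul_mem (mul_mem (inv_mem h1) hm) (hP _ h1))
  have h6 : Y.cw d = d := h4.unique (by simpa using h2.mul_right h5)
  have h7 : Y.cw d⁻¹ = d⁻¹ := by rw [map_inv, h6]
  have h8 := (h7 ▸ (T.σ_lift hn).2 _ hl : S.Lift (T.σ n) d⁻¹).mul_inv_mem (T.σ_lift hn).1 hn hl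
  refine ⟨?_, h6⟩
  rw [map_inv, (canonical_unique hl (mul_mem (T.σ_mem_B hc) (S.H_le_B h8)) (mul_mem (inv_mem h5) hc)
    (T.σ_mem_U (fun r hr => h7 ▸ (Y.mem_inv _ r).2 hr) hv) hv (by
      rw [mul_assoc _ c, mul_assoc _ (c * n), ← e, mul_assoc (T.σ c), inv_mul_cancel_right, ← map_mul, ← map_mul, ← e]; simp)).2]

end StN

end Cfsg.Agent.H5
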