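import Cfsg.Agent.H5.Bg9

/-! Overgroups of `G₂(2)`. -/

set_option autoImplicit false
set_option maxRecDepth 100000

namespace Cfsg.Agent.H5

open Cfsg.Lie StG StN RS StN.Tw
open Matrix hiding zpow_add zpow_neg inv_zpow' inv_zpow mul_inv_rev

variable {D : ChevalleyDatum}

namespace StN
variable {R : RS D} {K G : Type*} [Field K] [Group G] {S : StN R K G} {θ : Φ D} {β : I D}

theorem vec_P (h : R.Hi θ β) (h' : ∀ r, 0 ≤ R.pr θ r → r = θ ∨ (θ ≠ r ∧ θ ≠ R.neg r ∧ R.ch r θ = [])) {p : G}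
    (hp : p ∈ S.Par (R.JJ θ)) : ∃ c : Kˣ, (S.π p : Matrix D.Idx D.Idx K) *ᵥ be K θ = (c : K) • be K θ := by
  rw [Par_eq, sup_comm] at hp
  obtain ⟨u, hu, k, hk, rfl⟩ := mem_sup_H.1 hp
  obtain ⟨χ, hχ⟩ := exists_diag hk
  have := U_induction (p := fun u => (S.π u : Matrix D.Idx D.Idx K) *ᵥ be K θ = be K θ) (by simp) (fun r hr t g _ ih => by
    rw [map_mul, Units.val_mul, ← mulVec_mulVec, ih, S.hπ]
    rcases h' r (h.par_iff.1 hr) with rfl | ⟨h1, h2, h3⟩
    exacts [x_be_self _ _, by simp [R.x_be h1 h2, h3]]) hu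
  exact ⟨_, by rw [map_mul, Units.val_mul, ← mulVec_mulVec, hχ.1, dg_be, mulVec_smul, this]⟩

end StN

section
variable {K G : Type*} [Field K] [CharP K 2] [Group G] {S : StN rsG2 K G} {φ : K →+* K} {σ : G →* G} {M : Subgroup G}

theorem hiG2 : rsG2.Hi ⟨11, by decide⟩ (1 : Fin 2) := ⟨by decide +kernel, by decide +kernel, fullG2⟩
theorem lnG2 : rsG2.Ln ⟨11, by decide⟩ (1 : Fin 2) ⟨10, by decide⟩ := @of_decide_eq_true _ (decLn _ _ _ _) (by decide +kernel)

theorem crdG2 {m u : G} {τ : K} (h : S.Bd ⟨11, by decide⟩ (1 : Fin 2) m τ u) : ∃ c ≠ 0,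
    ((S.π m : Matrix chevG2.Idx chevG2.Idx K) *ᵥ be (D := chevG2) K ⟨11, by decide⟩) (Sum.inr ⟨0, by decide⟩) = c ∧
    ((S.π m : Matrix chevG2.Idx chevG2.Idx K) *ᵥ be (D := chevG2) K ⟨11, by decide⟩) (Sum.inr ⟨1, by decide⟩) = c * τ := by
  obtain ⟨u₁, h1, rfl, n, -, w, ⟨γ, -, -, h2, -⟩, hw, p, hp, rfl⟩ := h
  obtain ⟨c, h3⟩ := vec_P hiG2 (by decide +kernel) hp
  obtain ⟨v, rfl⟩ := exists_gw (L := rsG2.lamf) (closed_ne_sim _) (fun _ h => h.1) (l := [7, 8, 9, 10, 11]) (by decide) (by decide)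
    (by simp only [Set.mem_setOf_eq, pos_iff_le]; decide +kernel) h1
  have two : ((2 : ℕ) : K) = 0 := CharP.cast_eq_zero K 2
  have h4 := rsG2.appW_col two (fun i => if i = 5 then τ else v i) (w := (6, pX 5) :: gw [7, 8, 9, 10, 11]) (by decide) (k := 2)
    (by decide)
  rw [← π_WN S.toStG, show S.WN _ = S.x (rsG2.sim (1 : Fin 2)) τ * wev S.x v (gw [7, 8, 9, 10, 11]) by
    simp [WN, wev, gw, List.zipIdx, xN_of_lt _ (by decide : 6 < chevG2.nroots)]; rfl,
    show bv chevG2 K 2 = be K (rsG2.neg ⟨11, by decide⟩) from bv_e (D := chevG2) ⟨0, by decide⟩] at h4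
  refine ⟨c * γ ⟨11, by decide⟩, (c * γ _).ne_zero, ?_⟩
  rw [map_mul, map_mul, Units.val_mul, Units.val_mul, ← mulVec_mulVec, ← mulVec_mulVec, h3, mulVec_smul, mulVec_smul, h2, hw,
    mulVec_smul, h4, Pi.smul_apply, Pi.smul_apply, Pi.smul_apply, Pi.smul_apply, veval_crd, veval_crd, ← peval_pnrm _ two,
    ← peval_pnrm _ two (crd _ _), show pnrm 2 _ = [(1, [])] by decide +kernel, show pnrm 2 _ = pX 5 by decide +kernel]
  simp [peval_cons, meval, mul_assoc]

theorem finG2 [Finite M] (H : S.Bg ⟨11, by decide⟩ (1 : Fin 2) φ σ M) (hπ : Function.Injective S.π)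
    (hF : ∀ t, φ t = t → t = 0 ∨ t = 1) (h1 : ∀ r, S.x r 1 ∈ M) : ∀ m ∈ M, σ m = m := fun m hm => by_contra fun hn => by
  have two : ((2 : ℕ) : K) = 0 := CharP.cast_eq_zero K 2
  obtain ⟨v, hv⟩ := exists_genV ((S.π m : Matrix chevG2.Idx chevG2.Idx K) *ᵥ be (D := chevG2) K ⟨11, by decide⟩)
  have key : ∀ w : List ℕ, (∀ r ∈ w, r < 12) → peval v (crd (rsG2.toCert.appW 2 2 (w.map fun r => (r, [(1, [])])) (genV 14)) 2) ≠ 0 ∧
      peval v (qdG2 w) = 0 := fun w hw => by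
    have h2 : S.WN (w.map fun r => (r, 1)) ∈ M ∧ σ (S.WN (w.map fun r => (r, 1))) = S.WN (w.map fun r => (r, 1)) := by
      induction w with
      | nil => simp [WN]
      | cons r w ih =>
        have := ih fun s hs => hw s (by simp [hs])
        simp only [WN, List.map_cons, List.prod_cons, xN_of_lt _ (show r < chevG2.nroots from hw r (by simp)), map_mul, H.hσ,
          map_one] at this ⊢
        exact ⟨mul_mem (h1 _) this.1, by rw [this.2]⟩
    have h3 : σ (S.WN (w.map fun r => (r, 1)) * m) ≠ S.WN (w.map fun r => (r, 1)) * m := by rwa [map_mul, h2.2, Ne, mul_right_inj]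
    obtain ⟨τ, u, h⟩ := H.exists_bd (mul_mem h2.1 hm) h3
    have h4 := H.line' hπ hF lnG2 (h1 _) (mul_mem h2.1 hm) h3 h
    obtain ⟨c, h5, h6, h7⟩ := crdG2 h
    have h8 := (rsG2.appW_sound two v (w := w.map fun r => (r, [(1, [])])) (List.forall_mem_map.2 hw) (l := genV 14) (by decide)).1
    rw [map_mul, Units.val_mul, ← mulVec_mulVec, hv, π_WN, show (w.map fun r => (r, (1 : K))) = (w.map fun r => (r, [(1, [])])).map
      fun a : ℕ × Poly => (a.1, peval v a.2) by simp [peval, meval]] at h6 h7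
    replace h6 := (veval_crd v ⟨0, by decide⟩ _).symm.trans ((congrFun h8 _).symm.trans h6)
    replace h7 := (veval_crd v ⟨1, by decide⟩ _).symm.trans ((congrFun h8 _).symm.trans h7)
    refine ⟨h6.trans_ne h5, ?_⟩
    rw [qdG2, peval_pnrm _ two, peval_append, peval_append, peval_pmul, peval_pmul, peval_pmul, show peval v (crd (rsG2.toCert.appW 2 2 _ _) 2) = c from h6,
      show peval v (crd (rsG2.toCert.appW 2 2 _ _) 3) = c * τ from h7]
    linear_combination c ^ 2 * h4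
  have h2 := peval_pnrm v two ((ctG2.flatMap fun c => pmul (c.2.flatMap pX) (qdG2 c.1)) ++
    ppow (crd (rsG2.toCert.appW 2 2 [] (genV 14)) 2) 3)
  have h3 : ∀ L : List (List ℕ × List ℕ), (∀ c ∈ L, ∀ r ∈ c.1, r < 12) →
      peval v (L.flatMap fun c => pmul (c.2.flatMap pX) (qdG2 c.1)) = 0 := fun L hL => by
    induction L with
    | nil => rfl
    | cons c L ih => rw [List.flatMap_cons, peval_append, ih fun c hc => hL c (by simp [hc]), peval_pmul, (key _ (hL c (by simp))).2]; simp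
  rw [ctG2_chk.1, peval_append, h3 _ ctG2_chk.2, peval_ppow, zero_add] at h2
  exact (key [] (by simp)).1 (pow_eq_zero_iff three_ne_zero |>.1 h2.symm)

end

end Cfsg.Agent.H5
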