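import Cfsg.Agent.H5.Bg8

/-! Overgroups of the prime field points: bad characteristic and `B₂`. -/

set_option autoImplicit false
set_option maxRecDepth 100000

namespace Cfsg.Agent.H5

open Cfsg.Lie StG StN RS StN.Tw

variable {D : ChevalleyDatum}

theorem surj_of_fin {α : Type*} {A : Set α} (hA : A.Finite) {f : α → α} (hf : Function.Injective f) (h : ∀ a ∈ A, f a ∈ A) :
    ∀ a ∈ A, ∃ b ∈ A, f b = a := ((hA.injOn_iff_bijOn_of_mapsTo h).1 hf.injOn).surjOn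

theorem fix_of_pow {K : Type*} [Field K] {φ : K →+* K} (p : ℕ) [Fact p.Prime] [CharP K p] {t : K} (h : φ (t ^ p) = t ^ p) : φ t = t :=
  frobenius_inj K p (by rwa [map_pow] at h)

namespace StN
variable {R : RS D} {K G : Type*} [Field K] [Group G] {S : StN R K G} {θ : Φ D} {β : I D} {φ : K →+* K} {σ : G →* G}
  {M : Subgroup G}

theorem fin_x [Finite M] (r : Φ D) : {t | S.x r t ∈ M}.Finite :=
  (Set.toFinite (M : Set G)).preimage (f := S.x r) fun _ _ _ _ e => x_inj (congrArg S.π e)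

theorem half [Finite M] {r : Φ D} (h2 : (2 : K) ≠ 0) {t : K} (h : S.x r (2 * t) ∈ M) : S.x r t ∈ M := by
  obtain ⟨b, hb, e⟩ := surj_of_fin (fin_x (S := S) (M := M) r) (mul_right_injective₀ h2)
    (fun a ha => by rw [Set.mem_setOf_eq, two_mul, ← S.r1]; exact mul_mem ha ha) _ h
  exact mul_left_cancel₀ h2 e ▸ hb

theorem comm_tm2 [CharP K 2] {r s : Φ D} (h : s ≠ R.neg r ∧ (R.tm r s = [] ∨ s ≠ r ∧ ∃ v, R.tm r s = [(v, 2, 1, 1)] ∨
    R.tm r s = [(v, -2, 1, 1)])) (t u : K) : Commute (S.x r t) (S.x s u) := by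
  rcases h with ⟨h1, h | ⟨h2, v, h | h⟩⟩
  · exact comm_tm h1 h t u
  all_goals exact mul_inv_eq_iff_eq_mul.1 (by simp [conj_tm1 h2 h1 h, CharTwo.two_eq_zero])

theorem wev1 (v : ℕ → K) (a : Φ D) (P : Poly) : wev S.x v [(a, P)] = S.x a (peval v P) := by simp [wev]

theorem wev_cons' (v : ℕ → K) (a : Φ D) (P : Poly) (w : Word) : wev S.x v ((a, P) :: w) = S.x a (peval v P) * wev S.x v w := by
  simp [wev]

namespace UB
variable (H : S.UB θ β M)
include H

theorem comm_wev {v : ℕ → K} {w : Word} (h : wev S.x v w ∈ S.Nm M) (r : Φ D) :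
    wev S.x v ([((r : ℕ), [(1, [])])] ++ w ++ Cert.winv [((r : ℕ), [(1, [])])] ++ Cert.winv w) ∈ M := by
  simp only [wev_append, S.rel12.wev_winv]
  simpa [wev, peval, meval] using H.comm_mem h r

theorem zconj (i : I D) {a b : Φ D} {u s : K} (h : S.x a u * S.x b s ∈ M) :
    S.x (R.ref i a) (R.sg i a * u) * S.x (R.ref i b) (R.sg i b * s) ∈ M := by
  have := M.mul_mem (M.mul_mem (H.n_mem i) h) (M.inv_mem (H.n_mem i))
  rw [← conj_mul, StN.n, S.nrel, S.nrel] at this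
  simpa using this

theorem hQ_list (hσ : ∀ r t, σ (S.x r t) = S.x r (φ t)) (hF : ∀ t, φ t = t ↔ S.x θ t ∈ M) {l : List ℕ}
    (hl : (l ++ [(θ : ℕ)]).Nodup ∧ (∀ r ∈ l, r < D.nroots) ∧ ∀ r : Φ D, (r : ℕ) ∈ l → 0 < R.pr θ r)
    (hG : ∀ r, R.pr θ r = 1 → (r : ℕ) ∉ l → ∃ n : ℤ, (n : K) ≠ 0 ∧ R.Gd θ r n) (ht : ∀ s, S.x θ s ∈ S.Nm M → S.x θ s ∈ M)
    (h : ∀ v, wev S.x v (gw (l ++ [(θ : ℕ)])) ∈ S.Nm M → ∀ i < l.length, φ (v i) = v i) :
    ∀ v ∈ S.UJ (R.JJ θ), v ∈ S.Nm M → σ v = v := by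
  have hZ : ∀ r ∈ {r : Φ D | (r : ℕ) ∈ l ++ [(θ : ℕ)]}, 0 < R.pr θ r := fun r hr =>
    (List.mem_append.1 hr).elim (hl.2.2 r) fun e => by simp [Fin.ext (List.mem_singleton.1 e), pr_self]
  refine H.hQ_of hσ hF hZ (by simp) (fun r h1 h2 => hG r h1 fun e => h2 (by simp [e])) fun c hc hc' => ?_
  obtain ⟨v, rfl⟩ := exists_gw (L := R.lamf) (H.hi.closed hZ (.inl (by simp))) (fun r hr => H.hi.dom'.pos (hZ r hr)) hl.1
    (by simpa [or_imp, forall_and] using hl.2.1) (fun _ => Iff.rfl) hc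
  have h1 := h v hc'
  have h2 : wev S.x v (gw l) ∈ M := list_prod_mem fun g hg => by
    simp only [gw, List.map_map, List.mem_map, Function.comp] at hg
    obtain ⟨b, hb, rfl⟩ := hg
    rw [xN, peval_pX]
    split_ifs
    exacts [H.x_mem' hF _ (h1 _ (by simpa using (List.mem_zipIdx' hb).1)), one_mem _]
  have h3 : wev S.x v (gw (l ++ [(θ : ℕ)])) = wev S.x v (gw l) * S.x θ (v l.length) := by simp [gw, wev, List.zipIdx_append]
  rw [h3] at hc' ⊢
  rw [map_mul, hσ, (hF _).2 (ht _ (by simpa using Nm_mul (inv_mem h2) hc')), wev_eq, σ_gw hσ h1]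

end UB
end StN

section
variable {K G : Type*} [Field K] [Group G] {φ : K →+* K} {M : Subgroup G}

theorem badF4 [CharP K 2] {S : StN rsF4 K G} (H : S.UB ⟨47, by decide⟩ (3 : Fin 4) M) (hF : ∀ t, φ t = t ↔ S.x ⟨47, by decide⟩ t ∈ M)
    (v : ℕ → K) (h : wev S.x v (gw [29, 36, 38, 39, 40, 44, 47]) ∈ S.Nm M) : ∀ i < 6, φ (v i) = v i := by
  have key : ∀ (i : ℕ) (γ δ r : Φ chevF4), (rsF4.pr ⟨47, by decide⟩ r = 1 ∧ rsF4.Gd ⟨47, by decide⟩ r 1 ∧
      (fun w => rsF4.toCert.collEq 2 48 id 100 ([((δ : ℕ), [(1, [])])] ++ w ++ Cert.winv [((δ : ℕ), [(1, [])])] ++ Cert.winv w)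
        [(r, ppow (pX i) 2)]) ([((γ : ℕ), [(1, [])])] ++ gw [29, 36, 38, 39, 40, 44, 47] ++ Cert.winv [((γ : ℕ), [(1, [])])] ++
          Cert.winv (gw [29, 36, 38, 39, 40, 44, 47])) = true) → φ (v i) = v i := fun i γ δ r hr => by
    have := H.comm_wev (H.Nm_of (H.comm_wev h γ)) δ
    rw [S.rel12.collEq_sound (CharP.cast_eq_zero K 2) v hr.2.2, wev_cons, wev_nil, xN_val, peval_ppow, peval_pX] at this
    exact fix_of_pow 2 ((hF _).2 (by simpa using H.good hr.1 hr.2.1 (one_mem _) (H.Nm_of this)))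
  intro i hi
  interval_cases i
  exacts [key 0 ⟨41, by decide⟩ ⟨15, by decide⟩ ⟨42, by decide⟩ (by decide +kernel),
    key 1 ⟨30, by decide⟩ ⟨4, by decide⟩ ⟨31, by decide⟩ (by decide +kernel),
    key 2 ⟨25, by decide⟩ ⟨2, by decide⟩ ⟨26, by decide⟩ (by decide +kernel),
    key 3 ⟨22, by decide⟩ ⟨1, by decide⟩ ⟨24, by decide⟩ (by decide +kernel),
    key 4 ⟨17, by decide⟩ ⟨1, by decide⟩ ⟨24, by decide⟩ (by decide +kernel),
    key 5 ⟨6, by decide⟩ ⟨1, by decide⟩ ⟨24, by decide⟩ (by decide +kernel)]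

theorem badG2 [CharP K 3] {S : StN rsG2 K G} (H : S.UB ⟨11, by decide⟩ (1 : Fin 2) M) (hF : ∀ t, φ t = t ↔ S.x ⟨11, by decide⟩ t ∈ M)
    (v : ℕ → K) (h : wev S.x v (gw [8, 9, 11]) ∈ S.Nm M) : ∀ i < 2, φ (v i) = v i := by
  have three : ((3 : ℕ) : K) = 0 := CharP.cast_eq_zero K 3
  have k1 : ∀ t, S.x ⟨8, by decide⟩ t ∈ M → φ t = t := fun t ht => by
    have h1 := H.comm_wev (v := fun _ => t) (w := [(7, pX 0)]) (H.Nm_of (by
      simpa [wev, xN_of_lt _ (by decide : 7 < chevG2.nroots)] using (show rsG2.ref (1 : Fin 2) ⟨8, by decide⟩ = ⟨7, by decide⟩ by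
        decide +kernel) ▸ H.x_ref (1 : Fin 2) ht)) ⟨6, by decide⟩
    rw [← wev_colK _ [10], ← List.take_append_drop 1 (Cert.colK _ _ _ _), wev_append,
      wev_of_wbeq Nat.cast_zero _ (w' := [((⟨10, by decide⟩ : Φ chevG2), [(-1, [3])])]) (by decide +kernel), wev1] at h1
    have := (hF _).2 (H.good (n := 1) (by decide +kernel) (by decide +kernel) (wev_mem (by decide +kernel)) (H.Nm_of h1))
    exact fix_of_pow 3 (by simpa [peval, meval] using this)
  intro i hi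
  interval_cases i
  · have := H.comm_wev h ⟨7, by decide⟩
    rw [S.rel12.collEq_sound three v (w' := [((⟨9, by decide⟩ : Φ chevG2), pX 0)]) (key := id) (k := 100) (by decide +kernel), wev1,
      peval_pX] at this
    exact k1 _ ((show rsG2.ref (0 : Fin 2) ⟨9, by decide⟩ = ⟨8, by decide⟩ by decide +kernel) ▸ H.x_ref (0 : Fin 2) this)
  · have := H.comm_wev h ⟨4, by decide⟩
    rw [S.rel12.collEq_sound three v (w' := [((⟨8, by decide⟩ : Φ chevG2), pX 1)]) (key := id) (k := 100) (by decide +kernel), wev1,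
      peval_pX] at this
    exact k1 _ this

end

section B2
variable {K G : Type*} [Field K] [Group G] {φ : K →+* K} {σ : G →* G} {M : Subgroup G} [Finite M] {S : StN rsB2 K G}

/-- roots of `B₂` -/
abbrev rB (n : Fin 8) : Φ chevB2 := n

theorem refB2 : rsB2.ref (0 : Fin 2) (rB 4) = rB 7 ∧ rsB2.ref (0 : Fin 2) (rB 7) = rB 4 ∧ rsB2.ref (0 : Fin 2) (rB 6) = rB 6 ∧
    rsB2.ref (1 : Fin 2) (rB 5) = rB 6 ∧ rsB2.ref (1 : Fin 2) (rB 6) = rB 5 ∧ rsB2.ref (1 : Fin 2) (rB 7) = rB 7 := by decide +kernel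

omit [Finite M] in
theorem wev2 (v : ℕ → K) (a b : Φ chevB2) (P Q : Poly) : wev S.x v [(a, P), (b, Q)] = S.x a (peval v P) * S.x b (peval v Q) := by
  simp [wev]

variable (H : S.UB (rB 7) (0 : Fin 2) M)
include H

theorem keyB2' [CharP K 2] : (∀ u s, S.x (rB 6) u * S.x (rB 7) s ∈ M → S.x (rB 7) u ∈ M) ∧
    ∀ s t, S.x (rB 7) s ∈ M → S.x (rB 7) t ∈ M → S.x (rB 7) (s * t) ∈ M := by
  have hs : ∀ i r, (rsB2.sg i r : K) = 1 := fun i r => by rcases rsB2.sg_cases i r with h | h <;> simp [h, CharTwo.neg_eq]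
  have hc : ∀ u s, Commute (S.x (rB 6) u) (S.x (rB 7) s) := comm_tm (by decide +kernel) (by decide +kernel)
  let Z : K → K → Prop := fun u s => S.x (rB 6) u * S.x (rB 7) s ∈ M
  have z1 : Z 1 0 := by simpa [Z] using H.one _
  have z2 : Z 0 1 := by simpa [Z] using H.one _
  have za : ∀ {u s u' s'}, Z u s → Z u' s' → Z (u + u') (s + s') := fun {u s u' s'} h h' => by
    simpa only [Z, ← S.r1, (hc u' s).mul_mul_mul_comm] using mul_mem h h'
  have zm : ∀ {u s u' s'}, Z u s' → Z u' s → Z (u * s) (u ^ 2 * s) := fun {u s u' s'} h h' => by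
    have h1 := H.zconj (1 : Fin 2) h
    have h2 := H.zconj (0 : Fin 2) h'
    simp only [refB2, hs (0 : Fin 2), hs (1 : Fin 2), one_mul] at h1 h2
    have := S.rel12.collEq_sound (CharP.cast_eq_zero K 2) (fun i => ([u, s, u', s'] : List K).getD i 0) (key := id) (k := 100)
      (w := ([(rB 5, pX 0), (rB 7, pX 3)] : Word) ++ ([(rB 6, pX 2), (rB 4, pX 1)] : Word) ++ Cert.winv [(rB 5, pX 0), (rB 7, pX 3)] ++
        Cert.winv [(rB 6, pX 2), (rB 4, pX 1)]) (w' := [(rB 6, [(1, [1, 1])]), (rB 7, [(1, [2, 1])])]) (by decide +kernel)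
    simp only [wev_append, S.rel12.wev_winv, wev2, peval_pX] at this
    simpa [Z, peval, meval, mul_comm] using (congrArg (· ∈ M) this).mp (mul_mem (mul_mem (mul_mem h1 h2) (inv_mem h1)) (inv_mem h2))
  have hA : {u | ∃ s, Z u s}.Finite := ((Set.toFinite (M : Set G)).preimage (f := fun p : K × K => S.x (rB 6) p.1 * S.x (rB 7) p.2)
    fun a _ b _ e => by
      have := WN_inj_pos (S := S) (l := [6, 7]) (by decide) (w := [(rB 6, a.1), (rB 7, a.2)]) (w' := [(rB 6, b.1), (rB 7, b.2)]) rfl rfl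
        (by simpa only [WN, List.map_cons, List.map_nil, List.prod_cons, List.prod_nil, xN_val, mul_one] using e)
      simp only [List.cons.injEq, Prod.mk.injEq, true_and, and_true] at this
      exact Prod.ext this.1 this.2).image Prod.fst |>.subset fun u ⟨s, h⟩ => ⟨(u, s), h, rfl⟩
  have zd : ∀ {u s}, Z u s → Z s s := fun h => by simpa using zm z1 h
  have zs : ∀ {u s}, Z u s → Z u (u ^ 2) := fun h => by simpa using zm h z2
  have zb : ∀ {u s}, Z u s → Z u u := fun {u s} h => by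
    obtain ⟨b, ⟨_, hb⟩, rfl⟩ := surj_of_fin hA (frobenius_inj K 2) (fun a ⟨_, ha⟩ => ⟨_, zd (zs ha)⟩) u ⟨s, h⟩
    exact zd (zs hb)
  have key : ∀ u s, Z u s → S.x (rB 7) u ∈ M := fun u s h => by
    by_cases h0 : u * (u + 1) = 0
    · rcases mul_eq_zero.1 h0 with rfl | e
      exacts [by simp, by rw [show u = 1 by rw [eq_neg_of_add_eq_zero_left e, CharTwo.neg_eq]]; exact H.one _]
    have h1 : ∀ a, (∃ s, Z a s) → Z 0 (u * (u + 1) * a) := fun a ⟨_, ha⟩ => by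
      convert za (zm h (zb ha)) (zb (zm h (zb ha))) using 1
      exacts [(CharTwo.add_self_eq_zero _).symm, by ring]
    obtain ⟨b, hb, e⟩ := surj_of_fin hA (mul_right_injective₀ h0) (fun a ha => ⟨_, zd (h1 a ha)⟩) u ⟨s, h⟩
    simpa [Z, show u * (u + 1) * b = u from e] using h1 b hb
  exact ⟨key, fun s t hs ht => key _ _ (zm (zd (u := 0) (by simpa [Z] using hs)) (u' := 0) (by simpa [Z] using ht))⟩

theorem keyB2 : (∀ u s, S.x (rB 6) u * S.x (rB 7) s ∈ M → S.x (rB 7) u ∈ M) ∧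
    ∀ s t, S.x (rB 7) s ∈ M → S.x (rB 7) t ∈ M → S.x (rB 7) (s * t) ∈ M := by
  by_cases h2 : (2 : K) = 0
  · haveI := CharTwo.of_one_ne_zero_of_two_eq_zero one_ne_zero h2
    exact keyB2' H
  have hg : ∀ {r t c}, rsB2.pr (rB 7) r = 1 ∧ rsB2.Gd (rB 7) r 2 → c ∈ S.U {s | 0 < rsB2.pr (rB 7) s ∧ s ≠ r} → S.x r t * c ∈ M →
      S.x (rB 7) t ∈ M := fun h hc hm => half h2 (by simpa using H.good h.1 h.2 hc (H.Nm_of hm))
  refine ⟨fun u s h => hg (by decide +kernel) (x_mem (by decide +kernel) _) h, fun s t hs ht => half h2 ?_⟩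
  have k : ∀ s, S.x (rB 7) s ∈ M → S.x (rB 6) s ∈ M := fun s hs => by
    have := H.comm_wev (v := fun _ => s) (w := [(rB 4, pX 0)]) (H.Nm_of (by
      simpa only [wev1, peval_pX, refB2] using H.x_ref (0 : Fin 2) hs)) (rB 5)
    rw [S.rel12.collEq_sound Nat.cast_zero _ (w' := [(rB 6, [(-1, [1])]), (rB 7, [(-1, [1])])]) (key := id) (k := 100)
      (by decide +kernel), wev2, mul_mem_cancel_right (by simpa [peval, meval, x_neg_mem] using hs)] at this
    simpa [peval, meval, x_neg_mem] using this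
  have h1 := refB2.2.2.2.2.1 ▸ H.x_ref (1 : Fin 2) (k s hs)
  have h3 := mul_mem (mul_mem h1 (k t ht)) (inv_mem h1)
  rw [conj_tm1 (v := rB 7) (e := 2) (by decide) (by decide +kernel) (by decide +kernel), mul_mem_cancel_left (k t ht)] at h3
  simpa [mul_assoc] using h3

theorem topB2 (s : K) (h : S.x (rB 7) s ∈ S.Nm M) : S.x (rB 7) s ∈ M := by
  have := H.comm_wev (v := fun _ => s) (w := [(rB 7, pX 0)]) (by simpa only [wev1, peval_pX] using h) (rB 2)
  rw [S.rel12.collEq_sound Nat.cast_zero _ (w' := [(rB 6, [(1, [1])]), (rB 4, [(-1, [1])])]) (key := id) (k := 100)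
    (by decide +kernel), wev2] at this
  have h1 := H.zconj (0 : Fin 2) this
  rw [refB2.1, refB2.2.2.1] at h1
  rcases rsB2.sg_cases (0 : Fin 2) (rB 6) with e | e <;> simpa [e, peval, meval, x_neg_mem] using (keyB2 H).1 _ _ h1

theorem badB2 [CharP K 2] (hF : ∀ t, φ t = t ↔ S.x (rB 7) t ∈ M) (v : ℕ → K) (h : wev S.x v (gw [5, 6, 7]) ∈ S.Nm M) :
    ∀ i < 2, φ (v i) = v i := fun i hi => by
  have two := CharP.cast_eq_zero K 2
  interval_cases i
  · have := H.comm_wev h (rB 4)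
    rw [S.rel12.collEq_sound two _ (w' := [(rB 6, pX 0), (rB 7, [(1, [2])])]) (key := id) (k := 100) (by decide +kernel), wev2] at this
    exact (hF _).2 (by simpa using (keyB2 H).1 _ _ this)
  · have := H.comm_wev h (rB 3)
    rw [S.rel12.collEq_sound two _ (w' := [(rB 5, pX 1), (rB 7, [(1, [0, 2])])]) (key := id) (k := 100) (by decide +kernel), wev2] at this
    have h1 := H.zconj (1 : Fin 2) this
    rw [refB2.2.2.2.1, refB2.2.2.2.2.2] at h1
    rcases rsB2.sg_cases (1 : Fin 2) (rB 5) with e | e <;> exact (hF _).2 (by simpa [e, x_neg_mem] using (keyB2 H).1 _ _ h1)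

theorem finB2 [CharP K 2] (hF : ∀ t, φ t = t → t = 0 ∨ t = 1) (B : S.Bg (rB 7) (0 : Fin 2) φ σ M) : ∀ m ∈ M, σ m = m :=
  fun m hm => by_contra fun hn => by
  obtain ⟨τ, u, h⟩ := B.exists_bd hm hn
  have hτ : φ τ ≠ τ := fun e => hn (B.fix_of_bd hm h e)
  have h6 : ∀ g ∈ S.U {r | rsB2.Pos r ∨ r = rB 2}, ∀ t, g * S.x (rB 6) t * g⁻¹ = S.x (rB 6) t := fun g hg t =>
    comm_U (fun r hr s => comm_tm2 (by revert r; simp only [Set.mem_setOf_eq, pos_iff_le]; decide +kernel) s t) hg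
  obtain ⟨a, b, ha, v, hv, hy⟩ := B.exists_torus' H.inj (T := {s | s ∈ [rB 4, rB 6, rB 2]})
    (by simp only [Set.mem_setOf_eq, pos_iff_le]; decide +kernel) (fun r hr s hs t a => by
      have : ∀ r ∈ [rB 7, rsB2.neg (rB 7)], ∀ s ∈ [rB 4, rB 6, rB 2], s ≠ r ∧ s ≠ rsB2.neg r ∧
        ∀ c ∈ rsB2.tm r s, c.1 ∈ [rB 4, rB 6, rB 2] := by decide +kernel
      exact conj_tm (this r hr s hs).1 (this r hr s hs).2.1 hs (this r hr s hs).2.2 t a) hm h one_ne_zero (b₂ := τ ^ 2)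
    (fun e => hτ (by simp [pow_eq_zero_iff two_ne_zero |>.1 e])) (fun e => hτ (fix_of_pow 2 (by rw [← e, map_one])))
    ⟨1, one_mem _, by rw [mul_one, comm_θ H.hi (fun _ => H.hi.dom'.nonneg) h.mem]; exact H.one _⟩
    ⟨S.x (rB 4) 1 * S.x (rB 6) τ, mul_mem (x_mem (by simp) _) (x_mem (by simp) _), by
      obtain ⟨u₁, h1, rfl, -⟩ := h
      have h2 : ∀ r ∈ [rB 4, rB 6, rB 7], ∀ t, u₁ * S.x r t * u₁⁻¹ = S.x r t := fun r hr t => comm_U (fun s hs a => by
        have : ∀ r ∈ [rB 4, rB 6, rB 7], ∀ s : Φ chevB2, chevB2.nroots ≤ 2 * s → s ≠ rsB2.sim (0 : Fin 2) →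
          r ≠ rsB2.neg s ∧ rsB2.tm s r = [] := by decide +kernel
        exact (this r hr s ((rsB2.pos_iff_le s).1 hs.1) hs.2).elim fun h h' => comm_tm h h' a t) h1
      have := S.rel12.collEq_sound (CharP.cast_eq_zero K 2) (fun _ => τ) (key := id) (k := 100)
        (w := ([(rB 5, pX 0), (rB 7, [(1, [2])]), (rB 4, [(1, [])]), (rB 6, pX 0)] : Word) ++ Cert.winv [(rB 5, pX 0)])
        (w' := [(rB 4, [(1, [])])]) (by decide +kernel)
      simp only [wev_append, S.rel12.wev_winv, wev_cons', wev_nil, peval_pX, peval_cons, peval_nil, meval, mul_one, add_zero,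
        Int.cast_one, one_mul, mul_assoc] at this
      rw [show ∀ a b c d e : G, a * b * (c * (d * e)) * (a * b)⁻¹ = a * (b * c * b⁻¹ * (b * d * b⁻¹ * (b * e * b⁻¹))) * a⁻¹ by
        intros; group, h2 _ (by simp), h2 _ (by simp), h2 _ (by simp), show rsB2.sim (0 : Fin 2) = rB 5 by decide +kernel]
      simpa only [mul_assoc, this] using H.one (rB 4)⟩
  have hu := U_mono (T' := {r | rsB2.Pos r ∨ r = rB 2}) (fun _ h => Or.inl h) h.mem
  have h1 := mul_mem (mul_mem hy (H.one (rB 6))) (inv_mem hy)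
  rw [show ∀ u x h v z : G, u * (x * h * v) * u⁻¹ * z * (u * (x * h * v) * u⁻¹)⁻¹ =
      u * (x * (h * (v * (u⁻¹ * z * u⁻¹⁻¹) * v⁻¹) * h⁻¹) * x⁻¹) * u⁻¹ by intros; group, h6 _ (inv_mem hu),
    h6 _ (U_mono (by simp only [Set.setOf_subset_setOf, pos_iff_le]; decide +kernel) hv), (diag_hr _ a).2, cv'_chi, prf_vec,
    show rsB2.pr (rB 7) (rB 6) = 1 by decide +kernel, zpow_one, mul_one, h6 _ (x_mem (.inl H.hi.pos) _), h6 _ hu] at h1
  have h2 := B.F1 _ h1 (x_mem_P H.hi (by decide +kernel) _)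
  rw [B.hσ] at h2
  exact (hF _ (x_inj (congrArg S.π h2))).elim a.ne_zero ha

end B2

end Cfsg.Agent.H5
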