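import Cfsg.Agent.H5.Bg10
import Cfsg.Agent.H5.Bg11

/-! Finite overgroups of subfield subgroups of Chevalley groups. -/

set_option autoImplicit false
set_option maxRecDepth 100000

namespace Cfsg.Agent.H5

open Cfsg.Lie StG StN RS StN.Tw

variable {D : ChevalleyDatum} {K : Type*} [Field K]

variable (D K) in
/-- structure of finite overgroups of the prime field points -/
def Ov : Prop := ∃ (R : RS D) (θ : Φ D), ∀ M : Subgroup (D.group K), Finite M → (∀ r, (R.adj K).x r 1 ∈ M) →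
  (∀ s t, (R.adj K).x θ s ∈ M → (R.adj K).x θ t ∈ M → (R.adj K).x θ (s * t) ∈ M) ∧
  ∀ φ : K →+* K, (∀ t, φ t = t ↔ (R.adj K).x θ t ∈ M) → (∀ r t, φ t = t → (R.adj K).x r t ∈ M) ∧ ∀ m ∈ M, bc D φ m = m

theorem ov_of {R : RS D} {θ r₀ : Φ D} {β : I D} (hi : R.Hi θ β) (hL : R.Ln θ β r₀)
    (h : (∀ s, (∀ i, 0 ≤ R.car i s) → 0 < R.pr θ s) ∧ R.ref β θ = r₀ ∧ R.vec r₀ - R.vec θ = -R.vec (R.sim β))
    (hb : ∀ (M : Subgroup (D.group K)) (φ : K →+* K), (R.adj K).UB θ β M → (∀ t, φ t = t ↔ (R.adj K).x θ t ∈ M) → ∃ l : List ℕ,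
      ((l ++ [(θ : ℕ)]).Nodup ∧ (∀ r ∈ l, r < D.nroots) ∧ ∀ r : Φ D, (r : ℕ) ∈ l → 0 < R.pr θ r) ∧
      (∀ r, R.pr θ r = 1 → (r : ℕ) ∉ l → ∃ n : ℤ, (n : K) ≠ 0 ∧ R.Gd θ r n) ∧
      ∀ v, wev (R.adj K).x v (gw (l ++ [(θ : ℕ)])) ∈ (R.adj K).Nm M → ∀ i < l.length, φ (v i) = v i)
    (hf : ∀ (M : Subgroup (D.group K)) (φ : K →+* K) [Finite M] [CharP K 2], (R.adj K).UB θ β M → (∀ t, φ t = t → t = 0 ∨ t = 1) →
      (R.adj K).Bg θ β φ (bc D φ) M → ∀ m ∈ M, bc D φ m = m) : Ov D K :=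
  ⟨R, θ, fun M _ h1 =>
    have H : (R.adj K).UB θ β M := ⟨hi, R.adj_gen K, R.adj_inj K, h1, h.1⟩
    ⟨fun _ _ => H.mul_of_Ln hL h.2, fun φ hF => ⟨fun r _ => H.x_mem' hF r, (hb M φ H hF).elim fun _ hl => H.le_fix (R.bc_x φ) hF
      (H.hQ_list (R.bc_x φ) hF hl.1 hl.2.1 (fun _ => H.top_of_Ln hL h.2) hl.2.2) fun _ => hf M φ H⟩⟩⟩

theorem ov_sl {R : RS D} {θ r₀ : Φ D} {β α : I D} (hi : R.Hi θ β) (hL : R.Ln θ β r₀ ∧ R.Pl θ β α)
    (h : (∀ s, (∀ i, 0 ≤ R.car i s) → 0 < R.pr θ s) ∧ R.ref β θ = r₀ ∧ R.vec r₀ - R.vec θ = -R.vec (R.sim β))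
    (hG : ∀ r, R.pr θ r = 1 → R.Gd θ r 1) : Ov D K :=
  ov_of hi hL.1 h (fun _ _ _ _ => ⟨[], by simp, fun r hr _ => ⟨1, by simp, hG r hr⟩, by simp⟩) fun _ _ _ _ H hF B _ =>
    B.le_fix_of_plane' H.inj hF hL.1 (H.one _) hL.2 (H.one _) (H.n_mem _)

theorem ovD4 : Ov chevD4 K := ov_sl hiD4 lnD4 (by decide +kernel) (by decide +kernel)
theorem ovE6 : Ov chevE6 K := ov_sl hiE6 lnE6 (by decide +kernel) (by decide +kernel)
theorem ovE7 : Ov chevE7 K := ov_sl (R := rsE7) (θ := ⟨125, by decide⟩) (r₀ := ⟨124, by decide⟩) (β := (0 : Fin 7)) (α := (2 : Fin 7))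
  ⟨by decide +kernel, by decide +kernel, fullE7⟩ ⟨@of_decide_eq_true _ (decLn _ _ _ _) (by decide +kernel),
    @of_decide_eq_true _ (decPl _ _ _ _) (by decide +kernel)⟩ (by decide +kernel) (by decide +kernel)
theorem ovE8 : Ov chevE8 K := ov_sl (R := rsE8) (θ := ⟨239, by decide⟩) (r₀ := ⟨238, by decide⟩) (β := (7 : Fin 8)) (α := (6 : Fin 8))
  ⟨by decide +kernel, by decide +kernel, fullE8⟩ ⟨@of_decide_eq_true _ (decLn _ _ _ _) (by decide +kernel),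
    @of_decide_eq_true _ (decPl _ _ _ _) (by decide +kernel)⟩ (by decide +kernel) (by decide +kernel)

theorem ovF4 : Ov chevF4 K := by
  have hL : rsF4.Ln ⟨47, by decide⟩ (3 : Fin 4) ⟨46, by decide⟩ ∧ rsF4.Pl ⟨47, by decide⟩ (3 : Fin 4) (2 : Fin 4) :=
    ⟨@of_decide_eq_true _ (decLn _ _ _ _) (by decide +kernel), @of_decide_eq_true _ (decPl _ _ _ _) (by decide +kernel)⟩
  refine ov_of ⟨by decide +kernel, by decide +kernel, fullF4⟩ hL.1 (by decide +kernel) (fun M φ H hF => ?_) fun _ _ _ _ H hF B _ =>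
    B.le_fix_of_plane' H.inj hF hL.1 (H.one _) hL.2 (H.one _) (H.n_mem _)
  by_cases h2 : (2 : K) = 0
  · haveI := CharTwo.of_one_ne_zero_of_two_eq_zero one_ne_zero h2
    exact ⟨[29, 36, 38, 39, 40, 44], by decide +kernel, fun r hr h => ⟨1, by simp, by revert r; decide +kernel⟩, badF4 H hF⟩
  · refine ⟨[], by simp, fun r hr _ => ?_, by simp⟩
    rcases (by decide +kernel : ∀ r, rsF4.pr ⟨47, by decide⟩ r = 1 → rsF4.Gd ⟨47, by decide⟩ r 1 ∨ rsF4.Gd ⟨47, by decide⟩ r 2) r hr with h | h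
    exacts [⟨1, by simp, h⟩, ⟨2, by simpa, h⟩]

theorem ovG2 : Ov chevG2 K := by
  refine ov_of hiG2 lnG2 (by decide +kernel) (fun M φ H hF => ?_) fun _ _ _ _ H hF B => finG2 B H.inj hF H.one
  by_cases h2 : (3 : K) = 0
  · haveI := (CharP.charP_iff_prime_eq_zero Nat.prime_three).2 (by simpa using h2 : ((3 : ℕ) : K) = 0)
    exact ⟨[8, 9], by decide +kernel, fun r hr h => ⟨1, by simp, by revert r; decide +kernel⟩, badG2 H hF⟩
  · refine ⟨[], by simp, fun r hr _ => ?_, by simp⟩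
    rcases (by decide +kernel : ∀ r, rsG2.pr ⟨11, by decide⟩ r = 1 → rsG2.Gd ⟨11, by decide⟩ r 1 ∨ rsG2.Gd ⟨11, by decide⟩ r 3) r hr with h | h
    exacts [⟨1, by simp, h⟩, ⟨3, by simpa, h⟩]

theorem ovB2 : Ov chevB2 K := ⟨rsB2, rB 7, fun M _ h1 => by
  have H : (rsB2.adj K).UB (rB 7) (0 : Fin 2) M := ⟨⟨by decide +kernel, by decide +kernel, fullB2⟩, rsB2.adj_gen K, rsB2.adj_inj K, h1,
    by decide +kernel⟩
  refine ⟨(keyB2 H).2, fun φ hF => ⟨fun r _ => H.x_mem' hF r, H.le_fix (rsB2.bc_x φ) hF ?_ fun _ => finB2 H⟩⟩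
  by_cases h2 : (2 : K) = 0
  · haveI := CharTwo.of_one_ne_zero_of_two_eq_zero one_ne_zero h2
    exact H.hQ_list (rsB2.bc_x φ) hF (l := [5, 6]) (by decide +kernel) (fun r hr h => ⟨1, by simp, by revert r; decide +kernel⟩)
      (topB2 H) (badB2 H hF)
  · exact H.hQ_list (rsB2.bc_x φ) hF (l := []) (by simp) (fun r hr _ => ⟨2, by simpa, by revert r; decide +kernel⟩) (topB2 H) (by simp)⟩

theorem ov (hD : D ∈ [chevG2, chevB2, chevD4, chevF4, chevE6, chevE7, chevE8]) : Ov D K := by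
  simp only [List.mem_cons, List.not_mem_nil, or_false] at hD
  rcases hD with rfl | rfl | rfl | rfl | rfl | rfl | rfl
  exacts [ovG2, ovB2, ovD4, ovF4, ovE6, ovE7, ovE8]

theorem exists_subfield {R : RS D} {G : Type*} [Group G] {S : StN R K G} {M : Subgroup G} [Finite M] {θ : Φ D} (h1 : S.x θ 1 ∈ M)
    (h : ∀ s t, S.x θ s ∈ M → S.x θ t ∈ M → S.x θ (s * t) ∈ M) : ∃ F : Subfield K, Finite F ∧ ∀ t, t ∈ F ↔ S.x θ t ∈ M :=
  ⟨{ carrier := {t | S.x θ t ∈ M}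
     mul_mem' := h _ _
     one_mem' := h1
     add_mem' := fun ha hb => by rw [Set.mem_setOf_eq, ← S.r1]; exact mul_mem ha hb
     zero_mem' := by simp
     neg_mem' := x_neg_mem.2
     inv_mem' := fun t ht => by
      rcases eq_or_ne t 0 with rfl | h0
      · simp
      obtain ⟨b, hb, e⟩ := surj_of_fin (fin_x (S := S) (M := M) θ) (mul_right_injective₀ h0) (fun a => h t a ht) 1 h1
      exact eq_inv_of_mul_eq_one_right e ▸ hb }, fin_x θ, fun _ => Iff.rfl⟩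

variable (p : ℕ) [Fact p.Prime] [CharP K p] (hD : D ∈ [chevG2, chevB2, chevD4, chevF4, chevE6, chevE7, chevE8]) {a : ℕ} (ha : 1 ≤ a)
include hD ha

theorem max_chev [Fintype K] {r : ℕ} (hr : r.Prime) (hK : Fintype.card K = (p ^ a) ^ r) (M : Subgroup (GL D.Idx K))
    (hM : ∀ g : GL D.Idx K, g ∈ M ↔ g ∈ D.group K ∧
      ∀ i j, ((g : Matrix D.Idx D.Idx K) i j) ^ (p ^ a) = (g : Matrix D.Idx D.Idx K) i j) :
    M ≠ D.group K ∧ ∀ H, M ≤ H → H ≤ D.group K → H = M ∨ H = D.group K := by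
  obtain ⟨R, θ, h⟩ := ov (K := K) hD
  have hφ : ∀ t : K, iterateFrobenius K p a t = t ^ p ^ a := fun _ => rfl
  generalize iterateFrobenius K p a = φ at hφ
  have hq := Nat.one_lt_pow (by omega : a ≠ 0) (Fact.out : p.Prime).one_lt
  refine max_of hφ (Γ := ⊤) (by rw [← MonoidHom.range_eq_map, Subgroup.range_subtype]) hM ?_ fun H _ h4 h5 => ?_
  · obtain ⟨t, ht⟩ := exists_ne_fix hq hr.one_lt hK hφ
    exact ⟨(R.adj K).x θ t, trivial, fun e => ht (x_inj (congrArg _ (R.bc_x φ θ t ▸ e)))⟩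
  have h1 : ∀ r t, φ t = t → (R.adj K).x r t ∈ H := fun r t ht => h4 _ trivial (by rw [R.bc_x, ht])
  obtain ⟨h2, h3⟩ := h H inferInstance fun r => h1 r 1 φ.map_one
  obtain ⟨F, -, hF⟩ := exists_subfield (h1 θ 1 φ.map_one) h2
  let F₀ := φ.eqLocusField (RingHom.id K)
  let A : Subalgebra F₀ K := { F.toSubring.toSubsemiring with algebraMap_mem' := fun t => (hF _).2 (h1 θ _ t.2) }
  have hd : Module.finrank F₀ K = r := Nat.pow_right_injective hq (by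
    beta_reduce
    rw [← hK, ← Nat.card_eq_fintype_card, Module.natCard_eq_pow_finrank (K := F₀), show Nat.card F₀ = _ from (card_fix' hq.le hK hφ).1])
  haveI := Subalgebra.isSimpleOrder_of_finrank_prime F₀ K (hd ▸ hr)
  rcases eq_bot_or_eq_top A with e | e
  · refine (h3 φ fun t => ⟨h1 θ t, fun ht => ?_⟩).2
    obtain ⟨s, rfl⟩ := Algebra.mem_bot.1 (e ▸ (hF t).2 ht : t ∈ (⊥ : Subalgebra F₀ K))
    exact s.2
  · exact (h5 (R.adj_gen K ▸ U_le.2 fun r _ t => (h3 (RingHom.id K) fun t => iff_of_true rfl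
      ((hF t).1 (e ▸ Algebra.mem_top : t ∈ A))).1 r t rfl)).elim

theorem over_chev [IsAlgClosed K] (M : Subgroup (GL D.Idx K)) [Finite M] (hMG : M ≤ D.group K)
    (hLM : Subgroup.closure {g : GL D.Idx K | ∃ (s : ℕ) (t : K), t ^ (p ^ a) = t ∧ (g : Matrix D.Idx D.Idx K) = D.x K s t} ≤ M) :
    ∃ r : ℕ, 1 ≤ r ∧ Subgroup.closure {g : GL D.Idx K | ∃ (s : ℕ) (t : K), t ^ ((p ^ a) ^ r) = t ∧
      (g : Matrix D.Idx D.Idx K) = D.x K s t} ≤ M ∧
      ∀ g ∈ M, ∀ i j : D.Idx, ((g : Matrix D.Idx D.Idx K) i j) ^ ((p ^ a) ^ r) = (g : Matrix D.Idx D.Idx K) i j := by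
  obtain ⟨R, θ, h⟩ := ov (K := K) hD
  haveI : Finite (M.comap (D.group K).subtype) := Finite.of_injective (fun g => (⟨g.1.1, g.2⟩ : M)) fun a b e =>
    Subtype.ext (Subtype.ext (congrArg (fun g : M => g.1) e))
  have h1 : ∀ r t, t ^ p ^ a = t → (R.adj K).x r t ∈ M.comap (D.group K).subtype := fun r t ht =>
    hLM (Subgroup.subset_closure ⟨r, t, ht, ((R.adj K).hπ r t).trans (x_val r t).symm⟩)
  obtain ⟨h2, h3⟩ := h _ inferInstance fun r => h1 r 1 (one_pow _)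
  obtain ⟨F, _, hF⟩ := exists_subfield (h1 θ 1 (one_pow _)) h2
  let F₀ := (iterateFrobenius K p a).eqLocusField (RingHom.id K)
  letI := (Subfield.inclusion (fun t ht => (hF t).2 (h1 θ t ht) : F₀ ≤ F)).toAlgebra
  have hc : Nat.card F = (p ^ a) ^ Module.finrank F₀ F := by
    rw [Module.natCard_eq_pow_finrank (K := F₀), show Nat.card F₀ = _ from card_fixK p ha]
  have hr : 0 < Module.finrank F₀ F := Module.finrank_pos
  generalize Module.finrank F₀ F = r at hc hr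
  have h4 : (F : Set K) = {t | t ^ p ^ (a * r) = t} := by
    have := card_fixK (K := K) p (Nat.mul_pos ha hr)
    refine Set.eq_of_subset_of_ncard_le (fun t ht => ?_) (this.trans ((pow_mul p a r).trans hc.symm)).le
      (Nat.finite_of_card_ne_zero (this.trans_ne (pow_ne_zero _ (Fact.out : p.Prime).ne_zero)))
    haveI := Fintype.ofFinite F
    simpa [pow_mul, ← hc] using congrArg Subtype.val (FiniteField.pow_card (⟨t, ht⟩ : F))
  obtain ⟨h5, h6⟩ := h3 (iterateFrobenius K p (a * r)) fun t => (Set.ext_iff.1 h4 t).symm.trans (hF t)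
  refine ⟨r, hr, (Subgroup.closure_le _).2 ?_, fun g hg i j => ?_⟩
  · rintro g ⟨s, t, ht, e⟩
    rw [ChevalleyDatum.x] at e
    split_ifs at e with hs
    · exact (Units.ext (e.trans ((R.adj K).hπ ⟨s, hs⟩ t).symm) : g = _) ▸ h5 ⟨s, hs⟩ t (by rwa [← pow_mul] at ht)
    · exact (Units.ext e : g = 1) ▸ one_mem M
  · rw [← pow_mul]
    exact congrFun₂ (congrArg (fun g : D.group K => (g : GL D.Idx K).1) (h6 ⟨g, hMG hg⟩ hg)) i j

end Cfsg.Agent.H5
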