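import Cfsg.Agent.H5.Bg1

/-! Overgroups of subfield subgroups: reduction to the parabolic. -/

set_option autoImplicit false

namespace Cfsg.Agent.H5

open Cfsg.Lie StG StN RS StN.Tw
open scoped MatrixGroups

variable {D : ChevalleyDatum}

namespace StN
variable {R : RS D} {K G : Type*} [Field K] [Group G] {S : StN R K G} {θ : Φ D} {β : I D} {φ : K →+* K} {σ : G →* G}
  {M : Subgroup G}

theorem bc_H (hσ : ∀ r t, σ (S.x r t) = S.x r (φ t)) {k : G} (hk : k ∈ S.H) : σ k ∈ S.H :=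
  ((bc_lift hσ (S.H_le_N hk)).2 1 (lift_one_of_mem_H hk)).mem_H (bc_lift hσ (S.H_le_N hk)).1

theorem F1_of (h : R.Hi θ β) (hgen : S.U Set.univ = ⊤) (hπ : Function.Injective S.π) (hσ : ∀ r t, σ (S.x r t) = S.x r (φ t))
    (h1 : S.x θ 1 ∈ M)
    (hx : ∀ r, R.pr θ r = 1 → ∃ x ∈ M ⊓ S.UJ (R.JJ θ), x ∈ S.U {s | R.hs r ≤ R.hs s} ∧ x ∉ S.U {s | R.hs r ≤ R.hs s ∧ s ≠ r})
    {n : G} (hn : n ∈ M ⊓ S.N) (hl : S.Lift n (R.wJ (R.JJ θ))) (hQ : ∀ x ∈ M ⊓ S.UJ (R.JJ θ), σ x = x)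
    {y v l : G} (hy : y ∈ M) (hv : v ∈ S.UJ (R.JJ θ)) (hl' : l ∈ S.H ⊔ S.U (R.Sub (R.JJ θ))) (e : y = v * l) : σ l = l := by
  have hP : l ∈ S.Par (R.JJ θ) := levi_sup (S := S) _ ▸ Subgroup.mem_sup_right hl'
  have hP' : y ∈ S.Par (R.JJ θ) := e ▸ mul_mem (levi_sup (S := S) _ ▸ Subgroup.mem_sup_left hv) hP
  have h2 := cent_Q h hgen hπ h1 hx hn hl (g := y⁻¹ * σ y) fun x hx => by
    have := hQ _ ⟨M.mul_mem (M.mul_mem hy hx.1) (M.inv_mem hy), Par_conj hP' hx.2⟩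
    rw [map_mul, map_mul, map_inv, hQ x hx] at this
    rw [show y⁻¹ * σ y * x * (y⁻¹ * σ y)⁻¹ = y⁻¹ * (σ y * x * (σ y)⁻¹) * y by group, this]; group
  have h3 : σ l ∈ S.H ⊔ S.U (R.Sub (R.JJ θ)) := Subgroup.mem_comap.1 ((sup_le (fun k hk => Subgroup.mem_comap.2
    (Subgroup.mem_sup_left (bc_H hσ hk))) (fun k hk => Subgroup.mem_comap.2 (Subgroup.mem_sup_right (bc_U hσ hk))) :
      _ ≤ Subgroup.comap σ _) hl')
  have h4 := levi_inf _ (mul_mem (inv_mem (Par_conj (inv_mem hP) (mul_mem (inv_mem hv) (bc_U hσ hv)))) h2)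
    (mul_mem (inv_mem hl') h3) (by rw [e, map_mul σ]; congr 1; group)
  rw [e, map_mul] at h4
  rw [eq_comm, ← inv_mul_eq_one, ← h4]; group

variable (S θ β φ σ M) in
/-- hypotheses on an overgroup of the rational points -/
structure Bg : Prop where
  hi : R.Hi θ β
  gen : S.U Set.univ = ⊤
  hσ : ∀ r t, σ (S.x r t) = S.x r (φ t)
  F1 : ∀ y ∈ M, y ∈ S.Par (R.JJ θ) → σ y = y
  hR : ∀ m ∈ M, m⁻¹ * σ m ∈ S.Par (R.JJ θ) → ∃ g ∈ M, σ g = g ∧ g⁻¹ * m ∈ S.Par (R.JJ θ)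
  x1 : S.x θ 1 ∈ M
  xβ : ∀ t, φ t = t → S.x (R.sim β) t ∈ M
  nβ : S.n β 1 ∈ M

variable (S θ β) in
/-- big cell decomposition -/
def Bd (m : G) (τ : K) (u : G) : Prop := ∃ u₁ ∈ S.U {r | R.Pos r ∧ r ≠ R.sim β}, u = S.x (R.sim β) τ * u₁ ∧
  ∃ n ∈ S.N, ∃ w, S.Lift n w ∧ w • θ = R.neg θ ∧ ∃ p ∈ S.Par (R.JJ θ), m = u * n * p

theorem Bd.mem {m u : G} {τ : K} (h : S.Bd θ β m τ u) : u ∈ S.U {r | R.Pos r} := by
  obtain ⟨u₁, h1, rfl, -⟩ := h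
  exact mul_mem (x_mem (R.pos_sim β) _) (U_mono (fun _ h => h.1) h1)

theorem sl_up {A : SL(2, K)} (h : A 1 0 = 0) : ∃ (a : Kˣ) (b : K), A 0 0 = a ∧
    A = slU b * (slU (a : K) * slL (-(a : K)⁻¹) * slU (a : K) * (slU (-1) * slL (-(-1)⁻¹) * slU (-1))) := by
  have h1 := sl_det A
  rw [h, mul_zero, sub_zero] at h1
  have h2 : A 0 0 ≠ 0 := left_ne_zero_of_mul_eq_one h1
  refine ⟨Units.mk0 _ h2, A 0 1 * A 0 0, rfl, sl_ext ?_ ?_ ?_ ?_⟩ <;> simp only [smul2] <;> simp [slU, slL, h, h2]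
  exact eq_inv_of_mul_eq_one_right h1

namespace Bg
variable (H : S.Bg θ β φ σ M)
include H

theorem fix_of {m : G} (hm : m ∈ M) {c : K} (hc : c ≠ 0) (h : σ (m * S.x θ c * m⁻¹) = m * S.x θ c * m⁻¹) : σ m = m := by
  rw [map_mul, map_mul, map_inv, H.hσ] at h
  obtain ⟨g, h1, h2, h3⟩ := H.hR m hm (mem_P_of H.hi H.gen ((map_ne_zero φ).2 hc) (by
    rw [show m⁻¹ * σ m * S.x θ (φ c) * (m⁻¹ * σ m)⁻¹ = m⁻¹ * (σ m * S.x θ (φ c) * (σ m)⁻¹) * m by group, h]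
    simpa [mul_assoc] using x_mem1 θ c))
  have := H.F1 _ (mul_mem (inv_mem h1) hm) h3
  rwa [map_mul, map_inv, h2, mul_right_inj] at this

theorem exists_z {p n p' : G} (hp' : p' ∈ S.Par (R.JJ θ)) {w : R.W} (hl : S.Lift n w) :
    ∃ t ≠ 0, p * n * p' * S.x θ 1 * (p * n * p')⁻¹ = p * S.x (w • θ) t * p⁻¹ := by
  obtain ⟨s, hs, e⟩ := P_conj' H.hi hp' one_ne_zero
  obtain ⟨γ, -, h1, -⟩ := hl
  exact ⟨γ θ * s, mul_ne_zero (γ θ).ne_zero hs, by rw [← h1, ← e]; group⟩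

theorem fix_of_ne {p n p' : G} (hm : p * n * p' ∈ M) (hp : p ∈ S.Par (R.JJ θ)) (hp' : p' ∈ S.Par (R.JJ θ)) {w : R.W}
    (hl : S.Lift n w) (hw : w • θ ≠ R.neg θ) : σ (p * n * p') = p * n * p' := by
  obtain ⟨t, -, e⟩ := H.exists_z (p := p) hp' hl
  have hz := M.mul_mem (M.mul_mem hm H.x1) (M.inv_mem hm)
  refine H.fix_of hm one_ne_zero ?_
  rw [e] at hz ⊢
  rcases le_or_gt 0 (R.pr θ (w • θ)) with h | h
  · exact H.F1 _ hz (mul_mem (mul_mem hp (x_mem_P H.hi h t)) (inv_mem hp))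
  refine H.fix_of hz one_ne_zero (H.F1 _ (M.mul_mem (M.mul_mem hz H.x1) (M.inv_mem hz)) ?_)
  obtain ⟨s, -, e⟩ := P_conj' H.hi (inv_mem hp) one_ne_zero
  rw [show p * S.x (w • θ) t * p⁻¹ * S.x θ 1 * (p * S.x (w • θ) t * p⁻¹)⁻¹ =
    p * (S.x (w • θ) t * (p⁻¹ * S.x θ 1 * p⁻¹⁻¹) * (S.x (w • θ) t)⁻¹) * p⁻¹ by group, e]
  have h0 : θ ≠ R.neg (w • θ) := fun e => hw (R.neg_eq_iff.1 e.symm)
  refine mul_mem (mul_mem hp (U_le_P H.hi (T := {r | 0 ≤ R.pr θ r}) (fun _ h => h) (conj_tm (fun e => ?_) h0 ?_ (fun c hc => ?_) t s)))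
    (inv_mem hp)
  · rw [← e, pr_self] at h; omega
  · simp [pr_self]
  obtain ⟨i, j, hi, hj, e⟩ := R.comb_of_tm hc
  have h1 := (lin_pr' θ).two' e
  have h2 := (lin_pr' (w • θ)).two' e
  have h3 := H.hi.le (w⁻¹ • c.1)
  have h4 := H.hi.ge (r := w⁻¹ • θ) fun e => h0 (by rw [← smul_neg, ← e, smul_inv_smul])
  have h5 := H.hi.ge hw
  rw [← pr_smul w, smul_inv_smul] at h3 h4
  simp only [pr_self] at h1 h2
  zify at hi hj
  rw [Set.mem_setOf_eq, h1, show R.pr θ (w • θ) = -1 by omega]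
  nlinarith

theorem exists_bd {m : G} (hm : m ∈ M) (h : σ m ≠ m) : ∃ τ u, S.Bd θ β m τ u := by
  obtain ⟨b, hb, n, hn, b', hb', rfl⟩ := StN.bruhat (H.gen ▸ Subgroup.mem_top m)
  obtain ⟨w, hw⟩ := StN.exists_lift hn
  have h1 : w • θ = R.neg θ := by_contra fun e => h (H.fix_of_ne hm (B_le_Par _ hb) (B_le_Par _ hb') hw e)
  obtain ⟨u, hu, k, hk, rfl⟩ := mem_B.1 hb
  obtain ⟨t, c, hc, e⟩ := split_sim β hu
  exact ⟨t, u, c, hc, e, k * n, mul_mem (S.H_le_N hk) hn, w, by simpa using (lift_one_of_mem_H hk).mul hw, h1, b', B_le_Par _ hb',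
    by group⟩

theorem fix_of_bd {m u : G} {τ : K} (hm : m ∈ M) (h : S.Bd θ β m τ u) (hτ : φ τ = τ) : σ m = m := by
  obtain ⟨u₁, h1, rfl, n, hn, w, hl, hw, p, hp, rfl⟩ := h
  have h2 := H.fix_of_ne (p := S.n β 1 * u₁ * (S.n β 1)⁻¹) (n := S.n β 1 * n) (p' := p) (by
      simpa [mul_assoc] using M.mul_mem H.nβ (M.mul_mem (M.inv_mem (H.xβ τ hτ)) hm))
    (B_le_Par _ (S.U_le_B ((lift_n β 1).conj_mem (fun r hr => R.pos_ref hr.1 hr.2) h1))) hp ((lift_n β 1).mul hl) fun e => by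
      rw [mul_smul, hw, smul_neg, R.neg_inj.eq_iff] at e
      have := pr_smul (R.sw β) θ (R.sim β)
      rw [e, sw_smul, ref_sim_self, pr_neg_right, H.hi.β_one] at this
      omega
  have h3 : σ (S.n β 1) = S.n β 1 := by simp [StN.n, bc_nr H.hσ]
  simp only [mul_assoc, inv_mul_cancel_left, map_mul σ (S.n β 1), h3, mul_right_inj] at h2
  rw [mul_assoc, mul_assoc, map_mul, H.hσ, hτ, h2]

theorem z_mem {m u : G} {τ : K} (hm : m ∈ M) (h : S.Bd θ β m τ u) : ∃ t ≠ 0, u * S.x (R.neg θ) t * u⁻¹ ∈ M := by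
  obtain ⟨u₁, h1, -, n, hn, w, hl, hw, p, hp, rfl⟩ := h
  obtain ⟨t, ht, e⟩ := H.exists_z (p := u) hp hl
  exact ⟨t, ht, by rw [← hw, ← e]; exact M.mul_mem (M.mul_mem hm H.x1) (M.inv_mem hm)⟩

/-- an element of `SL₂ ⋉ V` inside a conjugate of `M` with nontrivial torus part -/
theorem exists_torus [Finite K] (hπ : Function.Injective S.π) {T : Set (Φ D)} (hT : ∀ r ∈ [θ, R.neg θ], ∀ s ∈ T, ∀ t a,
      S.x r t * S.x s a * (S.x r t)⁻¹ ∈ S.U T) {m u : G} {τ : K} (hm : m ∈ M) (h : S.Bd θ β m τ u) {b₁ b₂ : K} (h1 : b₁ ≠ 0)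
    (h2 : b₂ ≠ 0) (h12 : b₁ ≠ b₂) (m1 : ∃ v ∈ S.U T, u * (S.x θ b₁ * v) * u⁻¹ ∈ M) (m2 : ∃ v ∈ S.U T, u * (S.x θ b₂ * v) * u⁻¹ ∈ M) :
    ∃ (a : Kˣ) (b : K), (a : K) ≠ 1 ∧ ∃ v ∈ S.U T, u * (S.x θ b * S.hr θ a * v) * u⁻¹ ∈ M := by
  obtain ⟨f, f1, f2⟩ := exists_sl2 θ (hr_mul hπ θ)
  have hN : ∀ A, f A ∈ Subgroup.normalizer (S.U T : Set G) := fun A => by
    have : ∀ r ∈ [θ, R.neg θ], ∀ t, S.x r t ∈ Subgroup.normalizer (S.U T : Set G) := fun r hr t =>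
      le_normalizer_of_conj (K := S.U {r}) (fun g hg v hv => by
        obtain ⟨t, rfl⟩ := mem_U_singleton.1 hg
        exact conj_mem_of_gen (fun s hs a => hT r hr s hs t a) hv) (x_mem1 r t)
    exact sl_range f (fun t => f1 t ▸ this _ (by simp) t) (fun t => f2 t ▸ this _ (by simp) t) ⟨A, rfl⟩
  let E : Subgroup SL(2, K) :=
    { carrier := {A | ∃ v ∈ S.U T, u * (f A * v) * u⁻¹ ∈ M}
      one_mem' := ⟨1, one_mem _, by simp⟩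
      mul_mem' := by
        rintro A B ⟨v, hv, a⟩ ⟨v', hv', b⟩
        refine ⟨(f B)⁻¹ * v * (f B)⁻¹⁻¹ * v', mul_mem ((Subgroup.mem_normalizer_iff.1 (inv_mem (hN B)) v).1 hv) hv', ?_⟩
        simpa [mul_assoc] using M.mul_mem a b
      inv_mem' := by
        rintro A ⟨v, hv, a⟩
        refine ⟨f A * v⁻¹ * (f A)⁻¹, (Subgroup.mem_normalizer_iff.1 (hN A) _).1 (inv_mem hv), ?_⟩
        simpa [mul_assoc] using M.inv_mem a }
  by_contra hn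
  obtain ⟨t, ht, hz⟩ := H.z_mem hm h
  refine sl2_cnt E (fun A ⟨v, hv, hA⟩ h0 => by_contra fun e => hn ?_) ⟨slL t, ⟨1, one_mem _, by rwa [f2, mul_one]⟩, ht⟩ h1 h2 h12
    (by obtain ⟨v, hv, e⟩ := m1; exact ⟨v, hv, by rwa [f1]⟩) (by obtain ⟨v, hv, e⟩ := m2; exact ⟨v, hv, by rwa [f1]⟩)
  obtain ⟨a, b, h3, h4⟩ := sl_up h0
  refine ⟨a, b, h3 ▸ e, v, hv, ?_⟩
  rw [h4] at hA
  simpa only [map_mul, f1, f2, hr, nr, Units.val_neg, Units.val_one] using hA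

theorem le_fix_of_big [Finite K] (hπ : Function.Injective S.π) {b : K} (h0 : b ≠ 0) (h1 : b ≠ 1) (hb : S.x θ b ∈ M) {m : G}
    (hm : m ∈ M) : σ m = m := by
  by_contra hn
  obtain ⟨τ, u, h⟩ := H.exists_bd hm hn
  have hc := comm_θ H.hi (fun _ => H.hi.dom'.nonneg) h.mem
  obtain ⟨a, c, ha, v, hv, hy⟩ := H.exists_torus hπ (T := ∅) (by simp) hm h h0 one_ne_zero h1
    ⟨1, one_mem _, by rwa [mul_one, hc]⟩ ⟨1, one_mem _, by rw [mul_one, hc]; exact H.x1⟩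
  rw [U_empty, Subgroup.mem_bot] at hv
  rw [hv, mul_one] at hy
  have hU : S.U {r | R.Pos r} ≤ S.Par (R.JJ θ) := S.U_le_B.trans (B_le_Par _)
  have h2 := H.F1 _ hy (mul_mem (mul_mem (hU h.mem) (mul_mem (hU (x_mem H.hi.pos _)) (B_le_Par _ (S.H_le_B (hr_mem θ a)))))
    (inv_mem (hU h.mem)))
  refine hn (H.fix_of_bd hm h ?_)
  obtain ⟨u₁, h3, rfl, -⟩ := h
  have h4 : ∀ (a : Kˣ) t, S.hr θ a * S.x (R.sim β) t * (S.hr θ a)⁻¹ = S.x (R.sim β) (a * t) := fun a t => by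
    rw [(diag_hr θ a).2, cv'_chi, prf_vec, H.hi.β_one, zpow_one]
  have h5 := conj_mem_ideal (ideal_ne_sim β) (S.U_le_B (x_mem (R.pos_sim β) (a * τ))) (mul_mem (mul_mem h3
    (x_mem (T := {r | R.Pos r ∧ r ≠ R.sim β}) ⟨H.hi.pos, fun e => by
      have := H.hi.β_one
      rw [← e, pr_self] at this; omega⟩ c)) (H_conj_U (hr_mem θ a) (inv_mem h3)))
  rw [show S.x (R.sim β) τ * u₁ * (S.x θ c * S.hr θ a) * (S.x (R.sim β) τ * u₁)⁻¹ = S.x (R.sim β) (τ + -(a * τ)) *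
    (S.x (R.sim β) (a * τ) * (u₁ * S.x θ c * (S.hr θ a * u₁⁻¹ * (S.hr θ a)⁻¹)) * (S.x (R.sim β) (a * τ))⁻¹) * S.hr θ a by
      rw [← S.r1, ← x_inv, ← h4]; group, map_mul, map_mul, H.hσ] at h2
  obtain ⟨h6, h7⟩ := coord (bc_U H.hσ h5) h5 (bc_H H.hσ (hr_mem θ a)) (hr_mem θ a) h2
  have h8 := congrArg σ (h4 a 1)
  rw [map_mul, map_mul, map_inv, hπ h7, H.hσ, H.hσ, map_one, h4, mul_one] at h8
  have h9 := x_inj (congrArg S.π h8)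
  simp only [map_add, map_neg, map_mul, ← h9] at h6
  exact mul_left_cancel₀ (sub_ne_zero.2 ha.symm) (by linear_combination h6)

end Bg
end StN

end Cfsg.Agent.H5
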