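import Cfsg.Agent.H5.Bg2

/-! Overgroups of subfield subgroups: the field with two elements. -/

set_option autoImplicit false

namespace Cfsg.Agent.H5

open Cfsg.Lie StG StN RS StN.Tw
open scoped MatrixGroups

variable {D : ChevalleyDatum}

/-- a line of long root subgroups -/
def RS.Ln (R : RS D) (θ : Φ D) (β : I D) (r₀ : Φ D) : Prop := R.pr θ r₀ = 1 ∧ r₀ ≠ R.sim β ∧
  (R.tm (R.sim β) r₀ = [(θ, 1, 1, 1)] ∨ R.tm (R.sim β) r₀ = [(θ, -1, 1, 1)]) ∧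
  (R.tm (R.neg (R.sim β)) θ = [(r₀, 1, 1, 1)] ∨ R.tm (R.neg (R.sim β)) θ = [(r₀, -1, 1, 1)]) ∧
  R.tm (R.neg (R.sim β)) r₀ = [] ∧
  (∀ r ∈ [θ, R.neg θ], ∀ s ∈ [r₀, R.neg (R.sim β)], s ≠ r ∧ s ≠ R.neg r ∧ ∀ c ∈ R.tm r s, c.1 ∈ [r₀, R.neg (R.sim β)]) ∧
  ∀ s : Φ D, D.nroots ≤ 2 * s → s ≠ R.sim β → R.tm s r₀ = []

set_option synthInstance.maxSize 2000 in
set_option synthInstance.maxHeartbeats 400000 in
instance RS.decLn (R : RS D) (θ : Φ D) (β : I D) (r₀ : Φ D) : Decidable (R.Ln θ β r₀) := by unfold RS.Ln; infer_instance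

/-- a plane of long root subgroups -/
def RS.Pl (R : RS D) (θ : Φ D) (β α : I D) : Prop := α ≠ β ∧ R.pr θ (R.ref α (R.sim β)) = 1 ∧ R.ref α (R.sim β) ≠ R.sim β ∧
  (R.tm (R.neg (R.sim α)) (R.ref α (R.sim β)) = [(R.sim β, 1, 1, 1)] ∨
    R.tm (R.neg (R.sim α)) (R.ref α (R.sim β)) = [(R.sim β, -1, 1, 1)]) ∧ R.tm (R.neg (R.sim α)) (R.sim β) = [] ∧
  ∀ s : Φ D, 1 ≤ R.pr θ s → s ≠ R.ref α (R.sim β) → ∀ c ∈ R.tm (R.neg (R.sim α)) s, D.nroots ≤ 2 * c.1 ∧ c.1 ≠ R.sim β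

set_option synthInstance.maxSize 2000 in
set_option synthInstance.maxHeartbeats 400000 in
instance RS.decPl (R : RS D) (θ : Φ D) (β α : I D) : Decidable (R.Pl θ β α) := by unfold RS.Pl; infer_instance

namespace StN
variable {R : RS D} {K G : Type*} [Field K] [Group G] {S : StN R K G} {θ : Φ D} {β : I D} {φ : K →+* K} {σ : G →* G}
  {M : Subgroup G}

theorem conj_tm2 [CharP K 2] {r s v : Φ D} (h1 : s ≠ r) (h2 : s ≠ R.neg r)
    (h : R.tm r s = [(v, 1, 1, 1)] ∨ R.tm r s = [(v, -1, 1, 1)]) (t u : K) :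
    S.x r t * S.x s u * (S.x r t)⁻¹ = S.x s u * S.x v (t * u) := by
  rcases h with h | h <;> simp [conj_tm1 h1 h2 h, CharTwo.neg_eq]

theorem comm_U {T : Set (Φ D)} {g u : G} (h : ∀ r ∈ T, ∀ t, Commute (S.x r t) g) (hu : u ∈ S.U T) : u * g * u⁻¹ = g :=
  mul_inv_eq_of_eq_mul ((U_le (K := Subgroup.centralizer {g})).2
    (fun r hr a => Subgroup.mem_centralizer_singleton_iff.2 (h r hr a).eq) hu _ rfl).symm

theorem ne_neg_of_pos' {r s : Φ D} (hr : R.Pos r) (hs : R.Pos s) : s ≠ R.neg r := fun e => (R.pos_neg_iff r).1 (e ▸ hs) hr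

namespace Bg
variable (H : S.Bg θ β φ σ M) [Finite K] [CharP K 2] (hπ : Function.Injective S.π) (hF : ∀ t, φ t = t → t = 0 ∨ t = 1)
include H hπ hF

theorem line {r₀ : Φ D} (hL : R.Ln θ β r₀) (h0 : S.x r₀ 1 ∈ M) {m u : G} {τ : K} (hm : m ∈ M) (hn : σ m ≠ m)
    (h : S.Bd θ β m τ u) : τ ^ 2 + τ + 1 = 0 := by
  obtain ⟨l1, l2, l3, l4, l5, l6, l7⟩ := hL
  have two : (2 : K) = 0 := CharP.cast_eq_zero K 2
  have hτ : φ τ ≠ τ := fun e => hn (H.fix_of_bd hm h e)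
  have hp : R.Pos r₀ := H.hi.dom'.pos (r := r₀) (by omega)
  have hθ : ∀ s t, Commute (S.x r₀ s) (S.x θ t) := fun s t =>
    mul_inv_eq_iff_eq_mul.1 (comm_θ H.hi (T := {r₀}) (by simp [l1]) (x_mem1 _ _) t)
  have hA : ∀ s s', u * (S.x θ s * S.x r₀ s') * u⁻¹ = S.x θ (s + τ * s') * S.x r₀ s' := fun s s' => by
    have h1 := comm_θ H.hi (fun _ => H.hi.dom'.nonneg) h.mem s
    obtain ⟨u₁, h2, rfl, -⟩ := h
    have h3 := comm_U (g := S.x r₀ s') (fun r hr t => comm_tm (ne_neg_of_pos' hr.1 hp) (l7 r ((R.pos_iff_le r).1 hr.1) hr.2) t s') h2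
    rw [← conj_mul, h1, show S.x (R.sim β) τ * u₁ * S.x r₀ s' * (S.x (R.sim β) τ * u₁)⁻¹ =
      S.x (R.sim β) τ * (u₁ * S.x r₀ s' * u₁⁻¹) * (S.x (R.sim β) τ)⁻¹ by group, h3,
      conj_tm2 l2 (ne_neg_of_pos' (R.pos_sim β) hp) l3, (hθ _ _).eq, ← mul_assoc, S.r1]
  have hB : ∀ v ∈ S.U {s | s ∈ [r₀, R.neg (R.sim β)]}, ∃ c, ∀ s s',
      v * (S.x θ s * S.x r₀ s') * v⁻¹ = S.x θ s * S.x r₀ (s' + c * s) := fun v hv => by
    refine U_induction (p := fun v => ∃ c, ∀ s s', v * (S.x θ s * S.x r₀ s') * v⁻¹ = S.x θ s * S.x r₀ (s' + c * s))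
      ⟨0, by simp⟩ (fun r hr t g _ ⟨c, ih⟩ => ?_) hv
    simp only [Set.mem_setOf_eq, List.mem_cons, List.not_mem_nil, or_false] at hr
    have e : ∀ y, S.x r t * g * y * (S.x r t * g)⁻¹ = S.x r t * (g * y * g⁻¹) * (S.x r t)⁻¹ := fun y => by group
    rcases hr with rfl | rfl
    · refine ⟨c, fun s s' => ?_⟩
      rw [e, ih, ← conj_mul, (hθ _ _).mul_inv_cancel, S.r1, add_comm t, ← S.r1, mul_inv_cancel_right]
    · refine ⟨c + t, fun s s' => ?_⟩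
      have h1 := l6 θ (by simp) (R.neg (R.sim β)) (by simp)
      rw [e, ih, ← conj_mul, conj_tm2 h1.1.symm (fun e => h1.2.1 (by rw [R.neg_neg] at e; rw [e])) l4,
        (comm_tm (by rwa [R.neg_neg]) l5 _ _).mul_inv_cancel, mul_assoc, S.r1]
      congr 2; ring
  have hD : ∀ s s', S.x θ s * S.x r₀ s' ∈ M → (s = 0 ∨ s = 1) ∧ (s' = 0 ∨ s' = 1) := fun s s' hs => by
    have h1 := H.F1 _ hs (mul_mem (x_mem_P H.hi (by simp [pr_self]) _) (x_mem_P H.hi (by omega) _))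
    have h2 : θ ≠ r₀ := fun e => by rw [← e, pr_self] at l1; omega
    rw [map_mul, H.hσ, H.hσ] at h1
    have := P_unique (S := S.toStG) (L := R.lamf) closed_pos' (fun _ h => h) (l := [θ, r₀]) (by simpa) (by simp [H.hi.pos, hp])
      (t := fun r => if r = θ then φ s else φ s') (t' := fun r => if r = θ then s else s') (by simp [P_cons, h2.symm, h1])
    exact ⟨hF _ (by simpa using this θ (by simp)), hF _ (by simpa [h2.symm] using this r₀ (by simp))⟩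
  have m2 : u * (S.x θ τ * S.x r₀ 1) * u⁻¹ ∈ M := by rwa [hA, mul_one, CharTwo.add_self_eq_zero, StG.x_zero, one_mul]
  have m1 : u * (S.x θ 1 * S.x r₀ 0) * u⁻¹ ∈ M := by rw [hA]; simpa using H.x1
  obtain ⟨a, b, ha, v, hv, hy⟩ := H.exists_torus hπ (T := {s | s ∈ [r₀, R.neg (R.sim β)]}) (fun r hr s hs t a =>
    conj_tm (l6 r hr s hs).1 (l6 r hr s hs).2.1 hs (l6 r hr s hs).2.2 t a) hm h one_ne_zero
    (b₂ := τ) (fun e => hτ (by simp [e])) (fun e => hτ (by simp [← e])) ⟨_, x_mem (by simp) _, m1⟩ ⟨_, x_mem (by simp) _, m2⟩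
  obtain ⟨c, hc⟩ := hB v hv
  have key : ∀ s s', u * (S.x θ s * S.x r₀ s') * u⁻¹ ∈ M → S.x θ (a ^ 2 * s + τ * (a * (s' + c * s))) * S.x r₀ (a * (s' + c * s)) ∈ M :=
    fun s s' hs => by
    have := M.mul_mem (M.mul_mem hy hs) (M.inv_mem hy)
    rwa [show u * (S.x θ b * S.hr θ a * v) * u⁻¹ * (u * (S.x θ s * S.x r₀ s') * u⁻¹) * (u * (S.x θ b * S.hr θ a * v) * u⁻¹)⁻¹ =
      u * (S.x θ b * (S.hr θ a * (v * (S.x θ s * S.x r₀ s') * v⁻¹) * (S.hr θ a)⁻¹) * (S.x θ b)⁻¹) * u⁻¹ by group, hc, ← conj_mul (b := S.hr θ a),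
      (diag_hr θ a).2, (diag_hr θ a).2, cv'_chi, cv'_chi, prf_vec, prf_vec, l1, pr_self, zpow_one, ← conj_mul (b := S.x θ b),
      (hθ _ _).symm.mul_inv_cancel, S.r1, add_comm b, ← S.r1, mul_inv_cancel_right, hA, zpow_ofNat, Units.val_pow_eq_pow_val] at this
  obtain ⟨k1, k2⟩ := hD _ _ (key _ _ m1)
  obtain ⟨-, k3⟩ := hD _ _ (key _ _ m2)
  have h1 : τ ≠ 0 := fun e => hτ (by simp [e])
  have h2 : τ + 1 ≠ 0 := fun e => hτ (by rw [show τ = 1 by linear_combination e - two, map_one])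
  have h3 := a.ne_zero
  rcases k2 with k2 | k2
  · rcases k3 with k3 | k3
    · exact (h3 (by linear_combination k3 - τ * k2)).elim
    · exact (ha (by linear_combination k3 - τ * k2)).elim
  have h4 : τ * (τ + 1) ≠ 0 := mul_ne_zero h1 h2
  rcases k3 with k3 | k3 <;> rcases k1 with k1 | k1
  · exact (h4 (by linear_combination k1 - τ * k2 - (a - τ) * (k3 - τ * k2))).elim
  · linear_combination k1 - τ * k2 - (a - τ) * (k3 - τ * k2) + two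
  · linear_combination k1 - τ * k2 - (a + 1 - τ) * (k3 - τ * k2) + τ * two
  · exact (h4 (by linear_combination k1 - τ * k2 - (a + 1 - τ) * (k3 - τ * k2) + τ * two)).elim

omit [Finite K] [CharP K 2] hπ hF in
theorem bd_move {g v l n p c : G} {τ : K} {w : R.W} (hg : g ∈ S.U {r | R.pr θ r = 0}) (hl : l ∈ S.U {r | R.pr θ r = 0}) (hN : n ∈ S.N)
    (hn : S.Lift n w) (hw : w • θ = R.neg θ) (hp : p ∈ S.Par (R.JJ θ)) (hc : c ∈ S.U {r | R.Pos r ∧ r ≠ R.sim β})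
    (e : g * v * g⁻¹ = S.x (R.sim β) τ * c) : S.Bd θ β (g * (v * l * n * p)) τ (g * v * g⁻¹) :=
  ⟨c, hc, e, n, hN, w, hn, hw, n⁻¹ * (g * l) * n⁻¹⁻¹ * p, mul_mem (U_le_P H.hi (T := {r | 0 ≤ R.pr θ r}) (fun _ h => h)
    ((hn.inv hN).conj_mem (fun r hr => by
      rw [Set.mem_setOf_eq, ← pr_smul w, smul_inv_smul, hw, pr_neg_left, show R.pr θ r = 0 from hr, neg_zero]) (mul_mem hg hl))) hp,
    by group⟩

theorem le_fix_of_plane {r₀ : Φ D} (hL : R.Ln θ β r₀) (h0 : S.x r₀ 1 ∈ M) {α : I D} (hP : R.Pl θ β α)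
    (h1 : S.x (R.neg (R.sim α)) 1 ∈ M) (h2 : S.n α 1 ∈ M) {m : G} (hm : m ∈ M) : σ m = m := by
  by_contra hn
  obtain ⟨p1, p2, p3, p4, p5, p6⟩ := hP
  have two : (2 : K) = 0 := CharP.cast_eq_zero K 2
  obtain ⟨τ, u, u₀, -, -, -, n, hN, w, hl, hw, p, hp, rfl⟩ : ∃ τ u, u ∈ S.U {r | R.Pos r} ∧ S.Bd θ β m τ u :=
    (H.exists_bd hm hn).imp fun _ h => h.imp fun _ h => ⟨h.mem, h⟩
  have hI := H.hi.dom'.ideal one_pos
  obtain ⟨v, hv, l, hl', rfl⟩ := exists_mul (L := R.lamf) (T₁ := {r | 1 ≤ R.pr θ r}) (T₂ := {r | R.Pos r ∧ R.pr θ r = 0})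
    closed_pos' (fun _ h => h) (Set.ext fun r => ⟨fun h => (H.hi.dom'.nonneg h).eq_or_lt.elim (fun e => .inr ⟨h, e.symm⟩) .inl,
      fun h => h.elim (hI.1 r) And.left⟩) u₀
  replace hl' := U_mono (T' := {r | R.pr θ r = 0}) (fun _ h => h.2) hl'
  set s := R.ref α (R.sim β) with hs
  obtain ⟨x, hx, v₁, hv₁, rfl⟩ := exists_mul (L := R.lamf) (T₁ := {R.sim β}) (T₂ := {r | 1 ≤ R.pr θ r ∧ r ≠ R.sim β})
    hI.closed hI.1 (by ext r; by_cases h : r = R.sim β <;> simp [h, H.hi.β_one]) hv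
  obtain ⟨a, rfl⟩ := mem_U_singleton.1 hx
  obtain ⟨x, hx, c, hc, rfl⟩ := exists_mul (L := R.lamf) (T := {r | 1 ≤ R.pr θ r ∧ r ≠ R.sim β}) (T₁ := {s})
    (T₂ := {r | (1 ≤ R.pr θ r ∧ r ≠ R.sim β) ∧ r ≠ s})
    (fun r hr r' hr' u hu => And.intro (hI.closed r hr.1 r' hr'.1 u hu)
      ((ideal_ne_sim β).closed r (And.intro (hI.1 _ hr.1) hr.2) r' (And.intro (hI.1 _ hr'.1) hr'.2) u hu).2) (fun r h => hI.1 r h.1)
    (by ext r; by_cases h : r = s <;> simp [h, p2, p3]) hv₁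
  obtain ⟨b, rfl⟩ := mem_U_singleton.1 hx
  have hα : R.pr θ (R.sim α) = 0 := H.hi.mem_J.2 p1
  have hsP : R.Pos s := hI.1 _ p2.ge
  have key : ∀ g ∈ M, σ g = g → g ∈ S.U {r | R.pr θ r = 0} → ∀ τ, ∀ c' ∈ S.U {r | R.Pos r ∧ r ≠ R.sim β},
      g * (S.x (R.sim β) a * (S.x s b * c)) * g⁻¹ = S.x (R.sim β) τ * c' → τ ^ 2 + τ + 1 = 0 := fun g hg hσ hg' τ c' hc' e =>
    H.line hπ hF hL h0 (M.mul_mem hg hm) (by rwa [map_mul, hσ, Ne, mul_right_inj]) (H.bd_move hg' hl' hN hl hw hp hc' e)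
  have hc₁ : c ∈ S.U {r | R.Pos r ∧ r ≠ R.sim β} := U_mono (fun r h => And.intro (hI.1 r h.1.1) h.1.2) hc
  have k1 := key 1 M.one_mem σ.map_one (one_mem _) a _ (mul_mem (x_mem (T := {r | R.Pos r ∧ r ≠ R.sim β}) ⟨hsP, p3⟩ b) hc₁) (by simp)
  have hne : ∀ r, 1 ≤ R.pr θ r → r ≠ R.neg (R.sim α) ∧ r ≠ R.neg (R.neg (R.sim α)) := fun r hr =>
    ⟨fun e => by rw [e, pr_neg_right, hα] at hr; omega, fun e => by rw [e, R.neg_neg, hα] at hr; omega⟩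
  have k2 := key _ h1 (by rw [H.hσ, map_one]) (x_mem (by simp [pr_neg_right, hα]) _) (a + b)
    ((S.x (R.sim β) b)⁻¹ * S.x s b * (S.x (R.sim β) b)⁻¹⁻¹ * (S.x (R.neg (R.sim α)) 1 * c * (S.x (R.neg (R.sim α)) 1)⁻¹))
    (mul_mem (conj_mem_ideal (ideal_ne_sim β) (inv_mem (S.U_le_B (x_mem (R.pos_sim β) _))) (x_mem (And.intro hsP p3) _))
      (conj_mem_of_gen (fun r hr t => conj_tm (hne r hr.1.1).1 (hne r hr.1.1).2 (And.intro (hI.1 r hr.1.1) hr.1.2)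
        (fun c hc => (p6 r hr.1.1 hr.2 c hc).imp_left (R.pos_iff_le _).2) _ _) hc)) (by
      rw [← conj_mul, ← conj_mul (a := S.x s b), (comm_tm (hne _ H.hi.β_one.ge).2 p5 _ _).mul_inv_cancel,
        conj_tm2 (hne _ p2.ge).1 (hne _ p2.ge).2 p4, one_mul, ← S.r1]; group)
  have hn1 : ∀ r t, S.n α 1 * S.x r t * (S.n α 1)⁻¹ = S.x (R.ref α r) t := fun r t => by
    rw [StN.n, S.nrel]; rcases R.sg_cases α r with h | h <;> simp [h, CharTwo.neg_eq]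
  have k3 := key _ h2 (by simp [StN.n, bc_nr H.hσ]) (S.nr_mem (by simpa using hα) (by simp [pr_neg_right, hα]) _) b
    ((S.x (R.sim β) b)⁻¹ * S.x s a * (S.x (R.sim β) b)⁻¹⁻¹ * (S.n α 1 * c * (S.n α 1)⁻¹))
    (mul_mem (conj_mem_ideal (ideal_ne_sim β) (inv_mem (S.U_le_B (x_mem (R.pos_sim β) _))) (x_mem (And.intro hsP p3) _))
      ((lift_n α 1).conj_mem (fun r hr => And.intro (R.pos_ref (hI.1 r hr.1.1) fun e => by have := hr.1.1; rw [e, hα] at this; omega)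
        fun e => hr.2 (by rw [hs, ← e, sw_smul, ref_ref])) hc)) (by
      rw [← conj_mul, ← conj_mul (a := S.x s b), hn1, hn1, hs, ref_ref]; group)
  exact one_ne_zero (by linear_combination k1 + k2 + k3 - (a ^ 2 + b ^ 2 + a * b + a + b + 1) * two : (1 : K) = 0)

end Bg
end StN

end Cfsg.Agent.H5
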