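import Cfsg.Agent.H5.Bg3

/-! Overgroups of subfield subgroups in twisted groups. -/

set_option autoImplicit false

namespace Cfsg.Agent.H5

open Cfsg.Lie StG StN RS StN.Tw

variable {D : ChevalleyDatum}

namespace RS
variable {R : RS D} {θ : Φ D} {β : I D}

theorem Hi.comb (h : R.Hi θ β) {r s u : Φ D} (hr : 0 < R.pr θ r) (hs : 0 < R.pr θ s) (hu : R.Comb r s u) :
    u = θ ∧ R.vec r + R.vec s = R.vec θ := by
  obtain ⟨i, j, hi, hj, e⟩ := hu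
  have h1 := (lin_pr' θ).two' e
  have h2 := h.le u
  zify at hi hj
  obtain rfl := h.two u (by nlinarith)
  rw [e, show (i : ℤ) = 1 by nlinarith, show (j : ℤ) = 1 by nlinarith]
  simp

theorem Hi.closed (h : R.Hi θ β) {X : Set (Φ D)} (hX : ∀ r ∈ X, 0 < R.pr θ r)
    (h' : θ ∈ X ∨ ∀ r ∈ X, ∀ s ∈ X, R.vec r + R.vec s ≠ R.vec θ) : R.Closed X := fun r hr s hs u hu => by
  obtain ⟨rfl, e⟩ := h.comb (hX r hr) (hX s hs) hu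
  exact h'.resolve_right fun h' => h' r hr s hs e

/-- the other members of the orbit -/
def Sym.Ob (Y : R.Sym) (r : Φ D) : Set (Φ D) := {s | s ≠ r ∧ (s = Y.ρ r ∨ s = Y.ρ (Y.ρ r))}
/-- fixed roots of the radical -/
def Sym.LL (Y : R.Sym) (θ : Φ D) : Set (Φ D) := {s | 0 < R.pr θ s ∧ Y.ρ s = s}

end RS

namespace StN
variable {R : RS D} {K G : Type*} [Field K] [Group G] {S : StN R K G} {θ : Φ D} {β : I D} {φ : K →+* K} {σ : G →* G}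
  {M : Subgroup G} {Y : R.Sym} {T : S.Tw Y} {B : Type} {orb : I D → B}

variable (T orb θ β φ σ M) in
/-- hypotheses on an overgroup of the rational points in a twisted group -/
structure TB : Prop where
  hi : R.Hi θ β
  gen : S.U Set.univ = ⊤
  inj : Function.Injective S.π
  nt : T.NT orb
  hσ : ∀ r t, σ (S.x r t) = S.x r (φ t)
  le : M ≤ T.G1 orb
  ge : ∀ g ∈ T.G1 orb, σ g = g → g ∈ M
  hN : ∀ w ∈ Y.W1, ∃ n ∈ T.G1 orb, σ n = n ∧ n ∈ S.N ∧ S.Lift n w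
  hφ : ∀ r, T.φ r = φ
  hγ : ∀ r, Y.ρ r = r → T.γ r = 1
  ρθ : Y.ρ θ = θ
  ρβ : Y.ρ₀ β = β
  ord : ∀ r, Y.ρ (Y.ρ r) = r ∨ Y.ρ (Y.ρ (Y.ρ r)) = r
  prρ : ∀ r, R.pr θ (Y.ρ r) = R.pr θ r
  hsρ : ∀ r, R.hs (Y.ρ r) = R.hs r
  nc : ∀ r, R.pr θ r = 1 → ∀ s ∈ [r, Y.ρ r, Y.ρ (Y.ρ r)], ∀ s' ∈ [r, Y.ρ r, Y.ρ (Y.ρ r)], R.vec s + R.vec s' ≠ R.vec θ
  one : ∀ r, R.pr θ r = 1 → Y.ρ r ≠ r → ∃ a ∈ S.U (Y.Ob r), T.σ (S.x r 1 * a) = S.x r 1 * a ∧ σ a = a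

variable (S M Y) in
/-- parameters of the short root elements in `M` -/
def Lam (r : Φ D) : Set K := {t | ∃ a ∈ S.U (Y.Ob r), S.x r t * a ∈ M}

namespace TB
variable (H : TB θ β φ σ M T orb)
include H

theorem fix {g : G} (hg : g ∈ M) : g ∈ T.Fix := T.G1_le_Fix orb (H.le hg)

theorem long {u : G} (hu : u ∈ S.U {r | Y.ρ r = r}) : T.σ u = σ u :=
  (U_le (K := T.σ.eqLocus σ)).2 (fun r hr t => by
    change T.σ _ = σ _
    rw [T.hσ, H.hσ, H.hγ r hr, H.hφ, show Y.ρ r = r from hr, Units.val_one, one_mul]) hu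

theorem x_mem' {r : Φ D} (hr : Y.ρ r = r) {t : K} (ht : φ t = t) : S.x r t ∈ M := by
  have h1 : σ (S.x r t) = S.x r t := by rw [H.hσ, ht]
  have h2 : S.x r t ∈ T.Fix := T.mem_Fix.2 ((H.long (x_mem (T := {r | Y.ρ r = r}) hr t)).trans h1)
  by_cases h : R.Pos r
  exacts [H.ge _ (H.nt.U_le ⟨x_mem h t, h2⟩) h1, H.ge _ (H.nt.V_le ⟨x_mem h t, h2⟩) h1]

theorem nr_mem' {r : Φ D} (hr : Y.ρ r = r) {c : Kˣ} (hc : φ c = c) : S.nr r c ∈ M :=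
  M.mul_mem (M.mul_mem (H.x_mem' hr hc) (H.x_mem' (by rw [Y.neg, hr]) (by simp [hc]))) (H.x_mem' hr hc)

theorem LL_mem {u : G} (hu : u ∈ S.U (Y.LL θ)) (h : u ∈ T.Fix) : u ∈ M ∧ σ u = u :=
  have h1 := (H.long (U_mono (fun _ h => h.2) hu)).symm.trans h
  ⟨H.ge _ (H.nt.U_le ⟨U_mono (fun _ h => H.hi.dom'.pos h.1) hu, h⟩) h1, h1⟩

theorem ob_pr {r s : Φ D} (hs : s ∈ insert r (Y.Ob r)) : R.pr θ s = R.pr θ r ∧ R.hs s = R.hs r ∧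
    s ∈ [r, Y.ρ r, Y.ρ (Y.ρ r)] ∧ Y.ρ s ∈ insert r (Y.Ob r) ∧ (Y.ρ s = s → Y.ρ r = r) := by
  have key : ∀ s, s = Y.ρ r ∨ s = Y.ρ (Y.ρ r) → s ∈ insert r (Y.Ob r) := fun s h => (eq_or_ne s r).imp_right fun h' => ⟨h', h⟩
  rcases hs with rfl | ⟨-, rfl | rfl⟩
  · exact ⟨rfl, rfl, by simp, key _ (.inl rfl), id⟩
  · exact ⟨H.prρ _, H.hsρ _, by simp, key _ (.inr rfl), fun h => Y.ρ.injective h⟩
  · exact ⟨by rw [H.prρ, H.prρ], by rw [H.hsρ, H.hsρ], by simp, (H.ord r).elim (fun h => key _ (.inl (by rw [h]))) .inl,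
      fun h => Y.ρ.injective (Y.ρ.injective h)⟩

theorem ob_closed {r : Φ D} (hr : R.pr θ r = 1) {X : Set (Φ D)} (hX : X ⊆ insert r (Y.Ob r)) : R.Closed X ∧ ∀ s ∈ X, R.Pos s :=
  have h : ∀ s ∈ X, 0 < R.pr θ s := fun s hs => by rw [(H.ob_pr (hX hs)).1, hr]; exact one_pos
  ⟨H.hi.closed h (.inr fun s hs s' hs' => H.nc r hr s (H.ob_pr (hX hs)).2.2.1 s' (H.ob_pr (hX hs')).2.2.1),
    fun s hs => H.hi.dom'.pos (h s hs)⟩

theorem split {r : Φ D} (hr : R.pr θ r = 1) {X : Set (Φ D)} (h1 : ∀ s ∈ X, 0 < R.pr θ s) (h2 : θ ∈ X) (h3 : ∀ s ∈ X, Y.ρ s ∈ X)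
    (h4 : ∀ s ∈ insert r (Y.Ob r), s ∉ X) {a c : G} (ha : a ∈ S.U (insert r (Y.Ob r))) (hc : c ∈ S.U X) (h : a * c ∈ T.Fix) :
    a ∈ T.Fix ∧ c ∈ T.Fix :=
  T.fix_of_mul (fun _ => T.σ_mem_U fun _ hs => (H.ob_pr hs).2.2.2.1) (fun _ => T.σ_mem_U h3) (fun g hg hg' => by
    have := U_inf (L := R.lamf) (H.ob_closed hr le_rfl).1 (H.hi.closed h1 (.inl h2)) (H.ob_closed hr le_rfl).2
      (fun s hs => H.hi.dom'.pos (h1 s hs)) hg hg' rfl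
    rwa [Set.eq_empty_of_forall_notMem (s := insert r (Y.Ob r) ∩ X) fun s hs => h4 s hs.1 hs.2, U_empty,
      Subgroup.mem_bot] at this) ha hc h

theorem ob_fix {r : Φ D} (hr : R.pr θ r = 1) {a : G} (ha : a ∈ S.U (insert r (Y.Ob r))) (h : a ∈ T.Fix) {s : Φ D}
    (hs : s ∈ insert r (Y.Ob r)) (h' : a ∈ S.U (insert r (Y.Ob r) \ {s})) : a = 1 := by
  have key : ∀ s, a ∈ S.U (insert r (Y.Ob r) \ {s}) → a ∈ S.U (insert r (Y.Ob r) \ {Y.ρ s}) := fun s hs =>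
    T.mem_Fix.1 h ▸ T.σ_mem_U (fun u hu => And.intro (H.ob_pr hu.1).2.2.2.1 fun e => hu.2 (Y.ρ.injective e)) hs
  have c := fun s => H.ob_closed hr (X := insert r (Y.Ob r) \ {s}) Set.diff_subset
  have := U_inf (L := R.lamf) ((c _).1.inter (c _).1) (c _).1 (fun u hu => (c _).2 u hu.1) (c _).2
    (U_inf (L := R.lamf) (c _).1 (c _).1 (c _).2 (c _).2 h' (key _ h') rfl) (key _ (key _ h')) rfl
  refine Subgroup.mem_bot.1 (U_empty (S := S.toStG) ▸ U_mono ?_ this)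
  rintro u ⟨⟨⟨h1, h2⟩, -, h3⟩, -, h4⟩
  have h5 := (H.ob_pr h1).2.2.1
  have h6 := (H.ob_pr hs).2.2.1
  simp only [List.mem_cons, List.not_mem_nil, or_false, Set.mem_singleton_iff] at *
  rcases H.ord r with h | h <;> rcases h5 with rfl | rfl | rfl <;> rcases h6 with rfl | rfl | rfl <;> simp_all

omit H in
theorem x_mul_mem {r : Φ D} (t : K) {a : G} (ha : a ∈ S.U (Y.Ob r)) : S.x r t * a ∈ S.U (insert r (Y.Ob r)) :=
  mul_mem (x_mem (Set.mem_insert _ _) _) (U_mono (Set.subset_insert _ _) ha)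

theorem mem_of_Lam {r : Φ D} (hr : R.pr θ r = 1) {t : K} (ht : t ∈ S.Lam M Y r) {a : G} (ha : a ∈ S.U (Y.Ob r))
    (h : S.x r t * a ∈ T.Fix) : S.x r t * a ∈ M := by
  obtain ⟨a', ha', h'⟩ := ht
  have h1 : a'⁻¹ * a ∈ S.U (insert r (Y.Ob r) \ {r}) := U_mono (fun s hs => And.intro (Or.inr hs) hs.1) (mul_mem (inv_mem ha') ha)
  rwa [← inv_mul_eq_one.1 (H.ob_fix hr (U_mono Set.diff_subset h1) (by simpa [mul_assoc] using mul_mem (inv_mem (H.fix h')) h)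
    (Set.mem_insert _ _) h1)]

theorem strip {r : Φ D} (hr : R.pr θ r = 1) (hρ : Y.ρ r ≠ r) {t : K} {c : G} (hc : c ∈ S.U (Y.Ob r ∪ Y.LL θ))
    (h : S.x r t * c ∈ M) : t ∈ S.Lam M Y r := by
  have h1 : ∀ s ∈ Y.Ob r ∪ Y.LL θ, 0 < R.pr θ s := by
    rintro s (hs | hs)
    exacts [by rw [(H.ob_pr (.inr hs)).1, hr]; exact one_pos, hs.1]
  have h2 : θ ∈ Y.LL θ := ⟨by simp [pr_self], H.ρθ⟩
  obtain ⟨a, ha, u, hu, rfl⟩ := exists_mul (L := R.lamf) (H.hi.closed h1 (.inl (.inr h2))) (fun s hs => H.hi.dom'.pos (h1 s hs)) rfl hc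
  rw [← mul_assoc] at h
  exact ⟨a, ha, (mul_mem_cancel_right (H.LL_mem hu (H.split hr (fun _ h => h.1) h2 (fun s hs => by rwa [hs.2])
    (fun s hs h' => hρ ((H.ob_pr hs).2.2.2.2 h'.2)) (x_mul_mem t ha) hu (H.fix h)).2).1).1 h⟩

theorem strip2 {r r₂ : Φ D} (hr : R.pr θ r = 1) (hρ : Y.ρ r ≠ r) (hr₂ : R.pr θ r₂ = 1) (hρ₂ : Y.ρ r₂ ≠ r₂) (h12 : R.hs r ≠ R.hs r₂)
    {t t₂ : K} {a c : G} (ha : a ∈ S.U (Y.Ob r)) (hc : c ∈ S.U (Y.Ob r₂ ∪ Y.LL θ)) (ht : t ∈ S.Lam M Y r)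
    (h : S.x r t * a * (S.x r₂ t₂ * c) ∈ M) : t₂ ∈ S.Lam M Y r₂ := by
  refine H.strip hr₂ hρ₂ hc ((mul_mem_cancel_left (H.mem_of_Lam hr ht ha (H.split hr (X := insert r₂ (Y.Ob r₂) ∪ Y.LL θ) ?_
    (.inr ⟨by simp [pr_self], H.ρθ⟩) ?_ ?_ (x_mul_mem t ha) (mul_mem (x_mem (by simp) _)
      (U_mono (Set.union_subset_union_left _ (Set.subset_insert _ _)) hc)) (H.fix h)).1)).1 h)
  · rintro s (hs | hs)
    exacts [by rw [(H.ob_pr hs).1, hr₂]; exact one_pos, hs.1]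
  · rintro s (hs | hs)
    exacts [.inl (H.ob_pr hs).2.2.2.1, .inr (by rwa [hs.2])]
  · rintro s hs (h' | h')
    exacts [h12 ((H.ob_pr hs).2.1.symm.trans (H.ob_pr h').2.1), hρ ((H.ob_pr hs).2.2.2.2 h'.2)]

theorem Lam_smul {r : Φ D} (hr : R.pr θ r = 1) {c t : K} (hc : φ c = c) (ht : t ∈ S.Lam M Y r) : c * t ∈ S.Lam M Y r := by
  rcases eq_or_ne c 0 with rfl | h0
  · exact ⟨1, one_mem _, by simp⟩
  lift c to Kˣ using h0.isUnit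
  obtain ⟨a, ha, h⟩ := ht
  have h1 : S.hr θ c ∈ M := M.mul_mem (H.nr_mem' H.ρθ hc) (H.nr_mem' H.ρθ (by simp))
  have h2 := M.mul_mem (M.mul_mem h1 h) (M.inv_mem h1)
  rw [← conj_mul, (diag_hr θ c).2, cv'_chi, prf_vec, hr, zpow_one] at h2
  exact ⟨_, H_conj_U (hr_mem θ c) ha, h2⟩

theorem Lam_add {r : Φ D} (hr : R.pr θ r = 1) {s t : K} (hs : s ∈ S.Lam M Y r) (ht : t ∈ S.Lam M Y r) : s + t ∈ S.Lam M Y r := by
  obtain ⟨a, ha, h⟩ := hs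
  obtain ⟨a', ha', h'⟩ := ht
  have h1 := comm_U (g := S.x r t) (fun u hu b => comm_tm (ne_neg_of_pos' ((H.ob_closed hr le_rfl).2 u (.inr hu))
    ((H.ob_closed hr le_rfl).2 r (.inl rfl))) (List.eq_nil_iff_forall_not_mem.2 fun c hc => H.nc r hr u (H.ob_pr (.inr hu)).2.2.1 r
      (by simp) (H.hi.comb (by rw [(H.ob_pr (.inr hu)).1, hr]; exact one_pos) (by omega) (R.comb_of_tm hc)).2) b t) ha
  refine ⟨_, mul_mem ha ha', ?_⟩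
  have := M.mul_mem h h'
  rwa [← h1, show S.x r s * a * (a * S.x r t * a⁻¹ * a') = S.x r s * (a * (a * S.x r t * a⁻¹) * a⁻¹) * (a * a') by group, h1, h1,
    S.r1] at this

theorem Lam_fix {r : Φ D} (hr : R.pr θ r = 1) (hρ : Y.ρ r ≠ r) {c : K} (hc : φ c = c) : c ∈ S.Lam M Y r := by
  obtain ⟨a, ha, h1, h2⟩ := H.one r hr hρ
  exact mul_one c ▸ H.Lam_smul hr hc ⟨a, ha, H.ge _ (H.nt.U_le ⟨U_mono (H.ob_closed hr le_rfl).2 (x_mul_mem 1 ha), h1⟩)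
    (by rw [map_mul, h2, H.hσ, map_one])⟩

theorem exists_conj {w : R.W} (hw : w ∈ Y.W1) (r : Φ D) : ∃ n ∈ M, ∃ c ≠ 0, φ c = c ∧
    (∀ t, n * S.x r t * n⁻¹ = S.x (w • r) (c * t)) ∧ ∀ a ∈ S.U (Y.Ob r), n * a * n⁻¹ ∈ S.U (Y.Ob (w • r)) := by
  obtain ⟨n, h1, h2, -, h3⟩ := H.hN w hw
  have h4 := fun a => h3.conj_mem (T := Y.Ob r) (T' := Y.Ob (w • r)) (v := a) fun s hs =>
    And.intro (fun e => hs.1 (smul_left_cancel w e)) (by simpa only [← Y.smul_ρ hw, smul_left_cancel_iff] using hs.2)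
  obtain ⟨γ, -, h5, -⟩ := h3
  have h6 := congrArg σ (h5 r 1)
  rw [map_mul, map_mul, map_inv, h2, H.hσ, H.hσ, map_one, h5, mul_one] at h6
  exact ⟨n, H.ge n h1 h2, γ r, (γ r).ne_zero, (x_inj (congrArg S.π h6)).symm, h5 r, h4⟩

theorem Lam_conj {w : R.W} (hw : w ∈ Y.W1) {r : Φ D} (hr : R.pr θ (w • r) = 1) {t : K} (ht : t ∈ S.Lam M Y r) :
    t ∈ S.Lam M Y (w • r) := by
  obtain ⟨n, hn, c, h0, h1, h2, h3⟩ := H.exists_conj hw r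
  obtain ⟨a, ha, h⟩ := ht
  have h4 := M.mul_mem (M.mul_mem hn h) (M.inv_mem hn)
  rw [← conj_mul, h2] at h4
  exact inv_mul_cancel_left₀ h0 t ▸ H.Lam_smul hr (by rw [map_inv₀, h1]) ⟨_, h3 a ha, h4⟩

theorem mem_of_Lam' {w : R.W} (hw : w ∈ Y.W1) {r : Φ D} (hr : R.pr θ (w • r) = 1) {t : K} (ht : t ∈ S.Lam M Y (w • r)) {a : G}
    (ha : a ∈ S.U (Y.Ob r)) (h : S.x r t * a ∈ T.Fix) : S.x r t * a ∈ M := by
  obtain ⟨n, hn, c, -, h1, h2, h3⟩ := H.exists_conj hw r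
  have h4 := H.mem_of_Lam hr (H.Lam_smul hr h1 ht) (h3 a ha) (by
    rw [← h2, conj_mul]; exact mul_mem (mul_mem (H.fix hn) h) (inv_mem (H.fix hn)))
  rwa [← h2, conj_mul, mul_mem_cancel_right (inv_mem hn), mul_mem_cancel_left hn] at h4

theorem bg (hQ : ∀ x ∈ M ⊓ S.UJ (R.JJ θ), σ x = x) : S.Bg θ β φ σ M := by
  have hY : ∀ i, Y.ρ₀ i ∈ R.JJ θ ↔ i ∈ R.JJ θ := fun i => by simp [JJ, ← Y.sim, H.prρ]
  have hβ : Y.ρ (R.sim β) = R.sim β := by rw [Y.sim, H.ρβ]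
  refine ⟨H.hi, H.gen, H.hσ, fun y hy hP => ?_, fun m hm h => ?_, H.x_mem' H.ρθ φ.map_one, fun t => H.x_mem' hβ,
    H.nr_mem' hβ φ.map_one⟩
  · obtain ⟨v, hv, k, hk, l, hl, rfl⟩ := Par_decomp hP
    rw [mul_assoc] at hy ⊢
    have h1 : k * l ∈ S.H ⊔ S.U (R.Sub (R.JJ θ)) := mul_mem (Subgroup.mem_sup_left hk) (Subgroup.mem_sup_right hl)
    obtain ⟨n, h2, h3, h4, h5⟩ := H.hN _ (Y.wJ_mem_W1 hY)
    have h6 := F1_of H.hi H.gen H.inj H.hσ (H.x_mem' H.ρθ φ.map_one) (fun r hr => by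
      have hp : R.Pos r := H.hi.dom'.pos (by omega)
      obtain ⟨a, ha, h7⟩ : (1 : K) ∈ S.Lam M Y r := (eq_or_ne (Y.ρ r) r).elim
        (fun h => ⟨1, one_mem _, by rw [mul_one]; exact H.x_mem' h φ.map_one⟩) fun h => H.Lam_fix hr h φ.map_one
      refine ⟨_, ⟨h7, U_mono (fun s hs => H.hi.uj_iff.2 (by rw [(H.ob_pr hs).1]; omega)) (x_mul_mem 1 ha)⟩,
        U_mono (fun s hs => (H.ob_pr hs).2.1.ge) (x_mul_mem 1 ha), fun h => ?_⟩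
      have i2 := (ideal_hs.{0} hp).2.1
      exact (x_mem_iff (L := R.lamf) i2.closed i2.1 hp ((mul_mem_cancel_right (U_mono
        (fun s hs => And.intro (H.ob_pr (.inr hs)).2.1.ge hs.1) ha)).1 h) rfl).elim (fun h => h.2 rfl) one_ne_zero)
      ⟨H.ge n h2 h3, h4⟩ h5 hQ hy hv h1 rfl
    have h7 := T.fix_of_mul (A := S.UJ (R.JJ θ)) (fun _ => T.σ_mem_U fun r hr => H.hi.uj_iff.2 (H.prρ r ▸ H.hi.uj_iff.1 hr))
      (fun c hc => Subgroup.mem_comap.1 ((sup_le (fun k hk => Subgroup.mem_comap.2 (Subgroup.mem_sup_left (T.σ_mem_H hk)))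
        (fun k hk => Subgroup.mem_comap.2 (Subgroup.mem_sup_right (T.σ_mem_U (fun r => Y.mem_sub fun i => (hY i).2) hk))) :
          _ ≤ Subgroup.comap T.σ _) hc)) (fun g hg hg' => levi_inf _ hg hg' rfl) hv h1 (H.fix hy)
    have h8 := H.ge _ ((mul_mem_cancel_left (H.nt.U_le ⟨U_mono (fun _ h => h.1) hv, h7.1⟩)).1 (H.le hy)) h6
    rw [map_mul, h6, hQ v ⟨(mul_mem_cancel_right h8).1 hy, hv⟩]
  · obtain ⟨d, u, hu, h1, h2⟩ := coset_canon H.gen (R.JJ θ) m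
    have h3 := h2 R.symId ⟨σ, 1, fun _ => φ, by simp, fun _ => rfl, by simp [symId, H.hσ]⟩ (fun _ => Iff.rfl) h
    have h4 := h2 Y T hY (by rw [H.fix hm, MonoidHom.id_apply, inv_mul_cancel]; exact one_mem _)
    obtain ⟨n, h5, h6, h7, h8⟩ := H.hN d h4.2
    have h9 : σ (u * n) = u * n := by rw [map_mul, h6, show σ u = u from h3.1]
    exact ⟨_, H.ge _ (mul_mem (H.nt.U_le ⟨hu, h4.1⟩) h5) h9, h9, h1 n h7 h8⟩

end TB
end StN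

end Cfsg.Agent.H5
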