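import Cfsg.Agent.H5.Bg4

/-! Overgroups of subfield subgroups in `²E₆(q)` and `³D₄(q)`. -/

set_option autoImplicit false
set_option maxRecDepth 100000

namespace Cfsg.Agent.H5

open Cfsg.Lie StG StN RS StN.Tw

variable {D : ChevalleyDatum}

/-- collect with a prescribed beginning -/
noncomputable def Cert.colK (C : Cert) (n : ℕ) (L : List ℕ) (w : Word) : Word :=
  C.coll 0 n (fun s => List.rec s (fun a _ ih => Bool.rec (ih + 1) 0 (Nat.beq a s)) L) 100 w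

theorem RS.Sym.OrbD.exists_W1 {R : RS D} {Y : R.Sym} {k : ℕ} (O : Y.OrbD k) (l : List (Fin k)) {r c : Φ D}
    (h : l.foldr (fun (a : Fin k) x => R.toCert.actL (O.wd a) x) r = c) : ∃ w ∈ Y.W1, w • r = c := by
  refine ⟨((l.map O.isOrb.s).prod : Y.W1), Subtype.prop _, Fin.ext (Eq.trans ?_ h)⟩
  clear h
  induction l with
  | nil => simp
  | cons a l ih => rw [List.map_cons, List.prod_cons, Subgroup.coe_mul, mul_smul, List.foldr_cons, ← ih]; exact O.wJ_smul _ _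

theorem span2 {K : Type*} [Field K] {φ : K →+* K} (h2 : ∀ t, φ (φ t) = t) {t : K} (ht : φ t ≠ t) (s : K) :
    ∃ a b, φ a = a ∧ φ b = b ∧ s = a + b * t := by
  have h := sub_ne_zero.2 ht
  have h' := sub_ne_zero.2 ht.symm
  refine ⟨s - (s - φ s) / (t - φ t) * t, (s - φ s) / (t - φ t), ?_, ?_, by ring⟩ <;> simp only [map_sub, map_mul, map_div₀, h2] <;>
    field_simp <;> ring

theorem span3 {K : Type*} [Field K] [Finite K] {φ : K →+* K} (h3 : ∀ t, φ (φ (φ t)) = t) {t : K} (ht : φ t ≠ t) (s : K) :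
    ∃ a b c, φ a = a ∧ φ b = b ∧ φ c = c ∧ s = a + b * t + c * (φ t * φ (φ t)) := by
  have h1 := sub_ne_zero.2 ht
  have h2 : φ (φ t) - φ t ≠ 0 := by rwa [← map_sub, map_ne_zero]
  have h4 : t - φ (φ t) ≠ 0 := by rwa [← map_ne_zero φ, map_sub, h3]
  let f : K × K × K → K × K × K := fun x => (x.1 + x.2.1 * t + x.2.2 * (φ t * φ (φ t)), x.1 + x.2.1 * φ t + x.2.2 * (φ (φ t) * t),
    x.1 + x.2.1 * φ (φ t) + x.2.2 * (t * φ t))
  have hf : Function.Injective f := fun x y h => by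
    simp only [f, Prod.mk.injEq] at h
    obtain ⟨e1, e2, e3⟩ := h
    have k1 : x.2.1 - y.2.1 = (x.2.2 - y.2.2) * φ (φ t) := mul_left_cancel₀ h1 (by linear_combination e2 - e1)
    have k2 : x.2.1 - y.2.1 = (x.2.2 - y.2.2) * t := mul_left_cancel₀ h2 (by linear_combination e3 - e2)
    have k3 : x.2.2 = y.2.2 := mul_left_cancel₀ h4 (by linear_combination k1 - k2)
    have k4 : x.2.1 = y.2.1 := by linear_combination k1 + φ (φ t) * k3
    exact Prod.ext (by linear_combination e1 - t * k4 - φ t * φ (φ t) * k3) (Prod.ext k4 k3)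
  obtain ⟨⟨a, b, c⟩, h⟩ := Finite.injective_iff_surjective.1 hf (s, φ s, φ (φ s))
  have h' := h
  simp only [f, Prod.mk.injEq] at h'
  obtain ⟨e1, e2, e3⟩ := h'
  have := @hf (φ a, φ b, φ c) (a, b, c) (h ▸ Prod.ext (by simpa [h3] using congrArg φ e3) (Prod.ext (by simpa [h3] using congrArg φ e1)
    (by simpa [h3] using congrArg φ e2)))
  simp only [Prod.mk.injEq] at this
  exact ⟨a, b, c, this.1, this.2.1, this.2.2, e1.symm⟩

namespace StN
variable {R : RS D} {K G : Type*} [Field K] [Group G] {S : StN R K G} {θ : Φ D} {β : I D} {φ : K →+* K} {σ : G →* G}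
  {M : Subgroup G} {Y : R.Sym} {T : S.Tw Y} {B : Type} {orb : I D → B}

theorem σ_gw (hσ : ∀ r t, σ (S.x r t) = S.x r (φ t)) {l : List ℕ} {v : ℕ → K} (h : ∀ i < l.length, φ (v i) = v i) :
    σ (S.WN ((gw l).map fun a => (a.1, peval v a.2))) = S.WN ((gw l).map fun a => (a.1, peval v a.2)) := by
  rw [WN, map_list_prod, List.map_map]
  refine congrArg _ (List.map_congr_left fun a ha => ?_)
  simp only [gw, List.map_map, List.mem_map, Function.comp] at ha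
  obtain ⟨b, hb, rfl⟩ := ha
  simp only [Function.comp, xN, peval_pX]
  split_ifs
  exacts [by rw [hσ, h _ (by simpa using (List.mem_zipIdx' hb).1)], map_one _]

theorem wev_mem {T : Set (Φ D)} {v : ℕ → K} {w : Word} (h : ∀ r : Φ D, (r : ℕ) ∈ w.map Prod.fst → r ∈ T) : wev S.x v w ∈ S.U T :=
  (wev_eq S.toStG v w).symm ▸ WN_mem (by simpa [Function.comp_def] using h)

theorem wev_colK (v : ℕ → K) (L : List ℕ) (w : Word) : wev S.x v (R.toCert.colK D.nroots L w) = wev S.x v w :=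
  S.rel12.wev_coll Nat.cast_zero v _ _ w

theorem TB.cert1 (H : TB θ β φ σ M T orb) {v : ℕ → K} {w : Word} (hw : wev S.x v w ∈ M) (r : Φ D) (P : Poly)
    (h : R.pr θ r = 1 ∧ Y.ρ r ≠ r ∧ Cert.wbeq 0 ((R.toCert.colK D.nroots [r] w).take 1) [(r, P)] = true ∧
      ∀ s : Φ D, (s : ℕ) ∈ ((R.toCert.colK D.nroots [r] w).drop 1).map Prod.fst →
        (s ≠ r ∧ (s = Y.ρ r ∨ s = Y.ρ (Y.ρ r))) ∨ 0 < R.pr θ s ∧ Y.ρ s = s) : peval v P ∈ S.Lam M Y r := by
  rw [← wev_colK v [r], ← List.take_append_drop 1 (Cert.colK _ _ _ _), wev_append, wev_of_wbeq Nat.cast_zero v h.2.2.1, wev_cons,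
    wev_nil, mul_one, xN_val] at hw
  exact H.strip h.1 h.2.1 (wev_mem h.2.2.2) hw

theorem TB.cert2 (H : TB θ β φ σ M T orb) {v : ℕ → K} {w : Word} (hw : wev S.x v w ∈ M) (r r₂ : Φ D) (P P₂ : Poly) {L : List ℕ}
    (h : R.pr θ r = 1 ∧ Y.ρ r ≠ r ∧ R.pr θ r₂ = 1 ∧ Y.ρ r₂ ≠ r₂ ∧ R.hs r ≠ R.hs r₂ ∧
      Cert.wbeq 0 ((R.toCert.colK D.nroots L w).take 1) [(r, P)] = true ∧
      Cert.wbeq 0 (((R.toCert.colK D.nroots L w).drop 3).take 1) [(r₂, P₂)] = true ∧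
      (∀ s : Φ D, (s : ℕ) ∈ (((R.toCert.colK D.nroots L w).drop 1).take 2).map Prod.fst → s ≠ r ∧ (s = Y.ρ r ∨ s = Y.ρ (Y.ρ r))) ∧
      ∀ s : Φ D, (s : ℕ) ∈ ((R.toCert.colK D.nroots L w).drop 4).map Prod.fst →
        (s ≠ r₂ ∧ (s = Y.ρ r₂ ∨ s = Y.ρ (Y.ρ r₂))) ∨ 0 < R.pr θ s ∧ Y.ρ s = s) (hP : peval v P ∈ S.Lam M Y r) :
    peval v P₂ ∈ S.Lam M Y r₂ := by
  obtain ⟨h1, h2, h3, h4, h5, h6, h7, h8, h9⟩ := h
  rw [← wev_colK v L] at hw
  generalize Cert.colK _ _ _ _ = Z at *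
  rw [show Z = Z.take 1 ++ ((Z.drop 1).take 2 ++ ((Z.drop 3).take 1 ++ Z.drop 4)) by
      rw [show Z.drop 4 = (Z.drop 3).drop 1 by simp, List.take_append_drop, show Z.drop 3 = (Z.drop 1).drop 2 by simp,
        List.take_append_drop, List.take_append_drop], wev_append, wev_append, wev_append, wev_of_wbeq Nat.cast_zero v h6, wev_of_wbeq Nat.cast_zero v h7, wev_cons,
    wev_cons, wev_nil, mul_one, mul_one, xN_val, xN_val, ← mul_assoc] at hw
  exact H.strip2 h1 h2 h3 h4 h5 (wev_mem h8) (wev_mem h9) hP hw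

theorem TB.comm_mem (H : TB θ β φ σ M T orb) {v : ℕ → K} {w w' : Word} (hw : wev S.x v w ∈ M) (hw' : wev S.x v w' ∈ M) :
    wev S.x v (w ++ w' ++ Cert.winv w ++ Cert.winv w') ∈ M := by
  simp only [wev_append, H.hσ, S.rel12.wev_winv]
  exact mul_mem (mul_mem (mul_mem hw hw') (inv_mem hw)) (inv_mem hw')

theorem TB.neg_mem (H : TB θ β φ σ M T orb) {r : Φ D} (hr : R.pr θ r = 1) {t : K} (h : -t ∈ S.Lam M Y r) : t ∈ S.Lam M Y r := by
  simpa using H.Lam_smul hr (c := -1) (by simp) h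

end StN

section E6
variable {K G : Type*} [Field K] [Group G] {S : StN rsE6 K G} {φ : K →+* K} {σ : G →* G} {M : Subgroup G} {T : S.Tw symE6}
  (H : TB ⟨71, by decide⟩ (1 : Fin 6) φ σ M T orb2E6.orb) (A : T.Act pi2E6 sg2E6 (fun _ => 1) φ) (h2 : ∀ t, φ (φ t) = t)
include H A h2

theorem le2E6 {t : K} (ht : φ t ≠ t) (h : t ∈ S.Lam M symE6 ⟨66, by decide⟩) : T.G1 orb2E6.orb ≤ M := by
  have hr : rsE6.pr ⟨71, by decide⟩ ⟨66, by decide⟩ = 1 := by decide +kernel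
  have h1 : ∀ s, s ∈ S.Lam M symE6 ⟨66, by decide⟩ := fun s => by
    obtain ⟨a, b, ha, hb, rfl⟩ := span2 h2 ht s
    exact H.Lam_add hr (H.Lam_fix hr (by decide +kernel) ha) (H.Lam_smul hr hb h)
  have k1 : ∀ (r : Φ chevE6) (t : {t // φ t = t}), symE6.ρ r = r → S.WN [(r, t)] ∈ M := fun r t h => by
    simpa [WN] using H.x_mem' h t.2
  have k2 : ∀ (r s : Φ chevE6) (t : K) (l : List (Fin 4)), (l.foldr (fun (a : Fin 4) x => rsE6.toCert.actL (orb2E6.wd a) x) r = 66 ∧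
      s ≠ r ∧ s = symE6.ρ r) → S.WN [(r, t), (s, φ t)] ∈ T.Fix → S.WN [(r, t), (s, φ t)] ∈ M := fun r s t l h hf => by
    obtain ⟨w, hw, e⟩ := orb2E6.exists_W1 l (c := ⟨66, by decide⟩) h.1
    simpa [WN] using H.mem_of_Lam' hw (e ▸ hr) (e ▸ h1 t) (x_mem (And.intro h.2.1 (.inl h.2.2)) (φ t)) (by simpa [WN] using hf)
  refine iSup_le fun b => sup_le (fun g hg => ?_) (fun g hg => ?_) <;> fin_cases b
  · obtain ⟨t, rfl⟩ := (mem2E6_1 A (.head _)).1.1 hg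
    exact k1 ⟨46, by decide⟩ t (by decide +kernel)
  · obtain ⟨t, rfl⟩ := (mem2E6_1 A (.tail _ (.head _))).1.1 hg
    exact k1 ⟨39, by decide⟩ t (by decide +kernel)
  · obtain ⟨t, rfl⟩ := (mem2E6_2 A h2 (.head _)).1.1 hg
    exact k2 ⟨42, by decide⟩ ⟨37, by decide⟩ t [3, 2, 1, 2, 3, 2, 0, 1] (by decide +kernel) hg.2
  · obtain ⟨t, rfl⟩ := (mem2E6_2 A h2 (.tail _ (.head _))).1.1 hg
    exact k2 ⟨56, by decide⟩ ⟨36, by decide⟩ t [2, 3, 2, 1, 2, 0, 1, 2] (by decide +kernel) hg.2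
  · obtain ⟨t, rfl⟩ := (mem2E6_1 A (.head _)).2.1 hg
    exact k1 ⟨25, by decide⟩ t (by decide +kernel)
  · obtain ⟨t, rfl⟩ := (mem2E6_1 A (.tail _ (.head _))).2.1 hg
    exact k1 ⟨32, by decide⟩ t (by decide +kernel)
  · obtain ⟨t, rfl⟩ := (mem2E6_2 A h2 (.head _)).2.1 hg
    exact k2 ⟨29, by decide⟩ ⟨34, by decide⟩ t [3, 2, 1, 2, 3, 2, 0, 1, 2] (by decide +kernel) hg.2
  · obtain ⟨t, rfl⟩ := (mem2E6_2 A h2 (.tail _ (.head _))).2.1 hg
    exact k2 ⟨15, by decide⟩ ⟨35, by decide⟩ t [2, 3, 2, 1, 2, 0, 1, 2, 3] (by decide +kernel) hg.2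

/-- roots of the radical -/
def lE6 : List ℕ := [48, 50, 49, 61, 52, 62, 54, 64, 55, 67, 66, 68, 46, 47, 51, 53, 63, 65, 69, 70, 71]

theorem hQ2E6 (hn : ¬ T.G1 orb2E6.orb ≤ M) : ∀ x ∈ M ⊓ S.UJ (rsE6.JJ ⟨71, by decide⟩), σ x = x := fun y hy => by
  obtain ⟨v, hv, rfl⟩ := (A.mem_iff (L := rsE6.lamf) (X := {r | 1 ≤ rsE6.pr ⟨71, by decide⟩ r}) (H.hi.dom'.ideal one_pos).closed
    (H.hi.dom'.ideal one_pos).1 (l := lE6) (by decide) (by decide) (by simp only [Set.mem_setOf_eq]; decide +kernel) Nat.cast_zero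
    (Q := ([(48, 1, 1), (50, 1, 0), (49, -1, 3), (61, -1, 2), (52, -1, 5), (62, -1, 4), (54, -1, 7), (64, -1, 6), (55, -1, 9), (67, -1, 8),
      (66, 1, 11), (68, 1, 10), (46, 1, 12), (47, 1, 13), (51, 1, 14), (53, 1, 15), (63, 1, 16), (65, 1, 17), (69, 1, 18), (70, 1, 19),
      (71, 1, 20)] : List (ℕ × ℤ × ℕ)).map fun a => (a.1, pscal a.2.1 (pX a.2.2))) rfl (by decide +kernel)).1
    ⟨U_mono (fun _ h => H.hi.uj_iff.1 h) hy.2, H.fix hy.1⟩
  have key : ∀ (i : ℕ) (γ r : Φ chevE6) (e : ℤ) (l : List (Fin 4)), (symE6.ρ γ = γ ∧ (e = 1 ∨ e = -1) ∧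
      l.foldr (fun (a : Fin 4) x => rsE6.toCert.actL (orb2E6.wd a) x) r = 66) → (wev S.x v ([((γ : ℕ), [(1, [])])] ++ gw lE6 ++
      Cert.winv [((γ : ℕ), [(1, [])])] ++ Cert.winv (gw lE6)) ∈ M → peval v (pscal e (pX i)) ∈ S.Lam M symE6 r) → φ (v i) = v i :=
    fun i γ r e l h h' => by_contra fun ht => by
      obtain ⟨w, hw, e⟩ := orb2E6.exists_W1 l (c := ⟨66, by decide⟩) h.2.2
      have hr : rsE6.pr ⟨71, by decide⟩ ⟨66, by decide⟩ = 1 := by decide +kernel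
      have := H.Lam_conj hw (e ▸ hr) (h' (H.comm_mem (by simpa [wev, peval, meval] using H.x_mem' h.1 φ.map_one) ((wev_eq S.toStG v _).symm ▸ hy.1)))
      rw [e, peval_pscal, peval_pX] at this
      refine hn (le2E6 H A h2 ht ?_)
      rcases h.2.1 with rfl | rfl
      exacts [by simpa using this, H.neg_mem hr (by simpa using this)]
  have k0 := key 0 ⟨60, by decide⟩ ⟨66, by decide⟩ (-1) [] (by decide +kernel) fun h => H.cert1 h _ _ (by decide +kernel)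
  have k2 := key 2 ⟨44, by decide⟩ ⟨55, by decide⟩ 1 [3] (by decide +kernel) fun h => H.cert1 h _ _ (by decide +kernel)
  have k4 := key 4 ⟨39, by decide⟩ ⟨54, by decide⟩ 1 [3, 2] (by decide +kernel) fun h => H.cert1 h _ _ (by decide +kernel)
  have k6 := key 6 ⟨32, by decide⟩ ⟨52, by decide⟩ 1 [3, 2, 1] (by decide +kernel) fun h => H.cert1 h _ _ (by decide +kernel)
  have k8 := key 8 ⟨27, by decide⟩ ⟨49, by decide⟩ 1 [3, 2, 1, 2] (by decide +kernel) fun h => H.cert1 h _ _ (by decide +kernel)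
  have k10 := key 10 ⟨11, by decide⟩ ⟨48, by decide⟩ (-1) [3, 2, 1, 2, 3] (by decide +kernel) fun h => H.cert1 h _ _ (by decide +kernel)
  simp only [gw, lE6, List.zipIdx, List.map_cons, List.map_nil, peval_pX, peval_pscal, List.cons.injEq, Prod.mk.injEq, true_and,
    and_true, Int.cast_one, one_mul, Int.cast_neg, neg_mul, Nat.reduceAdd] at hv
  obtain ⟨-, h1, -, h3, -, h5, -, h7, -, h9, -, h11, h12, h13, h14, h15, h16, h17, h18, h19, h20⟩ := hv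
  refine σ_gw H.hσ fun i hi => ?_
  simp only [lE6, List.length_cons, List.length_nil] at hi
  interval_cases i <;> first | assumption | (symm; assumption) | simp [*]

end E6

section D4
variable {K G : Type*} [Field K] [Finite K] [Group G] {S : StN rsD4 K G} {φ : K →+* K} {σ : G →* G} {M : Subgroup G}
  {T : S.Tw symD4_2130} (H : TB ⟨23, by decide⟩ (1 : Fin 4) φ σ M T orb3D4.orb) (A : T.Act pi3D4 sg3D4 (fun _ => 1) φ)
  (h3 : ∀ t, φ (φ (φ t)) = t)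
include H A h3

theorem le3D4 {t : K} (ht : φ t ≠ t) (h : t ∈ S.Lam M symD4_2130 ⟨19, by decide⟩) : T.G1 orb3D4.orb ≤ M := by
  have hr : rsD4.pr ⟨23, by decide⟩ ⟨19, by decide⟩ = 1 := by decide +kernel
  have k2 : ∀ (r s u : Φ chevD4) (t : K) (l : List (Fin 2)), (l.foldr (fun (a : Fin 2) x => rsD4.toCert.actL (orb3D4.wd a) x) r = 19 ∧
      (s ≠ r ∧ s = symD4_2130.ρ r) ∧ u ≠ r ∧ u = symD4_2130.ρ (symD4_2130.ρ r)) → t ∈ S.Lam M symD4_2130 ⟨19, by decide⟩ →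
      S.WN [(r, t), (s, φ t), (u, φ (φ t))] ∈ T.Fix → S.WN [(r, t), (s, φ t), (u, φ (φ t))] ∈ M := fun r s u t l h ht hf => by
    obtain ⟨w, hw, e⟩ := orb3D4.exists_W1 l (c := ⟨19, by decide⟩) h.1
    simpa [WN] using H.mem_of_Lam' hw (e ▸ hr) (e ▸ ht) (mul_mem (x_mem (And.intro h.2.1.1 (.inl h.2.1.2)) (φ t))
      (x_mem (And.intro h.2.2.1 (.inr h.2.2.2)) (φ (φ t)))) (by simpa [WN] using hf)
  have h0 := H.cert2 (v := fun i => if i = 0 then t else if i = 1 then φ t else φ (φ t)) (H.comm_mem (w := gw [18, 13, 12])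
    (w' := [(14, [(1, [])])]) (by
      simpa [wev_eq, gw, List.zipIdx] using k2 ⟨18, by decide⟩ ⟨13, by decide⟩ ⟨12, by decide⟩ t [0] (by decide +kernel) h
        ((mem3D4_3 A h3).1.2 ⟨t, rfl⟩).2) (by
      simpa [wev, peval, meval, xN_of_lt _ (by decide : 14 < chevD4.nroots)] using H.x_mem' (r := ⟨14, by decide⟩) (by decide +kernel) φ.map_one))
    ⟨19, by decide⟩ ⟨17, by decide⟩ [(-1, [1])] [(1, [0, 1, 1])] (L := [19, 16, 15, 17]) (by decide +kernel)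
    (by simpa [peval, meval] using H.Lam_smul hr (c := -1) (by simp) h)
  obtain ⟨w, hw, e⟩ := orb3D4.exists_W1 [1] (r := ⟨17, by decide⟩) (c := ⟨19, by decide⟩) (by decide +kernel)
  have h1 : ∀ s, s ∈ S.Lam M symD4_2130 ⟨19, by decide⟩ := fun s => by
    obtain ⟨a, b, c, ha, hb, hc, rfl⟩ := span3 h3 ht s
    exact H.Lam_add hr (H.Lam_add hr (H.Lam_fix hr (by decide +kernel) ha) (H.Lam_smul hr hb h))
      (H.Lam_smul hr hc (by simpa [peval, meval, e] using H.Lam_conj hw (e ▸ hr) h0))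
  have k1 : ∀ (r : Φ chevD4) (t : {t // φ t = t}), symD4_2130.ρ r = r → S.WN [(r, t)] ∈ M := fun r t h => by
    simpa [WN] using H.x_mem' h t.2
  refine iSup_le fun b => sup_le (fun g hg => ?_) (fun g hg => ?_) <;> fin_cases b
  · obtain ⟨t, rfl⟩ := (mem3D4_1 A).1.1 hg
    exact k1 ⟨14, by decide⟩ t (by decide +kernel)
  · obtain ⟨t, rfl⟩ := (mem3D4_3 A h3).1.1 hg
    exact k2 ⟨18, by decide⟩ ⟨13, by decide⟩ ⟨12, by decide⟩ t [0] (by decide +kernel) (h1 t) hg.2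
  · obtain ⟨t, rfl⟩ := (mem3D4_1 A).2.1 hg
    exact k1 ⟨9, by decide⟩ t (by decide +kernel)
  · obtain ⟨t, rfl⟩ := (mem3D4_3 A h3).2.1 hg
    exact k2 ⟨5, by decide⟩ ⟨10, by decide⟩ ⟨11, by decide⟩ t [0, 1] (by decide +kernel) (h1 t) hg.2

theorem hQ3D4 (hn : ¬ T.G1 orb3D4.orb ≤ M) : ∀ x ∈ M ⊓ S.UJ (rsD4.JJ ⟨23, by decide⟩), σ x = x := fun y hy => by
  obtain ⟨v, hv, rfl⟩ := (A.mem_iff (L := rsD4.lamf) (X := {r | 1 ≤ rsD4.pr ⟨23, by decide⟩ r}) (H.hi.dom'.ideal one_pos).closed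
    (H.hi.dom'.ideal one_pos).1 (l := [19, 16, 15, 17, 20, 21, 14, 22, 23]) (by decide) (by decide)
    (by simp only [Set.mem_setOf_eq]; decide +kernel) Nat.cast_zero
    (Q := ([(19, -1, 2), (16, -1, 0), (15, 1, 1), (17, -1, 5), (20, -1, 3), (21, 1, 4), (14, 1, 6), (22, 1, 7), (23, 1, 8)] :
      List (ℕ × ℤ × ℕ)).map fun a => (a.1, pscal a.2.1 (pX a.2.2))) rfl (by decide +kernel)).1
    ⟨U_mono (fun _ h => H.hi.uj_iff.1 h) hy.2, H.fix hy.1⟩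
  have hy' : wev S.x v (gw [19, 16, 15, 17, 20, 21, 14, 22, 23]) ∈ M := (wev_eq S.toStG v _).symm ▸ hy.1
  simp only [gw, List.zipIdx, List.map_cons, List.map_nil, peval_pX, peval_pscal, List.cons.injEq, Prod.mk.injEq, true_and,
    and_true, Int.cast_one, one_mul, Int.cast_neg, neg_mul, Nat.reduceAdd] at hv
  obtain ⟨-, h1, h2, -, h4, h5, h6, h7, h8⟩ := hv
  have hr : rsD4.pr ⟨23, by decide⟩ ⟨19, by decide⟩ = 1 ∧ symD4_2130.ρ ⟨19, by decide⟩ ≠ ⟨19, by decide⟩ := by decide +kernel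
  have hr' : rsD4.pr ⟨23, by decide⟩ ⟨17, by decide⟩ = 1 ∧ symD4_2130.ρ ⟨17, by decide⟩ ≠ ⟨17, by decide⟩ := by decide +kernel
  have key : ∀ {r t s}, rsD4.pr ⟨23, by decide⟩ r = 1 ∧ symD4_2130.ρ r ≠ r → φ s = s →
      -φ t + (φ (-φ t) + s) ∈ S.Lam M symD4_2130 r → t ∈ S.Lam M symD4_2130 r := fun {r t s} h hs h' => by
    convert H.Lam_add h.1 h' (H.Lam_fix h.1 h.2 (c := t + φ t + φ (φ t) - s) (by simp only [map_sub, map_add, h3, hs]; ring)) using 1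
    rw [map_neg]; ring
  have hm : ∀ a b c : ℕ, (∀ i ∈ [a, b, c], i < chevD4.nroots) → S.WN [(a, 1), (b, φ 1), (c, φ (φ 1))] ∈ T.G1 orb3D4.orb →
      wev S.x v [(a, [(1, [])]), (b, [(1, [])]), (c, [(1, [])])] ∈ M := fun a b c h h' => by
    simpa [wev_eq, peval, meval] using H.ge _ h' (by simp [WN, xN_of_lt _ (h a (by simp)), xN_of_lt _ (h b (by simp)),
      xN_of_lt _ (h c (by simp)), H.hσ])
  have k0 : φ (v 0) = v 0 := by_contra fun ht => by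
    obtain ⟨w, hw, e⟩ := orb3D4.exists_W1 [1] (r := ⟨17, by decide⟩) (c := ⟨19, by decide⟩) (by decide +kernel)
    refine hn (le3D4 H A h3 ht (e ▸ H.Lam_conj hw (e ▸ hr.1) (key hr' h6.symm ?_)))
    simpa only [peval_append, peval_pX, ← h1, ← h2] using H.cert2 (H.comm_mem (hm 18 13 12 (by decide) (T.G1b_le _ 1 (Subgroup.mem_sup_left
      ((mem3D4_3 A h3).1.2 ⟨1, rfl⟩)))) hy') ⟨19, by decide⟩ ⟨17, by decide⟩ (pscal (-1) (pX 6)) (pX 1 ++ (pX 2 ++ pX 6))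
      (L := [19, 16, 15, 17]) (by decide +kernel) (H.Lam_fix hr.1 hr.2 (by simp [peval_pscal, ← h6]))
  have k3 : φ (v 3) = v 3 := by_contra fun ht => by
    refine hn (le3D4 H A h3 ht (key hr h7.symm ?_))
    simpa only [peval_append, peval_pX, ← h4, ← h5] using H.cert2 (H.comm_mem (hm 5 10 11 (by decide) (T.G1b_le _ 1 (Subgroup.mem_sup_right
      ((mem3D4_3 A h3).2.2 ⟨1, rfl⟩)))) hy') ⟨17, by decide⟩ ⟨19, by decide⟩ (pscal (-1) (pX 7)) (pX 4 ++ (pX 5 ++ pX 7))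
      (L := [17, 20, 21, 19]) (by decide +kernel) (H.Lam_fix hr'.1 hr'.2 (by simp [peval_pscal, ← h7]))
  refine σ_gw H.hσ fun i hi => ?_
  simp only [List.length_cons, List.length_nil] at hi
  interval_cases i <;> first | assumption | (symm; assumption) | (simp only [h1, h2, h4, h5, map_neg, k0, k3])

end D4

end Cfsg.Agent.H5
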