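import Cfsg.Agent.H5.Bg5

/-! Maximality of subfield subgroups. -/

set_option autoImplicit false
set_option maxRecDepth 100000

namespace Cfsg.Agent.H5

open Cfsg.Lie StG StN RS StN.Tw

variable {D : ChevalleyDatum}

theorem max_of {K : Type*} [Field K] {φ : K →+* K} {q : ℕ} (hφ : ∀ t, φ t = t ^ q) {Γ : Subgroup (D.group K)}
    {Γ' M : Subgroup (GL D.Idx K)} (hΓ : Γ' = Γ.map (D.group K).subtype)
    (hM : ∀ g : GL D.Idx K, g ∈ M ↔ g ∈ Γ' ∧ ∀ i j, ((g : Matrix D.Idx D.Idx K) i j) ^ q = (g : Matrix D.Idx D.Idx K) i j)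
    (h1 : ∃ g ∈ Γ, bc D φ g ≠ g)
    (h2 : ∀ H : Subgroup (D.group K), H ≤ Γ → (∀ g ∈ Γ, bc D φ g = g → g ∈ H) → ¬ Γ ≤ H → ∀ g ∈ H, bc D φ g = g) :
    M ≠ Γ' ∧ ∀ H, M ≤ H → H ≤ Γ' → H = M ∨ H = Γ' := by
  subst hΓ
  have key : ∀ g : D.group K, (g : GL D.Idx K) ∈ M ↔ g ∈ Γ ∧ bc D φ g = g := fun g => by
    rw [hM, Subtype.ext_iff, Units.ext_iff, bc_val, ← Matrix.ext_iff]
    simp [hφ]
  refine ⟨fun e => ?_, fun H h3 h4 => or_iff_not_imp_right.2 fun h5 => le_antisymm (fun g hg => ?_) h3⟩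
  · obtain ⟨g, hg, h⟩ := h1
    exact h ((key g).1 (e ▸ ⟨g, hg, rfl⟩)).2
  · have h6 : H.comap (D.group K).subtype ≤ Γ := fun g hg => by simpa using h4 hg
    obtain ⟨g, hg', rfl⟩ := h4 hg
    exact (key g).2 ⟨hg', h2 _ h6 (fun g hg h => h3 ((key g).2 ⟨hg, h⟩)) (fun h => h5 (le_antisymm h4 (Subgroup.map_le_iff_le_comap.2 h)))
      g hg⟩

theorem exists_ne_fix {K : Type*} [Field K] [Fintype K] {q n : ℕ} (hq : 1 < q) (hn : 1 < n) (hK : Fintype.card K = q ^ n)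
    {φ : K →+* K} (hφ : ∀ t, φ t = t ^ q) : ∃ t, φ t ≠ t := by
  by_contra! h
  have := (card_fix' hq.le hK hφ).1
  rw [Nat.card_congr (Equiv.subtypeUnivEquiv h), Nat.card_eq_fintype_card, hK] at this
  exact (Nat.pow_lt_pow_right hq hn).ne' (by rwa [pow_one])

theorem bc_fix (p : ℕ) [Fact p.Prime] {K : Type*} [Field K] [CharP K p] (φ : K →+* K) (m : D.group (ZMod p)) :
    bc D φ (bc D (ZMod.castHom (dvd_refl p) K) m) = bc D (ZMod.castHom (dvd_refl p) K) m :=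
  Subtype.ext (Units.ext (by
    rw [bc_val, bc_val, Matrix.map_map, ← RingHom.coe_comp, RingHom.ext_zmod (φ.comp _) (ZMod.castHom (dvd_refl p) K)]))

theorem hN_of (p : ℕ) [Fact p.Prime] {K : Type*} [Field K] [CharP K p] {R : RS D} {Y : R.Sym} {B : Type} {orb : I D → B}
    {φ : K →+* K} {T₀ : (R.adj (ZMod p)).Tw Y} {T : (R.adj K).Tw Y} {π : ℕ → ℕ} {ε : ℕ → ℤ}
    (A₀ : T₀.Act π ε (fun _ => 1) (RingHom.id _)) (A : T.Act π ε (fun _ => 1) φ) (H₀ : T₀.NT orb) :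
    ∀ w ∈ Y.W1, ∃ n ∈ T.G1 orb, bc D φ n = n ∧ n ∈ (R.adj K).N ∧ (R.adj K).Lift n w := fun w hw => by
  have hι := R.bc_x (ZMod.castHom (dvd_refl p) K)
  have hσ := bc_σ (T₀ := T₀) (T := T) hι (fun r => by simp [A.γ, A₀.γ]) (fun r t => by
    rw [A.φ, A₀.φ, pow_one, pow_one]; exact DFunLike.congr_fun (RingHom.ext_zmod (φ.comp _) _) t) (R.adj_gen _)
  have hF : ∀ {X u}, u ∈ (R.adj _).U X ⊓ T₀.Fix → bc D (ZMod.castHom (dvd_refl p) K) u ∈ (R.adj _).U X ⊓ T.Fix :=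
    fun hu => ⟨bc_U hι hu.1, (hσ _).trans (congrArg _ hu.2)⟩
  obtain ⟨m, h1, h2, h3⟩ := H₀.exists_lift hw
  exact ⟨_, (iSup_le fun b => sup_le (fun u hu => G1b_le _ _ b (Subgroup.mem_sup_left (hF hu)))
    (fun u hu => G1b_le _ _ b (Subgroup.mem_sup_right (hF hu))) : T₀.G1 orb ≤ (T.G1 orb).comap _) h1, bc_fix p φ m,
    (bc_lift hι h2).1, (bc_lift hι h2).2 w h3⟩

namespace StN
variable {R : RS D} {K G : Type*} [Field K] [Group G] {S : StN R K G} {θ : Φ D} {β : I D} {φ : K →+* K} {σ : G →* G}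
  {M : Subgroup G} {Y : R.Sym} {T : S.Tw Y} {π : ℕ → ℕ} {ε : ℕ → ℤ}

theorem Bg.le_fix (H : S.Bg θ β φ σ M) [Finite K] (hπ : Function.Injective S.π) (hx : ∀ t, φ t = t → S.x θ t ∈ M)
    (h : ∀ _ : CharP K 2, (∀ t, φ t = t → t = 0 ∨ t = 1) → ∀ m ∈ M, σ m = m) : ∀ m ∈ M, σ m = m := by
  by_cases hF : ∀ t, φ t = t → t = 0 ∨ t = 1
  · exact h (CharTwo.of_one_ne_zero_of_two_eq_zero one_ne_zero ((hF 2 (map_ofNat φ 2)).resolve_right fun e =>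
      one_ne_zero (by linear_combination e : (1 : K) = 0))) hF
  · push Not at hF
    obtain ⟨b, h1, h2, h3⟩ := hF
    exact fun m => H.le_fix_of_big hπ h2 h3 (hx b h1)

theorem one2 (A : T.Act π ε (fun _ => 1) φ) (hσ : ∀ r t, σ (S.x r t) = S.x r (φ t)) {r : Φ D} (h0 : Y.ρ r ≠ r)
    (h : Y.ρ (Y.ρ r) = r ∧ Y.ρ r ≠ R.neg r ∧ R.tm r (Y.ρ r) = [] ∧ ε (Y.ρ r) * ε r = 1) :
    ∃ a ∈ S.U (Y.Ob r), T.σ (S.x r 1 * a) = S.x r 1 * a ∧ σ a = a :=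
  ⟨S.x (Y.ρ r) (ε r), x_mem (And.intro h0 (.inl rfl)) _, by
    simp only [map_mul, T.hσ, A.γ, A.φ, pow_one, map_one, mul_one, map_intCast, h.1, ← Int.cast_mul, h.2.2.2, Int.cast_one,
      (comm_tm h.2.1 h.2.2.1 _ _).eq], by rw [hσ, map_intCast]⟩

theorem one3 (A : T.Act π ε (fun _ => 1) φ) (hσ : ∀ r t, σ (S.x r t) = S.x r (φ t)) {r : Φ D} (h0 : Y.ρ r ≠ r)
    (h : Y.ρ (Y.ρ (Y.ρ r)) = r ∧ Y.ρ r ≠ R.neg r ∧ R.tm r (Y.ρ r) = [] ∧ Y.ρ (Y.ρ r) ≠ r ∧ Y.ρ (Y.ρ r) ≠ R.neg r ∧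
      R.tm r (Y.ρ (Y.ρ r)) = [] ∧ ε (Y.ρ (Y.ρ r)) * (ε (Y.ρ r) * ε r) = 1) :
    ∃ a ∈ S.U (Y.Ob r), T.σ (S.x r 1 * a) = S.x r 1 * a ∧ σ a = a :=
  ⟨S.x (Y.ρ r) (ε r) * S.x (Y.ρ (Y.ρ r)) (ε (Y.ρ r) * ε r : ℤ), mul_mem (x_mem (And.intro h0 (.inl rfl)) _) (x_mem (And.intro h.2.2.2.1 (.inr rfl)) _), by
    simp only [map_mul, T.hσ, A.γ, A.φ, pow_one, map_one, mul_one, map_intCast, h.1, ← Int.cast_mul, h.2.2.2.2.2.2, Int.cast_one]
    rw [← mul_assoc, ((comm_tm h.2.1 h.2.2.1 _ _).mul_right (comm_tm h.2.2.2.2.1 h.2.2.2.2.2.1 _ _)).eq],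
    by simp only [map_mul, hσ, map_intCast]⟩

end StN

theorem hiE6 : rsE6.Hi ⟨71, by decide⟩ (1 : Fin 6) := ⟨by decide +kernel, by decide +kernel, fullE6⟩
theorem hiD4 : rsD4.Hi ⟨23, by decide⟩ (1 : Fin 4) := ⟨by decide +kernel, by decide +kernel, fullD4⟩
theorem lnE6 : rsE6.Ln ⟨71, by decide⟩ (1 : Fin 6) ⟨70, by decide⟩ ∧ rsE6.Pl ⟨71, by decide⟩ (1 : Fin 6) (3 : Fin 6) :=
  ⟨@of_decide_eq_true _ (decLn _ _ _ _) (by decide +kernel), @of_decide_eq_true _ (decPl _ _ _ _) (by decide +kernel)⟩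
theorem lnD4 : rsD4.Ln ⟨23, by decide⟩ (1 : Fin 4) ⟨22, by decide⟩ ∧ rsD4.Pl ⟨23, by decide⟩ (1 : Fin 4) (0 : Fin 4) :=
  ⟨@of_decide_eq_true _ (decLn _ _ _ _) (by decide +kernel), @of_decide_eq_true _ (decPl _ _ _ _) (by decide +kernel)⟩

variable {K : Type*} [Field K] [Fintype K] (p : ℕ) [Fact p.Prime] [CharP K p] {q : ℕ} (hq : ∃ a : ℕ, 1 ≤ a ∧ q = p ^ a)
include hq

theorem max2E6 (hK : Fintype.card K = q ^ 2) (M : Subgroup (GL chevE6.Idx K))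
    (hM : ∀ g : GL chevE6.Idx K, g ∈ M ↔ g ∈ twistedE6 K q ∧
      ∀ i j, ((g : Matrix chevE6.Idx chevE6.Idx K) i j) ^ q = (g : Matrix chevE6.Idx chevE6.Idx K) i j) :
    M ≠ twistedE6 K q ∧ ∀ H, M ≤ H → H ≤ twistedE6 K q → H = M ∨ H = twistedE6 K q := by
  obtain ⟨a, ha, rfl⟩ := hq
  have hφ : ∀ t : K, iterateFrobenius K p a t = t ^ p ^ a := fun _ => rfl
  generalize iterateFrobenius K p a = φ at hφ
  have h2 : ∀ t, φ (φ t) = t := frob_iter hK hφ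
  have A := act2E6' φ
  refine max_of hφ (eq2E6 hK hφ) hM ?_ fun H h3 h4 h5 => ?_
  · obtain ⟨t, ht⟩ := exists_ne_fix (Nat.one_lt_pow (by omega) (Fact.out : p.Prime).one_lt) one_lt_two hK hφ
    refine ⟨_, G1b_le _ _ 2 (Subgroup.mem_sup_left ((mem2E6_2 A h2 (.head _)).1.2 ⟨t, rfl⟩)), fun e => ht ?_⟩
    have := WN_inj_pos (S := rsE6.adj K) (l := [42, 37]) (by decide) (w := [(42, φ t), (37, φ (φ t))]) rfl rfl (Eq.trans (by
      simp [WN, xN_of_lt _ (by decide : 42 < chevE6.nroots), xN_of_lt _ (by decide : 37 < chevE6.nroots), rsE6.bc_x]) e)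
    injections
  have B : TB ⟨71, by decide⟩ (1 : Fin 6) φ (bc chevE6 φ) H (tw2E6 φ) orb2E6.orb :=
    ⟨hiE6, rsE6.adj_gen K, rsE6.adj_inj K, nt2E6 A h2, rsE6.bc_x φ, h3, h4, hN_of p (act2E6' _) A (nt2E6 (act2E6' _) fun _ => rfl),
      φ2E6 A, fun r h => γ2E6 A (by revert r; decide +kernel), by decide +kernel, Fin.ext (by decide +kernel), by decide +kernel,
      by decide +kernel, by decide +kernel, by decide +kernel, fun r h h' => one2 A (rsE6.bc_x φ) h' (by revert r; decide +kernel)⟩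
  have C := B.bg (hQ2E6 B A h2 h5)
  exact C.le_fix B.inj (fun t => B.x_mem' B.ρθ) fun _ hF m => C.le_fix_of_plane B.inj hF lnE6.1
    (B.x_mem' (by decide +kernel) φ.map_one) lnE6.2 (B.x_mem' (by decide +kernel) φ.map_one) (B.nr_mem' (by decide +kernel) φ.map_one)

theorem max3D4 (hK : Fintype.card K = q ^ 3) (M : Subgroup (GL chevD4.Idx K))
    (hM : ∀ g : GL chevD4.Idx K, g ∈ M ↔ g ∈ twistedD4 K q ∧
      ∀ i j, ((g : Matrix chevD4.Idx chevD4.Idx K) i j) ^ q = (g : Matrix chevD4.Idx chevD4.Idx K) i j) :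
    M ≠ twistedD4 K q ∧ ∀ H, M ≤ H → H ≤ twistedD4 K q → H = M ∨ H = twistedD4 K q := by
  obtain ⟨a, ha, rfl⟩ := hq
  have hφ : ∀ t : K, iterateFrobenius K p a t = t ^ p ^ a := fun _ => rfl
  generalize iterateFrobenius K p a = φ at hφ
  have h2 : ∀ t, φ (φ (φ t)) = t := frob_iter hK hφ
  have A := act3D4' φ
  refine max_of hφ (eq3D4 hK hφ) hM ?_ fun H h3 h4 h5 => ?_
  · obtain ⟨t, ht⟩ := exists_ne_fix (Nat.one_lt_pow (by omega) (Fact.out : p.Prime).one_lt) (by norm_num) hK hφ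
    refine ⟨_, G1b_le _ _ 1 (Subgroup.mem_sup_left ((mem3D4_3 A h2).1.2 ⟨t, rfl⟩)), fun e => ht ?_⟩
    have := WN_inj_pos (S := rsD4.adj K) (l := [18, 13, 12]) (by decide) (w := [(18, φ t), (13, φ (φ t)), (12, φ (φ (φ t)))]) rfl rfl
      (Eq.trans (by simp [WN, xN_of_lt _ (by decide : 18 < chevD4.nroots), xN_of_lt _ (by decide : 13 < chevD4.nroots),
        xN_of_lt _ (by decide : 12 < chevD4.nroots), rsD4.bc_x]) e)
    injections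
  have B : TB ⟨23, by decide⟩ (1 : Fin 4) φ (bc chevD4 φ) H (tw3D4 φ) orb3D4.orb :=
    ⟨hiD4, rsD4.adj_gen K, rsD4.adj_inj K, nt3D4 A h2, rsD4.bc_x φ, h3, h4, hN_of p (act3D4' _) A (nt3D4 (act3D4' _) fun _ => rfl),
      φ3D4 A, fun r h => γ3D4 A (by revert r; decide +kernel), by decide +kernel, Fin.ext (by decide +kernel), by decide +kernel,
      by decide +kernel, by decide +kernel, by decide +kernel, fun r h h' => one3 A (rsD4.bc_x φ) h' (by revert r; decide +kernel)⟩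
  have C := B.bg (hQ3D4 B A h2 h5)
  refine C.le_fix B.inj (fun t => B.x_mem' B.ρθ) fun _ hF m hm => by_contra fun hn => ?_
  obtain ⟨τ, u, h⟩ := C.exists_bd hm hn
  have h6 := C.line B.inj hF lnD4.1 (B.x_mem' (by decide +kernel) φ.map_one) hm hn h
  have two : (2 : K) = 0 := CharP.cast_eq_zero K 2
  have h7 := congrArg φ h6
  simp only [map_add, map_pow, map_one, map_zero] at h7
  have h8 : φ τ = τ := (mul_eq_zero.1 (show (φ τ - τ) * (φ τ - τ - 1) = 0 by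
    linear_combination h7 + h6 - (φ τ * τ + φ τ + 1) * two)).elim sub_eq_zero.1 fun e => by
      have e' : φ τ = τ + 1 := by linear_combination e
      have := h2 τ
      simp only [e', map_add, map_one] at this
      exact (one_ne_zero (by linear_combination this - two : (1 : K) = 0)).elim
  exact hn (C.fix_of_bd hm h h8)

end Cfsg.Agent.H5
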