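import Cfsg.Agent.H5.Bg6

/-! Finite overgroups of subfield subgroups. -/

set_option autoImplicit false

namespace Cfsg.Agent.H5

open Cfsg.Lie StG StN RS StN.Tw
open scoped MatrixGroups

variable {D : ChevalleyDatum}

namespace StN
variable {R : RS D} {K G : Type*} [Field K] [Group G] {S : StN R K G} {θ : Φ D} {β : I D} {φ : K →+* K} {σ : G →* G}
  {M : Subgroup G}

namespace Bg
variable (H : S.Bg θ β φ σ M)
include H

/-- an element of `SL₂ ⋉ V` inside a conjugate of `M` with nontrivial torus part -/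
theorem exists_torus' [Finite M] (hπ : Function.Injective S.π) {T : Set (Φ D)} (hT' : ∀ r ∈ T, R.Pos (R.ref β r)) (hT : ∀ r ∈ [θ, R.neg θ], ∀ s ∈ T, ∀ t a,
      S.x r t * S.x s a * (S.x r t)⁻¹ ∈ S.U T) {m u : G} {τ : K} (hm : m ∈ M) (h : S.Bd θ β m τ u) {b₁ b₂ : K} (h1 : b₁ ≠ 0)
    (h2 : b₂ ≠ 0) (h12 : b₁ ≠ b₂) (m1 : ∃ v ∈ S.U T, u * (S.x θ b₁ * v) * u⁻¹ ∈ M) (m2 : ∃ v ∈ S.U T, u * (S.x θ b₂ * v) * u⁻¹ ∈ M) :
    ∃ (a : Kˣ) (b : K), (a : K) ≠ 1 ∧ ∃ v ∈ S.U T, u * (S.x θ b * S.hr θ a * v) * u⁻¹ ∈ M := by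
  obtain ⟨f, f1, f2⟩ := exists_sl2 θ (hr_mul hπ θ)
  have hN : ∀ A, f A ∈ Subgroup.normalizer (S.U T : Set G) := fun A => by
    have : ∀ r ∈ [θ, R.neg θ], ∀ t, S.x r t ∈ Subgroup.normalizer (S.U T : Set G) := fun r hr t =>
      le_normalizer_of_conj (K := S.U {r}) (fun g hg v hv => by
        obtain ⟨t, rfl⟩ := mem_U_singleton.1 hg
        exact conj_mem_of_gen (fun s hs a => hT r hr s hs t a) hv) (x_mem1 r t)
    exact sl_range f (fun t => f1 t ▸ this _ (by simp) t) (fun t => f2 t ▸ this _ (by simp) t) ⟨A, rfl⟩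
  let E : Subgroup SL(2, K) :=
    { carrier := {A | ∃ v ∈ S.U T, u * (f A * v) * u⁻¹ ∈ M}
      one_mem' := ⟨1, one_mem _, by simp⟩
      mul_mem' := by
        rintro A B ⟨v, hv, a⟩ ⟨v', hv', b⟩
        refine ⟨(f B)⁻¹ * v * (f B)⁻¹⁻¹ * v', mul_mem ((Subgroup.mem_normalizer_iff.1 (inv_mem (hN B)) v).1 hv) hv', ?_⟩
        simpa [mul_assoc] using M.mul_mem a b
      inv_mem' := by
        rintro A ⟨v, hv, a⟩
        refine ⟨f A * v⁻¹ * (f A)⁻¹, (Subgroup.mem_normalizer_iff.1 (hN A) _).1 (inv_mem hv), ?_⟩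
        simpa [mul_assoc] using M.inv_mem a }
  have hθ : R.Pos (R.ref β θ) := R.pos_ref H.hi.pos fun e => by
    have := H.hi.β_one
    rw [← e, pr_self] at this; omega
  have hU : ∀ g ∈ S.U (insert θ T), S.n β 1 * g * (S.n β 1)⁻¹ ∈ S.U {r | R.Pos r} := fun g =>
    (lift_n β 1).conj_mem fun r hr => hr.elim (fun e => e ▸ hθ) (hT' r)
  have k1 : ∀ B, f B ∈ S.U T → B 1 0 = 0 ∧ B 0 0 = 1 := fun B hB => by
    replace hB := U_mono (Set.subset_insert θ T) hB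
    have hx : ∀ t, S.x θ t ∈ S.U (insert θ T) := x_mem (Set.mem_insert _ _)
    have h0 : B 1 0 = 0 := by_contra fun h0 => by
      have := sl_det B
      rw [show B = slU ((B 0 0 - 1) / B 1 0) * slL (B 1 0) * slU ((B 1 1 - 1) / B 1 0) from sl_ext
        (by simp only [smul2]; simp [slU, slL, h0]) (by simp only [smul2]; simp [slU, slL]; field_simp; linear_combination -this)
        (by simp only [smul2]; simp [slU, slL]) (by simp only [smul2]; simp [slU, slL]; field_simp; ring), map_mul, map_mul, f1, f1, f2,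
        mul_mem_cancel_right (hx _), mul_mem_cancel_left (hx _)] at hB
      have h3 := S.U_le_B (hU _ hB)
      rw [StN.n, S.nrel] at h3
      rcases R.sg_cases β (R.neg θ) with e | e <;>
        simpa [e, h0] using x_not_mem_B (by rwa [ref_neg, pos_neg_iff, not_not]) h3
    obtain ⟨a, b, h3, h4⟩ := sl_up h0
    rw [h4] at hB
    replace hB : S.x θ b * S.hr θ a ∈ S.U (insert θ T) := by simpa only [map_mul, f1, f2, hr, nr, Units.val_neg, Units.val_one] using hB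
    have h5 := eq_one_of_U_H (hU _ ((mul_mem_cancel_left (hx b)).1 hB)) (N_conj_H (S.n_mem β 1) (hr_mem θ a)) rfl
    have h6 := (diag_hr (S := S) θ a).2 (R.sim β) 1
    rw [conj_eq_one_iff.1 h5, cv'_chi, prf_vec, H.hi.β_one, zpow_one, mul_one, one_mul, _root_.inv_one, mul_one] at h6
    exact ⟨h0, h3.trans (x_inj (congrArg S.π h6)).symm⟩
  haveI : Finite E := Finite.of_injective (fun A : E => (⟨_, A.2.choose_spec.2⟩ : M)) fun A B e => by
    have h3 : f (B.1⁻¹ * A.1) ∈ S.U T := by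
      rw [show f (B.1⁻¹ * A.1) = B.2.choose * A.2.choose⁻¹ by
        have := mul_left_cancel (mul_right_cancel (congrArg Subtype.val e))
        rw [map_mul, map_inv, inv_mul_eq_iff_eq_mul, ← mul_assoc]; exact eq_mul_inv_of_mul_eq this]
      exact mul_mem B.2.choose_spec.1 (inv_mem A.2.choose_spec.1)
    refine Subtype.ext (inv_mul_eq_one.1 ?_).symm
    generalize B.1⁻¹ * A.1 = C at h3
    have h4 := (k1 (slW * C * slW⁻¹) (by rw [map_mul, map_mul, map_inv]; exact (Subgroup.mem_normalizer_iff.1 (hN _) _).1 h3)).1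
    simp only [smul2, sinv2] at h4
    rw [eq_slU (k1 C h3).1 (k1 C h3).2, show C 0 1 = 0 by simpa [slW] using h4]
    exact sl_ext rfl rfl rfl rfl
  by_contra hn
  obtain ⟨t, ht, hz⟩ := H.z_mem hm h
  refine sl2_cnt E (fun A ⟨v, hv, hA⟩ h0 => by_contra fun e => hn ?_) ⟨slL t, ⟨1, one_mem _, by rwa [f2, mul_one]⟩, ht⟩ h1 h2 h12
    (by obtain ⟨v, hv, e⟩ := m1; exact ⟨v, hv, by rwa [f1]⟩) (by obtain ⟨v, hv, e⟩ := m2; exact ⟨v, hv, by rwa [f1]⟩)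
  obtain ⟨a, b, h3, h4⟩ := sl_up h0
  refine ⟨a, b, h3 ▸ e, v, hv, ?_⟩
  rw [h4] at hA
  simpa only [map_mul, f1, f2, hr, nr, Units.val_neg, Units.val_one] using hA

theorem le_fix_of_big' [Finite M] (hπ : Function.Injective S.π) {b : K} (h0 : b ≠ 0) (h1 : b ≠ 1) (hb : S.x θ b ∈ M) {m : G}
    (hm : m ∈ M) : σ m = m := by
  by_contra hn
  obtain ⟨τ, u, h⟩ := H.exists_bd hm hn
  have hc := comm_θ H.hi (fun _ => H.hi.dom'.nonneg) h.mem
  obtain ⟨a, c, ha, v, hv, hy⟩ := H.exists_torus' hπ (T := ∅) (by simp) (by simp) hm h h0 one_ne_zero h1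
    ⟨1, one_mem _, by rwa [mul_one, hc]⟩ ⟨1, one_mem _, by rw [mul_one, hc]; exact H.x1⟩
  rw [U_empty, Subgroup.mem_bot] at hv
  rw [hv, mul_one] at hy
  have hU : S.U {r | R.Pos r} ≤ S.Par (R.JJ θ) := S.U_le_B.trans (B_le_Par _)
  have h2 := H.F1 _ hy (mul_mem (mul_mem (hU h.mem) (mul_mem (hU (x_mem H.hi.pos _)) (B_le_Par _ (S.H_le_B (hr_mem θ a)))))
    (inv_mem (hU h.mem)))
  refine hn (H.fix_of_bd hm h ?_)
  obtain ⟨u₁, h3, rfl, -⟩ := h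
  have h4 : ∀ (a : Kˣ) t, S.hr θ a * S.x (R.sim β) t * (S.hr θ a)⁻¹ = S.x (R.sim β) (a * t) := fun a t => by
    rw [(diag_hr θ a).2, cv'_chi, prf_vec, H.hi.β_one, zpow_one]
  have h5 := conj_mem_ideal (ideal_ne_sim β) (S.U_le_B (x_mem (R.pos_sim β) (a * τ))) (mul_mem (mul_mem h3
    (x_mem (T := {r | R.Pos r ∧ r ≠ R.sim β}) ⟨H.hi.pos, fun e => by
      have := H.hi.β_one
      rw [← e, pr_self] at this; omega⟩ c)) (H_conj_U (hr_mem θ a) (inv_mem h3)))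
  rw [show S.x (R.sim β) τ * u₁ * (S.x θ c * S.hr θ a) * (S.x (R.sim β) τ * u₁)⁻¹ = S.x (R.sim β) (τ + -(a * τ)) *
    (S.x (R.sim β) (a * τ) * (u₁ * S.x θ c * (S.hr θ a * u₁⁻¹ * (S.hr θ a)⁻¹)) * (S.x (R.sim β) (a * τ))⁻¹) * S.hr θ a by
      rw [← S.r1, ← x_inv, ← h4]; group, map_mul, map_mul, H.hσ] at h2
  obtain ⟨h6, h7⟩ := coord (bc_U H.hσ h5) h5 (bc_H H.hσ (hr_mem θ a)) (hr_mem θ a) h2
  have h8 := congrArg σ (h4 a 1)
  rw [map_mul, map_mul, map_inv, hπ h7, H.hσ, H.hσ, map_one, h4, mul_one] at h8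
  have h9 := x_inj (congrArg S.π h8)
  simp only [map_add, map_neg, map_mul, ← h9] at h6
  exact mul_left_cancel₀ (sub_ne_zero.2 ha.symm) (by linear_combination h6)

variable [Finite M] [CharP K 2] (hπ : Function.Injective S.π) (hF : ∀ t, φ t = t → t = 0 ∨ t = 1)
include hπ hF

theorem line' {r₀ : Φ D} (hL : R.Ln θ β r₀) (h0 : S.x r₀ 1 ∈ M) {m u : G} {τ : K} (hm : m ∈ M) (hn : σ m ≠ m)
    (h : S.Bd θ β m τ u) : τ ^ 2 + τ + 1 = 0 := by
  obtain ⟨l1, l2, l3, l4, l5, l6, l7⟩ := hL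
  have two : (2 : K) = 0 := CharP.cast_eq_zero K 2
  have hτ : φ τ ≠ τ := fun e => hn (H.fix_of_bd hm h e)
  have hp : R.Pos r₀ := H.hi.dom'.pos (r := r₀) (by omega)
  have hθ : ∀ s t, Commute (S.x r₀ s) (S.x θ t) := fun s t =>
    mul_inv_eq_iff_eq_mul.1 (comm_θ H.hi (T := {r₀}) (by simp [l1]) (x_mem1 _ _) t)
  have hA : ∀ s s', u * (S.x θ s * S.x r₀ s') * u⁻¹ = S.x θ (s + τ * s') * S.x r₀ s' := fun s s' => by
    have h1 := comm_θ H.hi (fun _ => H.hi.dom'.nonneg) h.mem s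
    obtain ⟨u₁, h2, rfl, -⟩ := h
    have h3 := comm_U (g := S.x r₀ s') (fun r hr t => comm_tm (ne_neg_of_pos' hr.1 hp) (l7 r ((R.pos_iff_le r).1 hr.1) hr.2) t s') h2
    rw [← conj_mul, h1, show S.x (R.sim β) τ * u₁ * S.x r₀ s' * (S.x (R.sim β) τ * u₁)⁻¹ =
      S.x (R.sim β) τ * (u₁ * S.x r₀ s' * u₁⁻¹) * (S.x (R.sim β) τ)⁻¹ by group, h3,
      conj_tm2 l2 (ne_neg_of_pos' (R.pos_sim β) hp) l3, (hθ _ _).eq, ← mul_assoc, S.r1]
  have hB : ∀ v ∈ S.U {s | s ∈ [r₀, R.neg (R.sim β)]}, ∃ c, ∀ s s',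
      v * (S.x θ s * S.x r₀ s') * v⁻¹ = S.x θ s * S.x r₀ (s' + c * s) := fun v hv => by
    refine U_induction (p := fun v => ∃ c, ∀ s s', v * (S.x θ s * S.x r₀ s') * v⁻¹ = S.x θ s * S.x r₀ (s' + c * s))
      ⟨0, by simp⟩ (fun r hr t g _ ⟨c, ih⟩ => ?_) hv
    simp only [Set.mem_setOf_eq, List.mem_cons, List.not_mem_nil, or_false] at hr
    have e : ∀ y, S.x r t * g * y * (S.x r t * g)⁻¹ = S.x r t * (g * y * g⁻¹) * (S.x r t)⁻¹ := fun y => by group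
    rcases hr with rfl | rfl
    · refine ⟨c, fun s s' => ?_⟩
      rw [e, ih, ← conj_mul, (hθ _ _).mul_inv_cancel, S.r1, add_comm t, ← S.r1, mul_inv_cancel_right]
    · refine ⟨c + t, fun s s' => ?_⟩
      have h1 := l6 θ (by simp) (R.neg (R.sim β)) (by simp)
      rw [e, ih, ← conj_mul, conj_tm2 h1.1.symm (fun e => h1.2.1 (by rw [R.neg_neg] at e; rw [e])) l4,
        (comm_tm (by rwa [R.neg_neg]) l5 _ _).mul_inv_cancel, mul_assoc, S.r1]
      congr 2; ring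
  have hD : ∀ s s', S.x θ s * S.x r₀ s' ∈ M → (s = 0 ∨ s = 1) ∧ (s' = 0 ∨ s' = 1) := fun s s' hs => by
    have h1 := H.F1 _ hs (mul_mem (x_mem_P H.hi (by simp [pr_self]) _) (x_mem_P H.hi (by omega) _))
    have h2 : θ ≠ r₀ := fun e => by rw [← e, pr_self] at l1; omega
    rw [map_mul, H.hσ, H.hσ] at h1
    have := P_unique (S := S.toStG) (L := R.lamf) closed_pos' (fun _ h => h) (l := [θ, r₀]) (by simpa) (by simp [H.hi.pos, hp])
      (t := fun r => if r = θ then φ s else φ s') (t' := fun r => if r = θ then s else s') (by simp [P_cons, h2.symm, h1])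
    exact ⟨hF _ (by simpa using this θ (by simp)), hF _ (by simpa [h2.symm] using this r₀ (by simp))⟩
  have m2 : u * (S.x θ τ * S.x r₀ 1) * u⁻¹ ∈ M := by rwa [hA, mul_one, CharTwo.add_self_eq_zero, StG.x_zero, one_mul]
  have m1 : u * (S.x θ 1 * S.x r₀ 0) * u⁻¹ ∈ M := by rw [hA]; simpa using H.x1
  obtain ⟨a, b, ha, v, hv, hy⟩ := H.exists_torus' hπ (T := {s | s ∈ [r₀, R.neg (R.sim β)]})
    (by simpa using ⟨R.pos_ref hp l2, R.pos_sim β⟩) (fun r hr s hs t a =>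
    conj_tm (l6 r hr s hs).1 (l6 r hr s hs).2.1 hs (l6 r hr s hs).2.2 t a) hm h one_ne_zero
    (b₂ := τ) (fun e => hτ (by simp [e])) (fun e => hτ (by simp [← e])) ⟨_, x_mem (by simp) _, m1⟩ ⟨_, x_mem (by simp) _, m2⟩
  obtain ⟨c, hc⟩ := hB v hv
  have key : ∀ s s', u * (S.x θ s * S.x r₀ s') * u⁻¹ ∈ M → S.x θ (a ^ 2 * s + τ * (a * (s' + c * s))) * S.x r₀ (a * (s' + c * s)) ∈ M :=
    fun s s' hs => by
    have := M.mul_mem (M.mul_mem hy hs) (M.inv_mem hy)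
    rwa [show u * (S.x θ b * S.hr θ a * v) * u⁻¹ * (u * (S.x θ s * S.x r₀ s') * u⁻¹) * (u * (S.x θ b * S.hr θ a * v) * u⁻¹)⁻¹ =
      u * (S.x θ b * (S.hr θ a * (v * (S.x θ s * S.x r₀ s') * v⁻¹) * (S.hr θ a)⁻¹) * (S.x θ b)⁻¹) * u⁻¹ by group, hc, ← conj_mul (b := S.hr θ a),
      (diag_hr θ a).2, (diag_hr θ a).2, cv'_chi, cv'_chi, prf_vec, prf_vec, l1, pr_self, zpow_one, ← conj_mul (b := S.x θ b),
      (hθ _ _).symm.mul_inv_cancel, S.r1, add_comm b, ← S.r1, mul_inv_cancel_right, hA, zpow_ofNat, Units.val_pow_eq_pow_val] at this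
  obtain ⟨k1, k2⟩ := hD _ _ (key _ _ m1)
  obtain ⟨-, k3⟩ := hD _ _ (key _ _ m2)
  have h1 : τ ≠ 0 := fun e => hτ (by simp [e])
  have h2 : τ + 1 ≠ 0 := fun e => hτ (by rw [show τ = 1 by linear_combination e - two, map_one])
  have h3 := a.ne_zero
  rcases k2 with k2 | k2
  · rcases k3 with k3 | k3
    · exact (h3 (by linear_combination k3 - τ * k2)).elim
    · exact (ha (by linear_combination k3 - τ * k2)).elim
  have h4 : τ * (τ + 1) ≠ 0 := mul_ne_zero h1 h2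
  rcases k3 with k3 | k3 <;> rcases k1 with k1 | k1
  · exact (h4 (by linear_combination k1 - τ * k2 - (a - τ) * (k3 - τ * k2))).elim
  · linear_combination k1 - τ * k2 - (a - τ) * (k3 - τ * k2) + two
  · linear_combination k1 - τ * k2 - (a + 1 - τ) * (k3 - τ * k2) + τ * two
  · exact (h4 (by linear_combination k1 - τ * k2 - (a + 1 - τ) * (k3 - τ * k2) + τ * two)).elim

theorem le_fix_of_plane' {r₀ : Φ D} (hL : R.Ln θ β r₀) (h0 : S.x r₀ 1 ∈ M) {α : I D} (hP : R.Pl θ β α)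
    (h1 : S.x (R.neg (R.sim α)) 1 ∈ M) (h2 : S.n α 1 ∈ M) {m : G} (hm : m ∈ M) : σ m = m := by
  by_contra hn
  obtain ⟨p1, p2, p3, p4, p5, p6⟩ := hP
  have two : (2 : K) = 0 := CharP.cast_eq_zero K 2
  obtain ⟨τ, u, u₀, -, -, -, n, hN, w, hl, hw, p, hp, rfl⟩ : ∃ τ u, u ∈ S.U {r | R.Pos r} ∧ S.Bd θ β m τ u :=
    (H.exists_bd hm hn).imp fun _ h => h.imp fun _ h => ⟨h.mem, h⟩
  have hI := H.hi.dom'.ideal one_pos
  obtain ⟨v, hv, l, hl', rfl⟩ := exists_mul (L := R.lamf) (T₁ := {r | 1 ≤ R.pr θ r}) (T₂ := {r | R.Pos r ∧ R.pr θ r = 0})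
    closed_pos' (fun _ h => h) (Set.ext fun r => ⟨fun h => (H.hi.dom'.nonneg h).eq_or_lt.elim (fun e => .inr ⟨h, e.symm⟩) .inl,
      fun h => h.elim (hI.1 r) And.left⟩) u₀
  replace hl' := U_mono (T' := {r | R.pr θ r = 0}) (fun _ h => h.2) hl'
  set s := R.ref α (R.sim β) with hs
  obtain ⟨x, hx, v₁, hv₁, rfl⟩ := exists_mul (L := R.lamf) (T₁ := {R.sim β}) (T₂ := {r | 1 ≤ R.pr θ r ∧ r ≠ R.sim β})
    hI.closed hI.1 (by ext r; by_cases h : r = R.sim β <;> simp [h, H.hi.β_one]) hv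
  obtain ⟨a, rfl⟩ := mem_U_singleton.1 hx
  obtain ⟨x, hx, c, hc, rfl⟩ := exists_mul (L := R.lamf) (T := {r | 1 ≤ R.pr θ r ∧ r ≠ R.sim β}) (T₁ := {s})
    (T₂ := {r | (1 ≤ R.pr θ r ∧ r ≠ R.sim β) ∧ r ≠ s})
    (fun r hr r' hr' u hu => And.intro (hI.closed r hr.1 r' hr'.1 u hu)
      ((ideal_ne_sim β).closed r (And.intro (hI.1 _ hr.1) hr.2) r' (And.intro (hI.1 _ hr'.1) hr'.2) u hu).2) (fun r h => hI.1 r h.1)
    (by ext r; by_cases h : r = s <;> simp [h, p2, p3]) hv₁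
  obtain ⟨b, rfl⟩ := mem_U_singleton.1 hx
  have hα : R.pr θ (R.sim α) = 0 := H.hi.mem_J.2 p1
  have hsP : R.Pos s := hI.1 _ p2.ge
  have key : ∀ g ∈ M, σ g = g → g ∈ S.U {r | R.pr θ r = 0} → ∀ τ, ∀ c' ∈ S.U {r | R.Pos r ∧ r ≠ R.sim β},
      g * (S.x (R.sim β) a * (S.x s b * c)) * g⁻¹ = S.x (R.sim β) τ * c' → τ ^ 2 + τ + 1 = 0 := fun g hg hσ hg' τ c' hc' e =>
    H.line' hπ hF hL h0 (M.mul_mem hg hm) (by rwa [map_mul, hσ, Ne, mul_right_inj]) (H.bd_move hg' hl' hN hl hw hp hc' e)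
  have hc₁ : c ∈ S.U {r | R.Pos r ∧ r ≠ R.sim β} := U_mono (fun r h => And.intro (hI.1 r h.1.1) h.1.2) hc
  have k1 := key 1 M.one_mem σ.map_one (one_mem _) a _ (mul_mem (x_mem (T := {r | R.Pos r ∧ r ≠ R.sim β}) ⟨hsP, p3⟩ b) hc₁) (by simp)
  have hne : ∀ r, 1 ≤ R.pr θ r → r ≠ R.neg (R.sim α) ∧ r ≠ R.neg (R.neg (R.sim α)) := fun r hr =>
    ⟨fun e => by rw [e, pr_neg_right, hα] at hr; omega, fun e => by rw [e, R.neg_neg, hα] at hr; omega⟩
  have k2 := key _ h1 (by rw [H.hσ, map_one]) (x_mem (by simp [pr_neg_right, hα]) _) (a + b)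
    ((S.x (R.sim β) b)⁻¹ * S.x s b * (S.x (R.sim β) b)⁻¹⁻¹ * (S.x (R.neg (R.sim α)) 1 * c * (S.x (R.neg (R.sim α)) 1)⁻¹))
    (mul_mem (conj_mem_ideal (ideal_ne_sim β) (inv_mem (S.U_le_B (x_mem (R.pos_sim β) _))) (x_mem (And.intro hsP p3) _))
      (conj_mem_of_gen (fun r hr t => conj_tm (hne r hr.1.1).1 (hne r hr.1.1).2 (And.intro (hI.1 r hr.1.1) hr.1.2)
        (fun c hc => (p6 r hr.1.1 hr.2 c hc).imp_left (R.pos_iff_le _).2) _ _) hc)) (by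
      rw [← conj_mul, ← conj_mul (a := S.x s b), (comm_tm (hne _ H.hi.β_one.ge).2 p5 _ _).mul_inv_cancel,
        conj_tm2 (hne _ p2.ge).1 (hne _ p2.ge).2 p4, one_mul, ← S.r1]; group)
  have hn1 : ∀ r t, S.n α 1 * S.x r t * (S.n α 1)⁻¹ = S.x (R.ref α r) t := fun r t => by
    rw [StN.n, S.nrel]; rcases R.sg_cases α r with h | h <;> simp [h, CharTwo.neg_eq]
  have k3 := key _ h2 (by simp [StN.n, bc_nr H.hσ]) (S.nr_mem (by simpa using hα) (by simp [pr_neg_right, hα]) _) b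
    ((S.x (R.sim β) b)⁻¹ * S.x s a * (S.x (R.sim β) b)⁻¹⁻¹ * (S.n α 1 * c * (S.n α 1)⁻¹))
    (mul_mem (conj_mem_ideal (ideal_ne_sim β) (inv_mem (S.U_le_B (x_mem (R.pos_sim β) _))) (x_mem (And.intro hsP p3) _))
      ((lift_n α 1).conj_mem (fun r hr => And.intro (R.pos_ref (hI.1 r hr.1.1) fun e => by have := hr.1.1; rw [e, hα] at this; omega)
        fun e => hr.2 (by rw [hs, ← e, sw_smul, ref_ref])) hc)) (by
      rw [← conj_mul, ← conj_mul (a := S.x s b), hn1, hn1, hs, ref_ref]; group)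
  exact one_ne_zero (by linear_combination k1 + k2 + k3 - (a ^ 2 + b ^ 2 + a * b + a + b + 1) * two : (1 : K) = 0)

end Bg
end StN

end Cfsg.Agent.H5
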