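import Cfsg.Agent.H5.Bg7
import Cfsg.Agent.H5.Ce1

/-! Overgroups of the prime field points of a Chevalley group. -/

set_option autoImplicit false

namespace Cfsg.Agent.H5

open Cfsg.Lie StG StN RS StN.Tw

variable {D : ChevalleyDatum}

/-- a root with a partner in the radical -/
def RS.Gd (R : RS D) (θ r : Φ D) (n : ℤ) : Prop :=
  ∃ s, R.pr θ s = 1 ∧ s ≠ r ∧ (R.tm r s = [(θ, n, 1, 1)] ∨ R.tm r s = [(θ, -n, 1, 1)])

instance RS.decGd (R : RS D) (θ r : Φ D) (n : ℤ) : Decidable (R.Gd θ r n) := by unfold RS.Gd; infer_instance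

namespace StN
variable {R : RS D} {K G : Type*} [Field K] [Group G] {S : StN R K G} {θ : Φ D} {β : I D} {φ : K →+* K} {σ : G →* G}
  {M : Subgroup G}

variable (S M) in
/-- elements conjugating the generators into `M` -/
def Nm : Set G := {v | ∀ r, v * S.x r 1 * v⁻¹ ∈ M}

variable (S θ β M) in
/-- hypotheses on an overgroup of the prime field points -/
structure UB : Prop where
  hi : R.Hi θ β
  gen : S.U Set.univ = ⊤
  inj : Function.Injective S.π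
  one : ∀ r, S.x r 1 ∈ M
  dom : ∀ s, (∀ i, 0 ≤ R.car i s) → 0 < R.pr θ s

theorem x_neg_mem {r : Φ D} {t : K} : S.x r (-t) ∈ M ↔ S.x r t ∈ M := by rw [← x_inv, inv_mem_iff]

theorem Nm_mul {m v : G} (hm : m ∈ M) (hv : v ∈ S.Nm M) : m * v ∈ S.Nm M := fun r => by
  simpa [mul_assoc] using mul_mem (mul_mem hm (hv r)) (inv_mem hm)

namespace UB
variable (H : S.UB θ β M)
include H

theorem n_mem (i : I D) : S.n i 1 ∈ M := M.mul_mem (M.mul_mem (H.one _) (x_neg_mem.2 (by simpa using H.one _))) (H.one _)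

theorem x_ref (i : I D) {r : Φ D} {t : K} (h : S.x r t ∈ M) : S.x (R.ref i r) t ∈ M := by
  have := M.mul_mem (M.mul_mem (H.n_mem i) h) (M.inv_mem (H.n_mem i))
  rw [StN.n, S.nrel] at this
  rcases R.sg_cases i r with e | e <;> simpa [e, x_neg_mem] using this

theorem x_smul (w : R.W) {r : Φ D} {t : K} (h : S.x r t ∈ M) : S.x (w • r) t ∈ M := by
  induction w using W_induction with
  | one => simpa
  | step i w ih => rw [mul_smul]; exact H.x_ref i ih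

theorem Nm_of {m : G} (hm : m ∈ M) : m ∈ S.Nm M := fun r => mul_mem (mul_mem hm (H.one r)) (inv_mem hm)

theorem comm_mem {v : G} (hv : v ∈ S.Nm M) (r : Φ D) : S.x r 1 * v * (S.x r 1)⁻¹ * v⁻¹ ∈ M := by
  simpa [mul_assoc] using mul_mem (H.one r) (inv_mem (hv r))

theorem good {r : Φ D} (hr : R.pr θ r = 1) {n : ℤ} (hg : R.Gd θ r n) {t : K} {c : G} (hc : c ∈ S.U {s | 0 < R.pr θ s ∧ s ≠ r})
    (h : S.x r t * c ∈ S.Nm M) : S.x θ (n * t) ∈ M := by
  obtain ⟨s, h1, h2, h3⟩ := hg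
  have hp : ∀ u, 0 < R.pr θ u → R.Pos u := fun u => H.hi.dom'.pos
  have h4 : R.vec r + R.vec s = R.vec θ := h3.elim (fun e => (H.hi.comb (by omega) (by omega) (R.comb_of_tm (e ▸ List.mem_singleton_self _))).2)
    fun e => (H.hi.comb (by omega) (by omega) (R.comb_of_tm (e ▸ List.mem_singleton_self _))).2
  have h5 := comm_U (g := S.x s 1) (fun u hu b => comm_tm (ne_neg_of_pos' (hp u hu.1) (hp s (by omega)))
    (List.eq_nil_iff_forall_not_mem.2 fun c hc => hu.2 (R.vec_inj (add_right_cancel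
      ((H.hi.comb hu.1 (by omega) (R.comb_of_tm hc)).2.trans h4.symm)))) b 1) hc
  have h6 := h s
  rw [show S.x r t * c * S.x s 1 * (S.x r t * c)⁻¹ = S.x r t * (c * S.x s 1 * c⁻¹) * (S.x r t)⁻¹ by group, h5] at h6
  have h7 := ne_neg_of_pos' (hp r (by omega)) (hp s (by omega))
  rcases h3 with e | e <;> rw [conj_tm1 h2 h7 e, mul_mem_cancel_left (H.one s)] at h6 <;> simpa [x_neg_mem] using h6

section
variable {r₀ : Φ D} (hL : R.Ln θ β r₀) (h' : R.ref β θ = r₀ ∧ R.vec r₀ - R.vec θ = -R.vec (R.sim β))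
include hL h'

theorem mul_of_Ln {s t : K} (hs : S.x θ s ∈ M) (ht : S.x θ t ∈ M) : S.x θ (s * t) ∈ M := by
  have h1 := h'.1 ▸ H.x_ref β hs
  have h2 := H.x_ref β (H.x_smul (R.rr θ) h1)
  rw [show R.rr θ • r₀ = R.neg (R.sim β) from R.vec_inj (by rw [vec_rr, hL.1, one_smul, h'.2, vec_neg]), ref_neg_sim_self] at h2
  have h3 := h'.1 ▸ H.x_ref β ht
  have h4 := M.mul_mem (M.mul_mem h2 h3) (M.inv_mem h2)
  have h5 := ne_neg_of_pos' (R.pos_sim β) (H.hi.dom'.pos (r := r₀) (by rw [hL.1]; exact one_pos))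
  rcases hL.2.2.1 with e | e <;> rw [conj_tm1 hL.2.1 h5 e, mul_mem_cancel_left h3] at h4 <;> simpa [x_neg_mem] using h4

theorem top_of_Ln {s : K} (hs : S.x θ s ∈ S.Nm M) : S.x θ s ∈ M := by
  have h1 := hL.2.2.2.2.2.1 θ (by simp) (R.neg (R.sim β)) (by simp)
  have h2 := H.comm_mem hs (R.neg (R.sim β))
  have h3 : S.x r₀ s ∈ M := by
    have hθ : ∀ t, S.x θ s * S.x r₀ t * (S.x θ s)⁻¹ = S.x r₀ t := fun t =>
      mul_inv_eq_of_eq_mul (eq_mul_of_mul_inv_eq (comm_θ H.hi (T := {r₀}) (by simp [hL.1]) (x_mem1 _ t) s)).symm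
    rcases hL.2.2.2.1 with e | e <;> rw [conj_tm1 h1.1.symm (fun e => h1.2.1 (by rw [R.neg_neg] at e; rw [e])) e, hθ] at h2 <;>
      simpa [x_neg_mem] using h2
  simpa [← h'.1] using H.x_ref β h3
end

variable (hσ : ∀ r t, σ (S.x r t) = S.x r (φ t)) (hF : ∀ t, φ t = t ↔ S.x θ t ∈ M)
include hσ

theorem exists_n (w : R.W) : ∃ n ∈ M, σ n = n ∧ n ∈ S.N ∧ S.Lift n w := by
  induction w using W_induction with
  | one => exact ⟨1, one_mem _, map_one _, one_mem _, lift_one⟩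
  | step i w ih =>
    obtain ⟨n, h1, h2, h3, h4⟩ := ih
    exact ⟨_, mul_mem (H.n_mem i) h1, by simp [h2, StN.n, bc_nr hσ], mul_mem (S.n_mem i 1) h3, (lift_n i 1).mul h4⟩

include hF

omit hσ in
theorem x_mem' (r : Φ D) {t : K} (ht : φ t = t) : S.x r t ∈ M := by
  obtain ⟨w, hw⟩ := exists_dom (R := R) r
  rw [← inv_smul_smul w r]
  refine H.x_smul _ ?_
  have h1 := H.dom _ hw
  generalize w • r = s at h1
  rcases (show R.pr θ s = 1 ∨ 2 ≤ R.pr θ s by omega) with h | h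
  · rcases eq_or_ne t 0 with rfl | h0
    · simp
    lift t to Kˣ using h0.isUnit
    have h2 : ∀ c : Kˣ, φ c = c → S.nr θ c ∈ M := fun c hc => M.mul_mem (M.mul_mem ((hF _).1 hc)
      (rr_self (R := R) θ ▸ H.x_smul _ ((hF _).1 (by simp [hc])))) ((hF _).1 hc)
    have h3 : S.hr θ t ∈ M := M.mul_mem (h2 t ht) (h2 _ (by simp))
    simpa [(diag_hr θ t).2, prf_vec, h] using M.mul_mem (M.mul_mem h3 (H.one s)) (M.inv_mem h3)
  · exact H.hi.two s h ▸ (hF t).1 ht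

theorem U_mem {L : (I D → ℤ) →ₗ[ℤ] ℤ} {T : Set (Φ D)} (hT : R.Closed T) (hL : ∀ r ∈ T, 0 < L (R.vec r)) {u : G} (hu : u ∈ S.U T)
    (h : σ u = u) : u ∈ M := by
  obtain ⟨l, hl, hl'⟩ := exists_list T
  obtain ⟨t, rfl⟩ := exists_P hT hL hl hl' hu
  rw [bc_P hσ] at h
  exact list_prod_mem fun g hg => by
    obtain ⟨r, hr, rfl⟩ := List.mem_map.1 hg
    exact H.x_mem' hF r (P_unique hT hL hl (fun r => (hl' r).1) (congrArg S.π h) r hr)

theorem hQ_of {Z : Set (Φ D)} (hZ : ∀ r ∈ Z, 0 < R.pr θ r) (hθ : θ ∈ Z)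
    (hG : ∀ r, R.pr θ r = 1 → r ∉ Z → ∃ n : ℤ, (n : K) ≠ 0 ∧ R.Gd θ r n) (h : ∀ c ∈ S.U Z, c ∈ S.Nm M → σ c = c) :
    ∀ v ∈ S.UJ (R.JJ θ), v ∈ S.Nm M → σ v = v := by
  classical
  have key : ∀ X : Finset (Φ D), (∀ r ∈ X, R.pr θ r = 1 ∧ r ∉ Z) → ∀ v ∈ S.U (X ∪ Z), v ∈ S.Nm M → σ v = v := fun X => by
    induction X using Finset.induction_on with
    | empty => simpa using h
    | insert r X hr ih =>
      intro hX v hv hv'
      have h1 : ∀ s ∈ (↑(insert r X) : Set (Φ D)) ∪ Z, 0 < R.pr θ s := by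
        rintro s (hs | hs)
        exacts [by rw [(hX s hs).1]; exact one_pos, hZ s hs]
      obtain ⟨x, hx, c, hc, rfl⟩ := exists_mul (L := R.lamf) (T₁ := {r}) (T₂ := X ∪ Z) (H.hi.closed h1 (.inl (.inr hθ)))
        (fun s hs => H.hi.dom'.pos (h1 s hs)) (by simp [Set.insert_union]) hv
      obtain ⟨t, rfl⟩ := mem_U_singleton.1 hx
      obtain ⟨h2, h3⟩ := hX r (by simp)
      obtain ⟨n, h4, h5⟩ := hG r h2 h3
      have h6 := (hF _).2 (H.good h2 h5 (U_mono (fun s hs => And.intro (h1 s (hs.imp_left fun h => by simp [h]))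
        fun e => hs.elim (fun h => hr (e ▸ h)) fun h => h3 (e ▸ h)) hc) hv')
      rw [map_mul, map_intCast, mul_right_inj' h4] at h6
      rw [map_mul, hσ, h6, ih (fun s hs => hX s (by simp [hs])) c hc (by simpa using Nm_mul (inv_mem (H.x_mem' hF r h6)) hv')]
  refine fun v hv => key (Finset.univ.filter fun r => R.pr θ r = 1 ∧ r ∉ Z) (by simp) v (U_mono (fun r hr => ?_) hv)
  have := H.hi.uj_iff.1 hr
  by_cases h : r ∈ Z
  · exact .inr h
  · have : R.pr θ r = 1 := by_contra fun e => h (H.hi.two r (by omega) ▸ hθ)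
    exact .inl (by simp [h, this])

theorem bg (hQ : ∀ v ∈ S.UJ (R.JJ θ), v ∈ S.Nm M → σ v = v) : S.Bg θ β φ σ M := by
  let T : S.Tw R.symId := ⟨σ, 1, fun _ => φ, by simp, fun _ => rfl, by simp [symId, hσ]⟩
  refine ⟨H.hi, H.gen, hσ, fun y hy hP => ?_, fun m hm h => ?_, H.one θ, fun t => H.x_mem' hF _, H.n_mem β⟩
  · obtain ⟨v, hv, k, hk, l, hl, rfl⟩ := Par_decomp hP
    rw [mul_assoc] at hy ⊢
    obtain ⟨n, h2, -, h4, h5⟩ := H.exists_n hσ (R.wJ (R.JJ θ))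
    have h6 := F1_of H.hi H.gen H.inj hσ (H.one θ) (fun r hr => by
      have hp : R.Pos r := H.hi.dom'.pos (by omega)
      refine ⟨_, ⟨H.one r, x_mem (H.hi.uj_iff.2 (by omega)) _⟩, x_mem (T := {s | R.hs r ≤ R.hs s}) (le_refl (R.hs r)) _,
        fun h => ?_⟩
      have i2 := (ideal_hs.{0} hp).2.1
      exact (x_mem_iff (L := R.lamf) i2.closed i2.1 hp h rfl).elim (fun h => h.2 rfl) one_ne_zero)
      ⟨h2, h4⟩ h5 (fun x hx => hQ x hx.2 (H.Nm_of hx.1)) hy hv (mul_mem (Subgroup.mem_sup_left hk) (Subgroup.mem_sup_right hl)) rfl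
    obtain ⟨a, ha, k', hk', e⟩ := (Tw.nt_id (T := T) fun _ => rfl).exists_H (H.gen ▸ Subgroup.mem_top _) h6
    have h7 : a ∈ M := (iSup_le fun b => sup_le (fun u hu => H.U_mem hσ hF (L := R.lamf) (closed_subP _) (fun _ h => h.1) hu.1 hu.2)
      (fun u hu => H.U_mem hσ hF (L := -R.lamf) (closed_subN _) (fun _ h => neg_pos h.1) hu.1 hu.2) : T.G1 id ≤ M) ha
    rw [map_mul, h6, hQ v hv fun r => ?_]
    rw [e, ← mul_assoc, mul_mem_cancel_right h7] at hy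
    obtain ⟨χ, hχ⟩ := exists_diag (inv_mem hk'.1)
    have h8 := congrArg σ (hχ.2 r 1)
    rw [map_mul, map_mul, map_inv, map_inv, map_inv, show σ k' = k' from hk'.2, hσ, hσ, map_one, hχ.2] at h8
    have := M.mul_mem (M.mul_mem hy (H.x_mem' hF r (x_inj (congrArg S.π h8)).symm)) (M.inv_mem hy)
    rw [← hχ.2] at this
    simpa [mul_assoc] using this
  · obtain ⟨d, u, hu, h1, h2⟩ := coset_canon H.gen (R.JJ θ) m
    have h3 : σ u = u := (h2 R.symId T (fun _ => Iff.rfl) h).1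
    obtain ⟨n, h5, h6, h7, h8⟩ := H.exists_n hσ d
    exact ⟨_, mul_mem (H.U_mem hσ hF (L := R.lamf) closed_pos' (fun _ h => h) hu h3) h5, by rw [map_mul, h6, h3], h1 n h7 h8⟩

theorem le_fix [Finite M] (hQ : ∀ v ∈ S.UJ (R.JJ θ), v ∈ S.Nm M → σ v = v)
    (h : ∀ _ : CharP K 2, (∀ t, φ t = t → t = 0 ∨ t = 1) → S.Bg θ β φ σ M → ∀ m ∈ M, σ m = m) : ∀ m ∈ M, σ m = m := by
  by_cases hF' : ∀ t, φ t = t → t = 0 ∨ t = 1
  · exact h (CharTwo.of_one_ne_zero_of_two_eq_zero one_ne_zero ((hF' 2 (map_ofNat φ 2)).resolve_right fun e =>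
      one_ne_zero (by linear_combination e : (1 : K) = 0))) hF' (H.bg hσ hF hQ)
  · push Not at hF'
    obtain ⟨b, h1, h2, h3⟩ := hF'
    exact fun m => (H.bg hσ hF hQ).le_fix_of_big' H.inj h2 h3 ((hF b).1 h1)

end UB
end StN

end Cfsg.Agent.H5
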