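import Cfsg.Agent.H5.Bg8

/-! Overgroups of `G₂(2)`. -/

set_option autoImplicit false
set_option maxRecDepth 100000

namespace Cfsg.Agent.H5

open Cfsg.Lie StG StN RS StN.Tw
open Matrix hiding zpow_add zpow_neg inv_zpow' inv_zpow mul_inv_rev

variable {D : ChevalleyDatum}

/-- a coordinate of a symbolic vector -/
def crd (l : List Term) (k : ℕ) : Poly := (l.filter fun t => t.1 == k).map fun t => (t.2.2, t.2.1)

theorem veval_crd {F : Type*} [Field F] (v : ℕ → F) (r : Φ D) (l : List Term) :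
    veval (bv D F) v l (Sum.inr r) = peval v (crd l (D.rank + r)) := by
  induction l with
  | nil => simp [veval, crd]
  | cons t l ih =>
    rw [veval_cons, Pi.add_apply, ih, crd, crd, List.filter_cons]
    by_cases h : t.1 = D.rank + r
    · simp [h, bv_e, peval_cons]
    · have : bv D F t.1 (Sum.inr r) = 0 := by
        rw [bv]; split_ifs with h1 h2
        exacts [by simp, by rw [be_inr, if_neg fun e => h (by rw [e]; simp; omega)], rfl]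
      simp [h, this]

/-- the generic vector -/
def genV (n : ℕ) : List Term := (List.range n).map fun k => (k, List.replicate k 0 ++ [1], 1)

theorem exists_genV {F : Type*} [Field F] (V : D.Idx → F) : ∃ v : ℕ → F, V = veval (bv D F) v (genV (D.rank + D.nroots)) := by
  refine ⟨fun k => if h : k < D.rank then V (.inl ⟨k, h⟩) else if h' : k - D.rank < D.nroots then V (.inr ⟨k - D.rank, h'⟩) else 0, ?_⟩
  have : ∀ (v : ℕ → F) k, meval v (List.replicate k 0 ++ [1]) = v k := fun v k => by simpa [pX, peval] using peval_pX v k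
  rw [veval, genV, List.map_map, list_sum_range', Fin.sum_univ_add]
  ext (i | r) <;> simp [this, bv_h, bv_e, Finset.sum_apply]

/-- the quadric attached to a line -/
noncomputable def qdG2 (w : List ℕ) : Poly :=
  (fun l => pnrm 2 (pmul (crd l 2) (crd l 2) ++ (pmul (crd l 2) (crd l 3) ++ pmul (crd l 3) (crd l 3))))
    (rsG2.toCert.appW 2 2 (w.map fun r => (r, [(1, [])])) (genV 14))

/-- the certificate -/
def ctG2 : List (List ℕ × List ℕ) := [([], [0, 1, 2, 3, 5, 6, 7, 8, 9, 11]), ([0], [3, 4, 8, 9, 10, 11, 12, 13]), ([1], [0, 2, 3, 4, 6, 8, 9, 10, 13]), ([2], [0, 9, 11, 12, 13]), ([3], [0, 4, 5, 6, 10, 11, 12]), ([4], [0, 3, 5, 10, 11, 12, 13]), ([0, 1], [2, 3, 4, 9, 12, 13]), ([0, 2], [2, 5, 6, 7, 8, 9, 12]), ([0, 3], [5, 8, 10, 11]), ([0, 4], [0, 2, 3, 4, 6, 7, 9, 10, 11, 12, 13]), ([0, 8], [0, 2, 3, 5, 7, 8, 9, 10]), ([0, 11], [0, 1, 2, 4, 5, 6, 8, 9, 10, 11, 13]),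 ([1, 2], [1, 2, 3, 4, 5, 6, 7, 9, 10, 11, 12]), ([1, 3], [0, 2, 3, 4, 6, 10, 11, 13]), ([1, 4], [2, 7, 8, 10, 11, 12, 13]), ([1, 7], [0, 1, 9, 11, 12]), ([1, 10], [0, 1, 2, 3, 4, 6, 7, 8, 9, 11, 12]), ([2, 3], [0, 1, 2, 3, 7, 9, 10]), ([2, 4], [1, 3, 4, 6, 7, 8]), ([2, 9], [2, 3, 4, 5, 6, 7, 8, 10, 12, 13]), ([3, 2], [1, 6, 8, 10, 11]), ([3, 4], [0, 3, 6, 8, 11, 12, 13]), ([3, 6], [0, 1, 4, 5, 6, 7, 8, 10, 11]), ([3, 8], [1, 3, 5, 6, 8, 9, 12, 13]), ([4, 2], [1, 2, 4, 6, 8, 10, 12, 13]), ([4, 3], [2, 4, 7, 10, 12]), ([4, 7], [4, 6, 8, 9, 11, 13]), ([0, 1, 2], [0, 1, 2, 4, 6, 7, 9, 12]), ([0, 1, 3], [4, 6, 9, 11, 12]), ([0, 1, 4], [0, 3, 4, 5, 8, 11]), ([0, 1, 7], [1, 4, 7, 10]), ([0, 1, 8], [0, 2, 6, 10]), ([0, 1, 9], [1, 2, 4, 5, 6, 11, 12]), ([0, 1, 10], [0, 1, 5, 7, 10, 12]), ([0, 2, 9], [0, 1, 2, 3, 4, 10]), ([0, 2, 11], [5, 10, 11, 12]), ([0, 3, 4], [0, 2, 3, 5, 6,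 8, 9, 11]), ([0, 3, 8], [2, 4, 7, 8, 12])]

theorem ctG2_chk : pnrm 2 ((ctG2.flatMap fun c => pmul (c.2.flatMap pX) (qdG2 c.1)) ++
    ppow (crd (rsG2.toCert.appW 2 2 [] (genV 14)) 2) 3) = [] ∧ ∀ c ∈ ctG2, ∀ r ∈ c.1, r < 12 := by decide +kernel

end Cfsg.Agent.H5
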