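import Cfsg.Agent.H5.F4p
import Cfsg.Agent.S1062

/-! Tori of `F₄(q)`. -/

set_option autoImplicit false

namespace Cfsg.Agent.H5

open Cfsg.Lie StG StN RS

theorem RS.cvec_smul {D : ChevalleyDatum} {R : RS D} (w : R.W) (β : Φ D) (j : I D) :
    R.cvec (w • β) j = ∑ i, R.cvec β i * R.cvec (w • R.sim i) j := by
  obtain ⟨L, h⟩ := R.exists_clin w
  simp only [h, cvec_sim]
  rw [show L (R.cvec β) = _ from LinearMap.pi_apply_eq_sum_univ L _, Finset.sum_apply]
  exact Finset.sum_congr rfl fun i _ => congrArg (fun v => R.cvec β i * L v j) (funext fun k => by simp [Pi.single_apply, eq_comm])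

theorem f4_ann (w : rsF4.W) : ∃ f ∈ fF4, ∀ i j : Fin 4, ldot f ((List.range 5).map fun k => rsF4.cvec (w ^ k • rsF4.sim i) j) = 0 := by
  have h := annF4_true
  have p : ∀ i j : Fin 4, rsF4.toCert.prN 4 (w • rsF4.sim i : Φ chevF4) (w • rsF4.sim j : Φ chevF4) =
      rsF4.toCert.prN 4 (rsF4.sp i) (rsF4.sp j) := fun i j =>
    (sumLt_eq _ _).trans ((rsF4.pr_smul w _ _).trans (sumLt_eq 4 fun m => rsF4.cv (rsF4.sp i) m * rsF4.A m (rsF4.sp j)).symm)
  simp only [Cert.annF4, allLt_iff, Bool.or_eq_true, Bool.not_eq_true', ← Bool.not_eq_true, Bool.and_eq_true, Cert.ibeq_iff] at h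
  have h1 := (((h _ (w • rsF4.sim (0 : Fin 4)).2 _ (w • rsF4.sim (1 : Fin 4)).2).resolve_left (by rw [p, p]; decide +kernel) _
    (w • rsF4.sim (2 : Fin 4)).2).resolve_left (by rw [p, p, p]; decide +kernel) _ (w • rsF4.sim (3 : Fin 4)).2).resolve_left
      (by rw [p, p, p, p]; decide +kernel)
  let P : ℕ → List (List ℤ) := fun k => ([0, 1, 2, 3] : List (Fin 4)).map fun i => rsF4.toCert.col4 (w ^ k • rsF4.sim i : Φ chevF4)
  have h2 : ∀ k, lmm ([0, 1, 2, 3].map fun j => [rsF4.cv (w • rsF4.sim (0 : Fin 4) : Φ chevF4) j,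
      rsF4.cv (w • rsF4.sim (1 : Fin 4) : Φ chevF4) j, rsF4.cv (w • rsF4.sim (2 : Fin 4) : Φ chevF4) j,
      rsF4.cv (w • rsF4.sim (3 : Fin 4) : Φ chevF4) j]) (P k) = P (k + 1) := fun k => by
    refine (List.map_map ..).trans (List.map_congr_left fun i _ => ?_)
    have e := fun j : Fin 4 => (RS.cvec_smul w (w ^ k • rsF4.sim i) j).trans (Fin.sum_univ_four _)
    rw [pow_succ', mul_smul]
    simp only [Function.comp, Cert.col4, List.map, ldot, add_zero, ← add_assoc]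
    exact congrArg₂ _ (e 0).symm (congrArg₂ _ (e 1).symm (congrArg₂ _ (e 2).symm (congrArg₂ _ (e 3).symm rfl)))
  have h3 : [rsF4.toCert.col4 (w • rsF4.sim (0 : Fin 4) : Φ chevF4), rsF4.toCert.col4 (w • rsF4.sim (1 : Fin 4) : Φ chevF4),
    rsF4.toCert.col4 (w • rsF4.sim (2 : Fin 4) : Φ chevF4), rsF4.toCert.col4 (w • rsF4.sim (3 : Fin 4) : Φ chevF4)] = P 1 := by
    simp only [P, pow_one]; rfl
  simp only [Cert.ann4, frcM_eq, h3, h2, List.any_eq_true, allLt_iff, Cert.ibeq_iff] at h1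
  obtain ⟨f, hf, h4⟩ := h1
  refine ⟨f, hf, fun i j => Eq.trans (congrArg _ ?_) (h4 i i.2 j j.2)⟩
  have h5 : ∀ k, rsF4.cvec (w ^ k • rsF4.sim i) j = tb (P k) i j := fun k => by fin_cases i <;> fin_cases j <;> rfl
  have h6 : ∀ i j : Fin 4, rsF4.cvec (rsF4.sim i) j = if (i : ℕ) = j then (1 : ℤ) else 0 :=
    (by decide +kernel : ∀ i j : Fin 4, rsF4.cv (rsF4.sp i) j = if (i : ℕ) = j then (1 : ℤ) else 0)
  simp only [List.range_succ, List.range_zero, List.map, List.nil_append, List.cons_append, ← h5, pow_zero, one_smul, h6]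

theorem det4 (M : Matrix (Fin 4) (Fin 4) ℤ) : M.det = M 0 0 * (M 1 1 * (M 2 2 * M 3 3 - M 2 3 * M 3 2) -
    M 1 2 * (M 2 1 * M 3 3 - M 2 3 * M 3 1) + M 1 3 * (M 2 1 * M 3 2 - M 2 2 * M 3 1)) - M 0 1 * (M 1 0 * (M 2 2 * M 3 3 - M 2 3 * M 3 2) -
    M 1 2 * (M 2 0 * M 3 3 - M 2 3 * M 3 0) + M 1 3 * (M 2 0 * M 3 2 - M 2 2 * M 3 0)) + M 0 2 * (M 1 0 * (M 2 1 * M 3 3 - M 2 3 * M 3 1) -
    M 1 1 * (M 2 0 * M 3 3 - M 2 3 * M 3 0) + M 1 3 * (M 2 0 * M 3 1 - M 2 1 * M 3 0)) - M 0 3 * (M 1 0 * (M 2 1 * M 3 2 - M 2 2 * M 3 1) -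
    M 1 1 * (M 2 0 * M 3 2 - M 2 2 * M 3 0) + M 1 2 * (M 2 0 * M 3 1 - M 2 1 * M 3 0)) := by
  rw [Matrix.det_succ_row_zero, Fin.sum_univ_four]
  simp [Matrix.det_fin_three, Fin.succAbove, Fin.lt_def]
  ring

section
variable {K : Type*} [Field K] {p : ℕ} [Fact p.Prime] [CharP K p] {G : Type*} [Group G] {Γ : Type*} [Group Γ]
  (L : Alg p rsF4.symId K G Γ) {q : ℕ} (hφ : ∀ r t, L.T.φ r t = t ^ q)
include hφ

theorem Alg.f4_tor {w : rsF4.W} {c : I chevF4 → Kˣ} (hc : c ∈ L.tA w) : ∃ k < 5, c ^ pF4 k q = 1 := by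
  have h1 : rsF4.wc w⁻¹ c = c ^ q := by rw [← (L.mem_tA' hφ).1 hc, ← L.wc_mul, inv_mul_cancel, wc_one, (L.mem_tA' hφ).1 hc]
  have h2 : ∀ k, rsF4.wc (w⁻¹ ^ k) c = c ^ (q : ℤ) ^ k := fun k => by
    rw [← Nat.cast_pow, zpow_natCast]
    induction k with
    | zero => simp [wc_one]
    | succ k ih => rw [pow_succ', L.wc_mul, ih, map_pow, h1, ← pow_mul, pow_succ']
  obtain ⟨f, hf, h⟩ := f4_ann w⁻¹
  obtain ⟨k, hk, rfl⟩ := List.getElem_of_mem hf
  obtain ⟨a0, a1, a2, a3, a4, e⟩ : ∃ a0 a1 a2 a3 a4, fF4[k] = [a0, a1, a2, a3, a4] := by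
    change k < 5 at hk
    interval_cases k <;> exact ⟨_, _, _, _, _, rfl⟩
  refine ⟨k, hk, funext fun j => ?_⟩
  rw [pF4, List.getD_eq_getElem _ _ hk, e, ← pow_zero (q : ℤ), ← pow_one (q : ℤ)]
  simp only [ldot, ← pow_mul, one_mul, add_zero, zpow_add, mul_comm _ ((q : ℤ) ^ _), zpow_mul, ← h2]
  simp only [wc, MonoidHom.coe_mk, OneHom.coe_mk, Pi.mul_apply, Pi.pow_apply, ← Finset.prod_zpow, ← zpow_mul,
    ← Finset.prod_mul_distrib, ← zpow_add]
  refine Finset.prod_eq_one fun i _ => (congrArg _ (Eq.trans ?_ (h i j))).trans (zpow_zero _)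
  simp [e, ldot, List.range_succ, mul_comm]

theorem Alg.f4_card [IsAlgClosed K] (hp : p ∣ q) (h0 : 0 < q) {k : ℕ} (hk : k < 5) : ∃ w : rsF4.W,
    (∀ r : Φ chevF4, ((w • r : Φ chevF4) : ℕ) = rsF4.toCert.actL (wF4.getD k []) r) ∧ (Nat.card (L.tA w) : ℤ) = pF4 k q := by
  obtain ⟨w, h1, h2, -⟩ := exists_word' (R := rsF4) ((by decide : ∀ k < 5, ∀ i ∈ wF4.getD k [], i < 4) k hk)
  have h3 : ∀ j i : Fin 4, wm w⁻¹ j i = tb (mF4.getD k []) j i := fun j i => (congrArg (rsF4.cv · j) (h2 _)).trans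
    ((by decide +kernel : ∀ k < 5, ∀ j i : Fin 4, rsF4.cv (rsF4.toCert.actL (wF4.getD k []).reverse (rsF4.sp i)) j =
      tb (mF4.getD k []) j i) k hk j i)
  refine ⟨w, h1, (L.card_tA hφ hp h0 w).trans ((congrArg Matrix.det (show (Matrix.diagonal fun _ => (q : ℤ)) - wm w⁻¹ = (Matrix.of fun j i : Fin 4 =>
    (if j = i then (q : ℤ) else 0) - tb (mF4.getD k []) j i) from Matrix.ext fun j i => congrArg ((if j = i then (q : ℤ) else 0) - ·) (h3 j i))).trans ?_)⟩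
  refine (det4 _).trans ?_
  interval_cases k <;> simp [tb, mF4, pF4, fF4, ldot] <;> ring

theorem Alg.f4_reg {k : ℕ} (hk : k < 2) {w : rsF4.W}
    (hw : ∀ r : Φ chevF4, ((w • r : Φ chevF4) : ℕ) = rsF4.toCert.actL (wF4.getD k []) r) {c : I chevF4 → Kˣ} (hc : c ∈ L.tA w)
    {r : Φ chevF4} (hr : rsF4.cv' (rsF4.tau K c) r = 1) : c ^ (2 : ℤ) = 1 := by
  have h1 : ∀ t : ℕ, rsF4.cv' (rsF4.tau K c) (w ^ t • r) = 1 ∧
      ((w ^ t • r : Φ chevF4) : ℕ) = (rsF4.toCert.actL (wF4.getD k []))^[t] r := fun t => by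
    induction t with
    | zero => simpa using hr
    | succ t ih =>
      rw [pow_succ', mul_smul, hw, ih.2, Function.iterate_succ_apply']
      exact ⟨Units.ext ((L.cv'_tA hc (w ^ t • r)).trans (by rw [ih.1]; exact map_one _)), rfl⟩
  rw [← Subgroup.mem_bot, ← kerF4.ker_eq_bot, MonoidHom.mem_ker, map_zpow]
  refine rsF4.ch_ext' fun i => ?_
  have e : (2 : ℤ) • rsF4.vec (rsF4.sim i) = ∑ t : Fin 4, xF4 k r (4 * i + t) • rsF4.vec (w ^ (t : ℕ) • r) :=
    funext fun j => (Cert.ibeq_iff.1 (allLt_iff.1 (allLt_iff.1 (allLt_iff.1 (allLt_iff.1 rF4_spec k hk) r r.2) i i.2) j j.2)).trans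
      (by simp only [sumLt_eq, Finset.sum_apply, ← (h1 _).2]; rfl)
  simp only [cv'] at *
  rw [MonoidHom.zpow_apply, ← map_zpow, ← ofAdd_zsmul, e, ofAdd_sum, map_prod]
  simp only [ofAdd_zsmul, map_zpow, (h1 _).1]
  simp

end

def sF4 (k : ℕ) : Finset ℕ := [{8}, {12}, {1, 2, 4}, {1, 2, 3}, {1, 2, 6}].getD k ∅

theorem mem_of_dvd {o : ℕ} (n : ℕ) (L : List ℕ) {S : Finset ℕ} (h : o ∣ n) (h' : ∀ m ∈ L, ¬ o ∣ m)
    (hc : n ≠ 0 ∧ ∀ d ∈ n.divisors, (∀ m ∈ L, ¬ d ∣ m) → d ∈ S := by decide) : o ∈ S := hc.2 o (Nat.mem_divisors.2 ⟨h, hc.1⟩) h'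

theorem zmod3_sq : ∀ x : ZMod 3, x ^ 2 ≠ 2 := by decide

theorem pF4_iff {r : ℕ} [Fact r.Prime] (hr : r ≠ 2) (q : ℕ) {k : ℕ} (hk : k < 5) :
    (r : ℤ) ∣ pF4 k q ↔ orderOf (q : ZMod r) ∈ sF4 k := by
  have h2 : (2 : ZMod r) ≠ 0 := fun h => hr ((Nat.prime_dvd_prime_iff_eq Fact.out Nat.prime_two).1
    ((ZMod.natCast_eq_zero_iff 2 r).1 h))
  rw [← ZMod.intCast_zmod_eq_zero_iff_dvd]
  have d := fun n => orderOf_dvd_iff_pow_eq_one (x := (q : ZMod r)) (n := n)
  have e : ∀ {n}, orderOf (q : ZMod r) = n → (q : ZMod r) ^ n = 1 ∧ ∀ m, ¬ n ∣ m → (q : ZMod r) ^ m - 1 ≠ 0 := fun h =>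
    ⟨h ▸ pow_orderOf_eq_one _, fun m a b => a (h ▸ (d m).2 (sub_eq_zero.1 b))⟩
  interval_cases k <;> simp only [pF4, fF4, ldot, List.getD_cons_succ, List.getD_cons_zero, sF4] <;> push_cast <;>
    refine ⟨fun h => ?_, fun h => ?_⟩
  · exact mem_of_dvd 8 [4] ((d 8).2 (by linear_combination ((q : ZMod r) ^ 4 - 1) * h))
      (by simpa [d] using fun a => h2 (by linear_combination h - a))
  · have := e (Finset.mem_singleton.1 h)
    exact mul_left_cancel₀ (this.2 4 (by decide)) (by linear_combination this.1)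
  · refine mem_of_dvd 12 [6, 4] ((d 12).2 (by linear_combination ((q : ZMod r) ^ 6 - 1) * ((q : ZMod r) ^ 2 + 1) * h)) ?_
    simp only [List.mem_cons, List.not_mem_nil, or_false, forall_eq_or_imp, forall_eq, d]
    refine ⟨fun a => h2 (by linear_combination ((q : ZMod r) ^ 2 + 1) * h - a), fun a => ?_⟩
    have h3 : (q : ZMod r) ^ 2 = 2 := by linear_combination a - h
    obtain rfl := (Nat.prime_dvd_prime_iff_eq (Fact.out : r.Prime) Nat.prime_three).1 ((ZMod.natCast_eq_zero_iff 3 r).1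
      (by push_cast; linear_combination a - ((q : ZMod r) ^ 2 + 2) * h3))
    exact zmod3_sq _ h3
  · have := e (Finset.mem_singleton.1 h)
    exact mul_left_cancel₀ (mul_ne_zero (this.2 4 (by decide)) (this.2 6 (by decide)))
      (by linear_combination ((q : ZMod r) ^ 2 - 1) * this.1)
  · exact mem_of_dvd 4 [] ((d 4).2 (by linear_combination h)) (by simp)
  · have := (d 4).1 ((by decide : ∀ x ∈ ({1, 2, 4} : Finset ℕ), x ∣ 4) _ h)
    linear_combination this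
  · rcases mul_eq_zero.1 (show ((q : ZMod r) ^ 3 - 1) * (q + 1) = 0 by linear_combination h) with a | a
    · exact mem_of_dvd 3 [] ((d 3).2 (by linear_combination a)) (by simp)
    · exact mem_of_dvd 2 [] ((d 2).2 (by linear_combination ((q : ZMod r) - 1) * a)) (by simp)
  · simp only [Finset.mem_insert, Finset.mem_singleton] at h
    rcases h with h | h | h <;> have := e h
    · linear_combination ((q : ZMod r) ^ 3 + 2 * q ^ 2 + 2 * q + 1) * this.1
    · linear_combination ((q : ZMod r) ^ 2 + q + 1) * this.1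
    · linear_combination ((q : ZMod r) + 1) * this.1
  · rcases mul_eq_zero.1 (show ((q : ZMod r) ^ 3 + 1) * (q - 1) = 0 by linear_combination h) with a | a
    · exact mem_of_dvd 6 [3] ((d 6).2 (by linear_combination ((q : ZMod r) ^ 3 - 1) * a))
        (by simpa [d] using fun b => h2 (by linear_combination a - b))
    · exact mem_of_dvd 1 [] ((d 1).2 (by linear_combination a)) (by simp)
  · simp only [Finset.mem_insert, Finset.mem_singleton] at h
    rcases h with h | h | h <;> have := e h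
    · linear_combination ((q : ZMod r) ^ 3 + 1) * this.1
    · linear_combination ((q : ZMod r) ^ 2 - q + 1) * this.1
    · exact mul_left_cancel₀ (this.2 3 (by decide)) (by linear_combination ((q : ZMod r) - 1) * this.1)

section fin
variable {F : Type*} [Field F] [Fintype F] {n : ℕ} (hn : 1 ≤ n) (hF : Fintype.card F = 2 ^ n)
include hn hF

theorem f4_ord {r : ℕ} [Fact r.Prime] (hr : r ≠ 2) (h : r ∣ Nat.card (chevF4.group F)) :
    orderOf (Fintype.card F : ZMod r) ∈ ({1, 2, 3, 4, 6, 8, 12} : Finset ℕ) := by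
  have h0 := Fintype.card_pos (α := F)
  simp only [S1062.result rfl, (Fact.out : r.Prime).dvd_mul, dvd_pow_sub_one_iff h0] at h
  rcases h with (((h | h) | h) | h) | h
  · rw [hF, ← pow_mul] at h
    exact (hr ((Nat.prime_dvd_prime_iff_eq Fact.out Nat.prime_two).1 ((Fact.out : r.Prime).dvd_of_dvd_pow h))).elim
  exacts [mem_of_dvd 2 [] h (by simp), mem_of_dvd 6 [] h (by simp), mem_of_dvd 8 [] h (by simp), mem_of_dvd 12 [] h (by simp)]

theorem f4_odd {r s : ℕ} [Fact r.Prime] [Fact s.Prime] (hr : r ≠ 2) (hs : s ≠ 2) (hrs : r ≠ s) :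
    (∃ x : chevF4.group F, orderOf x = r * s) ↔
      ∃ k < 5, orderOf (Fintype.card F : ZMod r) ∈ sF4 k ∧ orderOf (Fintype.card F : ZMod s) ∈ sF4 k := by
  haveI : CharP F 2 := charP_of_card_eq_prime_pow hF
  let L := algAd (AlgebraicClosure F) goodF4 kerF4.ker_eq_bot hF
  have hL : L.SC := fun g _ e => rsF4.adj_inj _ (by rw [map_one]; exact congrArg Subtype.val e)
  have hφ : ∀ r t, L.T.φ r t = t ^ Fintype.card F := fun _ _ => hF ▸ rfl
  refine ⟨fun ⟨x, hx⟩ => ?_, fun ⟨k, hk, h1, h2⟩ => ?_⟩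
  · obtain ⟨w, X, c, rfl⟩ := hL.exists_f (g := x) (hx ▸ Nat.Coprime.mul_left ((Nat.coprime_primes Fact.out Nat.prime_two).2 hr)
      ((Nat.coprime_primes Fact.out Nat.prime_two).2 hs))
    obtain ⟨k, hk, h⟩ := L.f4_tor hφ c.2
    rw [← orderOf_dvd_iff_zpow_eq_one, ← hL.orderOf_f X, hx, Nat.cast_mul] at h
    exact ⟨k, hk, (pF4_iff hr _ hk).1 (dvd_of_mul_right_dvd h), (pF4_iff hs _ hk).1 (dvd_of_mul_left_dvd h)⟩
  · obtain ⟨w, -, h⟩ := L.f4_card hφ (hF ▸ dvd_pow_self 2 (by omega)) Fintype.card_pos hk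
    obtain ⟨X⟩ := L.exists_tor w
    haveI := Finite.of_injective _ (hL.f_inj X)
    rw [← pF4_iff hr _ hk, ← h, Int.natCast_dvd_natCast] at h1
    rw [← pF4_iff hs _ hk, ← h, Int.natCast_dvd_natCast] at h2
    obtain ⟨a, ha⟩ := exists_prime_orderOf_dvd_card' r h1
    obtain ⟨b, hb⟩ := exists_prime_orderOf_dvd_card' s h2
    exact ⟨X.f (a * b), by rw [orderOf_injective _ (hL.f_inj X), (Commute.all a b).orderOf_mul_eq_mul_orderOf_of_coprime
      (by rw [ha, hb]; exact (Nat.coprime_primes Fact.out Fact.out).2 hrs), ha, hb]⟩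

theorem f4_two {s : ℕ} [Fact s.Prime] (hs : s ≠ 2) (h : s ∣ Nat.card (chevF4.group F)) :
    (¬ ∃ x : chevF4.group F, orderOf x = 2 * s) ↔ orderOf (Fintype.card F : ZMod s) ∈ ({8, 12} : Finset ℕ) := by
  haveI : CharP F 2 := charP_of_card_eq_prime_pow hF
  let L := algAd (AlgebraicClosure F) goodF4 kerF4.ker_eq_bot hF
  have hL : L.SC := fun g _ e => rsF4.adj_inj _ (by rw [map_one]; exact congrArg Subtype.val e)
  have hφ : ∀ r t, L.T.φ r t = t ^ Fintype.card F := fun _ _ => hF ▸ rfl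
  have h0 := Fintype.one_lt_card (α := F)
  have hs2 : ¬ 2 ∣ s := fun e => hs ((Nat.prime_dvd_prime_iff_eq Nat.prime_two Fact.out).1 e).symm
  refine ⟨fun h1 => by_contra fun h2 => h1 ?_, fun h1 ⟨x, hx⟩ => ?_⟩
  · obtain ⟨ζ, o, -⟩ := exists_primRoot (K := AlgebraicClosure F) 2 hs2
    have key : ∀ (wd : List ℕ) (β γ : Φ chevF4) (d : ℕ) (m : ℕ → ℤ), (∀ i ∈ wd, i < 4) ∧ rsF4.toCert.actL wd 0 = 0 ∧
        rsF4.toCert.prN 4 β 0 = 0 ∧ (rsF4.toCert.actL wd)^[d] β = β ∧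
        (∀ i < d, rsF4.toCert.prN 4 ((rsF4.toCert.actL wd)^[i] β) γ = m i) → orderOf (Fintype.card F : ZMod s) = d →
        ¬ (s : ℤ) ∣ ∑ i ∈ Finset.range d, (Fintype.card F : ℤ) ^ i * m i → ∃ x : chevF4.group F, orderOf x = 2 * s :=
      fun wd β γ d m ⟨a1, a2, a3, a4, a5⟩ a6 a7 => by
        obtain ⟨w, hw, -⟩ := exists_word' (R := rsF4) a1
        have hw' : ∀ i (x : Φ chevF4), ((w ^ i • x : Φ chevF4) : ℕ) = (rsF4.toCert.actL wd)^[i] x := fun i x => by
          induction i with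
          | zero => simp
          | succ i ih => rw [pow_succ', mul_smul, hw, ih, Function.iterate_succ_apply']
        have b1 : w • (⟨0, by decide⟩ : Φ chevF4) = ⟨0, by decide⟩ := Fin.ext ((hw _).trans a2)
        let c : L.tA w := ⟨rsF4.orbc w β (Fintype.card F) d ζ, (L.mem_tA' hφ).2 (wc_orbc (Fin.ext ((hw' _ _).trans a4)) (by
          obtain ⟨c, hc⟩ := (dvd_pow_sub_one_iff h0.le d).2 a6.dvd
          rw [← Nat.sub_add_cancel (Nat.one_le_pow d _ h0.le), hc, pow_succ, pow_mul, ← o, pow_orderOf_eq_one, one_pow, one_mul]))⟩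
        obtain ⟨X⟩ := L.exists_tor w
        obtain ⟨u, b2, b3⟩ := hL.exists_unip X (c := c) b1 (by
          rw [cv'_orbc, Finset.sum_eq_zero fun i _ => ?_, zpow_zero]
          have b : w ^ i • (⟨0, by decide⟩ : Φ chevF4) = ⟨0, by decide⟩ := pow_mem (show w ∈ MulAction.stabilizer _ _ from b1) i
          have b' : rsF4.pr β (⟨0, by decide⟩ : Φ chevF4) = 0 := (sumLt_eq 4 fun m => rsF4.cv β m * rsF4.A m 0).symm.trans a3
          rw [← b, pr_smul, b', mul_zero]) h0 (hφ _)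
        have b4 : orderOf c.1 = s := orderOf_eq_prime (by rw [← map_pow, ← o, pow_orderOf_eq_one, map_one]) fun e => a7 (by
          have := cv'_orbc w β γ (Fintype.card F) d ζ
          rw [show rsF4.orbc w β _ d ζ = 1 from e, map_one, cv'_one, eq_comm, ← orderOf_dvd_iff_zpow_eq_one, o] at this
          rwa [Finset.sum_congr rfl fun i hi => ?_] at this
          rw [← a5 i (Finset.mem_range.1 hi), ← hw', Cert.prN, sumLt_eq]; rfl)
        exact ⟨_, by rw [b3.orderOf_mul_eq_mul_orderOf_of_coprime, b2, hL.orderOf_f, b4]; rw [b2, hL.orderOf_f]; exact (L.fin c).2.symm⟩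
    have h3 := f4_ord hn hF hs h
    have h4 : ∀ j, (s : ℤ) ∣ 1 - (Fintype.card F : ℤ) ^ j → orderOf (Fintype.card F : ZMod s) ∣ j := fun j e => by
      rwa [dvd_sub_comm, ← Nat.cast_pow, ← Nat.cast_pred (Nat.one_le_pow j _ h0.le), Int.natCast_dvd_natCast,
        dvd_pow_sub_one_iff h0.le] at e
    simp only [Finset.mem_insert, Finset.mem_singleton, not_or] at h2 h3
    rcases h3 with e | e | e | e | e | e | e
    · exact key [] ⟨6, by decide⟩ ⟨1, by decide⟩ 1 (tb [[1]] 0) (by decide +kernel) e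
        (by simpa [tb, Int.natCast_dvd] using (Fact.out : s.Prime).one_lt.ne')
    · exact key [0] ⟨6, by decide⟩ ⟨4, by decide⟩ 2 (tb [[1, -1]] 0) (by decide +kernel) e fun a =>
        absurd (e ▸ h4 1 (by simpa [tb, Finset.sum_range_succ, ← sub_eq_add_neg] using a)) (by decide)
    · exact key [1, 0] ⟨6, by decide⟩ ⟨13, by decide⟩ 3 (tb [[1, -1, 0]] 0) (by decide +kernel) e fun a =>
        absurd (e ▸ h4 1 (by simpa [tb, Finset.sum_range_succ, ← sub_eq_add_neg] using a)) (by decide)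
    · exact key [2, 1] ⟨10, by decide⟩ ⟨7, by decide⟩ 4 (tb [[1, 0, -1, 0]] 0) (by decide +kernel) e fun a =>
        absurd (e ▸ h4 2 (by simpa [tb, Finset.sum_range_succ, ← sub_eq_add_neg] using a)) (by decide)
    · exact key [2, 1, 0] ⟨6, by decide⟩ ⟨3, by decide⟩ 6 (tb [[1, 0, 0, -1, 0, 0]] 0) (by decide +kernel) e fun a =>
        absurd (e ▸ h4 3 (by simpa [tb, Finset.sum_range_succ, ← sub_eq_add_neg] using a)) (by decide)
    exacts [(h2.1 e).elim, (h2.2 e).elim]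
  obtain ⟨k, hk, h2⟩ : ∃ k < 2, orderOf (Fintype.card F : ZMod s) ∈ sF4 k := by
    rcases Finset.mem_insert.1 h1 with e | e
    exacts [⟨0, two_pos, Finset.mem_singleton.2 e⟩, ⟨1, one_lt_two, e⟩]
  obtain ⟨w, hw, h3⟩ := L.f4_card hφ (hF ▸ dvd_pow_self 2 (by omega)) Fintype.card_pos (hk.trans (by decide : 2 < 5))
  obtain ⟨X⟩ := L.exists_tor w
  have h4 : ¬ s ∣ Nat.card (chevF4.group F ⧸ X.f.range) := fun e => by
    have a1 := Subgroup.card_eq_card_quotient_mul_card_subgroup X.f.range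
    rw [← Nat.card_congr (MonoidHom.ofInjective (hL.f_inj X)).toEquiv, S1062.result rfl] at a1
    have a2 := congrArg (Nat.cast : ℕ → ℤ) a1
    have a3 := fun j => Nat.one_le_pow j _ h0.le
    push_cast [a3, h3] at a2
    have a4 : ∀ j, (s : ℤ) ∣ (Fintype.card F : ℤ) ^ j - 1 → orderOf (Fintype.card F : ZMod s) ∣ j := fun j e => by
      rwa [← Nat.cast_pow, ← Nat.cast_pred (a3 j), Int.natCast_dvd_natCast, dvd_pow_sub_one_iff h0.le] at e
    have a5 : ¬ (s : ℤ) ∣ (Fintype.card F : ℤ) ^ 24 := fun e => by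
      rw [← Nat.cast_pow, Int.natCast_dvd_natCast, hF, ← pow_mul] at e
      exact hs ((Nat.prime_dvd_prime_iff_eq Fact.out Nat.prime_two).1 ((Fact.out : s.Prime).dvd_of_dvd_pow e))
    have a6 := (Nat.prime_iff_prime_int.1 (Fact.out : s.Prime))
    rw [← Int.natCast_dvd_natCast] at e
    have a7 : (1 : ℤ) < Fintype.card F := by exact_mod_cast h0
    generalize (Nat.card (chevF4.group F ⧸ X.f.range) : ℤ) = N at a2 e
    interval_cases k <;> simp only [pF4, fF4, ldot, List.getD_cons_succ, List.getD_cons_zero, sF4, Finset.mem_singleton] at a2 h2 <;>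
      rw [h2] at a4
    · obtain rfl : N = (Fintype.card F : ℤ) ^ 24 * (Fintype.card F ^ 2 - 1) * (Fintype.card F ^ 6 - 1) * (Fintype.card F ^ 4 - 1) *
        (Fintype.card F ^ 12 - 1) := mul_right_cancel₀ (b := (Fintype.card F : ℤ) ^ 4 + 1) (by positivity) (by linear_combination -a2)
      simp only [a6.dvd_mul] at e
      rcases e with (((e | e) | e) | e) | e
      exacts [a5 e, absurd (a4 _ e) (by decide), absurd (a4 _ e) (by decide), absurd (a4 _ e) (by decide), absurd (a4 _ e) (by decide)]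
    · have a8 : N * (Fintype.card F ^ 2 - 1) = (Fintype.card F : ℤ) ^ 24 * (Fintype.card F ^ 2 - 1) * (Fintype.card F ^ 6 - 1) *
        (Fintype.card F ^ 8 - 1) * (Fintype.card F ^ 6 - 1) * (Fintype.card F ^ 4 - 1) := mul_right_cancel₀
          (b := (Fintype.card F : ℤ) ^ 4 - Fintype.card F ^ 2 + 1) (by nlinarith [sq_nonneg ((Fintype.card F : ℤ) ^ 2 - 1)])
          (by linear_combination -((Fintype.card F : ℤ) ^ 2 - 1) * a2)
      replace e := a8 ▸ e.mul_right _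
      simp only [a6.dvd_mul] at e
      rcases e with ((((e | e) | e) | e) | e) | e
      exacts [a5 e, absurd (a4 _ e) (by decide), absurd (a4 _ e) (by decide), absurd (a4 _ e) (by decide), absurd (a4 _ e) (by decide),
        absurd (a4 _ e) (by decide)]
  have h5 : orderOf (x ^ 2) = s := by rw [orderOf_pow' _ two_ne_zero, hx]; simp
  obtain ⟨y, hy⟩ := (IsPGroup.of_card (G := Subgroup.zpowers (x ^ 2)) (n := 1) (by rw [Nat.card_zpowers, h5, pow_one])
    ).nonempty_fixed_point_of_prime_not_dvd_card _ h4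
  obtain ⟨g, rfl⟩ := QuotientGroup.mk_surjective y
  obtain ⟨c, hc⟩ := inv_mem (QuotientGroup.eq.1 (hy ⟨_, Subgroup.mem_zpowers _⟩))
  have h6 : X.f c = g⁻¹ * x ^ 2 * g := by rw [hc]; simp [mul_assoc]
  have oc : ∀ y, orderOf (g⁻¹ * y * g) = orderOf y := fun y => by simpa using (MulAut.conj g⁻¹).orderOf_eq y
  have h7 : orderOf c.1 = s := by rw [← hL.orderOf_f X, ← h5, h6, oc]
  obtain ⟨c', h8⟩ : g⁻¹ * x * g ∈ X.f.range := by
    rw [← hL.cent_reg X (c := c) fun r e => ?_, Subgroup.mem_centralizer_singleton_iff, h6]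
    · group
    have := L.f4_reg hφ hk hw c.2 e
    rw [← orderOf_dvd_iff_zpow_eq_one, h7] at this
    exact hs ((Nat.prime_dvd_prime_iff_eq Fact.out Nat.prime_two).1 (by exact_mod_cast this))
  have h9 := (L.fin c').2
  rw [← hL.orderOf_f X, h8, oc, hx] at h9
  exact absurd (Nat.Coprime.eq_one_of_dvd h9.symm (dvd_mul_right 2 s)) (by decide)

end fin

end Cfsg.Agent.H5
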