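import Cfsg.Agent.H5.G2s
import Cfsg.Agent.H5.Ag7

/-! Homocyclic subgroups of maximal tori. -/

set_option autoImplicit false

namespace Cfsg.Agent.H5

open Cfsg.Lie StG StN RS

def cycD : List ℕ → (ℕ → ℤ) → ℕ → ℤ
  | [], s => s
  | e :: es, s => fun i => cycD es s (i + e) - cycD es s i

theorem sum_shift {A : Type*} [AddCommGroup A] {f : ℕ → A} {d : ℕ} (h : ∀ i, f (i + d) = f i) (e : ℕ) :
    ∑ i ∈ Finset.range d, f (i + e) = ∑ i ∈ Finset.range d, f i := by
  induction e with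
  | zero => rfl
  | succ e ih =>
    have h1 := Finset.sum_range_succ' (fun i => f (i + e)) d
    rw [Finset.sum_range_succ, ih, add_comm d, h, zero_add] at h1
    simpa only [add_assoc, add_comm 1, add_left_inj] using h1.symm

theorem cycD_per {s : ℕ → ℤ} {d : ℕ} (h : ∀ i, s (i + d) = s i) (es : List ℕ) (i : ℕ) : cycD es s (i + d) = cycD es s i := by
  induction es generalizing i with
  | nil => exact h i
  | cons e es ih => simp only [cycD, ih, add_right_comm i d e]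

theorem cycD_sum {A : Type*} [CommRing A] {Q : A} {d : ℕ} (hQ : Q ^ d = 1) {s : ℕ → ℤ} (h : ∀ i, s (i + d) = s i) {es : List ℕ}
    (he : ∀ e ∈ es, IsUnit (Q ^ e - 1)) (h0 : ∑ i ∈ Finset.range d, Q ^ i * cycD es s i = 0) :
    ∑ i ∈ Finset.range d, Q ^ i * s i = 0 := by
  induction es with
  | nil => exact h0
  | cons e es ih =>
    refine ih (fun e h => he e (List.mem_cons_of_mem _ h)) ((he e List.mem_cons_self).mul_right_eq_zero.1 ?_)
    have h1 := sum_shift (f := fun i => Q ^ i * cycD es s i) (d := d) (fun i => by rw [cycD_per h, pow_add, hQ, mul_one]) e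
    simp only [cycD, Int.cast_sub, mul_sub, Finset.sum_sub_distrib] at h0
    simp only [pow_add, mul_comm _ (Q ^ e), mul_assoc, ← Finset.mul_sum] at h1
    linear_combination h1 - Q ^ e * h0

abbrev HC := List ℕ × List ℕ × List (List ℤ) × ℕ × List ℕ

noncomputable def Cert.mu (C : Cert) (l : ℕ) (wd : List ℕ) (β : ℕ) (lam : ℕ → ℤ) (i : ℕ) : ℤ :=
  sumLt l fun k => sumLt l (fun m => C.cv ((C.actL wd)^[i] β) m * C.A m (C.sp k)) * lam k

noncomputable def Cert.homChk (C : Cert) (l N a d P : ℕ) (h : HC) : Bool :=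
  h.1.all (· < l) && P ^ 8 % h.2.2.2.1 == 0 && h.2.2.2.2.all (fun e => 0 < e && e < d) && allLt a fun j =>
    h.2.1.getD j 0 < N && (C.actL h.1)^[d] (h.2.1.getD j 0) == h.2.1.getD j 0 && allLt a fun j' => allLt d fun i =>
      ibeq (cycD h.2.2.2.2 (fun i => C.mu l h.1 (h.2.1.getD j 0) (tb h.2.2.1 j') i -
        if j = j' ∧ i % d = 0 then (h.2.2.2.1 : ℤ) else 0) i) 0

variable {D : ChevalleyDatum} {R : RS D} {K : Type*} [Field K]

variable (R) in
def RS.co (β : Φ D) : Kˣ →* (I D → Kˣ) := MonoidHom.mk' (fun z k => z ^ R.cvec β k) fun _ _ => funext fun _ => mul_zpow _ _ _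

theorem RS.wc_co (w : R.W) (β : Φ D) (z : Kˣ) : R.wc w (R.co β z) = R.co (w • β) z := by
  obtain ⟨L, h⟩ := R.exists_clin w
  funext j
  show ∏ i, (z ^ R.cvec β i) ^ R.cvec (w • R.sim i) j = z ^ R.cvec (w • β) j
  simp only [← zpow_mul, ← zpow_sum', h, cvec_sim]
  rw [show L (R.cvec β) = _ from LinearMap.pi_apply_eq_sum_univ L _, Finset.sum_apply]
  congr 1
  exact Finset.sum_congr rfl fun i _ => congrArg (fun v => R.cvec β i * L v j) (funext fun k => by simp [Pi.single_apply, eq_comm])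

theorem RS.cv'_co (β γ : Φ D) (z : Kˣ) : R.cv' (R.tau K (R.co β z)) γ = z ^ R.pr β γ := by
  rw [cv'_tau, pr, zpow_sum']
  exact Finset.prod_congr rfl fun i _ => (zpow_mul _ _ _).symm

variable (R) in
noncomputable def RS.orbc (w : R.W) (β : Φ D) (q d : ℕ) : Kˣ →* (I D → Kˣ) :=
  ∏ i ∈ Finset.range d, (R.co (w ^ i • β)).comp (powMonoidHom (q ^ i))

theorem RS.orbc_apply (w : R.W) (β : Φ D) (q d : ℕ) (z : Kˣ) :
    R.orbc w β q d z = ∏ i ∈ Finset.range d, R.co (w ^ i • β) (z ^ q ^ i) := MonoidHom.finsetProd_apply _ _ _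

theorem RS.wc_orbc {w : R.W} {β : Φ D} {q d : ℕ} (h : w ^ d • β = β) {z : Kˣ} (hz : z ^ q ^ d = z) :
    R.wc w (R.orbc w β q d z ^ q) = R.orbc w β q d z := by
  have h1 := Finset.prod_range_succ' (fun i => R.co (w ^ i • β) (z ^ q ^ i)) d
  rw [Finset.prod_range_succ, h, hz, pow_zero, pow_zero, one_smul, pow_one, mul_left_inj] at h1
  rw [orbc_apply, ← Finset.prod_pow, map_prod, h1]
  exact Finset.prod_congr rfl fun i _ => by rw [← map_pow, wc_co, ← mul_smul, ← pow_succ', ← pow_mul, ← pow_succ]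

theorem RS.cv'_orbc (w : R.W) (β γ : Φ D) (q d : ℕ) (z : Kˣ) :
    R.cv' (R.tau K (R.orbc w β q d z)) γ = z ^ ∑ i ∈ Finset.range d, (q : ℤ) ^ i * R.pr (w ^ i • β) γ := by
  rw [orbc_apply, map_prod, cv', MonoidHom.finsetProd_apply, Finset.sum_range, zpow_sum', Finset.prod_range]
  exact Finset.prod_congr rfl fun i _ => (cv'_co _ _ _).trans (by rw [zpow_mul, ← Nat.cast_pow, zpow_natCast])

theorem RS.homo (hR : R.Good) {F : Type*} [Field F] [Fintype F] (inj : Function.Injective (R.st (AlgebraicClosure F) hR).hp)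
    {q r d a k P : ℕ} (hq : Fintype.card F = q) (hr : r.Prime) (hrq : ¬ r ∣ q) (hP : ¬ r ∣ P) (hd0 : 0 < d) (hm : r ^ k ∣ q ^ d - 1)
    (hd : ∀ e, 0 < e → e < d → ¬ r ∣ q ^ e - 1) {h : HC} (hc : R.toCert.homChk D.rank D.nroots a d P h = true) :
    ∃ φ : (Fin a → Multiplicative (ZMod (r ^ k))) →* D.group F, Function.Injective φ := by
  obtain ⟨p, _, e, hp, he⟩ := FiniteField.card' F
  haveI := Fact.mk hp
  haveI : NeZero (r ^ k) := ⟨pow_ne_zero _ hr.ne_zero⟩
  obtain ⟨wd, β, lam, n, es⟩ := h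
  simp only [Cert.homChk, Bool.and_eq_true, allLt_iff, List.all_eq_true, decide_eq_true_eq, beq_iff_eq, Cert.ibeq_iff] at hc
  obtain ⟨⟨⟨c1, c2⟩, c3⟩, c4⟩ := hc
  obtain ⟨w, hw, -⟩ := exists_word' (R := R) c1
  have hw' : ∀ i (x : Φ D), ((w ^ i • x : Φ D) : ℕ) = (R.toCert.actL wd)^[i] x := fun i x => by
    induction i with
    | zero => simp
    | succ i ih => rw [pow_succ', mul_smul, hw, ih, Function.iterate_succ_apply']
  have hq1 : 1 ≤ q := hq ▸ Fintype.card_pos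
  let L := algSt (AlgebraicClosure F) hR inj he
  obtain ⟨ζ, o, -⟩ := exists_primRoot (K := AlgebraicClosure F) p (n := r ^ k) fun h => hrq (by
    rw [← hq, he, ← (Nat.prime_dvd_prime_iff_eq hp hr).1 (hp.dvd_of_dvd_pow h)]; exact dvd_pow_self p e.2.ne')
  have θ := (zmodCyclicMulEquiv (G := Subgroup.zpowers ζ) inferInstance)
  rw [Nat.card_zpowers, o] at θ
  have hz : ∀ y, (θ y : (AlgebraicClosure F)ˣ) ^ r ^ k = 1 := fun y => by
    generalize θ y = u
    rw [← o, ← Subgroup.coe_pow, ← Nat.card_zpowers, pow_card_eq_one', Subgroup.coe_one]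
  let b : Fin a → Φ D := fun j => ⟨β.getD j 0, (c4 j j.2).1.1⟩
  have hb : ∀ j, w ^ d • b j = b j := fun j => Fin.ext ((hw' _ _).trans (c4 j j.2).1.2)
  let ψ : (Fin a → Multiplicative (ZMod (r ^ k))) →* (I D → (AlgebraicClosure F)ˣ) :=
    ∏ j, ((R.orbc w (b j) q d).comp ((Subgroup.subtype _).comp θ.toMonoidHom)).comp (Pi.evalMonoidHom _ j)
  have hψ : ∀ y, ψ y = ∏ j, R.orbc w (b j) q d (θ (y j)) := fun y => MonoidHom.finsetProd_apply _ _ _
  obtain ⟨X⟩ := L.exists_tor w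
  refine ⟨X.f.comp (ψ.codRestrict _ fun y => ?_), (injective_iff_map_eq_one _).2 fun y hy => funext fun j => ?_⟩
  · rw [hψ]
    refine prod_mem fun j _ => (L.mem_tA' (q := q) fun _ _ => by rw [← hq, he]; rfl).2 (wc_orbc (hb j) ?_)
    obtain ⟨c, hc⟩ := hm
    rw [← Nat.sub_add_cancel (Nat.one_le_pow d q hq1), hc, pow_succ, pow_mul, hz, one_pow, one_mul]
  have h1 : R.tau _ (ψ y) = 1 := X.f_eq_one.1 hy
  have h2 : ∏ i : I D, R.cv' (R.tau _ (ψ y)) (R.sim i) ^ tb lam j i = 1 := by simp [h1]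
  have hn : n.Coprime (r ^ k) := Nat.Coprime.pow_right _ ((Nat.Prime.coprime_iff_not_dvd hr).2 fun h =>
    hP (hr.dvd_of_dvd_pow (h.trans (Nat.dvd_of_mod_eq_zero c2)))).symm
  have h3 : ∀ j', ∏ i : I D, R.cv' (R.tau _ (R.orbc w (b j') q d (θ (y j')))) (R.sim i) ^ tb lam j i =
      (θ (y j') : (AlgebraicClosure F)ˣ) ^ if j' = j then (n : ℤ) else 0 := fun j' => by
    simp only [cv'_orbc, ← zpow_mul, ← zpow_sum']
    rw [← mul_inv_eq_one, ← zpow_sub, ← orderOf_dvd_iff_zpow_eq_one]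
    refine (Int.natCast_dvd_natCast.2 (orderOf_dvd_of_pow_eq_one (hz _))).trans ((ZMod.intCast_zmod_eq_zero_iff_dvd _ _).1 ?_)
    have h4 := cycD_sum (Q := (q : ZMod (r ^ k))) (d := d) (by
        rw [← sub_eq_zero, ← Nat.cast_pow, ← Nat.cast_pred (Nat.one_le_pow d q hq1), ZMod.natCast_eq_zero_iff]; exact hm)
      (s := fun i => R.toCert.mu D.rank wd (b j') (tb lam j) i - if (j' : ℕ) = j ∧ i % d = 0 then (n : ℤ) else 0)
      (fun i => by simp only [Cert.mu, Nat.add_mod_right, Function.iterate_add_apply, ← hw' d, hb]) (es := es)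
      (fun e he => by
        rw [← Nat.cast_pow, ← Nat.cast_pred (Nat.one_le_pow e q hq1), ZMod.isUnit_iff_coprime]
        exact Nat.Coprime.pow_right _ ((Nat.Prime.coprime_iff_not_dvd hr).2 (hd e (c3 e he).1 (c3 e he).2)).symm)
      (Finset.sum_eq_zero fun i hi => by rw [(c4 j' j'.2).2 j j.2 i (Finset.mem_range.1 hi), Int.cast_zero, mul_zero])
    simp only [Int.cast_sub, mul_sub, Finset.sum_sub_distrib] at h4
    rw [Finset.sum_eq_single_of_mem 0 (Finset.mem_range.2 hd0) (f := fun i => (q : ZMod (r ^ k)) ^ i *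
      ((if (j' : ℕ) = j ∧ i % d = 0 then (n : ℤ) else 0 : ℤ) : ZMod (r ^ k)))
      fun i hi h0 => by simp [Nat.mod_eq_of_lt (Finset.mem_range.1 hi), h0]] at h4
    rw [Int.cast_sub, ← h4]
    simp only [Cert.mu, sumLt_eq, ← hw', Finset.sum_mul, Fin.val_inj, pow_zero, one_mul, Nat.zero_mod, and_true, pr]
    push_cast
    simp only [Finset.mul_sum, mul_assoc, Finset.sum_mul]
    rw [Finset.sum_comm]
    rfl
  rw [hψ, map_prod] at h2
  simp only [cv', MonoidHom.finsetProd_apply, ← Finset.prod_zpow] at h2 h3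
  rw [Finset.prod_comm, Finset.prod_congr rfl fun j' _ => h3 j', Finset.prod_eq_single j (by simp +contextual) (by simp), if_pos rfl,
    zpow_natCast] at h2
  exact θ.injective (Subtype.ext (by simpa [hn] using pow_gcd_eq_one.2 ⟨h2, hz _⟩))

theorem dvd_pow_sub_one_iff {q r : ℕ} (hq : 1 ≤ q) (e : ℕ) : r ∣ q ^ e - 1 ↔ orderOf (q : ZMod r) ∣ e := by
  rw [orderOf_dvd_iff_pow_eq_one, ← ZMod.natCast_eq_zero_iff, Nat.cast_pred (Nat.one_le_pow e q hq), sub_eq_zero, Nat.cast_pow]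

theorem ord_pos {q r : ℕ} [Fact r.Prime] (h : ¬ r ∣ q) : 0 < orderOf (q : ZMod r) :=
  orderOf_pos_iff.2 (isOfFinOrder_iff_pow_eq_one.2 ⟨r - 1, Nat.sub_pos_of_lt (Fact.out : r.Prime).one_lt,
    ZMod.pow_card_sub_one_eq_one (mt (ZMod.natCast_eq_zero_iff _ _).1 h)⟩)

theorem val_cyc {q r : ℕ} [Fact r.Prime] (hq : 2 ≤ q) (h : ¬ r ∣ q) :
    padicValNat r ((Polynomial.cyclotomic (orderOf (q : ZMod r)) ℤ).eval (q : ℤ)).natAbs =
      padicValNat r (q ^ orderOf (q : ZMod r) - 1) := by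
  have h0 := ord_pos h
  have h1 : ∀ e, ((Polynomial.X ^ e - 1 : Polynomial ℤ).eval (q : ℤ)).natAbs = q ^ e - 1 := fun e => by
    rw [Polynomial.eval_sub, Polynomial.eval_pow, Polynomial.eval_X, Polynomial.eval_one, ← Nat.cast_pow,
      ← Nat.cast_pred (Nat.one_le_pow e q (by omega)), Int.natAbs_natCast]
  have h2 := h1 (orderOf (q : ZMod r))
  have h3 := (Nat.sub_pos_of_lt (Nat.one_lt_pow h0.ne' hq)).ne'
  rw [← Polynomial.prod_cyclotomic_eq_X_pow_sub_one h0, ← Nat.cons_self_properDivisors h0.ne', Finset.prod_cons,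
    Polynomial.eval_mul, Int.natAbs_mul] at h2
  rw [← h2, mul_ne_zero_iff] at h3
  rw [← h2, padicValNat.mul h3.1 h3.2, eq_comm, add_eq_left]
  refine padicValNat.eq_zero_of_not_dvd fun h4 => ?_
  rw [← Int.natCast_dvd, Polynomial.eval_prod, (Nat.prime_iff_prime_int.1 Fact.out).dvd_finsetProd_iff] at h4
  obtain ⟨e, he, h5⟩ := h4
  have h6 := Int.natCast_dvd.1 (h5.trans (Polynomial.eval_dvd (Polynomial.cyclotomic.dvd_X_pow_sub_one e ℤ)))
  rw [h1, dvd_pow_sub_one_iff (by omega)] at h6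
  exact (Nat.mem_properDivisors.1 he).2.not_ge (Nat.le_of_dvd (Nat.pos_of_mem_properDivisors he) h6)

theorem val_list {q r : ℕ} [Fact r.Prime] (hq : 2 ≤ q) (h : ¬ r ∣ q) (hr : r ≠ 2) {L : List ℕ} (hL : ¬ r ∣ L.prod) :
    (L.map fun e => q ^ e - 1).prod ≠ 0 ∧ padicValNat r (L.map fun e => q ^ e - 1).prod =
      padicValNat r (q ^ orderOf (q : ZMod r) - 1) * (L.filter fun e => orderOf (q : ZMod r) ∣ e).length := by
  induction L with
  | nil => simp
  | cons e L ih =>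
    rw [List.prod_cons, (Fact.out : r.Prime).dvd_mul, not_or] at hL
    have he : e ≠ 0 := by rintro rfl; simp at hL
    have h1 := (Nat.sub_pos_of_lt (Nat.one_lt_pow he hq)).ne'
    obtain ⟨h2, h3⟩ := ih hL.2
    rw [List.map_cons, List.prod_cons, padicValNat.mul h1 h2, h3, List.filter_cons]
    refine ⟨mul_ne_zero h1 h2, ?_⟩
    split_ifs with h4
    · obtain ⟨c, rfl⟩ := of_decide_eq_true h4
      have h5 := padicValNat.pow_sub_pow ((Fact.out : r.Prime).odd_of_ne_two hr) (Nat.one_lt_pow (ord_pos h).ne' hq)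
        ((dvd_pow_sub_one_iff (by omega) _).2 dvd_rfl) (mt (Fact.out : r.Prime).dvd_of_dvd_pow h) (right_ne_zero_of_mul he)
      rw [one_pow, ← pow_mul, padicValNat.eq_zero_of_not_dvd (mt (·.mul_left _) hL.1), add_zero] at h5
      rw [h5, List.length_cons]; ring
    · rw [padicValNat.eq_zero_of_not_dvd (mt (dvd_pow_sub_one_iff (by omega) _).1 (by simpa using h4)), zero_add]

noncomputable def Cert.homAll (C : Cert) (l N : ℕ) (L : List ℕ) (H : List HC) : Bool :=
  L.all (fun e => 0 < e && e < 31) && L.prod % 2 == 0 && allLt 31 fun d => (L.filter fun e => d ∣ e).length == 0 ||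
    C.homChk l N (L.filter fun e => d ∣ e).length d L.prod (H.getD d ([], [], [], 0, []))

theorem RS.sylow_homo (hR : R.Good) {F : Type*} [Field F] [Fintype F] (inj : Function.Injective (R.st (AlgebraicClosure F) hR).hp)
    {q : ℕ} (hq : Fintype.card F = q) {L : List ℕ} {H : List HC} (hc : R.toCert.homAll D.rank D.nroots L H = true) {z N : ℕ}
    (hG : z * Nat.card (D.group F) = q ^ N * (L.map fun e => q ^ e - 1).prod) (hz : z ∣ L.prod) (r : ℕ) [Fact r.Prime]
    (hrq : ¬ r ∣ q) (hrW : ¬ r ∣ L.prod) (hrG : r ∣ Nat.card (D.group F)) (P : Sylow r (D.group F)) :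
    Nonempty ((P : Subgroup (D.group F)) ≃* (Fin (L.filter fun e => orderOf (q : ZMod r) ∣ e).length → Multiplicative
      (ZMod (r ^ padicValNat r ((Polynomial.cyclotomic (orderOf (q : ZMod r)) ℤ).eval (q : ℤ)).natAbs)))) := by
  have h0 : 2 ≤ q := hq ▸ Fintype.one_lt_card
  simp only [Cert.homAll, Bool.and_eq_true, allLt_iff, List.all_eq_true, decide_eq_true_eq, beq_iff_eq, Bool.or_eq_true] at hc
  obtain ⟨h1, h2⟩ := val_list h0 hrq (by rintro rfl; exact hrW (Nat.dvd_of_mod_eq_zero hc.1.2)) hrW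
  have h3 := congrArg (padicValNat r) hG
  have hz0 : ¬ r ∣ z := mt (·.trans hz) hrW
  rw [padicValNat.mul (by rintro rfl; simp at hz0) Nat.card_pos.ne', padicValNat.mul (by positivity) h1, h2,
    padicValNat.eq_zero_of_not_dvd hz0, padicValNat.eq_zero_of_not_dvd (mt (Fact.out : r.Prime).dvd_of_dvd_pow hrq),
    zero_add, zero_add] at h3
  have h4 : (L.filter fun e => orderOf (q : ZMod r) ∣ e).length ≠ 0 := fun h =>
    (one_le_padicValNat_of_dvd Nat.card_pos.ne' hrG).not_gt (by simp [h3, h])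
  obtain ⟨e, he⟩ := List.exists_mem_of_length_pos (Nat.pos_of_ne_zero h4)
  rw [List.mem_filter, decide_eq_true_eq] at he
  obtain ⟨φ, hφ⟩ := RS.homo hR inj hq Fact.out hrq hrW (ord_pos hrq) pow_padicValNat_dvd
    (fun e a b c => b.not_ge (Nat.le_of_dvd a ((dvd_pow_sub_one_iff (by omega) _).1 c)))
    ((hc.2 _ ((Nat.le_of_dvd (hc.1.1 e he.1).1 he.2).trans_lt (hc.1.1 e he.1).2)).resolve_left h4)
  rw [val_cyc h0 hrq]
  refine ⟨(P.equiv (Sylow.ofCard φ.range ?_)).trans (MonoidHom.ofInjective hφ).symm⟩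
  rw [← Nat.card_congr (MonoidHom.ofInjective hφ).toEquiv, Nat.factorization_def _ Fact.out, h3, Nat.card_fun]
  simp [pow_mul]

end Cfsg.Agent.H5
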