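import Cfsg.Agent.H5.G2s

set_option autoImplicit false

namespace Cfsg.Agent.H5

open Cfsg.Lie StG StN RS Matrix

section lin
variable {ι : Type*} [Fintype ι] [DecidableEq ι]

theorem det_sub_pos {M : Matrix ι ι ℤ} {n : ℕ} (hn : 0 < n) (h : M ^ n = 1) {q : ℤ} (hq : 1 < q) :
    0 < ((diagonal fun _ => q) - M).det := by
  set M' : Matrix ι ι ℝ := (Int.castRingHom ℝ).mapMatrix M
  have hq' : (1 : ℝ) < q := by exact_mod_cast hq
  have h1 : ∀ t ∈ Set.Icc (0 : ℝ) (q : ℝ)⁻¹, (1 - t • M').det ≠ 0 := fun t ht e => by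
    have h2 := congrArg det (mul_neg_geom_sum (t • M') n)
    have h3 := pow_lt_one₀ ht.1 (ht.2.trans_lt (inv_lt_one_of_one_lt₀ hq')) hn.ne'
    rw [det_mul, e, zero_mul, _root_.smul_pow, ← map_pow, h, map_one, show (1 : Matrix ι ι ℝ) - t ^ n • 1 = (1 - t ^ n) • 1 by
      rw [sub_smul, one_smul], det_smul, det_one, mul_one] at h2
    exact (pow_pos (sub_pos.2 h3) _).ne h2
  have h2 : 0 < (1 - (q : ℝ)⁻¹ • M').det := by
    by_contra h2
    have hc : Continuous fun t : ℝ => (1 - t • M').det := Continuous.matrix_det (by fun_prop)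
    obtain ⟨t, ht, e⟩ := intermediate_value_Icc' (by positivity : (0 : ℝ) ≤ (q : ℝ)⁻¹) hc.continuousOn
      (show (0 : ℝ) ∈ Set.Icc _ _ from ⟨not_lt.1 h2, by simp⟩)
    exact h1 t ht e
  have h3 : ((((diagonal fun _ => q) - M).det : ℤ) : ℝ) = (q : ℝ) ^ Fintype.card ι * (1 - (q : ℝ)⁻¹ • M').det := by
    rw [← det_smul, smul_sub, smul_smul, mul_inv_cancel₀ (by positivity), one_smul]
    refine ((Int.castRingHom ℝ).map_det _).trans (congrArg det ?_)
    ext i j
    simp [M', one_apply, diagonal_apply]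
  have : (0 : ℝ) < ((((diagonal fun _ => q) - M).det : ℤ) : ℝ) := by rw [h3]; positivity
  exact_mod_cast this

theorem card_ker_mat {K : Type*} [Field K] [IsAlgClosed K] (N : Matrix ι ι ℤ) (h : (N.det : K) ≠ 0) :
    Nat.card {c : ι → Kˣ // ∀ j, ∏ i, c i ^ N j i = 1} = N.det.natAbs := by
  have h0 : N.det ≠ 0 := by rintro e; simp [e] at h
  have hinj : Function.Injective Nᵀ.mulVecLin := Matrix.mulVec_injective_iff.2
    (Matrix.linearIndependent_cols_of_det_ne_zero (by rwa [det_transpose]))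
  set P := LinearMap.range Nᵀ.mulVecLin
  have hc : Nat.card (Multiplicative ((ι → ℤ) ⧸ P)) = N.det.natAbs := by
    rw [Nat.card_congr Multiplicative.toAdd, ← Submodule.natAbs_det_equiv P (LinearEquiv.ofInjective _ hinj), ← det_transpose N,
      ← LinearMap.det_toLin']
    rfl
  haveI : Finite (Multiplicative ((ι → ℤ) ⧸ P)) := Nat.finite_of_card_ne_zero (by rw [hc]; simpa using h0)
  haveI : NeZero ((N.det.natAbs : ℕ) : K) := ⟨by rw [Nat.cast_natAbs]; rcases abs_choice N.det with e | e <;> simpa [e] using h⟩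
  haveI : NeZero N.det.natAbs := ⟨by simpa using h0⟩
  haveI : HasEnoughRootsOfUnity K (Monoid.exponent (Multiplicative ((ι → ℤ) ⧸ P))) :=
    HasEnoughRootsOfUnity.of_dvd K (hc ▸ Group.exponent_dvd_nat_card)
  rw [← hc, ← CommGroup.card_monoidHom_of_hasEnoughRootsOfUnity (Multiplicative ((ι → ℤ) ⧸ P)) K]
  have key : ∀ (φ : Multiplicative ((ι → ℤ) ⧸ P) →* Kˣ) (y : ι → ℤ), φ (Multiplicative.ofAdd (P.mkQ y)) =
      ∏ i, φ (Multiplicative.ofAdd (P.mkQ (Pi.single i 1))) ^ y i := fun φ y => by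
    conv_lhs => rw [pi_eq_sum_univ' y, map_sum, ofAdd_sum, map_prod]
    simp only [map_smul, ofAdd_zsmul, map_zpow]
  refine (Nat.card_congr (Equiv.ofBijective (fun φ => (⟨fun i => φ (Multiplicative.ofAdd (P.mkQ (Pi.single i 1))), fun j => ?_⟩ :
    {c : ι → Kˣ // ∀ j, ∏ i, c i ^ N j i = 1})) ⟨fun φ ψ e => MonoidHom.ext fun a => ?_, fun c => ?_⟩)).symm
  · rw [← key, show P.mkQ (N j) = 0 from (Submodule.Quotient.mk_eq_zero P).2 ⟨Pi.single j 1, by ext; simp⟩, ofAdd_zero, map_one]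
  · obtain ⟨y, hy⟩ := P.mkQ_surjective a.toAdd
    rw [← ofAdd_toAdd a, ← hy, key, key]
    exact Finset.prod_congr rfl fun i _ => congrArg (· ^ y i) (congrFun (congrArg Subtype.val e) i)
  · let l : (ι → ℤ) →ₗ[ℤ] Additive Kˣ := Fintype.linearCombination ℤ fun i => Additive.ofMul (c.1 i)
    have hl : P ≤ LinearMap.ker l := by
      rintro _ ⟨y, rfl⟩
      rw [pi_eq_sum_univ' y, map_sum]
      refine sum_mem fun j _ => ?_
      rw [map_smul]
      refine Submodule.smul_mem _ _ ?_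
      apply Additive.toMul.injective
      simpa [l, Fintype.linearCombination_apply, toMul_sum] using c.2 j
    refine ⟨AddMonoidHom.toMultiplicativeLeft (P.liftQ l hl).toAddMonoidHom, Subtype.ext (funext fun i => ?_)⟩
    simp [l]

theorem card_pairs {W T C : Type*} [Group W] (a : W → T → T) (h1 : ∀ c, a 1 c = c) (hm : ∀ v w c, a (v * w) c = a v (a w c))
    (F : T → T) (hF : ∀ w c, F (a w c) = a w (F c)) (κ : {x : W × T // a x.1 (F x.2) = x.2} → C) (hs : Function.Surjective κ)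
    (hκ : ∀ x y, κ x = κ y ↔ ∃ v, a v x.1.2 = y.1.2) : Nat.card {x : W × T // a x.1 (F x.2) = x.2} = Nat.card C * Nat.card W := by
  choose r hr using hs
  have hi : ∀ v c, a v⁻¹ (a v c) = c := fun v c => by rw [← hm, inv_mul_cancel, h1]
  let u : C → T → W := fun k c => Function.invFun (fun u => a u (r k).1.2) (F c)
  have hu : ∀ k v, a (u k (a v (r k).1.2)) (r k).1.2 = F (a v (r k).1.2) := fun k v =>
    Function.invFun_eq (f := fun u => a u (r k).1.2) ⟨v * (r k).1.1⁻¹, by
      show a _ _ = _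
      rw [hm, hF]; congr 1; conv_lhs => rw [← (r k).2, hi]⟩
  have hx : ∀ x, a (x.1.1 * u (κ x) x.1.2) (r (κ x)).1.2 = x.1.2 := fun x => by
    obtain ⟨v, hv⟩ := (hκ _ _).1 (hr (κ x))
    rw [hm, ← hv, hu, hv, x.2]
  rw [← Nat.card_prod]
  refine Nat.card_congr (Equiv.ofBijective (fun x => (κ x, x.1.1 * u (κ x) x.1.2)) ⟨fun x y e => ?_, fun ⟨k, v⟩ => ?_⟩)
  · obtain ⟨e1, e2⟩ := Prod.ext_iff.1 e
    simp only at e1 e2
    have e3 : x.1.2 = y.1.2 := by rw [← hx x, ← hx y, e2, e1]
    rw [e1, e3] at e2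
    exact Subtype.ext (Prod.ext (mul_right_cancel e2) e3)
  · have e : κ ⟨(v * (u k (a v (r k).1.2))⁻¹, a v (r k).1.2), by simp only; rw [hm, ← hu, hi]⟩ = k :=
      ((hκ _ _).2 ⟨v⁻¹, hi _ _⟩).trans (hr k)
    exact ⟨_, Prod.ext e (by simp only [e]; simp)⟩
end lin

variable {D : ChevalleyDatum} {R : RS D}

namespace RS
/-- the matrix of an element of the Weyl group on the coroot lattice -/
def wm (w : R.W) : Matrix (I D) (I D) ℤ := of fun j i => R.cvec (w • R.sim i) j

theorem wm_one : wm (1 : R.W) = 1 := by ext j i; simp [wm, cvec_sim, Pi.single_apply, one_apply]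

theorem wm_mul (v w : R.W) : wm (v * w) = wm v * wm w := by
  obtain ⟨L, hL⟩ := exists_clin v
  ext j i
  simp only [wm, of_apply, mul_apply, mul_smul, hL, cvec_sim]
  conv_lhs => rw [pi_eq_sum_univ' (R.cvec (w • R.sim i)), map_sum]
  simp only [map_smul]
  simp [mul_comm]

theorem wm_pow (w : R.W) (n : ℕ) : wm (w ^ n) = wm w ^ n := by
  induction n with
  | zero => simp [wm_one]
  | succ n ih => rw [pow_succ, wm_mul, ih, pow_succ]

theorem wm_sw (i : I D) : wm (R.sw i) = (1 : Matrix (I D) (I D) ℤ).updateRow i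
    (∑ k, ((if i = k then 1 else 0) - R.pr (R.sim k) (R.sim i)) • (1 : Matrix (I D) (I D) ℤ) k) := by
  ext j k
  by_cases h : j = i
  · subst h; simp only [updateRow_self, Finset.sum_apply, Pi.smul_apply]; simp [wm, cvec_ref, cvec_sim, one_apply, Pi.single_apply]
  · simp [wm, cvec_ref, cvec_sim, one_apply, Pi.single_apply, h]

theorem det_wm_sw (i : I D) : (wm (R.sw i)).det = -1 := by
  rw [wm_sw, det_updateRow_sum]; simp [pr_self]

theorem sum_det (q : ℤ) : ∑ w : R.W, ((diagonal fun _ => q) - wm w).det = Nat.card R.W * q ^ D.rank := by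
  have h : ∀ w : R.W, ((diagonal fun _ => q) - wm w).det =
      ∑ s : Finset (I D), (of fun j k => if j ∈ s then (if j = k then q else 0) else -wm w j k).det := fun w => by
    rw [sub_eq_add_neg]
    refine ((detRowAlternating (n := I D) (R := ℤ)).toMultilinearMap.map_add_univ _ _).trans (Finset.sum_congr rfl fun s _ =>
      congrArg det ?_)
    ext j k
    by_cases hj : j ∈ s
    · exact (congrFun (Finset.piecewise_eq_of_mem _ _ _ hj) k).trans (by simp [hj, diagonal_apply])
    · exact (congrFun (Finset.piecewise_eq_of_notMem _ _ _ hj) k).trans (by simp [hj])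
  simp only [h]
  rw [Finset.sum_comm, Finset.sum_eq_single Finset.univ]
  · simp only [Finset.mem_univ, if_true]
    show ∑ _w : R.W, (diagonal fun _ => q).det = _
    simp
  · intro s _ hs
    obtain ⟨i, hi⟩ : ∃ i, i ∉ s := by by_contra! h; exact hs (Finset.eq_univ_of_forall h)
    have e : ∀ w : R.W, (of fun j k => if j ∈ s then (if j = k then q else 0) else -wm (w * R.sw i) j k).det =
        -(of fun j k => if j ∈ s then (if j = k then q else 0) else -wm w j k).det := fun w => by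
      rw [← mul_neg_one (det _), ← det_wm_sw (R := R) i, ← det_mul]
      congr 1
      ext j k
      by_cases hj : j ∈ s
      · have : j ≠ i := by rintro rfl; exact hi hj
        simp [mul_apply, hj, one_apply, wm_sw, this]
      · simp [mul_apply, hj, wm_mul]
    have := Equiv.sum_comp (Equiv.mulRight (R.sw i))
      fun w => (of fun j k => if j ∈ s then (if j = k then q else 0) else -wm w j k).det
    simp only [Equiv.coe_mulRight, e, Finset.sum_neg_distrib] at this
    omega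
  · simp
end RS

namespace Alg
variable {K : Type*} [Field K] {G : Type*} [Group G] {p : ℕ} [Fact p.Prime] [CharP K p] [IsAlgClosed K] {Γ : Type*} [Group Γ]
  (L : Alg p R.symId K G Γ) {q : ℕ} (hφ : ∀ r t, L.T.φ r t = t ^ q) (hp : p ∣ q) (h0 : 0 < q)
include hφ hp h0

theorem card_tA (w : R.W) : (Nat.card (L.tA w) : ℤ) = ((diagonal fun _ => (q : ℤ)) - wm w⁻¹).det := by
  have h1 : (1 : ℤ) < q := by exact_mod_cast (Fact.out : p.Prime).one_lt.trans_le (Nat.le_of_dvd h0 hp)
  have h2 := det_sub_pos (orderOf_pos w⁻¹) (by rw [← wm_pow, pow_orderOf_eq_one, wm_one]) h1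
  rw [← abs_of_pos h2, ← Int.natCast_natAbs, ← card_ker_mat (K := K)]
  · refine congrArg _ (Nat.card_congr (Equiv.subtypeEquivRight fun c => ?_))
    rw [L.mem_tA' hφ]
    have : R.wc w (c ^ q) = c ↔ c ^ q = R.wc w⁻¹ c :=
      ⟨fun e => by conv_rhs => rw [← e, ← L.wc_mul, inv_mul_cancel, wc_one], fun e => by rw [e, ← L.wc_mul, mul_inv_cancel, wc_one]⟩
    rw [this, funext_iff]
    refine forall_congr' fun j => ?_
    simp only [Matrix.sub_apply, _root_.zpow_sub, Finset.prod_mul_distrib]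
    simp [wc, wm, diagonal_apply, mul_inv_eq_one, apply_ite (c _ ^ · : ℤ → Kˣ)]
  · have h3 := congrArg det (wm_mul w⁻¹ w)
    have h4 : (Int.castRingHom K).mapMatrix ((diagonal fun _ => (q : ℤ)) - wm w⁻¹) =
        -(Int.castRingHom K).mapMatrix (wm w⁻¹) := by
      ext i j; simp [diagonal_apply, (CharP.cast_eq_zero_iff K p q).2 hp]
    intro e
    rw [← eq_intCast (Int.castRingHom K), RingHom.map_det, h4, det_neg, ← RingHom.map_det, mul_eq_zero, pow_eq_zero_iff'] at e
    rw [inv_mul_cancel, wm_one, det_one, det_mul] at h3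
    have := congrArg (Int.castRingHom K) h3
    rw [map_mul, e.resolve_left (by simp)] at this
    simp at this

theorem SC.card_ss (h : L.SC) :
    Nat.card {c : ConjClasses Γ // ∃ g, ConjClasses.mk g = c ∧ (orderOf g).Coprime p} = q ^ D.rank := by
  let X := fun w => (L.exists_tor w).some
  have h1 := card_pairs (C := {c : ConjClasses Γ // ∃ g, ConjClasses.mk g = c ∧ (orderOf g).Coprime p}) (fun w => R.wc w) wc_one
    L.wc_mul (· ^ q) (fun w c => (map_pow _ _ _).symm) (fun x => ⟨_, (X x.1.1).f ⟨x.1.2, (L.mem_tA' hφ).2 x.2⟩, rfl,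
      by rw [h.orderOf_f]; exact (L.fin _).2⟩) (by
        rintro ⟨_, g, rfl, hg⟩
        obtain ⟨w, Y, c, rfl⟩ := h.exists_f hg
        exact ⟨⟨(w, c.1), (L.mem_tA' hφ).1 c.2⟩, Subtype.ext (ConjClasses.mk_eq_mk_iff_isConj.2 ((h.isConj_f _ _).2 ⟨1, wc_one _⟩))⟩)
    fun x y => by rw [Subtype.ext_iff, ConjClasses.mk_eq_mk_iff_isConj, h.isConj_f]
  have h2 : ∀ w, Finite (L.tA w) := fun w => Nat.finite_of_card_ne_zero fun e => by
    have h1 : (1 : ℤ) < q := by exact_mod_cast (Fact.out : p.Prime).one_lt.trans_le (Nat.le_of_dvd h0 hp)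
    have h2 := det_sub_pos (orderOf_pos w⁻¹) (by rw [← wm_pow, pow_orderOf_eq_one, wm_one]) h1
    rw [← L.card_tA hφ hp h0, e] at h2
    exact absurd h2 (by simp)
  rw [Nat.card_congr (show _ ≃ Σ w, L.tA w from (Equiv.subtypeEquivRight fun x => (L.mem_tA' hφ).symm).trans
    (Equiv.subtypeProdEquivSigmaSubtype fun w c => c ∈ L.tA w)), Nat.card_sigma] at h1
  have h3 := sum_det (R := R) q
  rw [← Equiv.sum_comp (Equiv.inv _)] at h3
  simp only [Equiv.inv_apply, ← L.card_tA hφ hp h0] at h3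
  refine Nat.eq_of_mul_eq_mul_right (Nat.card_pos (α := R.W)) ?_
  rw [← h1, mul_comm]
  exact_mod_cast h3
end Alg

theorem algSt_SC {F : Type*} [Field F] [Fintype F] {p : ℕ} [Fact p.Prime] [CharP F p] (hR : R.Good)
    (inj : Function.Injective (R.st (AlgebraicClosure F) hR).hp) {e : ℕ} (he : Fintype.card F = p ^ e)
    (hk : Nat.card (R.tau F).ker = 1) : (algSt (AlgebraicClosure F) hR inj he).SC := fun a ha h => by
  set L := algSt (AlgebraicClosure F) hR inj he
  obtain ⟨c, rfl⟩ := exists_hp L.h3 (L.ker_H h)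
  rw [L.σ_apply, L.T.σ_hp L.h3] at ha
  rw [← card_fx_ker R (algebraMap F _) (a := L.T.ac) fun c => (Tw.ac_eq_iff _).trans (forall_congr' fun i =>
    eq_comm.trans (range_fix p _ he _)), Subgroup.card_eq_one, Subgroup.eq_bot_iff_forall] at hk
  rw [hk c ⟨L.inj ha, L.π_hp_eq_one.1 h⟩]
  exact map_one (hpHom L.h3)

theorem RS.card_ss {F : Type*} [Field F] [Fintype F] (p : ℕ) [Fact p.Prime] [CharP F p] (hR : R.Good)
    (inj : Function.Injective (R.st (AlgebraicClosure F) hR).hp) (hk : Nat.card (R.tau F).ker = 1) :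
    Nat.card {c : ConjClasses (D.group F) // ∃ g, ConjClasses.mk g = c ∧ (orderOf g).Coprime p} = Fintype.card F ^ D.rank := by
  obtain ⟨e, -, he⟩ := FiniteField.card F p
  exact (algSt_SC hR inj he hk).card_ss _ (fun _ _ => he ▸ rfl) (he ▸ dvd_pow_self p e.2.ne') Fintype.card_pos

end Cfsg.Agent.H5
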