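import Cfsg.Agent.H5.Sz9
import Cfsg.Agent.L.Quat

set_option autoImplicit false

namespace Cfsg.Agent.H5.Suz
open MulAction H7 Polynomial

section mat
open Matrix
variable {F : Type*} [Field F] [CharP F 2] {θ : F →+* F}

variable (θ) in
/-- the characteristic polynomial in terms of the trace -/
noncomputable def trP (a : F) : F[X] := X ^ 4 + (C a * X ^ 3 + C (θ a) * X ^ 2 + C a * X + 1)

omit [CharP F 2] in
theorem trP_monic (a : F) : (trP θ a).Monic ∧ (trP θ a).natDegree = 4 := by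
  unfold trP
  exact ⟨by monicity!, by compute_degree!⟩

theorem IsSz.aeval_trP {M : Matrix (Fin 4) (Fin 4) F} (h : IsSz θ M) : aeval M (trP θ M.trace) = 0 := by
  have h1 := h.mul_eq_one
  have h1' := mul_eq_one_comm.1 h1
  set M' := suzukiForm F * Mᵀ * suzukiForm F with hM'
  have h2 : (M + M') * (M + M') + M.trace • (M + M') + θ M.trace • (1 : Matrix (Fin 4) (Fin 4) F) = 0 := by
    have e : θ M.trace = (M 0 0 + M 3 3) * (M 1 1 + M 2 2) + (M 0 1 + M 2 3) * (M 1 0 + M 3 2) + (M 0 2 + M 1 3) * (M 2 0 + M 3 1) := by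
      have c := h.c 0 3
      have r := h.r 0 3
      simp only [trace, Fin.sum_univ_four, diag_apply, map_add, h.s]
      simp [Lie.pairOf, suzukiForm] at c r ⊢
      grind
    rw [e]
    ext i j
    fin_cases i <;> fin_cases j <;> simp [hM', suzukiForm, Matrix.mul_apply, Fin.sum_univ_four, trace, vecMul, dotProduct] <;> grind
  have h3 : (1 : Matrix (Fin 4) (Fin 4) F) + 1 = 0 := by ext i j; exact CharTwo.add_self_eq_zero _
  have h4 := congrArg (M * M * ·) h2
  simp only [mul_add, add_mul, h1, h1', mul_smul_comm, mul_assoc, mul_one, mul_zero, ← mul_assoc M M' M'] at h4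
  simp only [trP, map_add, map_mul, map_pow, aeval_X, aeval_C, map_one, Algebra.algebraMap_eq_smul_one, smul_mul_assoc, one_mul,
    pow_succ, pow_zero, mul_assoc]
  rw [← h4, one_mul, h1', smul_add]
  have h5 := congrArg (M * M * ·) h3
  simp only [mul_add, mul_one, mul_zero] at h5
  linear_combination (norm := noncomm_ring) -h5

theorem tr_ut (b : F) : (uM θ 0 b * suzukiForm F).trace = θ b := by
  simp [uM, suzukiForm, trace, Fin.sum_univ_four]

theorem tr_utut (hθ : ∀ x, θ (θ x) = x ^ 2) (b x y : F) :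
    (uM θ 0 b * (uM θ x y * suzukiForm F * uM θ 0 1 * suzukiForm F * uM θ x (y + x * θ x))).trace = θ b := by
  simp [uM, suzukiForm, trace, Fin.sum_univ_four, hθ]
  grind

theorem tr_tut (hθ : ∀ x, θ (θ x) = x ^ 2) (x y : F) :
    (suzukiForm F * (uM θ x y * suzukiForm F * uM θ 0 1 * suzukiForm F * uM θ x (y + x * θ x))).trace =
      (x * y + θ x * x ^ 2 + θ y + x + y + 1) ^ 2 := by
  simp [uM, suzukiForm, trace, Fin.sum_univ_four, hθ]
  grind

theorem tu_four : (suzukiForm F * uM θ 1 0) ^ 4 = 1 := by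
  have h : (suzukiForm F * uM θ 1 0) ^ 2 = !![1, 1, 1, 1; 1, 0, 0, 1; 0, 1, 0, 1; 1, 0, 1, 1] := by
    ext i j; fin_cases i <;> fin_cases j <;> simp [pow_two, uM, suzukiForm, CharTwo.add_self_eq_zero]
  refine (pow_mul _ 2 2).trans ?_
  rw [h]
  ext i j; fin_cases i <;> fin_cases j <;> simp [pow_two, CharTwo.add_self_eq_zero]

end mat

variable (G X : Type*) in
/-- binary actions -/
def Bin [Group G] [MulAction G X] : Prop := ∀ (n : ℕ) (I J : Fin n → X), 2 ≤ n →
  (∀ i j : Fin n, i ≠ j → ∃ g : G, g • I i = J i ∧ g • I j = J j) → ∃ g : G, ∀ i, g • I i = J i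

section bin
variable {G X : Type*} [Group G] [MulAction G X]

theorem Bin.set [Finite X] (h : Bin G X) {S : Set X} {τ : X → X} (a : S)
    (hS : ∀ a ∈ S, ∀ b ∈ S, ∃ g : G, g • a = τ a ∧ g • b = τ b) : ∃ g : G, ∀ a ∈ S, g • a = τ a := by
  obtain ⟨n, ⟨e⟩⟩ := Finite.exists_equiv_fin S
  have : Nonempty S := ⟨a⟩
  have hs := Function.invFun_surjective ((Fin.castAdd_injective n 2).comp e.injective)
  obtain ⟨g, hg⟩ := h (n + 2) (fun i => _) (fun i => τ _) (by omega) fun i j _ =>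
    hS _ (Function.invFun (Fin.castAdd 2 ∘ e) i).2 _ (Function.invFun (Fin.castAdd 2 ∘ e) j).2
  exact ⟨g, fun a ha => by obtain ⟨i, e⟩ := hs ⟨a, ha⟩; simpa [e] using hg i⟩

theorem Bin.three (h : Bin G X) {α β γ : X} {y w : G} (hx : (y * w) • α = α) (hy : y • β = β) (hw : w • γ = γ) :
    ∃ z : G, z • α = α ∧ z • β = β ∧ ((y * w)⁻¹ * z) • γ = γ := by
  have a : ∃ g : G, g • α = α ∧ g • γ = y • γ := ⟨_, hx, by rw [mul_smul, hw]⟩
  have b : ∃ g : G, g • β = β ∧ g • γ = y • γ := ⟨y, hy, rfl⟩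
  obtain ⟨z, hz⟩ := h 3 ![α, β, γ] ![α, β, y • γ] (by omega) fun i j hij => by
    fin_cases i <;> fin_cases j
    exacts [(hij rfl).elim, ⟨1, one_smul _ _, one_smul _ _⟩, a, ⟨1, one_smul _ _, one_smul _ _⟩, (hij rfl).elim, b,
      a.imp fun _ => And.symm, b.imp fun _ => And.symm, (hij rfl).elim]
  exact ⟨z, hz 0, hz 1, by rw [mul_smul, inv_smul_eq_iff, mul_smul, hw]; exact hz 2⟩

theorem ncard_fix {x y : G} (h : IsConj x y) : (fixedBy X x).ncard = (fixedBy X y).ncard := by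
  obtain ⟨g, rfl⟩ := isConj_iff.1 h
  rw [← smul_fixedBy, Set.ncard_smul_set]

theorem conj_fix {x g : G} {α : X} (h : x • α = α) : (g * x * g⁻¹) • g • α = g • α := by simp [mul_smul, h]

end bin

namespace SzG
variable {F : Type*} [Field F] {θ : F →+* F} {G Ω : Type*} [Group G] [MulAction G Ω] (Z : SzG θ G Ω) [CharP F 2]
  [Finite F] [Finite G] [Finite Ω] {X : Type*} [MulAction G X]
include Z

theorem q_gt : 4 < Nat.card F := lt_of_le_of_ne Z.q_ge fun e => Z.not_three (by rw [Z.cardG, ← e]; decide)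

theorem cent_comm_odd {z a b : G} (h1 : z ≠ 1) (h : Odd (orderOf z)) (ha : a * z = z * a) (hb : b * z = z * b) : a * b = b * a := by
  rcases Z.tri z with ⟨c, hc⟩ | ⟨c, d, hcd, hc⟩ | hf
  · exact (h1 (eq_one_of_odd (N := Subgroup.zpowers z) (by simpa) (Subgroup.mem_zpowers z) (n := 2) hc.2)).elim
  · exact Z.St_comm hcd (Z.cent_St hcd hc h1 ha) (Z.cent_St hcd hc h1 hb)
  · exact Z.cent_comm hf (Subgroup.mem_centralizer_singleton_iff.2 ha) (Subgroup.mem_centralizer_singleton_iff.2 hb)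

theorem comm_of_odd {H : Subgroup G} (h : Odd (Nat.card H)) {x y : G} (hx : x ∈ H) (hy : y ∈ H) : x * y = y * x := by
  have : IsZGroup H := ⟨fun p hp P => by
    have := Fact.mk hp
    by_cases h2 : p = 2
    · subst h2
      exact @isCyclic_of_subsingleton _ _ ⟨fun a b => by
        have key : ∀ a : P, a = 1 := fun a => (P.2 a).elim fun n e =>
          Subtype.ext (Subtype.ext (eq_one_of_odd h a.1.2 (n := n) (congrArg (·.1.1) e)))
        rw [key a, key b]⟩
    · have := Z.cyclic_of_odd h2 (P.2.map H.subtype)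
      exact isCyclic_of_surjective _ (P.1.equivMapOfInjective _ H.subtype_injective).symm.surjective⟩
  by_cases h0 : H = ⊥
  · simp_all
  obtain ⟨B, h1, h2, h3, h4⟩ := exists_abelian h0
  obtain ⟨⟨b, hb⟩, b1⟩ := Subgroup.ne_bot_iff_exists_ne_one.1 h2
  have b1 : b ≠ 1 := fun e => b1 (Subtype.ext e)
  have key : ∀ A : Subgroup G, SC A → b ∈ A → ∀ k, Nat.card (Subgroup.normalizer (A : Set G)) = 2 ^ k * Nat.card A →
      ∀ g ∈ H, g * b = b * g := fun A hs hA k hk g hg => by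
    have h5 := pow_mem_of_norm hk ((sc_ti hs hA b1 g).1 (hs b hA b1 ▸ Subgroup.mem_centralizer_singleton_iff.2 (h3 _ (h4 g hg b hb) b hb)))
    obtain ⟨m, e⟩ := exists_pow_eq_self_of_coprime ((Nat.coprime_two_left.2 (h.of_dvd_nat (H.orderOf_dvd_natCard hg))).pow_left k)
    exact Subgroup.mem_centralizer_singleton_iff.1 (hs b hA b1 ▸ e ▸ pow_mem h5 m)
  suffices ∀ g ∈ H, g * b = b * g from Z.cent_comm_odd b1 (h.of_dvd_nat (H.orderOf_dvd_natCard (h1 hb))) (this x hx) (this y hy)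
  rcases Z.tri b with ⟨c, hc⟩ | ⟨c, d, hcd, hc⟩ | hf
  · exact (b1 (eq_one_of_odd h (h1 hb) (n := 2) hc.2)).elim
  · exact key _ (Z.sc_St hcd) hc 1 (by rw [Z.norm_St hcd, Z.card_pair hcd, Z.card_St hcd, pow_one])
  · exact key _ (Tor.sc Z ⟨b, hf, rfl⟩) (Subgroup.mem_centralizer_singleton_iff.2 rfl) 2 (Tor.norm Z ⟨b, hf, rfl⟩)

theorem no_triple (hb : Bin G X) (ho : ∀ β : X, Odd (Nat.card (stabilizer G β))) {α β γ : X} {y w : G} (hx : (y * w) • α = α)
    (hy : y • β = β) (hw : w • γ = γ) : y * w = w * y := by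
  obtain ⟨z, h1, h2, h3⟩ := hb.three hx hy hw
  by_cases z1 : z = 1
  · have := Z.comm_of_odd (ho γ) (inv_mem h3) hw
    simpa [z1, ← mul_assoc] using this
  have := Z.cent_comm_odd z1 ((ho α).of_dvd_nat (Subgroup.orderOf_dvd_natCard _ h1)) (Z.comm_of_odd (ho α) hx h1)
    (Z.comm_of_odd (ho β) hy h2)
  simpa [mul_assoc] using this.symm

theorem ncard_root {y : G} {p : ℕ} (hp : p.Prime) (hy : orderOf y = p) (h : Fpf Ω y) :
    {z | z ∈ Subgroup.centralizer {y} ∧ (Z.ρ z).trace = (Z.ρ y).trace}.ncard ≤ 4 ∧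
    ∀ g, (Z.ρ g).trace = (Z.ρ y).trace → g ^ p = 1 := by
  have hd := hy ▸ (Z.fpf_iff (Z.fpf_ne_one h)).1 h
  have e : Z.ρ y ^ p = 1 := by rw [← map_pow, ← hy, pow_orderOf_eq_one, map_one]
  obtain ⟨hi, h4⟩ := irr_of_prime hp hd (fun e => odd_qq.not_two_dvd_nat (e ▸ hd)) e
    (fun e => Z.fpf_ne_one h (Z.inj (e.trans (map_one _).symm)))
  have hP := trP_monic (θ := θ) (Z.ρ y).trace
  refine ⟨?_, fun g hg => Z.inj ?_⟩
  · have := Fact.mk hi
    obtain ⟨φ, hφ⟩ := exists_field (M := Z.ρ y) (by simpa using h4)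
    choose f hf using fun c : Subgroup.centralizer {y} => hφ (Z.ρ c) (by
      rw [Commute, SemiconjBy, ← map_mul, ← map_mul, Subgroup.mem_centralizer_singleton_iff.1 c.2])
    classical
    refine le_trans (Set.ncard_le_ncard_of_injOn (fun z => if h : z ∈ Subgroup.centralizer {y} then f ⟨z, h⟩ else 0) ?_ ?_
      (rootSet_finite _ _)) ((ncard_rootSet_le (trP θ (Z.ρ y).trace) _).trans hP.2.le)
    · rintro z ⟨h1, h2⟩
      rw [dif_pos h1, hP.1.mem_rootSet]
      refine (show Function.Injective φ from φ.injective) ?_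
      rw [← aeval_algHom_apply, hf, map_zero, ← h2, (Z.mem z).aeval_trP]
    · rintro a ⟨ha, -⟩ b ⟨hb, -⟩ e
      simp only [dif_pos ha, dif_pos hb] at e
      exact Z.inj ((hf ⟨a, ha⟩).symm.trans ((congrArg φ e).trans (hf ⟨b, hb⟩)))
  obtain ⟨c, hc⟩ : minpoly F (Z.ρ y) ∣ Polynomial.X ^ p - 1 := minpoly.dvd _ _ (by simp [e])
  rw [← eq_of_monic_of_dvd_of_natDegree_le (minpoly.monic (Matrix.isIntegral _)) hP.1 (minpoly.dvd _ _ (Z.mem y).aeval_trP)
    (hP.2.trans h4.symm).le, ← hg] at hc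
  simpa [(Z.mem g).aeval_trP, sub_eq_zero] using congrArg (aeval (Z.ρ g)) hc

omit [Finite G] [Finite Ω] in
theorem exists_sol {s : F} (hs : s ≠ 0) : ∃ f : F → F × F, Function.Injective f ∧
    ∀ w, (f w).1 * (f w).2 + θ (f w).1 * (f w).1 ^ 2 + θ (f w).2 + (f w).1 + (f w).2 + 1 = s := by
  obtain ⟨r, rfl⟩ := Finite.surjective_of_injective θ.injective s
  have r0 := (map_ne_zero θ).1 hs
  have h0 : ∀ w, θ w + w + 1 ≠ 0 := fun w e => by
    have := congrArg θ e
    simp only [map_add, Z.sq, map_one, map_zero] at this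
    rcases (by grind : w = 0 ∨ w = 1) with rfl | rfl <;> simp [CharTwo.add_self_eq_zero] at e
  choose v hv using fun w => Finite.surjective_of_injective (f := fun x => x * θ x) (fun _ _ => Z.nrm_inj) ((θ w + w + 1) / r)
  have v0 : ∀ w, v w ≠ 0 := fun w e => h0 w (by simpa [e, r0, eq_comm (a := (0 : F))] using hv w)
  refine ⟨fun w => ((v w)⁻¹ + 1, (v w * θ (v w))⁻¹ * (w + θ (v w) + (r + 1) * (v w * θ (v w)))), fun a b e => ?_, fun w => ?_⟩
  · simp only [Prod.mk.injEq, add_left_inj, inv_inj] at e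
    simpa [e.1, v0] using e.2
  have h1 := hv w
  have h2 := v0 w
  have h3 := (map_ne_zero θ).2 h2
  simp only [map_add, map_mul, map_inv₀, map_one, Z.sq] at h1 ⊢
  field_simp at h1 ⊢
  grind

end SzG

end Cfsg.Agent.H5.Suz
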