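import Cfsg.Agent.H5.Sz11

set_option autoImplicit false

namespace Cfsg.Agent.H5.Suz
open MulAction H7

namespace SzG
variable {F : Type*} [Field F] {θ : F →+* F} {G Ω : Type*} [Group G] [MulAction G Ω] (Z : SzG θ G Ω) [CharP F 2]
  [Finite F] [Finite G] [Finite Ω] {X : Type*} [MulAction G X]
include Z

theorem bin_odd [IsPretransitive G X] (hb : Bin G X) {α : X} (h : Odd (Nat.card (stabilizer G α))) : stabilizer G α = ⊥ := by
  have ho : ∀ β : X, Odd (Nat.card (stabilizer G β)) := fun β => by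
    obtain ⟨g, rfl⟩ := exists_smul_eq G α β
    rwa [stabilizer_smul_eq_stabilizer_map_conj, card_conj]
  by_contra h0
  obtain ⟨p, hp, hd⟩ := Nat.exists_prime_and_dvd (Subgroup.card_eq_one.not.2 h0)
  obtain ⟨x, hx, hxp, x1⟩ := exists_ord hp hd
  rcases Z.tri x with ⟨c, hc⟩ | ⟨c, d, hcd, hc⟩ | hf
  · exact x1 (eq_one_of_odd h hx (n := 2) hc.2)
  · obtain ⟨Z, rfl, rfl⟩ := Z.exists_pair hcd
    obtain ⟨v, -, e⟩ := (Z.ker _).exists_comm Z.z3 Z.inf_ne_o.symm (mul_mem hc hc) (fun e => x1 (eq_one_of_odd h hx (n := 1)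
      ((pow_two x).trans e))) (mul_mem ((Z.ker _).norm x hc.1 _ (Z.u_mem 0 1)) ((Z.ker _).norm _ (mul_mem hc hc).1 _ (inv_mem (Z.u_mem 0 1))))
    have := Z.no_triple hb ho (α := v • α) (by
      rw [show x * (Z.u 0 1 * x * (Z.u 0 1)⁻¹) = v * (x * x) * v⁻¹ by rw [← mul_left_inj (x * x)⁻¹, ← e]; group]
      exact conj_fix (mul_mem hx hx)) hx (conj_fix (g := Z.u 0 1) hx)
    refine x1 (Z.z3.three x Z.inf Z.o ((Z.u 0 1)⁻¹ • Z.o) Z.inf_ne_o (fun e => ?_) (smul_ne_of_fix (inv_mem (Z.u_mem 0 1)).1 Z.inf_ne_o.symm).symm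
      hc.1 hc.2 ?_)
    · simpa [u_eq_one] using (Z.ker _).eq_one (inv_mem (Z.u_mem 0 1)) Z.inf_ne_o.symm e.symm
    · simpa [mul_smul, eq_inv_smul_iff] using (Z.cent_St Z.inf_ne_o hc x1 this.symm).2
  have hT : Tor Ω _ := ⟨x, hf, rfl⟩
  have hxT := Subgroup.mem_centralizer_singleton_iff.2 (rfl : x * x = x * x)
  obtain ⟨z, hz, h4⟩ := Tor.exists_four Z hT
  have i2 : z ^ 2 * z ^ 2 = 1 := by rw [← pow_add, ← pow_orderOf_eq_one z, h4]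
  have i1 : z ^ 2 ≠ 1 := pow_ne_one_of_lt_orderOf two_ne_zero (by omega)
  obtain ⟨a, ha⟩ := Z.invol_mem_K i2
  have h5 := Z.inverts (Tor.odd Z hT) ha i2 i1 (pow_mem hz 2) hxT
  generalize z ^ 2 = i at *
  have h6 : (i * x) • a ≠ a := fun e => hf a (by rwa [mul_smul, smul_eq_iff_eq_inv_smul, (inv_mem ha).1] at e)
  obtain ⟨Z, rfl, e⟩ := Z.exists_pair h6.symm
  obtain ⟨l, hl⟩ := Z.swap_eq e.symm (by
    rw [e, ← mul_smul, show i * x * (i * x) = i * x * i⁻¹ * x by rw [inv_eq_of_mul_eq_one_right i2, mul_assoc (i * x)], h5,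
      inv_mul_cancel, one_smul])
  obtain ⟨l, rfl⟩ := Finite.surjective_of_injective (f := fun x : Fˣ => x * x)
    (fun _ _ e => Units.ext (sq_inj (by simpa [pow_two] using congrArg Units.val e))) l
  have e1 : (Z.conj (Z.h l)⁻¹).t = i * x := by rw [conj_t, ← t_h, hl, map_mul, inv_inv, mul_assoc]
  have e2 : (Z.conj (Z.h l)⁻¹).inf = Z.inf := inv_smul_eq_iff.2 (Z.h_inf l).symm
  rw [← e2] at ha
  generalize Z.conj (Z.h l)⁻¹ = Z at ha e1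
  obtain ⟨b, rfl⟩ := Z.mem_Zc_inf.1 (Z.mem_Zc.2 ⟨ha, i2⟩)
  obtain rfl : Z.u 0 b * Z.t = x := by rw [e1, ← mul_assoc, i2, one_mul]
  have t0 : (Z.ρ (Z.u 0 b * Z.t)).trace = θ b := by rw [map_mul, ρ_u, ρ_t, tr_ut]
  have b0 : θ b ≠ 0 := by simpa [u_eq_one] using i1
  obtain ⟨h7, h8⟩ := Z.ncard_root hp hxp hf
  have := Fact.mk hp
  have key : ∀ g, (Z.ρ g).trace = θ b → ∃ β : X, g • β = β := fun g hg => by
    have g1 : g ≠ 1 := fun e => b0 (by rw [← hg, e]; simp; grind)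
    have h9 := orderOf_eq_prime (h8 g (hg.trans t0.symm)) g1
    have hU : Tor Ω _ := ⟨g, (Z.fpf_iff g1).2 (h9 ▸ hxp ▸ (Z.fpf_iff x1).1 hf), rfl⟩
    have hgU := Subgroup.mem_centralizer_singleton_iff.2 (rfl : g * g = g * g)
    obtain ⟨y, y1, y2⟩ := Set.not_disjoint_iff.1 fun hd => hp.ne_one (Nat.eq_one_of_dvd_coprimes (Tor.coprime Z hU hT hd)
      (h9 ▸ Subgroup.orderOf_dvd_natCard _ hgU) (hxp ▸ Subgroup.orderOf_dvd_natCard _ hxT))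
    obtain ⟨v, e⟩ := Tor.conj_of_cj Z hU hT y1 y2
    have := (Tor.cyc Z hT).1
    have := L.mem_zpowers_of_orderOf_dvd (e ▸ H2.conj_mem_map_conj v hgU) hxT (by rw [H2.orderOf_conj', h9, hxp])
    exact ⟨v⁻¹ • α, by simpa [mul_smul, eq_inv_smul_iff] using (Subgroup.zpowers_le.2 hx this : _ • α = α)⟩
  obtain ⟨s, hs⟩ := Finite.surjective_of_injective (f := fun x : F => x ^ 2) (fun _ _ => sq_inj) (θ b)
  obtain ⟨f, hf1, hf2⟩ := Z.exists_sol (s := s) (by rintro rfl; exact b0 (by simpa using hs.symm))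
  let k : F → G := fun w => Z.u (f w).1 (f w).2 * Z.t * Z.u 0 1 * (Z.u (f w).1 (f w).2 * Z.t)⁻¹
  have hk : ∀ w, Z.ρ (k w) = _ := fun w => by
    simp only [k]
    rw [mul_inv_rev, t_inv, u_inv, ← mul_assoc, map_mul, map_mul, map_mul, map_mul, ρ_u, ρ_u, ρ_u, ρ_t]
  have t1 : ∀ w, (Z.ρ (Z.t * k w)).trace = θ b := fun w => by rw [map_mul, hk, ρ_t, tr_tut Z.sq, hf2, ← hs]
  have t2 : ∀ w, Z.t * k w ∈ Subgroup.centralizer {Z.u 0 b * Z.t} := fun w => by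
    obtain ⟨γ, hγ⟩ := key _ (t1 w)
    obtain ⟨δ, hδ⟩ := key (Z.u 0 b * k w) (by rw [map_mul, hk, ρ_u, tr_utut Z.sq])
    exact Subgroup.mem_centralizer_singleton_iff.2 (Z.no_triple hb ho (α := δ) (by
      rwa [mul_assoc, ← mul_assoc Z.t, t_mul_t, one_mul]) hx hγ).symm
  refine (h7.trans_lt Z.q_gt).not_ge (Nat.card_le_card_of_injective (fun w => (⟨Z.t * k w, t2 w, (t1 w).trans t0.symm⟩ :
    {z | z ∈ Subgroup.centralizer {Z.u 0 b * Z.t} ∧ (Z.ρ z).trace = (Z.ρ (Z.u 0 b * Z.t)).trace})) fun w w' e => hf1 ?_)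
  have e' : k w = k w' := mul_left_cancel (Subtype.mk.inj e)
  have k1 : ∀ w, k w ∈ Z.K ((Z.u (f w).1 (f w).2 * Z.t) • Z.inf) := fun w => Z.conj_mem_K.2 (Z.u_mem 0 1)
  have := Z.fix_unique (k1 w') (fun e => by simpa [u_eq_one] using conj_eq_one_iff.1 e) (e' ▸ (k1 w).1)
  simpa [mul_smul, t_inf, u_o] using this

theorem bin_invol [Finite X] (hb : Bin G X) {α : X} {a : Ω} {i : G} (hi : i ∈ Z.Zc a) (i1 : i ≠ 1) (h : i • α = α) :
    Z.Zc a ≤ stabilizer G α := fun j hj => by_contra fun hj' => by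
  classical
  have j1 : j ≠ 1 := fun e => hj' (e ▸ one_mem _)
  have ji : j * i ≠ 1 := fun e => hj' (eq_inv_of_mul_eq_one_left e ▸ inv_mem h)
  have hc : ∀ s : G, s * s = 1 → s ≠ 1 → (fixedBy X s).ncard = (fixedBy X j).ncard := fun s h2 h1 =>
    ncard_fix ((Z.isConj_invol h2 h1).trans (Z.isConj_invol (Z.mem_Zc.1 hj).2 j1).symm)
  obtain ⟨g, hg⟩ := hb.set (S := fixedBy X i ∪ (fixedBy X j ∪ fixedBy X (j * i))) (τ := fun β => if i • β = β then j • β else β)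
    ⟨α, .inl h⟩ (by
      have k1 : ∀ β ∈ fixedBy X i ∪ fixedBy X j, j • β = if i • β = β then j • β else β := fun β h => by
        split_ifs with h'
        exacts [rfl, h.resolve_left h']
      have k2 : ∀ β ∈ fixedBy X i ∪ fixedBy X (j * i), (j * i) • β = if i • β = β then j • β else β := fun β h => by
        split_ifs with h'
        exacts [by rw [mul_smul, h'], h.resolve_left h']
      have k3 : ∀ β ∈ fixedBy X j ∪ fixedBy X (j * i), (1 : G) • β = if i • β = β then j • β else β := fun β h => by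
        split_ifs with h'
        exacts [(one_smul _ _).trans (h.elim Eq.symm fun h => by rw [← h', ← mul_smul, h, h']), one_smul _ _]
      rintro β (h1 | h1 | h1) γ (h2 | h2 | h2)
      exacts [⟨_, k1 _ (.inl h1), k1 _ (.inl h2)⟩, ⟨_, k1 _ (.inl h1), k1 _ (.inr h2)⟩, ⟨_, k2 _ (.inl h1), k2 _ (.inr h2)⟩,
        ⟨_, k1 _ (.inr h1), k1 _ (.inl h2)⟩, ⟨_, k1 _ (.inr h1), k1 _ (.inr h2)⟩, ⟨_, k3 _ (.inl h1), k3 _ (.inr h2)⟩,
        ⟨_, k2 _ (.inr h1), k2 _ (.inl h2)⟩, ⟨_, k3 _ (.inr h1), k3 _ (.inl h2)⟩, ⟨_, k2 _ (.inr h1), k2 _ (.inr h2)⟩])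
  have h1 : ∀ β ∈ fixedBy X j ∪ fixedBy X (j * i), g • β = β := fun β h => (hg β (.inr h)).trans (by
    split_ifs with h'
    exacts [h.elim id fun h => by rw [← h', ← mul_smul, h, h'], rfl])
  have h2 : g • α = j • α := (hg α (.inl h)).trans (if_pos h)
  have h3 : i • j • α = j • α := by rw [← mul_smul, Z.Zc_comm hj (Z.mem_Zc.1 hi).1, mul_smul, h]
  have h4 : g • g • α = α := by rw [h2, hg _ (.inl h3), if_pos h3, ← mul_smul, (Z.mem_Zc.1 hj).2, one_smul]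
  obtain ⟨k, hk, k2, k1⟩ := exists_invol (N := Subgroup.zpowers g) fun ho => by
    obtain ⟨_, ⟨n, rfl⟩, e⟩ := exists_sq ho (Subgroup.mem_zpowers g)
    refine hj' (h2.symm.trans ?_)
    rw [← e, ← pow_two, ← zpow_natCast, ← zpow_mul, mul_comm, zpow_mul]
    exact zpow_mem (show g ^ ((2 : ℕ) : ℤ) ∈ stabilizer G α by simpa [pow_two, zpow_two, mul_smul] using h4) n
  have h5 : fixedBy X j ∪ fixedBy X (j * i) ⊆ fixedBy X k := fun β hβ => Subgroup.zpowers_le.2 (show g ∈ stabilizer G β from h1 β hβ) hk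
  have h6 := Set.eq_of_subset_of_ncard_le (Set.subset_union_left.trans h5) (hc k k2 k1).le
  have h7 := Set.eq_of_subset_of_ncard_le (h6 ▸ Set.subset_union_right.trans h5) (hc _ (Z.mem_Zc.1 (mul_mem hj hi)).2 ji).ge
  have h8 := Set.eq_of_subset_of_ncard_le (show fixedBy X j ⊆ fixedBy X i from fun β hβ => smul_left_cancel j (by
    rw [← mul_smul, show (j * i) • β = β from h7.ge hβ, hβ])) (hc i (Z.mem_Zc.1 hi).2 i1).le
  exact hj' (h8.ge h)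

theorem bin_even [IsPretransitive G X] (hb : Bin G X) {α : X} (h0 : stabilizer G α ≠ ⊤) {a : Ω} (h : Z.Zc a ≤ stabilizer G α) :
    stabilizer G α = Z.Zc a := by
  have h1 : stabilizer G α ≤ stabilizer G a := fun g hg => by_contra fun ga => h0 (by
    obtain ⟨Z, rfl, e⟩ := Z.exists_pair (Ne.symm ga)
    obtain ⟨c, hc⟩ := IsCyclic.exists_generator (α := Fˣ)
    obtain ⟨E, h1, h2⟩ := Z.core (h (Z.mem_Zc_inf.2 ⟨1, rfl⟩)) (h (Z.mem_Zc_inf.2 ⟨c, rfl⟩)) c.ne_zero (fun e => by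
      obtain ⟨k, k0, k1⟩ := Z.two
      obtain ⟨n, e'⟩ := hc (Units.mk0 k k0)
      exact k1 (by simpa [e] using (congrArg Units.val e').symm))
      (e ▸ Om.smul Z (Z.om_inf.2 ⟨1, one_ne_zero, h (Z.mem_Zc_inf.2 ⟨1, rfl⟩)⟩) hg)
    rw [h2, show E = ⊤ from eq_top_iff.2 fun x _ => ?_, sub_top]
    by_cases x0 : x = 0
    · exact x0 ▸ zero_mem _
    obtain ⟨n, e'⟩ := hc (Units.mk0 x x0)
    have : x = (c : F) ^ n := by simpa using (congrArg Units.val e').symm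
    exact this ▸ zpow_mem h1 n)
  have h2 : ∀ x ∈ stabilizer G α, x ∈ Z.K a → x ∈ Z.Zc a := fun x hx ha => Z.mem_Zc.2 ⟨ha, by_contra fun h2 => by
    obtain ⟨g, hg⟩ : ∃ g, g * Z.u 1 0 * g⁻¹ ∈ stabilizer G α := by
      rcases Z.isConj_four (orderOf_eq_prime_pow (p := 2) (n := 1) (fun e => h2 ((pow_two x).symm.trans e)) ha.2) with h | h <;>
        obtain ⟨g, e⟩ := isConj_iff.1 h
      exacts [⟨g, e ▸ hx⟩, ⟨g, e ▸ inv_mem hx⟩]
    have h3 : Z.u 1 0 • g⁻¹ • α = g⁻¹ • α := by simpa [mul_smul, eq_inv_smul_iff] using hg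
    have h4 : ∀ y : G, y • g⁻¹ • α = g⁻¹ • α → y • g⁻¹ • a = g⁻¹ • a := fun y hy => by
      simpa [mul_smul, eq_inv_smul_iff] using h1 (show g * y * g⁻¹ ∈ _ by simpa [mul_smul, eq_inv_smul_iff] using hy)
    rw [Z.fix_unique (Z.u_mem 1 0) (by simp [u_eq_one]) (h4 _ h3)] at h4
    generalize g⁻¹ • α = β at h3 h4
    have e : Z.t * Z.u 1 0 * Z.t⁻¹ * (Z.u 1 0 * Z.t * Z.u 1 0 * (Z.u 1 0 * Z.t)⁻¹) = Z.u 0 1 := by
      have e1 : (Z.t * Z.u 1 0) ^ 4 = 1 := Z.inj (by rw [map_pow, map_mul, ρ_t, ρ_u, tu_four, map_one])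
      have e2 : Z.u 0 1 = (Z.u 1 0)⁻¹ * (Z.u 1 0)⁻¹ := by simp [u_inv, u_mul, u_inj, CharTwo.add_self_eq_zero]
      have e3 : Z.t * Z.u 1 0 * Z.t * Z.u 1 0 * Z.t * Z.u 1 0 * Z.t = (Z.u 1 0)⁻¹ :=
        eq_inv_of_mul_eq_one_left (by rw [← e1]; simp only [pow_succ, pow_zero, mul_assoc, one_mul])
      rw [e2, mul_inv_rev, t_inv]
      nth_rewrite 2 [← e3]
      simp only [mul_assoc]
    obtain ⟨z, z1, z2, z3⟩ := hb.three (α := β) (by rw [e, show Z.u 0 1 = Z.u 1 0 * Z.u 1 0 by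
      simp [u_mul, u_inj, CharTwo.add_self_eq_zero], mul_smul, h3, h3]) (conj_fix (g := Z.t) h3) (conj_fix (g := Z.u 1 0 * Z.t) h3)
    have h5 : ∀ y g : G, y • g • β = g • β → y • g • Z.inf = g • Z.inf := fun y g hy => by
      simpa [mul_smul, inv_smul_eq_iff] using h4 (g⁻¹ * y * g) (by simpa [mul_smul, inv_smul_eq_iff] using hy)
    obtain ⟨k, rfl⟩ := Z.mem_St.1 (H7.mem_St.2 ⟨h4 z z1, Z.t_inf ▸ h5 _ _ z2⟩)
    rw [e] at z3
    simpa [mul_smul, inv_smul_eq_iff, t_inf, u_o, h_pt, u_pt] using h5 _ _ z3⟩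
  refine le_antisymm (fun g hg => h2 g hg (by_contra fun g1 => ?_)) h
  obtain ⟨b, hab, hg'⟩ := (Z.mem_K_or (h1 hg)).resolve_left g1
  obtain ⟨Z', rfl, rfl⟩ := Z.exists_pair hab
  simp only [Zc, Z.K_eq Z'] at h h2 g1
  obtain ⟨k, rfl⟩ := Z'.mem_St.1 hg'
  have th1 : ∀ {c : F} {l : Fˣ}, c ≠ 0 → c + 0 + θ l * c = 0 → l = 1 := fun {c l} c0 e =>
    Units.ext (θ.injective (by rw [Units.val_one, map_one]; grind))
  have k1 : k ≠ 1 := fun e => g1 (by rw [e, map_one]; exact one_mem _)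
  have cj : ∀ c d e f l, ∃ f', Z'.u c d * (Z'.u e f * Z'.h l) * (Z'.u c d)⁻¹ = Z'.u (c + e + θ l * c) f' * Z'.h l := fun c d e f l =>
    ⟨_, by rw [u_inv, ← u_mul, ← Z'.u_mul c d e f, ← Z'.h_u l c (d + c * θ c)]; group⟩
  have key1 : ∀ e f l, Z'.u e f * Z'.h l ∈ stabilizer G α → e = 0 := fun e f l hz => by_contra fun e0 => by
    obtain ⟨f', e1⟩ := cj e f 0 0 k
    have h3 := mul_mem (mul_mem (mul_mem hz hg) (inv_mem hz)) (inv_mem hg)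
    rw [show Z'.u e f * Z'.h l * Z'.h k * (Z'.u e f * Z'.h l)⁻¹ = Z'.u e f * (Z'.u 0 0 * Z'.h k) * (Z'.u e f)⁻¹ by
      rw [mul_assoc _ _ (Z'.h k), ← map_mul, mul_comm l, map_mul, u_zero]; group, e1, mul_inv_cancel_right] at h3
    obtain ⟨b, e2⟩ := Z'.mem_Zc_inf.1 (h2 _ h3 (Z'.u_mem _ _))
    exact k1 (th1 e0 (Z'.u_inj.1 e2).1)
  have key2 : ∀ v c, c ≠ 0 → v • α = α → v • Z'.u c 0 • α = Z'.u c 0 • α → v ∈ Z'.K Z'.inf := fun v c c0 h3 h4 => by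
    obtain ⟨e, f, l, rfl⟩ := Z'.fix_inf.1 (h1 h3)
    obtain rfl := key1 _ _ _ h3
    obtain ⟨f', e1⟩ := cj c (0 + c * θ c) 0 f l
    rw [← u_inv, inv_inv] at e1
    have h5 : (Z'.u c 0)⁻¹ * (Z'.u 0 f * Z'.h l) * Z'.u c 0 ∈ stabilizer G α := by simpa [mul_smul, inv_smul_eq_iff] using h4
    rw [th1 (l := l) c0 (key1 _ _ _ (e1 ▸ h5)), map_one, mul_one]
    exact Z'.u_mem _ _
  have k0 : θ k ≠ 0 := by simp
  obtain ⟨f1, e1⟩ := cj 1 0 0 0 k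
  obtain ⟨f2, e2⟩ := cj (θ k)⁻¹ 0 0 0 k
  rw [u_zero, one_mul] at e1 e2
  obtain ⟨f, e⟩ : ∃ f, Z'.u 1 0 * Z'.h k * (Z'.u 1 0)⁻¹ * (Z'.u (θ k)⁻¹ 0 * Z'.h k * (Z'.u (θ k)⁻¹ 0)⁻¹) = Z'.u 0 f * Z'.h (k * k) :=
    by
      have e3 : ∀ a b c d, ∃ f, Z'.u a b * Z'.h k * (Z'.u c d * Z'.h k) = Z'.u (a + θ k * c) f * Z'.h (k * k) := fun a b c d =>
        ⟨_, by rw [← Z'.u_mul a b, ← Z'.h_u k c d, map_mul]; group⟩
      obtain ⟨f, e3⟩ := e3 _ f1 _ f2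
      exact ⟨f, by rw [e1, e2, e3]; congr 2; field_simp; grind⟩
  have hx : Z'.u 0 f * Z'.h (k * k) ∈ stabilizer G α := mul_mem (h (Z'.mem_Zc_inf.2 ⟨f, rfl⟩)) (map_mul Z'.h k k ▸ mul_mem hg hg)
  obtain ⟨z, z1, z2, z3⟩ := hb.three (α := α) (e ▸ hx) (conj_fix (g := Z'.u 1 0) hg) (conj_fix (g := Z'.u (θ k)⁻¹ 0) hg)
  rw [e] at z3
  obtain ⟨c, d, e3⟩ := Z'.mem_K_inf.1 (mul_mem (key2 z 1 one_ne_zero z1 z2)
    (inv_mem (key2 _ _ (inv_ne_zero k0) (mul_mem (inv_mem hx) z1) z3)))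
  have := (Z'.uh_inj (a := 0) (b := f) (k := k * k) (c := c) (d := d) (l := 1) (by simpa using e3)).2
  exact k1 (Units.ext (sq_inj (by simpa [pow_two] using congrArg Units.val this)))

theorem bin_of_Zc (h : ∀ β : X, ∃ b : Ω, stabilizer G β = Z.Zc b) : Bin G X := fun n I J hn hp => by
  choose b hb using h
  let o : Fin n := ⟨0, by omega⟩
  obtain ⟨k, hk, hk'⟩ : ∃ k, o ≠ k ∧ ∀ j, b (I j) ≠ b (I o) → b (I k) ≠ b (I o) := by
    by_cases h0 : ∃ j, b (I j) ≠ b (I o)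
    · obtain ⟨j, hj⟩ := h0
      exact ⟨j, fun e => hj (e ▸ rfl), fun _ _ => hj⟩
    · exact ⟨⟨1, hn⟩, by simp [o], fun j hj => (h0 ⟨j, hj⟩).elim⟩
  have key : ∀ {g g' : G} {j}, g • I j = J j → g' • I j = J j → g'⁻¹ * g ∈ Z.Zc (b (I j)) := fun h h' =>
    hb _ ▸ show _ • _ = _ by rw [mul_smul, h, ← h', inv_smul_smul]
  obtain ⟨g, h1, h2⟩ := hp o k hk
  refine ⟨g, fun j => ?_⟩
  by_cases e : o = j
  · exact e ▸ h1
  obtain ⟨g', h3, h4⟩ := hp o j e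
  have h5 := key h1 h3
  by_cases e' : b (I j) = b (I o)
  · rw [← e', ← hb] at h5
    rw [← h4, ← inv_smul_eq_iff, ← mul_smul]; exact h5
  by_cases e2 : j = k
  · exact e2 ▸ h2
  obtain ⟨g'', h6, h7⟩ := hp j k e2
  have h8 := Z.mem_Zc.1 (key h6 h4)
  have h9 := Z.mem_Zc.1 (key h2 h7)
  by_cases z1 : g'⁻¹ * g = 1
  · rwa [← eq_of_inv_mul_eq_one z1]
  have e3 : g'⁻¹ * g = g'⁻¹ * g'' * (g''⁻¹ * g) := by group
  generalize g'⁻¹ * g'' = y, g''⁻¹ * g = w at *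
  have h10 := Z.mem_Zc.1 h5
  rw [e3] at h10 z1
  have c : y * (y * w) = y * w * y := by
    have := eq_inv_of_mul_eq_one_left h10.2
    rw [mul_inv_rev, inv_eq_of_mul_eq_one_right h8.2, inv_eq_of_mul_eq_one_right h9.2] at this
    rw [mul_assoc, ← this]
  obtain rfl : y = 1 := by_contra fun y1 => e' (Z.fix_unique (Z.cent_K h10.1 z1 c) y1 h8.1.1)
  rw [one_mul] at h10 z1
  exact (hk' j e' (Z.fix_unique h10.1 z1 h9.1.1)).elim

theorem binary_iff {H : Subgroup G} (hH : H ≠ ⊤) : Bin G (G ⧸ H) ↔ H = ⊥ ∨ ∃ a, H = Z.Zc a := by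
  have hs := stabilizer_quotient H
  refine ⟨fun hb => ?_, ?_⟩
  · by_cases ho : Odd (Nat.card H)
    · exact .inl (hs ▸ Z.bin_odd hb (hs.symm ▸ ho))
    obtain ⟨i, hi, i2, i1⟩ := exists_invol ho
    obtain ⟨a, ha⟩ := Z.invol_mem_K i2
    exact .inr ⟨a, hs ▸ Z.bin_even hb (hs.symm ▸ hH) (Z.bin_invol hb (Z.mem_Zc.2 ⟨ha, i2⟩) i1 (hs.ge hi))⟩
  have key : ∀ β : G ⧸ H, ∃ g : G, ∀ x, x ∈ stabilizer G β ↔ g⁻¹ * x * g⁻¹⁻¹ ∈ H := fun β => by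
    obtain ⟨g, rfl⟩ := exists_smul_eq G ((1 : G) : G ⧸ H) β
    exact ⟨g, fun x => Iff.trans (by simp only [mem_stabilizer_iff, mul_smul, inv_inv, inv_smul_eq_iff])
      (SetLike.ext_iff.1 hs (g⁻¹ * x * g⁻¹⁻¹))⟩
  rintro (rfl | ⟨a, ha⟩)
  · intro n I J hn hp
    obtain ⟨g, h1, -⟩ := hp ⟨0, by omega⟩ ⟨1, hn⟩ (by simp)
    refine ⟨g, fun j => ?_⟩
    by_cases e : ⟨0, by omega⟩ = j
    · exact e ▸ h1
    obtain ⟨g', h3, h4⟩ := hp _ j e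
    obtain ⟨x, hx⟩ := key (I ⟨0, by omega⟩)
    have := (hx (g'⁻¹ * g)).1 (show _ • _ = _ by rw [mul_smul, h1, ← h3, inv_smul_smul])
    rwa [← eq_of_inv_mul_eq_one (conj_eq_one_iff.1 this)]
  · refine Z.bin_of_Zc fun β => ?_
    obtain ⟨g, hg⟩ := key β
    exact ⟨g • a, Subgroup.ext fun x => by rw [hg, ha, ← Z.conj_mem_Zc (g := x) (x := g⁻¹), inv_smul_smul]⟩

end SzG

end Cfsg.Agent.H5.Suz
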